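import Mathlib

/-!
Chains of windows in a 2-group: the combinatorics behind the theorem of Sims on primitive groups
with a suborbit of length 3. `W i n` plays the part of the group generated by the `n` involutions
`y i, …, y (i+n-1)`; conjugation by `g` shifts the index down by one.
-/

set_option autoImplicit false
set_option linter.unusedSectionVars false

open scoped commutatorElement

namespace CfsgLib.Minimal.ArcChain

variable {G : Type*} [Group G]

/-- Windows of arc stabilisers along a line shifted by `g`, inside the vertex stabiliser `H`. -/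
structure Chain (G : Type*) [Group G] where
  H : Subgroup G
  g : G
  k : ℕ
  W : ℤ → ℕ → Subgroup G
  k_pos : 1 ≤ k
  card_W : ∀ i n, n ≤ k → Nat.card (W i n) = 2 ^ n
  le_left : ∀ i n, n < k → W i n ≤ W i (n + 1)
  le_right : ∀ i n, n < k → W (i + 1) n ≤ W i (n + 1)
  inf_succ : ∀ i n, n < k → W i (n + 1) ⊓ W (i + 1) (n + 1) ≤ W (i + 1) n
  shift : ∀ i n, n ≤ k → ∀ x ∈ W i n, g * x * g⁻¹ ∈ W (i - 1) n
  W0_le : W 0 k ≤ H
  W1_le : W 1 k ≤ H
  gen : H ≤ W 0 k ⊔ W 1 k
  card_H : Nat.card H = 3 * 2 ^ k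
  rigid : ∀ N : Subgroup G, N ≤ H → W (-1) k ≤ Subgroup.normalizer (N : Set G) →
    W 0 k ≤ Subgroup.normalizer (N : Set G) → W 1 k ≤ Subgroup.normalizer (N : Set G) → N = ⊥

namespace Chain

variable (c : Chain G)

theorem W_zero (i : ℤ) : c.W i 0 = ⊥ :=
  Subgroup.card_eq_one.1 (by simpa using c.card_W i 0 (Nat.zero_le _))

theorem exists_y (i : ℤ) : ∃ y, y ∈ c.W i 1 ∧ y ≠ 1 ∧ ∀ x ∈ c.W i 1, x = 1 ∨ x = y := by
  obtain ⟨y, hy, huniq⟩ :=
    (Nat.card_eq_two_iff' (1 : c.W i 1)).1 (by simpa using c.card_W i 1 c.k_pos)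
  refine ⟨(y : G), y.2, fun h => hy (Subtype.ext h), fun x hx => ?_⟩
  by_cases hx1 : x = 1
  · exact Or.inl hx1
  · exact Or.inr (congrArg Subtype.val (huniq ⟨x, hx⟩ fun h => hx1 (congrArg Subtype.val h)))

/-- The involution spanning the window `W i 1`. -/
noncomputable def y (i : ℤ) : G := Classical.choose (c.exists_y i)

theorem y_mem (i : ℤ) : c.y i ∈ c.W i 1 := (Classical.choose_spec (c.exists_y i)).1

theorem y_ne (i : ℤ) : c.y i ≠ 1 := (Classical.choose_spec (c.exists_y i)).2.1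

theorem eq_or_eq {i : ℤ} {x : G} (hx : x ∈ c.W i 1) : x = 1 ∨ x = c.y i :=
  (Classical.choose_spec (c.exists_y i)).2.2 x hx

theorem y_mul_self (i : ℤ) : c.y i * c.y i = 1 := by
  rcases c.eq_or_eq (mul_mem (c.y_mem i) (c.y_mem i)) with h | h
  · exact h
  · exact absurd (mul_eq_left.1 h) (c.y_ne i)

theorem y_inv (i : ℤ) : (c.y i)⁻¹ = c.y i := inv_eq_of_mul_eq_one_right (c.y_mul_self i)

theorem W_mono {i j : ℤ} {n l : ℕ} (hn : n ≤ c.k) (h1 : i ≤ j) (h2 : j + l ≤ i + n) :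
    c.W j l ≤ c.W i n := by
  have left : ∀ p l, l + p ≤ c.k → ∀ i, c.W i l ≤ c.W i (l + p) := by
    intro p
    induction p with
    | zero => intro l _ i; rfl
    | succ p ih =>
      intro l hl i
      exact (ih l (by omega) i).trans (c.le_left i (l + p) (by omega))
  have right : ∀ p l, l + p ≤ c.k → ∀ i : ℤ, c.W (i + p) l ≤ c.W i (l + p) := by
    intro p
    induction p with
    | zero => intro l _ i; simp
    | succ p ih =>
      intro l hl i
      have h := (ih l (by omega) (i + 1)).trans (c.le_right i (l + p) (by omega))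
      have e : i + 1 + (p : ℤ) = i + ((p + 1 : ℕ) : ℤ) := by omega
      rw [e] at h
      exact h
  obtain ⟨p, rfl⟩ : ∃ p : ℕ, j = i + p := ⟨(j - i).toNat, by omega⟩
  obtain ⟨q, rfl⟩ : ∃ q, n = l + p + q := ⟨n - l - p, by omega⟩
  exact (right p l (by omega) i).trans (left q (l + p) hn i)

theorem y_mem_W {i j : ℤ} {n : ℕ} (hn : n ≤ c.k) (h1 : i ≤ j) (h2 : j < i + n) : c.y j ∈ c.W i n :=
  c.W_mono hn h1 (by push_cast; omega) (c.y_mem j)

theorem W_le_H {i : ℤ} {n : ℕ} (h0 : 0 ≤ i) (h1 : i + n ≤ c.k + 1) (hn : n ≤ c.k) : c.W i n ≤ c.H := by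
  by_cases hi : i = 0
  · subst hi
    exact (c.W_mono le_rfl le_rfl (by omega)).trans c.W0_le
  · exact (c.W_mono le_rfl (by omega) (by omega)).trans c.W1_le

theorem not_mem_last {i : ℤ} {n : ℕ} (hn : n < c.k) : c.y (i + n) ∉ c.W i n := by
  induction n generalizing i with
  | zero => rw [c.W_zero]; simpa using c.y_ne i
  | succ n ih =>
    intro h
    have h2 : c.y (i + (n + 1 : ℕ)) ∈ c.W (i + 1) (n + 1) := c.y_mem_W (by omega) (by omega) (by omega)
    have h3 := c.inf_succ i n (by omega) ⟨h, h2⟩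
    rw [show i + ((n + 1 : ℕ) : ℤ) = i + 1 + (n : ℤ) by omega] at h3
    exact ih (by omega) h3

theorem not_mem_first {i : ℤ} {n : ℕ} (hn : n < c.k) : c.y i ∉ c.W (i + 1) n := by
  induction n generalizing i with
  | zero => rw [c.W_zero]; simpa using c.y_ne i
  | succ n ih =>
    intro h
    have h2 : c.y i ∈ c.W i (n + 1) := c.y_mem_W (by omega) le_rfl (by omega)
    exact ih (by omega) (c.inf_succ i n (by omega) ⟨h2, h⟩)

theorem index_two {A B : Subgroup G} (hAB : A ≤ B) {n : ℕ} (hA : Nat.card A = 2 ^ n)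
    (hB : Nat.card B = 2 ^ (n + 1)) : (A.subgroupOf B).index = 2 := by
  have h := (A.subgroupOf B).card_mul_index
  rw [Nat.card_congr (Subgroup.subgroupOfEquivOfLe hAB).toEquiv, hA, hB, pow_succ] at h
  exact Nat.eq_of_mul_eq_mul_left (by positivity) h

theorem mem_or_mul_mem_last {i : ℤ} {n : ℕ} (hn : n < c.k) {x : G} (hx : x ∈ c.W i (n + 1)) :
    x ∈ c.W i n ∨ x * c.y (i + n) ∈ c.W i n := by
  have hidx := index_two (c.le_left i n hn) (c.card_W i n hn.le) (c.card_W i (n + 1) hn)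
  have hy : c.y (i + n) ∈ c.W i (n + 1) := c.y_mem_W hn (by omega) (by omega)
  by_cases h : x ∈ c.W i n
  · exact Or.inl h
  · exact Or.inr ((Subgroup.mul_mem_iff_of_index_two hidx (a := (⟨x, hx⟩ : c.W i (n + 1)))
      (b := ⟨c.y (i + n), hy⟩)).2 ⟨fun h' => absurd h' h, fun h' => absurd h' (c.not_mem_last hn)⟩)

theorem mem_or_mul_mem_first {i : ℤ} {n : ℕ} (hn : n < c.k) {x : G} (hx : x ∈ c.W i (n + 1)) :
    x ∈ c.W (i + 1) n ∨ c.y i * x ∈ c.W (i + 1) n := by
  have hidx := index_two (c.le_right i n hn) (c.card_W (i + 1) n hn.le) (c.card_W i (n + 1) hn)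
  have hy : c.y i ∈ c.W i (n + 1) := c.y_mem_W hn le_rfl (by omega)
  by_cases h : x ∈ c.W (i + 1) n
  · exact Or.inl h
  · exact Or.inr ((Subgroup.mul_mem_iff_of_index_two hidx (b := (⟨x, hx⟩ : c.W i (n + 1)))
      (a := ⟨c.y i, hy⟩)).2 ⟨fun h' => absurd h' (c.not_mem_first hn), fun h' => absurd h' h⟩)

theorem W_le {i : ℤ} {n : ℕ} (hn : n ≤ c.k) (S : Subgroup G)
    (h : ∀ j : ℤ, i ≤ j → j < i + n → c.y j ∈ S) : c.W i n ≤ S := by
  induction n with
  | zero => rw [c.W_zero]; exact bot_le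
  | succ n ih =>
    intro x hx
    have hS := ih (by omega) fun j h1 h2 => h j h1 (by omega)
    have hy := h (i + n) (by omega) (by omega)
    rcases c.mem_or_mul_mem_last (by omega) hx with h1 | h1
    · exact hS h1
    · have h2 := mul_mem (hS h1) (inv_mem hy)
      rwa [mul_inv_cancel_right] at h2

theorem le_normalizer {A B : Subgroup G} (hAB : A ≤ B) {n : ℕ} (hA : Nat.card A = 2 ^ n)
    (hB : Nat.card B = 2 ^ (n + 1)) : B ≤ Subgroup.normalizer (A : Set G) :=
  (Subgroup.normal_subgroupOf_iff_le_normalizer hAB).1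
    (Subgroup.normal_of_index_eq_two (index_two hAB hA hB))

theorem normalizes_left (i : ℤ) {n : ℕ} (hn : n < c.k) :
    c.W i (n + 1) ≤ Subgroup.normalizer (c.W i n : Set G) :=
  le_normalizer (c.le_left i n hn) (c.card_W i n hn.le) (c.card_W i (n + 1) hn)

theorem normalizes_right (i : ℤ) {n : ℕ} (hn : n < c.k) :
    c.W i (n + 1) ≤ Subgroup.normalizer (c.W (i + 1) n : Set G) :=
  le_normalizer (c.le_right i n hn) (c.card_W (i + 1) n hn.le) (c.card_W i (n + 1) hn)

theorem commutator_y_mem {i : ℤ} {n : ℕ} (hn : n < c.k) (hn1 : 1 ≤ n) :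
    ⁅c.y i, c.y (i + n)⁆ ∈ c.W (i + 1) (n - 1) := by
  obtain ⟨m, rfl⟩ : ∃ m, n = m + 1 := ⟨n - 1, by omega⟩
  refine c.inf_succ i m (by omega) (Subgroup.mem_inf.2 ⟨?_, ?_⟩)
  · have hz : c.y (i + (m + 1 : ℕ)) ∈ c.W i (m + 1 + 1) := c.y_mem_W hn (by omega) (by omega)
    have hy : c.y i ∈ c.W i (m + 1) := c.y_mem_W (by omega) le_rfl (by omega)
    rw [commutatorElement_def, show c.y i * c.y (i + (m + 1 : ℕ)) * (c.y i)⁻¹ * (c.y (i + (m + 1 : ℕ)))⁻¹ =
      c.y i * (c.y (i + (m + 1 : ℕ)) * (c.y i)⁻¹ * (c.y (i + (m + 1 : ℕ)))⁻¹) by group]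
    exact mul_mem hy ((Subgroup.mem_normalizer_iff.1 (c.normalizes_left i hn hz) _).1 (inv_mem hy))
  · have hy : c.y i ∈ c.W i (m + 1 + 1) := c.y_mem_W hn le_rfl (by omega)
    have hz : c.y (i + (m + 1 : ℕ)) ∈ c.W (i + 1) (m + 1) := c.y_mem_W (by omega) (by omega) (by omega)
    rw [commutatorElement_def]
    exact mul_mem ((Subgroup.mem_normalizer_iff.1 (c.normalizes_right i hn hy) _).1 hz) (inv_mem hz)

theorem inf_le_aux (p : ℕ) : ∀ (i : ℤ) (n l : ℕ), n ≤ c.k → p + l ≤ c.k →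
    c.W i n ⊓ c.W (i + p) l ≤ c.W (i + p) (n - p) := by
  induction p with
  | zero => intro i n l _ _ x hx; simpa using hx.1
  | succ p ih =>
    intro i n l hn hl x hx
    rcases Nat.eq_zero_or_pos n with rfl | hn0
    · have hx1 : x ∈ c.W i 0 := hx.1
      rw [c.W_zero, Subgroup.mem_bot] at hx1
      exact hx1 ▸ one_mem _
    obtain ⟨m, rfl⟩ : ∃ m, n = m + 1 := ⟨n - 1, by omega⟩
    rcases c.mem_or_mul_mem_first (by omega) hx.1 with h | h
    · have e : i + 1 + (p : ℤ) = i + ((p + 1 : ℕ) : ℤ) := by omega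
      have h' := ih (i + 1) m l (by omega) (by omega) (x := x)
      rw [e] at h'
      simpa using h' ⟨h, hx.2⟩
    · exfalso
      have hM : max m (p + l) < c.k := by omega
      have h1 : x ∈ c.W (i + 1) (max m (p + l)) := c.W_mono hM.le (by omega) (by omega) hx.2
      have h2 : c.y i * x ∈ c.W (i + 1) (max m (p + l)) := c.W_mono hM.le le_rfl (by omega) h
      exact c.not_mem_first hM (by simpa using mul_mem h2 (inv_mem h1))

theorem inf_le {i j : ℤ} {n l : ℕ} (hij : i ≤ j) (hn : n ≤ c.k) (hl : j + l ≤ i + c.k) :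
    c.W i n ⊓ c.W j l ≤ c.W j (i + n - j).toNat := by
  obtain ⟨p, rfl⟩ : ∃ p : ℕ, j = i + p := ⟨(j - i).toNat, by omega⟩
  rw [show (i + n - (i + p)).toNat = n - p by omega]
  exact c.inf_le_aux p i n l hn (by omega)

theorem y_shift (i : ℤ) : c.g * c.y i * c.g⁻¹ = c.y (i - 1) :=
  (c.eq_or_eq (c.shift i 1 c.k_pos _ (c.y_mem i))).resolve_left fun h => c.y_ne i (by simpa using h)

theorem commute_shift {i j : ℤ} : Commute (c.y (i - 1)) (c.y (j - 1)) ↔ Commute (c.y i) (c.y j) := by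
  rw [← c.y_shift i, ← c.y_shift j]
  exact SemiconjBy.conj_iff

theorem commute_add (i : ℤ) (d : ℕ) : Commute (c.y i) (c.y (i + d)) ↔ Commute (c.y 0) (c.y d) := by
  induction i using Int.inductionOn' (b := (0 : ℤ)) with
  | zero => simp
  | succ i _ ih =>
    rw [← c.commute_shift]
    simpa [show i + 1 + (d : ℤ) - 1 = i + d by omega] using ih
  | pred i _ ih =>
    have h := c.commute_shift (i := i) (j := i + d)
    rw [show i + (d : ℤ) - 1 = i - 1 + d by omega] at h
    exact h.trans ih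

/-- `W i n` commutes with `W j l` when all pairs of generators do. -/
theorem commute_windows {i j : ℤ} {n l : ℕ} (hn : n ≤ c.k) (hl : l ≤ c.k)
    (h : ∀ a b : ℤ, i ≤ a → a < i + n → j ≤ b → b < j + l → Commute (c.y a) (c.y b))
    {x z : G} (hx : x ∈ c.W i n) (hz : z ∈ c.W j l) : Commute x z := by
  have h1 : ∀ b : ℤ, j ≤ b → b < j + l → c.W i n ≤ Subgroup.centralizer {c.y b} := fun b hb1 hb2 =>
    c.W_le hn _ fun a ha1 ha2 =>
      Subgroup.mem_centralizer_singleton_iff.2 (h a b ha1 ha2 hb1 hb2).eq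
  have h2 : c.W j l ≤ Subgroup.centralizer {x} := c.W_le hl _ fun b hb1 hb2 =>
    Subgroup.mem_centralizer_singleton_iff.2 (Subgroup.mem_centralizer_singleton_iff.1 (h1 b hb1 hb2 hx)).symm
  exact (Subgroup.mem_centralizer_singleton_iff.1 (h2 hz)).symm

end Chain

end CfsgLib.Minimal.ArcChain
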