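import Cfsg.Agent.Lib.Minimal.ArcChain

/-!
The two inequalities `3 D ≥ 2 k` and `2 D ≤ k + 2` for the least distance `D` of two non-commuting
generators, and the bound `k ≤ 4`.
-/

set_option autoImplicit false

open scoped commutatorElement

namespace CfsgLib.Minimal.ArcChain

variable {G : Type*} [Group G]

theorem commutator_eq_of_conj {u v z e w : G} (hw : ⁅u, v⁆ = w) (hv : z * v * z⁻¹ = v)
    (hu : z * u * z⁻¹ = e * u) (hev : Commute e v) (hew : Commute e w) : Commute z w := by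
  have h1 : z * w * z⁻¹ = w := by
    calc z * w * z⁻¹ = ⁅z * u * z⁻¹, z * v * z⁻¹⁆ := by
          rw [← hw, commutatorElement_def, commutatorElement_def]; group
      _ = ⁅e * u, v⁆ := by rw [hu, hv]
      _ = e * w * v * e⁻¹ * v⁻¹ := by
          rw [← hw, commutatorElement_def, commutatorElement_def]; group
      _ = w * (e * v * e⁻¹) * v⁻¹ := by rw [hew.eq]; group
      _ = w := by rw [hev.eq]; group
  exact mul_inv_eq_iff_eq_mul.1 h1

/-- A product-of-involutions criterion: `y` inverts, and moves only by `ω`. -/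
theorem eq_one_of_inverted {y w a b ω : G} (hw : w = a * b) (hya : Commute y a)
    (hyb : y * b * y⁻¹ = ω * b) (hinv : y * w * y⁻¹ = w⁻¹) (hww : w * w = 1) : ω = 1 := by
  have h1 : y * w * y⁻¹ = a * (ω * b) := by
    rw [hw, show y * (a * b) * y⁻¹ = (y * a * y⁻¹) * (y * b * y⁻¹) by group, hyb,
      show y * a * y⁻¹ = a by rw [hya.eq, mul_inv_cancel_right]]
  rw [hinv, inv_eq_of_mul_eq_one_right hww, hw, mul_right_inj] at h1
  exact (mul_eq_right.1 h1.symm)

namespace Chain

variable (c : Chain G)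

theorem sylow_not_normal : ¬ c.W 1 c.k ≤ Subgroup.normalizer (c.W 0 c.k : Set G) := by
  intro h
  have h0 : IsPGroup 2 (c.W 0 c.k) := IsPGroup.of_card (c.card_W 0 c.k le_rfl)
  have h1 : IsPGroup 2 (c.W 1 c.k) := IsPGroup.of_card (c.card_W 1 c.k le_rfl)
  have hs := IsPGroup.to_sup_of_normal_left' h0 h1 h
  haveI : Finite c.H := Nat.finite_of_card_ne_zero (by rw [c.card_H]; positivity)
  obtain ⟨n, hn⟩ := IsPGroup.iff_card.1 (hs.to_le c.gen)
  rw [c.card_H] at hn
  exact absurd (Nat.Prime.dvd_of_dvd_pow Nat.prime_three ⟨2 ^ c.k, hn.symm⟩) (by norm_num)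

theorem exists_noncommute : ∃ d : ℕ, d ≤ c.k ∧ ¬ Commute (c.y 0) (c.y d) := by
  by_contra h
  push Not at h
  refine c.sylow_not_normal fun x hx => Subgroup.mem_normalizer_iff.2 fun z => ?_
  have hc : ∀ z ∈ c.W 0 c.k, Commute z x := fun z hz =>
    c.commute_windows le_rfl le_rfl (fun a b ha1 ha2 hb1 hb2 => by
      rcases le_total a b with hab | hab
      · obtain ⟨d, rfl⟩ : ∃ d : ℕ, b = a + d := ⟨(b - a).toNat, by omega⟩
        exact (c.commute_add a d).2 (h d (by omega))
      · obtain ⟨d, rfl⟩ : ∃ d : ℕ, a = b + d := ⟨(a - b).toNat, by omega⟩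
        exact ((c.commute_add b d).2 (h d (by omega))).symm) hz hx
  constructor
  · intro hz
    rwa [← (hc z hz).eq, mul_inv_cancel_right]
  · intro hz
    have h2 := hc _ hz
    have h3 : z = x * z * x⁻¹ := by
      calc z = x⁻¹ * ((x * z * x⁻¹) * x) := by group
        _ = x⁻¹ * (x * (x * z * x⁻¹)) := by rw [h2.eq]
        _ = x * z * x⁻¹ := by group
    rwa [h3]

open Classical in
/-- The least distance of two non-commuting generators. -/
noncomputable def D : ℕ := Nat.find c.exists_noncommute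

theorem D_le : c.D ≤ c.k := by
  classical
  exact (Nat.find_spec c.exists_noncommute).1

theorem not_commute_D (i : ℤ) : ¬ Commute (c.y i) (c.y (i + c.D)) := by
  classical
  rw [c.commute_add]
  exact (Nat.find_spec c.exists_noncommute).2

theorem commute_of_lt {a b : ℤ} (h1 : a - b < c.D) (h2 : b - a < c.D) : Commute (c.y a) (c.y b) := by
  classical
  have key : ∀ d : ℕ, d < c.D → Commute (c.y 0) (c.y d) := fun d hd => by
    have h := Nat.find_min c.exists_noncommute hd
    have hD := c.D_le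
    push Not at h
    exact h (by omega)
  rcases le_total a b with hab | hab
  · obtain ⟨d, rfl⟩ : ∃ d : ℕ, b = a + d := ⟨(b - a).toNat, by omega⟩
    exact (c.commute_add a d).2 (key d (by omega))
  · obtain ⟨d, rfl⟩ : ∃ d : ℕ, a = b + d := ⟨(a - b).toNat, by omega⟩
    exact ((c.commute_add b d).2 (key d (by omega))).symm

theorem two_le_D (hk : 2 ≤ c.k) : 2 ≤ c.D := by
  by_contra h
  apply c.not_commute_D 0
  interval_cases hD : c.D
  · simp
  · have h1 := c.commutator_y_mem (i := 0) (n := 1) (by omega) le_rfl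
    rw [c.W_zero, Subgroup.mem_bot, commutatorElement_eq_one_iff_mul_comm] at h1
    exact h1

/-- The commutator of two generators at the critical distance lies in the right end. -/
theorem critical_right (hD : c.D < c.k) (hk : 2 ≤ c.k) :
    ∀ r : ℕ, 1 ≤ r → r + c.D ≤ c.k → ⁅c.y 0, c.y c.D⁆ ∈ c.W r (c.D - r) := by
  have hD2 := c.two_le_D hk
  intro r hr
  induction r, hr using Nat.le_induction with
  | base => intro _; simpa using c.commutator_y_mem (i := 0) hD (by omega)
  | succ r hr ih =>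
    intro hrk
    have hw := ih (by omega)
    rcases Nat.lt_or_ge r c.D with hrD | hrD
    swap
    · rw [Nat.sub_eq_zero_of_le hrD, c.W_zero, Subgroup.mem_bot] at hw
      rw [hw]; exact one_mem _
    have hn : c.D - r = (c.D - r - 1) + 1 := by omega
    rw [hn] at hw
    rw [show c.D - (r + 1) = c.D - r - 1 by omega, Nat.cast_succ]
    rcases c.mem_or_mul_mem_first (by omega) hw with h | h
    · exact h
    exfalso
    set z := c.y ((r : ℤ) + c.D) with hz
    apply c.not_commute_D r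
    have hv : z * c.y c.D * z⁻¹ = c.y c.D := by
      rw [(c.commute_of_lt (a := (r : ℤ) + c.D) (b := c.D) (by omega) (by omega)).eq, mul_inv_cancel_right]
    have he : z * c.y 0 * z⁻¹ * (c.y 0)⁻¹ ∈ c.W 1 (r + c.D - 1) := by
      have h0 := inv_mem (c.commutator_y_mem (i := 0) (n := r + c.D) (by omega) (by omega))
      rw [commutatorElement_inv, commutatorElement_def] at h0
      simpa [hz] using h0
    have hev : Commute (z * c.y 0 * z⁻¹ * (c.y 0)⁻¹) (c.y c.D) :=
      c.commute_windows (i := 1) (j := c.D) (n := r + c.D - 1) (l := 1) (by omega) c.k_pos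
        (fun a b _ _ _ _ => c.commute_of_lt (by omega) (by omega)) he (c.y_mem _)
    have hew : Commute (z * c.y 0 * z⁻¹ * (c.y 0)⁻¹) ⁅c.y 0, c.y c.D⁆ :=
      c.commute_windows (i := 1) (j := r) (n := r + c.D - 1) (l := c.D - r - 1 + 1) (by omega) (by omega)
        (fun a b _ _ _ _ => c.commute_of_lt (by omega) (by omega)) he hw
    have h1 := commutator_eq_of_conj rfl hv (by group) hev hew
    have h2 : Commute z (c.y r * ⁅c.y 0, c.y c.D⁆) :=
      (c.commute_windows (i := (r : ℤ) + 1) (j := (r : ℤ) + c.D) (n := c.D - r - 1) (l := 1) (by omega) c.k_pos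
        (fun a b _ _ _ _ => c.commute_of_lt (by omega) (by omega)) h (c.y_mem _)).symm
    have h3 := h2.mul_right h1.inv_right
    rw [mul_inv_cancel_right] at h3
    exact h3.symm

/-- The commutator of two generators at the critical distance lies in the left end. -/
theorem critical_left (hD : c.D < c.k) (hk : 2 ≤ c.k) :
    ∀ q : ℕ, q + 1 ≤ c.D → c.D + q < c.k → ⁅c.y 0, c.y c.D⁆ ∈ c.W 1 (c.D - 1 - q) := by
  have hD2 := c.two_le_D hk
  intro q
  induction q with
  | zero => intro _ _; simpa using c.commutator_y_mem (i := 0) hD (by omega)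
  | succ q ih =>
    intro hqD hqk
    have hw := ih (by omega) (by omega)
    obtain ⟨s, hs⟩ : ∃ s, c.D - 1 - q = s + 1 := ⟨c.D - 2 - q, by omega⟩
    rw [hs] at hw
    rw [show c.D - 1 - (q + 1) = s by omega]
    rcases c.mem_or_mul_mem_last (by omega) hw with h | h
    · exact h
    exfalso
    set z := c.y (-(q : ℤ) - 1) with hz
    apply c.not_commute_D (-(q : ℤ) - 1)
    have hu : z * c.y 0 * z⁻¹ = c.y 0 := by
      rw [(c.commute_of_lt (a := -(q : ℤ) - 1) (b := 0) (by omega) (by omega)).eq, mul_inv_cancel_right]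
    set e := z * c.y c.D * z⁻¹ * (c.y c.D)⁻¹ with he'
    have he : e ∈ c.W (-(q : ℤ)) (q + c.D) := by
      have h0 := c.commutator_y_mem (i := -(q : ℤ) - 1) (n := q + 1 + c.D) (by omega) (by omega)
      rw [show -(q : ℤ) - 1 + 1 = -(q : ℤ) by omega, show q + 1 + c.D - 1 = q + c.D by omega,
        show -(q : ℤ) - 1 + ((q + 1 + c.D : ℕ) : ℤ) = (c.D : ℤ) by omega, commutatorElement_def] at h0
      exact h0
    have hev : Commute e (c.y 0) :=
      c.commute_windows (i := -(q : ℤ)) (j := 0) (n := q + c.D) (l := 1) (by omega) c.k_pos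
        (fun a b _ _ _ _ => c.commute_of_lt (by omega) (by omega)) he (c.y_mem _)
    have hew : Commute e ⁅c.y c.D, c.y 0⁆ := by
      rw [← commutatorElement_inv]
      exact (c.commute_windows (i := -(q : ℤ)) (j := 1) (n := q + c.D) (l := s + 1) (by omega) (by omega)
        (fun a b _ _ _ _ => c.commute_of_lt (by omega) (by omega)) he hw).inv_right
    have h1' := commutator_eq_of_conj (w := ⁅c.y c.D, c.y 0⁆) rfl hu (by rw [he']; group) hev hew
    have h1 : Commute z ⁅c.y 0, c.y c.D⁆ := by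
      rw [← commutatorElement_inv]
      exact h1'.inv_right
    have h2 : Commute z (⁅c.y 0, c.y c.D⁆ * c.y (1 + s)) :=
      (c.commute_windows (i := 1) (j := -(q : ℤ) - 1) (n := s) (l := 1) (by omega) c.k_pos
        (fun a b _ _ _ _ => c.commute_of_lt (by omega) (by omega)) h (c.y_mem _)).symm
    have h3 := h1.inv_right.mul_right h2
    rw [inv_mul_cancel_left] at h3
    rwa [show -(q : ℤ) - 1 + c.D = 1 + s by omega]

theorem critical_mem (hD : c.D < c.k) (hk : 2 ≤ c.k) :
    ⁅c.y 0, c.y c.D⁆ ∈ c.W (c.k - c.D : ℕ) (2 * c.D - c.k) ∧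
      ⁅c.y 0, c.y c.D⁆ ∈ c.W 1 (2 * c.D - c.k) := by
  refine ⟨?_, ?_⟩
  · have h := c.critical_right hD hk (c.k - c.D) (by omega) (by omega)
    rwa [show c.D - (c.k - c.D) = 2 * c.D - c.k by omega] at h
  · by_cases hq : 2 * c.D < c.k
    · have h := c.critical_left hD hk (c.D - 1) (by have := c.two_le_D hk; omega) (by omega)
      rwa [show c.D - 1 - (c.D - 1) = 2 * c.D - c.k by omega] at h
    · have h := c.critical_left hD hk (c.k - c.D - 1) (by omega) (by omega)
      rwa [show c.D - 1 - (c.k - c.D - 1) = 2 * c.D - c.k by omega] at h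

theorem two_k_le (hk : 2 ≤ c.k) : 2 * c.k ≤ 3 * c.D := by
  by_contra h
  have hD : c.D < c.k := by omega
  obtain ⟨h1, h2⟩ := c.critical_mem hD hk
  have h3 := c.inf_le (i := 1) (j := (c.k - c.D : ℕ)) (n := 2 * c.D - c.k) (l := 2 * c.D - c.k)
    (by omega) (by omega) (by omega) ⟨h2, h1⟩
  rw [show ((1 : ℤ) + ((2 * c.D - c.k : ℕ) : ℤ) - ((c.k - c.D : ℕ) : ℤ)).toNat = 0 by omega, c.W_zero,
    Subgroup.mem_bot, commutatorElement_eq_one_iff_mul_comm] at h3
  exact c.not_commute_D 0 (by simpa [Commute, SemiconjBy] using h3)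

theorem two_D_le (hk : 3 ≤ c.k) : 2 * c.D ≤ c.k + 2 := by
  by_contra h
  have hD := c.D_le
  set i : ℤ := (c.k : ℤ) - c.D + 1 with hi
  have key : ∀ j : ℤ, -1 ≤ j → j ≤ c.k → Commute (c.y j) (c.y i) := fun j h1 h2 =>
    c.commute_of_lt (by omega) (by omega)
  have hN : ∀ l : ℤ, -1 ≤ l → l + c.k ≤ c.k + 1 → c.W l c.k ≤ Subgroup.normalizer (c.W i 1 : Set G) := by
    intro l h1 h2 x hx
    refine Subgroup.centralizer_le_normalizer _ ?_
    refine Subgroup.mem_centralizer_iff.2 fun z hz => ?_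
    exact (c.commute_windows le_rfl c.k_pos
      (fun a b ha1 ha2 hb1 hb2 => by rw [show b = i by omega]; exact key a (by omega) (by omega)) hx hz).symm.eq
  have h1 := c.rigid (c.W i 1) (c.W_le_H (by omega) (by omega) c.k_pos)
    (hN (-1) le_rfl (by omega)) (hN 0 (by omega) (by omega)) (hN 1 (by omega) (by omega))
  exact c.y_ne i (Subgroup.mem_bot.1 (h1 ▸ c.y_mem i))

theorem no_six (hk : c.k = 6) : False := by
  have hD : c.D = 4 := by
    have := c.two_k_le (by omega); have := c.two_D_le (by omega); omega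
  have hcm : ∀ a b : ℤ, a - b < 4 → b - a < 4 → Commute (c.y a) (c.y b) := fun a b h1 h2 =>
    c.commute_of_lt (by omega) (by omega)
  have hω : ⁅c.y 0, c.y 4⁆ ∈ c.W 2 1 := by
    obtain ⟨h1, h2⟩ := c.critical_mem (by omega) (by omega)
    rw [hD, hk] at h1 h2
    simpa using c.inf_le (i := 1) (j := 2) (n := 2) (l := 2) (by omega) (by omega) (by omega) ⟨h2, h1⟩
  have hsh : ∀ (a b : ℤ) (i : ℤ) (n : ℕ), n ≤ c.k → ⁅c.y a, c.y b⁆ ∈ c.W i n →
      ⁅c.y (a - 1), c.y (b - 1)⁆ ∈ c.W (i - 1) n := fun a b i n hn h => by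
    have h' := c.shift i n hn _ h
    rw [show c.g * ⁅c.y a, c.y b⁆ * c.g⁻¹ = ⁅c.g * c.y a * c.g⁻¹, c.g * c.y b * c.g⁻¹⁆ by
      rw [commutatorElement_def, commutatorElement_def]; group, c.y_shift, c.y_shift] at h'
    exact h'
  have hinv : ∀ a b : ℤ, c.y a * ⁅c.y a, c.y b⁆ * (c.y a)⁻¹ = ⁅c.y a, c.y b⁆⁻¹ := fun a b => by
    rw [commutatorElement_inv, commutatorElement_def, commutatorElement_def, c.y_inv, c.y_inv]
    calc c.y a * (c.y a * c.y b * c.y a * c.y b) * c.y a
        = (c.y a * c.y a) * (c.y b * c.y a * c.y b * c.y a) := by group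
      _ = _ := by rw [c.y_mul_self, one_mul]
  have sq : ∀ i : ℤ, ∀ x ∈ c.W i 4, x * x = 1 := by
    intro i x hx
    let S : Subgroup G :=
      { carrier := {z | z * z = 1 ∧ z ∈ c.W i 4}
        one_mem' := ⟨one_mul 1, one_mem _⟩
        mul_mem' := fun {p q} hp hq => by
          refine ⟨?_, mul_mem hp.2 hq.2⟩
          have hc : Commute p q := c.commute_windows (by omega) (by omega)
            (fun a b _ _ _ _ => hcm a b (by omega) (by omega)) hp.2 hq.2
          calc p * q * (p * q) = p * (q * p) * q := by group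
            _ = p * (p * q) * q := by rw [hc.eq]
            _ = (p * p) * (q * q) := by group
            _ = 1 := by rw [hp.1, hq.1, one_mul]
        inv_mem' := fun {p} hp => ⟨by rw [← mul_inv_rev, hp.1, inv_one], inv_mem hp.2⟩ }
    exact (c.W_le (by omega) S (fun j h1 h2 => ⟨c.y_mul_self j, c.y_mem_W (by omega) h1 h2⟩) hx).1
  -- `⁅y 0, y 5⁆` avoids `y 4`, and `⁅y 1, y 6⁆` avoids `y 2`
  have h05 : ⁅c.y 0, c.y 5⁆ ∈ c.W 1 3 := by
    have h := c.commutator_y_mem (i := 0) (n := 5) (by omega) (by omega)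
    simp only [Nat.cast_ofNat, zero_add, Nat.reduceSub] at h
    rcases c.mem_or_mul_mem_last (i := 1) (n := 3) (by omega) h with h' | h'
    · exact h'
    exfalso
    simp only [Nat.cast_ofNat, Int.reduceAdd] at h'
    refine c.not_commute_D 0 ?_
    rw [hD]
    simp only [Nat.cast_ofNat, zero_add]
    rw [Commute, SemiconjBy, ← commutatorElement_eq_one_iff_mul_comm]
    refine eq_one_of_inverted (y := c.y 0) (a := ⁅c.y 0, c.y 5⁆ * c.y 4) (b := c.y 4) ?_ ?_ ?_ (hinv 0 5)
      (sq 1 _ h)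
    · rw [mul_assoc, c.y_mul_self, mul_one]
    · exact c.commute_windows (i := 0) (n := 1) c.k_pos (by omega)
        (fun a b _ _ _ _ => hcm a b (by omega) (by omega)) (c.y_mem 0) h'
    · rw [commutatorElement_def, inv_mul_cancel_right]
  have h16 : ⁅c.y 1, c.y 6⁆ ∈ c.W 3 3 := by
    have h := c.commutator_y_mem (i := 1) (n := 5) (by omega) (by omega)
    simp only [Nat.cast_ofNat, Int.reduceAdd, Nat.reduceSub] at h
    rcases c.mem_or_mul_mem_first (i := 2) (n := 3) (by omega) h with h' | h'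
    · exact h'
    exfalso
    simp only [Int.reduceAdd] at h'
    refine c.not_commute_D 2 ?_
    rw [hD]
    simp only [Nat.cast_ofNat, Int.reduceAdd]
    symm
    rw [Commute, SemiconjBy, ← commutatorElement_eq_one_iff_mul_comm]
    have hinv' : c.y 6 * ⁅c.y 1, c.y 6⁆⁻¹ * (c.y 6)⁻¹ = ⁅c.y 1, c.y 6⁆⁻¹⁻¹ := by
      rw [commutatorElement_inv]; exact hinv 6 1
    refine eq_one_of_inverted (y := c.y 6) (a := (c.y 2 * ⁅c.y 1, c.y 6⁆)⁻¹) (b := c.y 2) ?_ ?_ ?_ hinv'
      (sq 2 _ (inv_mem h))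
    · rw [mul_inv_rev, c.y_inv, mul_assoc, c.y_mul_self, mul_one]
    · exact (c.commute_windows (i := 6) (n := 1) c.k_pos (by omega)
        (fun a b _ _ _ _ => hcm a b (by omega) (by omega)) (c.y_mem 6) (inv_mem h'))
    · rw [commutatorElement_def, inv_mul_cancel_right]
  -- the window `W 1 4` is normalised by everything
  have hN : ∀ (i : ℤ) (S : Subgroup G), c.W i 4 = S → ∀ j : ℤ,
      (∀ b : ℤ, i ≤ b → b < i + 4 → ⁅c.y j, c.y b⁆ ∈ S) → c.y j ∈ Subgroup.normalizer (S : Set G) := by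
    intro i S hS j hb
    subst hS
    have hle : c.W i 4 ≤ (c.W i 4).comap (MulAut.conj (c.y j)).toMonoidHom := c.W_le (by omega) _ fun b h1 h2 => by
      have h3 := mul_mem (hb b h1 h2) (c.y_mem_W (show 4 ≤ c.k by omega) h1 (show b < i + (4 : ℕ) by omega))
      show c.y j * c.y b * (c.y j)⁻¹ ∈ c.W i 4
      rwa [commutatorElement_def, inv_mul_cancel_right] at h3
    refine Subgroup.mem_normalizer_iff.2 fun x => ⟨fun hx => hle hx, fun hx => ?_⟩
    have h3 : c.y j * (c.y j * x * (c.y j)⁻¹) * (c.y j)⁻¹ ∈ c.W i 4 := hle hx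
    rw [c.y_inv, show c.y j * (c.y j * x * c.y j) * c.y j = (c.y j * c.y j) * x * (c.y j * c.y j) by group,
      c.y_mul_self, one_mul, mul_one] at h3
    exact h3
  have mem4 : ∀ a b : ℤ, a - b = 4 ∨ b - a = 4 → ∀ j, j = min a b + 2 → ⁅c.y a, c.y b⁆ ∈ c.W j 1 := by
    have up : ∀ t : ℕ, ⁅c.y (t : ℤ), c.y ((t : ℤ) + 4)⁆ ∈ c.W ((t : ℤ) + 2) 1 ∧
        ⁅c.y (-(t : ℤ)), c.y (-(t : ℤ) + 4)⁆ ∈ c.W (-(t : ℤ) + 2) 1 := by
      intro t
      induction t with
      | zero => simpa using hω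
      | succ t ih =>
        refine ⟨?_, ?_⟩
        · set w := ⁅c.y ((t + 1 : ℕ) : ℤ), c.y (((t + 1 : ℕ) : ℤ) + 4)⁆ with hw
          have h2 := c.commutator_y_mem (i := ((t + 1 : ℕ) : ℤ)) (n := 4) (by omega) (by omega)
          simp only [Nat.cast_ofNat, Nat.reduceSub, ← hw] at h2
          have h3 : c.g * w * c.g⁻¹ ∈ c.W ((t : ℤ) + 2) 1 := by
            rw [hw, show c.g * ⁅c.y ((t + 1 : ℕ) : ℤ), c.y (((t + 1 : ℕ) : ℤ) + 4)⁆ * c.g⁻¹ =
              ⁅c.g * c.y ((t + 1 : ℕ) : ℤ) * c.g⁻¹, c.g * c.y (((t + 1 : ℕ) : ℤ) + 4) * c.g⁻¹⁆ by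
              rw [commutatorElement_def, commutatorElement_def]; group, c.y_shift, c.y_shift,
              show ((t + 1 : ℕ) : ℤ) - 1 = (t : ℤ) by omega,
              show ((t + 1 : ℕ) : ℤ) + 4 - 1 = (t : ℤ) + 4 by omega]
            exact ih.1
          rcases c.eq_or_eq h3 with h4 | h4
          · rw [conj_eq_one_iff] at h4; rw [h4]; exact one_mem _
          · rw [show (t : ℤ) + 2 = ((t + 1 : ℕ) : ℤ) + 2 - 1 by omega, ← c.y_shift] at h4
            rw [mul_right_cancel_iff, mul_left_cancel_iff] at h4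
            rw [h4]; exact c.y_mem _
        · have h := hsh _ _ _ _ c.k_pos ih.2
          rwa [show -(t : ℤ) - 1 = -((t + 1 : ℕ) : ℤ) by omega, show -(t : ℤ) + 4 - 1 = -((t + 1 : ℕ) : ℤ) + 4 by omega,
            show -(t : ℤ) + 2 - 1 = -((t + 1 : ℕ) : ℤ) + 2 by omega] at h
    intro a b hab j hj
    rcases hab with hab | hab
    · obtain ⟨t, rfl | rfl⟩ := b.eq_nat_or_neg
      · rw [← commutatorElement_inv, hj, show min a (t : ℤ) = t by omega, show a = (t : ℤ) + 4 by omega]
        exact inv_mem (up t).1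
      · rw [← commutatorElement_inv, hj, show min a (-(t : ℤ)) = -(t : ℤ) by omega, show a = -(t : ℤ) + 4 by omega]
        exact inv_mem (up t).2
    · obtain ⟨t, rfl | rfl⟩ := a.eq_nat_or_neg
      · rw [hj, show min (t : ℤ) b = t by omega, show b = (t : ℤ) + 4 by omega]
        exact (up t).1
      · rw [hj, show min (-(t : ℤ)) b = -(t : ℤ) by omega, show b = -(t : ℤ) + 4 by omega]
        exact (up t).2
  have h05' : ⁅c.y 0, c.y 5⁆ ∈ c.W 1 4 := c.W_mono (by omega) le_rfl (by omega) h05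
  have h16' : ⁅c.y 1, c.y 6⁆ ∈ c.W 1 4 := by
    have h := c.commutator_y_mem (i := 1) (n := 5) (by omega) (by omega)
    have h2 : ⁅c.y 1, c.y 6⁆ ∈ c.W 2 4 := by simpa using h
    have h3 := hsh 1 6 3 3 (by omega) h16
    have h4 := c.W_mono (by omega) (show (2 : ℤ) ≤ 2 from le_rfl) (show (2 : ℤ) + (3 : ℕ) ≤ 2 + (4 : ℕ) by omega)
    clear h4
    -- the shift of the bound on `⁅y 0, y 5⁆`
    rcases c.mem_or_mul_mem_last (i := 2) (n := 3) (by omega) h2 with h5 | h5
    · exact c.W_mono (by omega) (by omega) (by omega) h5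
    · exfalso
      have h6 := c.shift 2 3 (by omega) _ h5
      rw [show c.g * (⁅c.y 1, c.y 6⁆ * c.y (2 + (3 : ℕ))) * c.g⁻¹ =
        ⁅c.g * c.y 1 * c.g⁻¹, c.g * c.y 6 * c.g⁻¹⁆ * (c.g * c.y (2 + (3 : ℕ)) * c.g⁻¹) by
        rw [commutatorElement_def, commutatorElement_def]; group, c.y_shift, c.y_shift, c.y_shift] at h6
      norm_num at h6
      have h7 := mul_mem (inv_mem h05) h6
      rw [inv_mul_cancel_left] at h7
      exact c.not_mem_last (i := 1) (n := 3) (by omega) (by simpa using h7)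
  have hA : ∀ j : ℤ, -1 ≤ j → j ≤ 6 → c.y j ∈ Subgroup.normalizer (c.W 1 4 : Set G) := by
    intro j hj1 hj2
    refine hN 1 _ rfl j fun b hb1 hb2 => ?_
    by_cases hd : j - b < 4 ∧ b - j < 4
    · rw [commutatorElement_eq_one_iff_mul_comm.2 (hcm j b hd.1 hd.2).eq]; exact one_mem _
    by_cases hd4 : j - b = 4 ∨ b - j = 4
    · exact c.W_mono (by omega) (by omega) (by omega) (mem4 j b hd4 _ rfl)
    obtain ⟨rfl, rfl⟩ | ⟨rfl, rfl⟩ : (j = 6 ∧ b = 1) ∨ (j = -1 ∧ b = 4) := by omega
    · rw [← commutatorElement_inv]; exact inv_mem h16'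
    · have h := hsh 0 5 1 3 (by omega) h05
      have h2 := c.W_mono (show 4 ≤ c.k by omega) (show (0 : ℤ) ≤ 0 from le_rfl)
        (show (0 : ℤ) + (3 : ℕ) ≤ 0 + (4 : ℕ) by omega)
      clear h2
      norm_num at h
      -- the shift of the bound on `⁅y 1, y 6⁆`
      have h3 := hsh 1 6 3 3 (by omega) h16
      norm_num at h3
      have h4 := hsh 0 5 2 3 (by omega) h3
      norm_num at h4
      exact c.W_mono (by omega) (by omega) (by omega) h4
  have hall : ∀ l : ℤ, -1 ≤ l → l ≤ 1 → c.W l c.k ≤ Subgroup.normalizer (c.W 1 4 : Set G) := fun l h1 h2 =>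
    c.W_le le_rfl _ fun j hj1 hj2 => hA j (by omega) (by omega)
  have h1 := c.rigid (c.W 1 4) (c.W_le_H (by omega) (by omega) (by omega))
    (hall (-1) le_rfl (by omega)) (hall 0 (by omega) (by omega)) (hall 1 (by omega) le_rfl)
  exact c.y_ne 1 (Subgroup.mem_bot.1 (h1 ▸ c.y_mem_W (i := 1) (n := 4) (by omega) le_rfl (by omega)))

theorem k_le_four : c.k ≤ 4 := by
  by_contra h
  have h1 := c.two_k_le (by omega)
  have h2 := c.two_D_le (by omega)
  exact c.no_six (by omega)

end Chain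

end CfsgLib.Minimal.ArcChain
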