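import Cfsg.Agent.Lib.Minimal.ArcChain

/-!
A maximal core-free subgroup `H` with `H ∩ gHg⁻¹` of index 3 in `H` either has order 3 or carries a
chain of windows.
-/

set_option autoImplicit false
set_option maxHeartbeats 800000

namespace CfsgLib.Minimal.ArcChain

variable {G : Type*} [Group G]

/-- `g ^ i * H * g ^ (-i)`. -/
def conjH (H : Subgroup G) (g : G) (i : ℤ) : Subgroup G :=
  H.comap (MulAut.conj (g ^ i)⁻¹).toMonoidHom

theorem mem_conjH {H : Subgroup G} {g : G} {i : ℤ} {x : G} :
    x ∈ conjH H g i ↔ (g ^ i)⁻¹ * x * g ^ i ∈ H := by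
  show (g ^ i)⁻¹ * x * ((g ^ i)⁻¹)⁻¹ ∈ H ↔ _
  rw [inv_inv]

/-- The stabiliser of a segment of `l + 1` points. -/
def segStab (H : Subgroup G) (g : G) (i : ℤ) (l : ℕ) : Subgroup G :=
  ⨅ j ∈ Finset.range (l + 1), conjH H g (i + j)

theorem mem_segStab {H : Subgroup G} {g : G} {i : ℤ} {l : ℕ} {x : G} :
    x ∈ segStab H g i l ↔ ∀ j ≤ l, (g ^ (i + j))⁻¹ * x * g ^ (i + j) ∈ H := by
  simp only [segStab, Subgroup.mem_iInf, Finset.mem_range, mem_conjH]
  exact ⟨fun h j hj => h j (by omega), fun h j hj => h j (by omega)⟩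

section

variable {H : Subgroup G} {g : G}

theorem segStab_left (i : ℤ) (l : ℕ) : segStab H g i (l + 1) ≤ segStab H g i l := fun x hx =>
  mem_segStab.2 fun j hj => mem_segStab.1 hx j (by omega)

theorem segStab_right (i : ℤ) (l : ℕ) : segStab H g i (l + 1) ≤ segStab H g (i + 1) l := fun x hx =>
  mem_segStab.2 fun j hj => by
    have h := mem_segStab.1 hx (j + 1) (by omega)
    rwa [show i + ((j + 1 : ℕ) : ℤ) = i + 1 + j by omega] at h

theorem segStab_inf (i : ℤ) (l : ℕ) : segStab H g i l ⊓ segStab H g (i + 1) l ≤ segStab H g i (l + 1) := by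
  intro x hx
  refine mem_segStab.2 fun j hj => ?_
  rcases Nat.lt_or_ge j (l + 1) with h | h
  · exact mem_segStab.1 hx.1 j (by omega)
  · obtain rfl : j = l + 1 := by omega
    have h2 := mem_segStab.1 hx.2 l le_rfl
    rwa [show i + 1 + (l : ℤ) = i + ((l + 1 : ℕ) : ℤ) by omega] at h2

theorem segStab_shift (d i : ℤ) (l : ℕ) (x : G) :
    g ^ d * x * (g ^ d)⁻¹ ∈ segStab H g (i + d) l ↔ x ∈ segStab H g i l := by
  simp only [mem_segStab]
  refine forall₂_congr fun j _ => ?_
  rw [show i + d + (j : ℤ) = d + (i + j) by omega, zpow_add, show (g ^ d * g ^ (i + (j : ℤ)))⁻¹ *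
    (g ^ d * x * (g ^ d)⁻¹) * (g ^ d * g ^ (i + (j : ℤ))) = (g ^ (i + (j : ℤ)))⁻¹ * x * g ^ (i + (j : ℤ)) by group]

theorem card_segStab [Finite G] (i : ℤ) (l : ℕ) :
    Nat.card (segStab H g i l) = Nat.card (segStab H g 0 l) := by
  refine Nat.card_congr ((MulEquiv.subgroupMap (MulAut.conj (g ^ (-i))) _).toEquiv.trans (Equiv.setCongr ?_))
  ext x
  constructor
  · rintro ⟨z, hz, rfl⟩
    show g ^ (-i) * z * (g ^ (-i))⁻¹ ∈ segStab H g 0 l
    have h := (segStab_shift (H := H) (g := g) (-i) i l z).2 hz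
    rwa [add_neg_cancel] at h
  · intro hx
    refine ⟨(g ^ (-i))⁻¹ * x * g ^ (-i), ?_, by
      show g ^ (-i) * ((g ^ (-i))⁻¹ * x * g ^ (-i)) * (g ^ (-i))⁻¹ = x
      group⟩
    refine (segStab_shift (H := H) (g := g) (-i) i l _).1 ?_
    rw [add_neg_cancel, show g ^ (-i) * ((g ^ (-i))⁻¹ * x * g ^ (-i)) * (g ^ (-i))⁻¹ = x by group]
    exact hx

theorem segStab_zero : segStab H g 0 0 = H := by
  ext x
  rw [mem_segStab]
  exact ⟨fun h => by simpa using h 0 le_rfl, fun h j hj => by
    obtain rfl : j = 0 := by omega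
    simpa using h⟩

end

/-- The odd-order elements of a point stabiliser of a 3-point transitive action lie in the kernel. -/
theorem odd_mem_core [Finite G] {H T : Subgroup G} (hT : T ≤ H) (hidx : T.relIndex H = 3) {x : G}
    (hx : x ∈ T) (hodd : Odd (orderOf x)) : ∀ h ∈ H, h * x * h⁻¹ ∈ T := by
  classical
  intro h hh
  let Ω := H ⧸ T.subgroupOf H
  haveI : Finite Ω := inferInstance
  letI : Fintype Ω := Fintype.ofFinite Ω
  have hcard : Fintype.card Ω = 3 := by rw [← Nat.card_eq_fintype_card]; exact hidx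
  let xH : H := ⟨x, hT hx⟩
  let σ : Equiv.Perm Ω := MulAction.toPermHom H Ω xH
  have hσ : orderOf σ ∣ orderOf x := by
    rw [← Subgroup.orderOf_mk x (hT hx)]
    exact orderOf_map_dvd (MulAction.toPermHom H Ω) xH
  have hfix : σ (1 : H) = ((1 : H) : Ω) := by
    show ((xH * 1 : H) : Ω) = ((1 : H) : Ω)
    rw [QuotientGroup.eq]
    simpa [Subgroup.mem_subgroupOf, xH] using T.inv_mem hx
  have hσ1 : σ = 1 := by
    by_contra hne
    have h2 : σ.support.card = 2 := by
      have h1 := Finset.card_lt_univ_of_notMem (s := σ.support) (x := ((1 : H) : Ω))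
        (by rw [Equiv.Perm.notMem_support]; exact hfix)
      rw [hcard] at h1
      have := Equiv.Perm.two_le_card_support_of_ne_one hne
      omega
    obtain ⟨a, b, hab, hswap⟩ := (Equiv.Perm.card_support_eq_two.1 h2)
    rw [hswap, orderOf_eq_prime (p := 2) (by rw [pow_two, Equiv.swap_mul_self]) (fun h => hab (by
      simpa using congrArg (fun e : Equiv.Perm Ω => e b) h))] at hσ
    exact (Nat.not_even_iff_odd.2 hodd) (even_iff_two_dvd.2 hσ)
  have h3 : σ ((⟨h⁻¹, H.inv_mem hh⟩ : H) : Ω) = ((⟨h⁻¹, H.inv_mem hh⟩ : H) : Ω) := by rw [hσ1]; rfl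
  have h4 : ((xH * ⟨h⁻¹, H.inv_mem hh⟩ : H) : Ω) = ((⟨h⁻¹, H.inv_mem hh⟩ : H) : Ω) := h3
  rw [QuotientGroup.eq, Subgroup.mem_subgroupOf] at h4
  have h5 := T.inv_mem h4
  simpa [xH, mul_assoc] using h5

theorem isPGroup_two_of_no_odd [Finite G] (T : Subgroup G)
    (h : ∀ x ∈ T, Odd (orderOf x) → x = 1) : IsPGroup 2 T := by
  intro x
  obtain ⟨e, r, hr, he⟩ := Nat.exists_eq_two_pow_mul_odd (n := orderOf x) (orderOf_pos x).ne'
  refine ⟨e, Subtype.ext (h _ (x ^ 2 ^ e).2 ?_)⟩
  rw [Subgroup.orderOf_coe, orderOf_pow' x (by positivity), he, Nat.gcd_mul_right_left,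
    Nat.mul_div_cancel_left _ (by positivity)]
  exact hr

/-- Main construction. -/
theorem exists_chain [Finite G] (H : Subgroup G) (g : G) (hcoat : IsCoatom H)
    (hcore : ∀ N : Subgroup G, N ≤ H → N.Normal → N = ⊥) (hg : g ∉ H)
    (hidx : (H ⊓ conjH H g 1).relIndex H = 3) :
    Nat.card H = 3 ∨ ∃ c : Chain G, c.H = H := by
  classical
  have hHne : H ≠ ⊥ := fun h => by rw [h, Subgroup.relIndex_bot_right] at hidx; omega
  -- two conjugates generate, so only the trivial subgroup is invariant under both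
  have rigid : ∀ N : Subgroup G, N ≤ H → H ≤ Subgroup.normalizer (N : Set G) →
      conjH H g 1 ≤ Subgroup.normalizer (N : Set G) → N = ⊥ := by
    intro N hN h1 h2
    refine hcore N hN (Subgroup.normalizer_eq_top_iff.1 ?_)
    rcases eq_or_ne (Subgroup.normalizer (N : Set G)) H with h | h
    · exfalso
      have h3 : conjH H g 1 = H := Subgroup.eq_of_le_of_card_ge (h ▸ h2) (le_of_eq (by
        have := card_segStab (H := H) (g := g) 1 0
        rw [segStab_zero] at this
        rw [← this]
        exact Nat.card_congr (Equiv.setCongr (by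
          ext x; simp [mem_segStab, mem_conjH]))))
      have hgn : g ∈ Subgroup.normalizer (H : Set G) := Subgroup.mem_normalizer_fintype fun x hx => by
        rw [← h3]
        show g * x * g⁻¹ ∈ conjH H g 1
        rw [mem_conjH, zpow_one, show g⁻¹ * (g * x * g⁻¹) * g = x by group]
        exact hx
      rcases hcoat.le_iff.1 (Subgroup.le_normalizer (H := H)) with h4 | h4
      · exact hHne (hcore H le_rfl (Subgroup.normalizer_eq_top_iff.1 h4))
      · exact hg (h4 ▸ hgn)
    · exact (hcoat.le_iff.1 h1).resolve_right h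
  set T := H ⊓ conjH H g 1 with hTdef
  have hcardC : Nat.card (conjH H g 1) = Nat.card H := by
    have h := card_segStab (H := H) (g := g) 1 0
    rw [segStab_zero] at h
    rw [← h]
    exact Nat.card_congr (Equiv.setCongr (by ext x; simp [mem_segStab, mem_conjH]))
  have hidx' : T.relIndex (conjH H g 1) = 3 := by
    have h1 := (T.subgroupOf H).card_mul_index
    have h2 := (T.subgroupOf (conjH H g 1)).card_mul_index
    rw [Nat.card_congr (Subgroup.subgroupOfEquivOfLe inf_le_left).toEquiv] at h1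
    rw [Nat.card_congr (Subgroup.subgroupOfEquivOfLe inf_le_right).toEquiv] at h2
    have h3 : (T.subgroupOf H).index = 3 := hidx
    rw [h3, ← hcardC, ← h2] at h1
    exact (Nat.eq_of_mul_eq_mul_left Nat.card_pos h1).symm
  have hT2 : IsPGroup 2 T := by
    refine isPGroup_two_of_no_odd T fun x hx hodd => ?_
    set X := Subgroup.closure {y : G | y ∈ T ∧ Odd (orderOf y)} with hX
    have hXT : X ≤ T := (Subgroup.closure_le T).2 fun y hy => hy.1
    have hX' : ∀ K : Subgroup G, T ≤ K → T.relIndex K = 3 → K ≤ Subgroup.normalizer (X : Set G) := by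
      intro K hTK hK h hh
      refine Subgroup.mem_normalizer_fintype fun y hy => ?_
      have hle : X ≤ X.comap (MulAut.conj h).toMonoidHom := (Subgroup.closure_le _).2 fun z hz =>
        Subgroup.subset_closure ⟨odd_mem_core hTK hK hz.1 hz.2 h hh, by
          show Odd (orderOf (MulAut.conj h z))
          rw [MulEquiv.orderOf_eq]; exact hz.2⟩
      exact hle hy
    have h1 := rigid X (hXT.trans inf_le_left) (hX' H inf_le_left hidx) (hX' _ inf_le_right hidx')
    exact Subgroup.mem_bot.1 (h1 ▸ Subgroup.subset_closure ⟨hx, hodd⟩)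
  obtain ⟨k', hk'⟩ := IsPGroup.iff_card.1 hT2
  have hH : Nat.card H = 3 * 2 ^ k' := by
    have h1 := (T.subgroupOf H).card_mul_index
    rw [Nat.card_congr (Subgroup.subgroupOfEquivOfLe inf_le_left).toEquiv, hk'] at h1
    have h3 : (T.subgroupOf H).index = 3 := hidx
    rw [h3] at h1
    omega
  rcases Nat.eq_zero_or_pos k' with rfl | hk0
  · exact Or.inl (by rw [hH]; norm_num)
  right
  have hTne : T ≠ ⊥ := fun h => by
    rw [h, Subgroup.card_bot] at hk'
    have : 2 ≤ 2 ^ k' := Nat.le_self_pow (by omega) 2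
    omega
  -- `T` is normal in neither side; choose the shift so that the next Sylow differs
  have hnn : ¬ H ≤ Subgroup.normalizer (T : Set G) := by
    intro hn
    refine hTne (rigid T inf_le_left hn fun z hz => ?_)
    haveI : (T.subgroupOf H).Normal := (Subgroup.normal_subgroupOf_iff_le_normalizer inf_le_left).2 hn
    -- the image of `T` under the shift is a normal 2-subgroup of the other side with index 3
    let T₁ := T.comap (MulAut.conj g⁻¹).toMonoidHom
    have hT1C : T₁ ≤ conjH H g 1 := fun y hy => by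
      rw [mem_conjH, zpow_one]
      have : g⁻¹ * y * g⁻¹⁻¹ ∈ T := hy
      rw [inv_inv] at this
      exact this.1
    have hn1 : conjH H g 1 ≤ Subgroup.normalizer (T₁ : Set G) := fun y hy => by
      rw [mem_conjH, zpow_one] at hy
      refine Subgroup.mem_normalizer_fintype fun w hw => ?_
      have h := (Subgroup.mem_normalizer_iff.1 (hn hy) (g⁻¹ * w * g)).1 (by simpa [T₁] using hw)
      show g⁻¹ * (y * w * y⁻¹) * g⁻¹⁻¹ ∈ T
      rw [inv_inv]
      simpa [mul_assoc] using h
    have hcard1 : Nat.card T₁ = Nat.card T := Nat.card_congr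
      { toFun := fun y => ⟨g⁻¹ * y * g, by simpa [T₁] using y.2⟩
        invFun := fun y => ⟨g * y * g⁻¹, by simp [T₁, mul_assoc, y.2]⟩
        left_inv := fun y => Subtype.ext (by simp [mul_assoc])
        right_inv := fun y => Subtype.ext (by simp [mul_assoc]) }
    have hsup : IsPGroup 2 (T₁ ⊔ T : Subgroup G) := IsPGroup.to_sup_of_normal_left'
      (IsPGroup.of_card (n := k') (hcard1.trans hk')) hT2 (inf_le_right.trans hn1)
    obtain ⟨a, ha⟩ := IsPGroup.iff_card.1 hsup
    have hle : T₁ ⊔ T ≤ conjH H g 1 := sup_le hT1C inf_le_right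
    have hd := Subgroup.card_dvd_of_le hle
    rw [ha, hcardC, hH] at hd
    have ha' : a ≤ k' := by
      by_contra hlt
      have h4 : 2 ^ (k' + 1) ∣ 3 * 2 ^ k' := (pow_dvd_pow 2 (by omega)).trans hd
      rw [pow_succ'] at h4
      exact absurd (Nat.dvd_of_mul_dvd_mul_right (by positivity) h4) (by norm_num)
    have heq : T₁ = T₁ ⊔ T := Subgroup.eq_of_le_of_card_ge le_sup_left (by
      rw [hcard1, hk', ha]; exact Nat.pow_le_pow_right (by norm_num) ha')
    have heq' : T = T₁ := (Subgroup.eq_of_le_of_card_ge (heq ▸ le_sup_right) (le_of_eq hcard1))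
    exact heq'.symm ▸ hn1 hz
  obtain ⟨h₀, hh₀, hh₀'⟩ := SetLike.not_le_iff_exists.1 hnn
  set g' : G := if (∀ x ∈ T, g * x * g⁻¹ ∈ T) then g * h₀ else g with hg'def
  have hg'C : conjH H g' 1 = conjH H g 1 := by
    rw [hg'def]
    split_ifs
    · ext x
      rw [mem_conjH, mem_conjH, zpow_one, zpow_one, show (g * h₀)⁻¹ * x * (g * h₀) = h₀⁻¹ * (g⁻¹ * x * g) * h₀ by group]
      constructor
      · intro hx
        have := H.mul_mem (H.mul_mem hh₀ hx) (H.inv_mem hh₀)
        simpa [mul_assoc] using this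
      · intro hx
        exact H.mul_mem (H.mul_mem (H.inv_mem hh₀) hx) hh₀
    · rfl
  have hmove : ∃ x ∈ T, g' * x * g'⁻¹ ∉ T := by
    rw [hg'def]
    split_ifs with hall
    · by_contra hc
      push Not at hc
      refine hh₀' (Subgroup.mem_normalizer_fintype fun x hx => ?_)
      have h1 := hc x hx
      -- conjugation by `g` permutes `T`
      obtain ⟨⟨z, hz⟩, hzx⟩ := (Finite.injective_iff_surjective
        (f := fun x : T => (⟨g * x * g⁻¹, hall x x.2⟩ : T))).1 (fun a b hab => Subtype.ext (by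
          simpa using congrArg Subtype.val hab)) ⟨_, h1⟩
      have h2 : g * z * g⁻¹ = g * h₀ * x * (g * h₀)⁻¹ := congrArg Subtype.val hzx
      have : h₀ * x * h₀⁻¹ = z := by
        have h3 := congrArg (fun w => g⁻¹ * w * g) h2
        simpa [mul_assoc] using h3.symm
      rw [this]; exact hz
    · push Not at hall; exact hall
  clear_value g'
  clear hg'def
  -- windows
  let U := segStab H g'
  have hU0 : U 0 0 = H := segStab_zero
  have hU1 : U 0 1 = T := by
    ext x
    rw [hTdef, ← hg'C, Subgroup.mem_inf, mem_segStab, mem_conjH]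
    constructor
    · intro h
      exact ⟨by simpa using h 0 (by omega), by simpa using h 1 le_rfl⟩
    · rintro ⟨h1, h2⟩ j hj
      interval_cases j
      · simpa using h1
      · simpa using h2
  have hf : ∀ i l, Nat.card (U i l) = Nat.card (U 0 l) := fun i l => card_segStab i l
  have hU2 : Nat.card (U 0 2) < 2 ^ k' := by
    rw [← hk', ← hU1]
    refine lt_of_le_of_ne (Nat.le_of_dvd Nat.card_pos (Subgroup.card_dvd_of_le (segStab_left 0 1))) ?_
    intro heq
    have he : U 0 2 = U 0 1 := Subgroup.eq_of_le_of_card_ge (segStab_left 0 1) heq.ge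
    have hle : U 0 1 ≤ U 1 1 := he ▸ segStab_right 0 1
    obtain ⟨x, hx, hx'⟩ := hmove
    have heq2 : U 0 1 = U 1 1 := Subgroup.eq_of_le_of_card_ge hle (hf 1 1).le
    apply hx'
    rw [← hU1, heq2]
    have h := (segStab_shift (H := H) (g := g') 1 0 1 x).2 (by change x ∈ U 0 1; rw [hU1]; exact hx)
    rwa [zpow_one] at h
  have hpow : ∀ l, 1 ≤ l → ∃ a, Nat.card (U 0 l) = 2 ^ a := fun l hl => by
    have hle : U 0 l ≤ T := by
      rw [← hU1]
      exact fun x hx => mem_segStab.2 fun j hj => mem_segStab.1 hx j (by omega)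
    exact IsPGroup.iff_card.1 (hT2.to_le hle)
  -- each step halves or is stationary
  have hstep : ∀ l, 1 ≤ l → Nat.card (U 0 l) ≤ 2 * Nat.card (U 0 (l + 1)) := by
    intro l hl
    induction l, hl using Nat.le_induction with
    | base =>
      have hne : (U 0 2).relIndex (U 0 1) ≤ 3 := by
        have h1 : U 0 1 ⊓ U 1 1 ≤ U 0 2 := segStab_inf 0 1
        have h2 : U 1 1 ≤ U 1 0 := segStab_left 1 0
        have h3 : (U 1 1).relIndex (U 0 1) ≤ (U 1 1).relIndex (U 1 0) :=
          Subgroup.relIndex_le_of_le_right (segStab_right 0 0) Subgroup.index_ne_zero_of_finite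
        have h4 : (U 1 1).relIndex (U 1 0) = 3 := by
          have e := ((U 1 1).subgroupOf (U 1 0)).card_mul_index
          rw [Nat.card_congr (Subgroup.subgroupOfEquivOfLe h2).toEquiv, hf 1 1, hf 1 0, hU1, hU0, hk', hH] at e
          exact Nat.eq_of_mul_eq_mul_left (by positivity : 0 < 2 ^ k') (e.trans (by ring))
        rw [← Subgroup.inf_relIndex_right] at h3
        calc (U 0 2).relIndex (U 0 1) ≤ (U 1 1 ⊓ U 0 1).relIndex (U 0 1) :=
              Subgroup.relIndex_le_of_le_left (inf_comm (U 1 1) (U 0 1) ▸ h1) Subgroup.index_ne_zero_of_finite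
          _ ≤ 3 := h3.trans h4.le
      have e := ((U 0 2).subgroupOf (U 0 1)).card_mul_index
      rw [Nat.card_congr (Subgroup.subgroupOfEquivOfLe (segStab_left 0 1)).toEquiv] at e
      obtain ⟨a, ha⟩ := hpow 1 le_rfl
      obtain ⟨b, hb⟩ := hpow 2 (by omega)
      change Nat.card (U 0 2) * (U 0 2).relIndex (U 0 1) = _ at e
      rw [hb, ha] at e
      rw [ha, hb]
      rcases Nat.lt_or_ge (b + 1) a with hab | hab
      · exfalso
        have : 4 * 2 ^ b ≤ 2 ^ a := by
          rw [show 4 * 2 ^ b = 2 ^ (b + 2) by ring]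
          exact Nat.pow_le_pow_right (by norm_num) (by omega)
        have h5 := Nat.mul_le_mul_left (2 ^ b) hne
        rw [e] at h5
        have : 0 < 2 ^ b := by positivity
        linarith
      · rw [← pow_succ']; exact Nat.pow_le_pow_right (by norm_num) hab
    | succ l hl ih =>
      have h1 : (U 1 (l + 1)).relIndex (U 0 (l + 1)) ≤ (U 1 (l + 1)).relIndex (U 1 l) :=
        Subgroup.relIndex_le_of_le_right (segStab_right 0 l) Subgroup.index_ne_zero_of_finite
      have h2 : (U 0 (l + 2)).relIndex (U 0 (l + 1)) ≤ (U 1 (l + 1)).relIndex (U 0 (l + 1)) := by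
        rw [← Subgroup.inf_relIndex_right (U 1 (l + 1))]
        exact Subgroup.relIndex_le_of_le_left (inf_comm (U 1 (l + 1)) (U 0 (l + 1)) ▸ segStab_inf 0 (l + 1))
          Subgroup.index_ne_zero_of_finite
      have e := ((U 0 (l + 2)).subgroupOf (U 0 (l + 1))).card_mul_index
      rw [Nat.card_congr (Subgroup.subgroupOfEquivOfLe (segStab_left 0 (l + 1))).toEquiv] at e
      have e' := ((U 1 (l + 1)).subgroupOf (U 1 l)).card_mul_index
      rw [Nat.card_congr (Subgroup.subgroupOfEquivOfLe (segStab_left 1 l)).toEquiv, hf 1 l, hf 1 (l + 1)] at e'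
      change Nat.card (U 0 (l + 2)) * (U 0 (l + 2)).relIndex (U 0 (l + 1)) = _ at e
      change Nat.card (U 0 (l + 1)) * (U 1 (l + 1)).relIndex (U 1 l) = _ at e'
      have h3 : (U 1 (l + 1)).relIndex (U 1 l) ≤ 2 := by nlinarith [Nat.card_pos (α := U 0 (l + 1))]
      nlinarith
  -- the chain descends strictly down to the trivial group
  obtain ⟨m, hm1, hmeq, hmmin⟩ : ∃ m, 1 ≤ m ∧ Nat.card (U 0 (m + 1)) = Nat.card (U 0 m) ∧
      ∀ l, 1 ≤ l → l < m → 2 * Nat.card (U 0 (l + 1)) = Nat.card (U 0 l) := by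
    have hex : ∃ m, 1 ≤ m ∧ Nat.card (U 0 (m + 1)) = Nat.card (U 0 m) := by
      by_contra hc
      push Not at hc
      have hdec : ∀ l, 1 ≤ l → Nat.card (U 0 l) + l ≤ Nat.card (U 0 1) + 1 := by
        intro l hl
        induction l, hl using Nat.le_induction with
        | base => exact le_rfl
        | succ l hl ih =>
          have := Nat.lt_of_le_of_ne
            (Nat.le_of_dvd Nat.card_pos (Subgroup.card_dvd_of_le (segStab_left (H := H) (g := g') 0 l))) (hc l hl)
          change Nat.card (U 0 (l + 1)) < Nat.card (U 0 l) at this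
          omega
      have := hdec (Nat.card (U 0 1) + 1) (by omega)
      have := Nat.card_pos (α := U 0 (Nat.card (U 0 1) + 1))
      omega
    refine ⟨Nat.find hex, (Nat.find_spec hex).1, (Nat.find_spec hex).2, fun l h1 h2 => ?_⟩
    have hne : Nat.card (U 0 (l + 1)) ≠ Nat.card (U 0 l) := fun h => Nat.find_min hex h2 ⟨h1, h⟩
    obtain ⟨a, ha⟩ := hpow l h1
    obtain ⟨b, hb⟩ := hpow (l + 1) (by omega)
    have h3 := Nat.le_of_dvd Nat.card_pos (Subgroup.card_dvd_of_le (segStab_left (H := H) (g := g') 0 l))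
    have h4 := hstep l h1
    change Nat.card (U 0 (l + 1)) ≤ Nat.card (U 0 l) at h3
    rw [ha, hb] at h3 h4 hne ⊢
    have hba : b < a := (Nat.pow_lt_pow_iff_right (by norm_num : 1 < 2)).1 (lt_of_le_of_ne h3 hne)
    have hab : a ≤ b + 1 := (Nat.pow_le_pow_iff_right (by norm_num : 1 < 2)).1 (by rwa [pow_succ'])
    rw [← pow_succ', show b + 1 = a by omega]
  have hm2 : 2 ≤ m := by
    rcases Nat.lt_or_ge m 2 with h | h
    · obtain rfl : m = 1 := by omega
      rw [hmeq, hU1, hk'] at hU2
      exact absurd hU2 (lt_irrefl _)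
    · exact h
  -- generation of a segment stabiliser by the two longer ones
  have gen : ∀ i l, 1 ≤ l → l + 2 ≤ m → U i l ≤ U i (l + 1) ⊔ U (i - 1) (l + 1) := by
    intro i l hl hlm
    have hle1 : U i (l + 1) ≤ U i l := segStab_left i l
    have hle2 : U (i - 1) (l + 1) ≤ U i l := by
      have := segStab_right (H := H) (g := g') (i - 1) l
      rwa [sub_add_cancel] at this
    refine (Subgroup.eq_of_le_of_card_ge (sup_le hle1 hle2) ?_).ge
    by_contra hc
    push Not at hc
    obtain ⟨a, ha⟩ := hpow (l + 1) (by omega)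
    have h1 := hmmin l hl (by omega)
    have h2 := hmmin (l + 1) (by omega) (by omega)
    have hdvd := Subgroup.card_dvd_of_le (le_sup_left : U i (l + 1) ≤ U i (l + 1) ⊔ U (i - 1) (l + 1))
    have hdvd2 := Subgroup.card_dvd_of_le (sup_le hle1 hle2)
    rw [hf i (l + 1)] at hdvd
    rw [hf i l, ← h1] at hdvd2 hc
    have heq : Nat.card ↥(U i (l + 1) ⊔ U (i - 1) (l + 1)) = Nat.card (U 0 (l + 1)) := by
      obtain ⟨t, ht⟩ := hdvd
      obtain ⟨s, hs⟩ := hdvd2
      rw [ht] at hc hs ⊢
      have hpos := Nat.card_pos (α := U 0 (l + 1))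
      have hts : t * s = 2 := by
        apply Nat.eq_of_mul_eq_mul_left hpos
        rw [← mul_assoc, ← hs]; ring
      have : t ≤ 2 := Nat.le_of_dvd (by norm_num) ⟨s, hts.symm⟩
      interval_cases t
      · omega
      · ring
      · linarith
    have e1 := Subgroup.eq_of_le_of_card_ge (le_sup_left : U i (l + 1) ≤ U i (l + 1) ⊔ U (i - 1) (l + 1))
      (by rw [heq, hf i (l + 1)])
    have hsub : U (i - 1) (l + 1) ≤ U i (l + 1) := e1 ▸ le_sup_right
    have hint : U (i - 1) (l + 1) ≤ U (i - 1) (l + 1 + 1) := fun x hx =>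
      segStab_inf (i - 1) (l + 1) ⟨hx, by rw [sub_add_cancel]; exact hsub hx⟩
    have h5 := Nat.le_of_dvd Nat.card_pos (Subgroup.card_dvd_of_le hint)
    rw [hf (i - 1) (l + 1), hf (i - 1) (l + 1 + 1), ← h2] at h5
    have := Nat.card_pos (α := U 0 (l + 1 + 1))
    omega
  have hU11 : ∀ i, U i 1 ≤ U i 0 := fun i => segStab_left i 0
  have hTT : H ≤ U 0 1 ⊔ U (-1) 1 := by
    have hle1 : U 0 1 ≤ H := hU0 ▸ hU11 0
    have hle2 : U (-1) 1 ≤ H := hU0 ▸ segStab_right (-1) 0
    refine (Subgroup.eq_of_le_of_card_ge (sup_le hle1 hle2) ?_).ge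
    by_contra hc
    push Not at hc
    obtain ⟨s, hs⟩ := Subgroup.card_dvd_of_le (sup_le hle1 hle2)
    obtain ⟨t, ht⟩ := Subgroup.card_dvd_of_le (le_sup_left : U 0 1 ≤ U 0 1 ⊔ U (-1) 1)
    rw [hU1, hk'] at ht
    rw [hH] at hc hs
    rw [hU1] at hs hc
    rw [ht] at hs hc
    have hts : t * s = 3 := by
      apply Nat.eq_of_mul_eq_mul_left (show 0 < 2 ^ k' by positivity)
      rw [← mul_assoc, ← hs]; ring
    have ht1 : t = 1 := by
      rcases (Nat.dvd_prime Nat.prime_three).1 ⟨s, hts.symm⟩ with h | h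
      · exact h
      · exfalso; rw [h] at hc; linarith
    have e1 : U 0 1 = U 0 1 ⊔ U (-1) 1 := Subgroup.eq_of_le_of_card_ge le_sup_left (by
      rw [hU1, ht, hk', ht1, mul_one])
    have hsub : U (-1) 1 ≤ U 0 1 := e1 ▸ le_sup_right
    have hint : U (-1) 1 ≤ U (-1) 2 := fun x hx => segStab_inf (-1) 1 ⟨hx, hsub hx⟩
    have h5 := Nat.le_of_dvd Nat.card_pos (Subgroup.card_dvd_of_le hint)
    rw [hf (-1) 1, hf (-1) 2, hU1, hk'] at h5
    omega
  have hrigid : ∀ N : Subgroup G, N ≤ H → U 1 1 ≤ Subgroup.normalizer (N : Set G) →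
      U 0 1 ≤ Subgroup.normalizer (N : Set G) → U (-1) 1 ≤ Subgroup.normalizer (N : Set G) → N = ⊥ := by
    intro N hN h1 h2 h3
    refine rigid N hN (hTT.trans (sup_le h2 h3)) ?_
    rw [← hg'C]
    intro x hx
    rw [mem_conjH, zpow_one] at hx
    have hx' : x ∈ (U 0 1 ⊔ U (-1) 1).comap (MulAut.conj g'⁻¹).toMonoidHom := by
      refine Subgroup.mem_comap.2 ?_
      simpa [MulAut.conj_apply, mul_assoc] using hTT hx
    have hle : (U 0 1 ⊔ U (-1) 1) ≤ (U 1 1 ⊔ U 0 1).comap (MulAut.conj g').toMonoidHom := by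
      refine sup_le (fun y hy => Subgroup.mem_sup_left ?_) (fun y hy => Subgroup.mem_sup_right ?_)
      · show g' * y * g'⁻¹ ∈ _
        simpa using (segStab_shift (H := H) (g := g') 1 0 1 y).2 hy
      · show g' * y * g'⁻¹ ∈ _
        simpa using (segStab_shift (H := H) (g := g') 1 (-1) 1 y).2 hy
    have h4 : g' * (g'⁻¹ * x * g'⁻¹⁻¹) * g'⁻¹ ∈ U 1 1 ⊔ U 0 1 := hle hx'
    rw [show g' * (g'⁻¹ * x * g'⁻¹⁻¹) * g'⁻¹ = x by group] at h4
    exact sup_le h1 h2 h4
  have hUm : Nat.card (U 0 m) = 1 := by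
    have e : ∀ i, U i (m + 1) = U i m := fun i =>
      Subgroup.eq_of_le_of_card_ge (segStab_left i m) (by rw [hf i m, hf i (m + 1), hmeq])
    have hshift : ∀ i, U i m = U (i + 1) m := fun i =>
      Subgroup.eq_of_le_of_card_ge (e i ▸ segStab_right i m) (by rw [hf i m, hf (i + 1) m])
    have hconst : ∀ i, U i m = U 0 m := by
      intro i
      induction i using Int.inductionOn' (b := (0 : ℤ)) with
      | zero => rfl
      | succ i _ ih => rw [← hshift i]; exact ih
      | pred i _ ih => rw [hshift (i - 1), sub_add_cancel]; exact ih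
    have hnorm : ∀ d, ∀ l, 1 ≤ l → l + d + 1 = m → ∀ i, U i l ≤ Subgroup.normalizer (U 0 m : Set G) := by
      intro d
      induction d with
      | zero =>
        intro l hl hlm i
        obtain rfl : m = l + 1 := by omega
        rw [← hconst i]
        have h1 := hmmin l hl (by omega)
        have hle : U i (l + 1) ≤ U i l := segStab_left i l
        refine (Subgroup.normal_subgroupOf_iff_le_normalizer hle).1 (Subgroup.normal_of_index_eq_two ?_)
        have e' := ((U i (l + 1)).subgroupOf (U i l)).card_mul_index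
        rw [Nat.card_congr (Subgroup.subgroupOfEquivOfLe hle).toEquiv, hf i (l + 1), hf i l, ← h1] at e'
        exact Nat.eq_of_mul_eq_mul_left (Nat.card_pos (α := U 0 (l + 1))) (e'.trans (by ring))
      | succ d ih =>
        intro l hl hlm i
        exact (gen i l hl (by omega)).trans
          (sup_le (ih (l + 1) (by omega) (by omega) i) (ih (l + 1) (by omega) (by omega) (i - 1)))
    have hN : U 0 m ≤ H := fun x hx => by
      simpa using mem_segStab.1 hx 0 (Nat.zero_le m)
    rw [hrigid (U 0 m) hN (hnorm (m - 2) 1 le_rfl (by omega) 1) (hnorm (m - 2) 1 le_rfl (by omega) 0)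
      (hnorm (m - 2) 1 le_rfl (by omega) (-1)), Subgroup.card_bot]
  have hcard : ∀ d l, 1 ≤ l → l + d = m → Nat.card (U 0 l) = 2 ^ d := by
    intro d
    induction d with
    | zero => intro l _ hl; obtain rfl : l = m := by omega
              simpa using hUm
    | succ d ih =>
      intro l hl hlm
      rw [← hmmin l hl (by omega), ih (l + 1) (by omega) (by omega), pow_succ']
  have hk : k' = m - 1 := by
    have := hcard (m - 1) 1 le_rfl (by omega)
    rw [hU1, hk'] at this
    exact Nat.pow_right_injective le_rfl this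
  refine ⟨{
    H := H
    g := g'
    k := m - 1
    W := fun i n => U (-i) (m - n)
    k_pos := by omega
    card_W := fun i n hn => by
      rw [hf (-i) (m - n)]; exact hcard n (m - n) (by omega) (by omega)
    le_left := fun i n hn => by
      have h := segStab_left (H := H) (g := g') (-i) (m - (n + 1))
      rwa [show m - (n + 1) + 1 = m - n by omega] at h
    le_right := fun i n hn => by
      have h := segStab_right (H := H) (g := g') (-(i + 1)) (m - (n + 1))
      rwa [show m - (n + 1) + 1 = m - n by omega, show -(i + 1) + 1 = -i by omega] at h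
    inf_succ := fun i n hn x hx => by
      have h := segStab_inf (H := H) (g := g') (-(i + 1)) (m - (n + 1))
        ⟨hx.2, by rw [show -(i + 1) + 1 = -i by omega]; exact hx.1⟩
      rwa [show m - (n + 1) + 1 = m - n by omega] at h
    shift := fun i n _ x hx => by
      have h := (segStab_shift (H := H) (g := g') 1 (-i) (m - n) x).2 hx
      rwa [zpow_one, show -i + 1 = -(i - 1) by omega] at h
    W0_le := by
      rw [show m - (m - 1) = 1 by omega, neg_zero]
      exact hU0 ▸ hU11 0
    W1_le := by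
      rw [show m - (m - 1) = 1 by omega]
      exact hU0 ▸ segStab_right (-1) 0
    gen := by
      rw [show m - (m - 1) = 1 by omega, neg_zero]
      exact hTT
    card_H := by rw [hH, hk]
    rigid := fun N hN h1 h2 h3 => by
      rw [show m - (m - 1) = 1 by omega] at h1 h2 h3
      rw [neg_neg] at h1
      rw [neg_zero] at h2
      exact hrigid N hN h1 h2 h3 }, rfl⟩

end CfsgLib.Minimal.ArcChain
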