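import Cfsg.Agent.Lib.Minimal.ArcChainBound
import Cfsg.Agent.Lib.SmallGroups.Order24

/-!
The isomorphism types of the vertex stabiliser of a chain with `k ≤ 4`.
-/

set_option autoImplicit false
set_option linter.style.haveILetI false

open scoped commutatorElement

namespace CfsgLib.Minimal.ArcChain

/-- A group of order 12 with a central involution `z` and an involution `s` spanning a non-normal four group
is dihedral, with `z` corresponding to the half turn. -/
theorem dihedral_six {G : Type*} [Group G] [Finite G] (hG : Nat.card G = 12) (z s : G) (hz1 : z ≠ 1)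
    (hz2 : z * z = 1) (hs2 : s * s = 1) (hzc : ∀ x, Commute z x)
    (hnn : ∃ x : G, x * s * x⁻¹ ≠ s ∧ x * s * x⁻¹ ≠ z * s) :
    ∃ e : DihedralGroup 6 ≃* G, e (DihedralGroup.r 3) = z := by
  classical
  haveI : Fact (Nat.Prime 3) := ⟨Nat.prime_three⟩
  obtain ⟨c₀, hc₀⟩ := exists_prime_orderOf_dvd_card' (G := G) 3 (by rw [hG]; norm_num)
  have hzo : orderOf z = 2 := orderOf_eq_prime (by rw [pow_two, hz2]) hz1
  set a := c₀ * z with ha
  have hao : orderOf a = 6 := by
    rw [ha, (hzc c₀).symm.orderOf_mul_eq_mul_orderOf_of_coprime (by rw [hc₀, hzo]; norm_num), hc₀, hzo]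
  have ha6 : a ^ 6 = 1 := hao ▸ pow_orderOf_eq_one a
  have ha3 : a ^ 3 = z := by
    rw [ha, (hzc c₀).symm.mul_pow, ← hc₀, pow_orderOf_eq_one, one_mul, hc₀,
      show (3 : ℕ) = 2 + 1 from rfl, pow_succ, pow_two, hz2, one_mul]
  have hinvs : s⁻¹ = s := inv_eq_of_mul_eq_one_right hs2
  have hs_notin : s ∉ Subgroup.zpowers a := by
    intro hmem
    obtain ⟨x, hx, -⟩ := hnn
    obtain ⟨j, hj⟩ := mem_powers_iff_mem_zpowers.2 hmem
    simp only at hj
    have h2 : a ^ (2 * j) = 1 := by rw [two_mul, pow_add, hj, hs2]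
    rw [← orderOf_dvd_iff_pow_eq_one, hao] at h2
    apply hx
    have hj3 : 3 ∣ j := by omega
    obtain ⟨t, rfl⟩ := hj3
    rw [pow_mul, ha3] at hj
    rw [← hj, ((hzc x).symm.pow_right t).eq, mul_inv_cancel_right]
  have hidx : (Subgroup.zpowers a).index = 2 := by
    have h := (Subgroup.zpowers a).card_mul_index
    rw [Nat.card_zpowers, hao, hG] at h
    omega
  haveI : (Subgroup.zpowers a).Normal := Subgroup.normal_of_index_eq_two hidx
  have hmem : s * a * s⁻¹ ∈ Subgroup.zpowers a :=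
    (inferInstance : (Subgroup.zpowers a).Normal).conj_mem a (Subgroup.mem_zpowers a) s
  have hsa : s * a * s = a⁻¹ := by
    obtain ⟨j, hj⟩ := mem_powers_iff_mem_zpowers.2 hmem
    simp only at hj
    have hord : orderOf (a ^ j) = 6 := by
      have h := MulEquiv.orderOf_eq (MulAut.conj s) a
      rw [MulAut.conj_apply, hao] at h
      rw [hj, h]
    rw [hinvs] at hj
    rw [← hj, ← pow_mod_orderOf, hao]
    rw [← pow_mod_orderOf, hao] at hord
    have h6 : j % 6 < 6 := Nat.mod_lt _ (by norm_num)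
    have hne : j % 6 ≠ 1 := by
      intro h1
      rw [← pow_mod_orderOf, hao, h1, pow_one] at hj
      obtain ⟨x, hx, -⟩ := hnn
      apply hx
      have hca : Commute a s := by
        show a * s = s * a
        nth_rw 1 [hj]
        rw [mul_assoc, hs2, mul_one]
      have hx' : Commute x s := by
        by_cases hxa : x ∈ Subgroup.zpowers a
        · obtain ⟨i, rfl⟩ := Subgroup.mem_zpowers_iff.1 hxa
          exact hca.zpow_left i
        · have : x * s ∈ Subgroup.zpowers a :=
            (Subgroup.mul_mem_iff_of_index_two hidx).2 ⟨fun h => absurd h hxa, fun h => absurd h hs_notin⟩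
          obtain ⟨i, hi⟩ := Subgroup.mem_zpowers_iff.1 this
          have : x = a ^ i * s := by rw [hi, mul_assoc, hs2, mul_one]
          rw [this]
          exact (hca.zpow_left i).mul_left (Commute.refl s)
      rw [hx'.eq, mul_inv_cancel_right]
    rw [orderOf_pow, hao] at hord
    have : j % 6 = 5 := by
      interval_cases hj6 : j % 6 <;> simp_all
    rw [this]
    exact eq_inv_of_mul_eq_one_left (by rw [← pow_succ]; exact ha6)
  let e : ZMod 6 → G := fun i => a ^ i.val
  have eadd : ∀ i j, e (i + j) = e i * e j := fun i j => by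
    show a ^ (i + j).val = a ^ i.val * a ^ j.val
    rw [← pow_add, ZMod.val_add]
    conv_rhs => rw [← pow_mod_orderOf, hao]
  have eneg : ∀ i, e (-i) = (e i)⁻¹ := fun i => eq_inv_of_mul_eq_one_left (by
    rw [← eadd, neg_add_cancel]; show a ^ (0 : ZMod 6).val = 1; rw [ZMod.val_zero, pow_zero])
  have econj : ∀ i, s * e i * s = e (-i) := fun i => by
    rw [eneg]
    show s * a ^ i.val * s = _
    have h := conj_pow (i := i.val) (a := s) (b := a)
    rw [hinvs, hsa, inv_pow] at h
    exact h.symm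
  have esw : ∀ i, e i * s = s * e (-i) := fun i => by
    rw [← econj, ← mul_assoc, ← mul_assoc, hs2, one_mul]
  let f : DihedralGroup 6 → G := fun x => match x with
    | .r i => e i
    | .sr i => s * e i
  have hmul : ∀ x y, f (x * y) = f x * f y := by
    rintro (i | i) (j | j) <;> simp only [DihedralGroup.r_mul_r, DihedralGroup.r_mul_sr,
      DihedralGroup.sr_mul_r, DihedralGroup.sr_mul_sr, f]
    · exact eadd i j
    · rw [← mul_assoc, esw, mul_assoc, ← eadd, neg_add_eq_sub]
    · rw [mul_assoc, ← eadd]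
    · rw [show s * e i * (s * e j) = s * (e i * s) * e j by group, esw, ← mul_assoc, hs2, one_mul,
        ← eadd, neg_add_eq_sub]
  have hinj : Function.Injective (MonoidHom.mk' f hmul) := by
    rw [injective_iff_map_eq_one]
    rintro (i | i) h
    · have h' : a ^ i.val = 1 := h
      rw [← orderOf_dvd_iff_pow_eq_one, hao] at h'
      have := ZMod.val_lt i
      have h0 : i.val = 0 := Nat.eq_zero_of_dvd_of_lt h' this
      rw [(ZMod.val_eq_zero i).1 h0]
      rfl
    · exfalso
      have h' : s * a ^ i.val = 1 := h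
      refine hs_notin ?_
      rw [eq_inv_of_mul_eq_one_left h']
      exact Subgroup.inv_mem _ (Subgroup.pow_mem _ (Subgroup.mem_zpowers a) _)
  refine ⟨MulEquiv.ofBijective _ ((Nat.bijective_iff_injective_and_card _).2
    ⟨hinj, by rw [DihedralGroup.nat_card, hG]⟩), ?_⟩
  show a ^ (3 : ZMod 6).val = z
  exact ha3

namespace Chain

variable {G : Type*} [Group G] (c : Chain G)

theorem finite_H : Finite c.H := Nat.finite_of_card_ne_zero (by rw [c.card_H]; positivity)

theorem y_mem_H {j : ℤ} (h0 : 0 ≤ j) (h1 : j ≤ c.k) : c.y j ∈ c.H :=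
  c.W_le_H h0 (by omega) c.k_pos (c.y_mem j)

theorem H_le_of_gens (S : Subgroup G) (h : ∀ j : ℤ, 0 ≤ j → j ≤ c.k → c.y j ∈ S) : c.H ≤ S :=
  c.gen.trans (sup_le (c.W_le le_rfl S fun j h1 h2 => h j h1 (by omega))
    (c.W_le le_rfl S fun j h1 h2 => h j (by omega) (by omega)))

/-- The largest normal 2-subgroup of the vertex stabiliser. -/
def Q : Subgroup G := c.W 1 (c.k - 1)

theorem Q_le_H : c.Q ≤ c.H := c.W_le_H (by norm_num) (by omega) (by omega)

theorem H_normalizes_Q : c.H ≤ Subgroup.normalizer (c.Q : Set G) := by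
  have hk := c.k_pos
  have h1 := c.normalizes_right 0 (n := c.k - 1) (by omega)
  have h2 := c.normalizes_left 1 (n := c.k - 1) (by omega)
  rw [Nat.sub_add_cancel hk, zero_add] at h1
  rw [Nat.sub_add_cancel hk] at h2
  exact c.gen.trans (sup_le h1 h2)

theorem mul_notMem_Q : c.y 0 * c.y c.k ∉ c.Q := by
  intro h
  have hk := c.k_pos
  have hy0 : c.y 0 ∈ c.W 0 c.k := c.y_mem_W le_rfl le_rfl (by omega)
  have hQ0 : c.Q ≤ c.W 0 c.k := c.W_mono le_rfl (by norm_num) (by omega)
  have h1 : c.y c.k ∈ c.W 0 c.k := by simpa using mul_mem (inv_mem hy0) (hQ0 h)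
  have h2 : c.y c.k ∈ c.W 1 c.k := c.y_mem_W le_rfl (by omega) (by omega)
  have h3 := c.inf_succ 0 (c.k - 1) (by omega) (x := c.y c.k)
  rw [Nat.sub_add_cancel hk, zero_add] at h3
  refine c.not_mem_last (i := 1) (n := c.k - 1) (by omega) ?_
  rw [show (1 : ℤ) + ((c.k - 1 : ℕ) : ℤ) = (c.k : ℤ) by omega]
  exact h3 ⟨h1, h2⟩

theorem y0_notMem_Q : c.y 0 ∉ c.Q := by
  have h := c.not_mem_first (i := 0) (n := c.k - 1) (by have := c.k_pos; omega)
  simpa [Q] using h

theorem yk_notMem_Q : c.y c.k ∉ c.Q := by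
  have h := c.not_mem_last (i := 1) (n := c.k - 1) (by have := c.k_pos; omega)
  rwa [show (1 : ℤ) + ((c.k - 1 : ℕ) : ℤ) = (c.k : ℤ) by have := c.k_pos; omega] at h

theorem sq_or_cube {x : G} (hx : x ∈ c.H) : x ^ 2 ∈ c.Q ∨ x ^ 3 ∈ c.Q := by
  have hk := c.k_pos
  haveI := c.finite_H
  haveI : (c.Q.subgroupOf c.H).Normal :=
    (Subgroup.normal_subgroupOf_iff_le_normalizer c.Q_le_H).2 c.H_normalizes_Q
  have hcard : Nat.card (c.H ⧸ c.Q.subgroupOf c.H) = 6 := by
    have h := Subgroup.card_eq_card_quotient_mul_card_subgroup (c.Q.subgroupOf c.H)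
    rw [Nat.card_congr (Subgroup.subgroupOfEquivOfLe c.Q_le_H).toEquiv, c.card_H,
      show Nat.card c.Q = 2 ^ (c.k - 1) from c.card_W 1 (c.k - 1) (by omega)] at h
    have h2 : 2 ^ c.k = 2 * 2 ^ (c.k - 1) := by rw [← pow_succ', Nat.sub_add_cancel hk]
    rw [h2] at h
    exact Nat.eq_of_mul_eq_mul_right (show 0 < 2 ^ (c.k - 1) by positivity) (by linarith)
  let π := QuotientGroup.mk' (c.Q.subgroupOf c.H)
  set q := π ⟨x, hx⟩ with hq
  have hker : ∀ p : c.H, π p = 1 → (p : G) ∈ c.Q := fun p h =>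
    Subgroup.mem_subgroupOf.1 ((QuotientGroup.eq_one_iff p).1 h)
  by_contra hcon
  push Not at hcon
  have hq2 : q ^ 2 ≠ 1 := fun h => hcon.1 (by
    rw [hq, ← map_pow] at h; simpa using hker _ h)
  have hq3 : q ^ 3 ≠ 1 := fun h => hcon.2 (by
    rw [hq, ← map_pow] at h; simpa using hker _ h)
  have hord : orderOf q = 6 := by
    have hd : orderOf q ∣ 6 := hcard ▸ orderOf_dvd_natCard q
    have hle := Nat.le_of_dvd (by norm_num) hd
    have hpos := orderOf_pos q
    have h2 : ¬ orderOf q ∣ 2 := fun h => hq2 (orderOf_dvd_iff_pow_eq_one.1 h)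
    have h3 : ¬ orderOf q ∣ 3 := fun h => hq3 (orderOf_dvd_iff_pow_eq_one.1 h)
    interval_cases orderOf q <;> simp_all
  have hinv : ∀ j : ℤ, (hj : c.y j ∈ c.H) → c.y j ∉ c.Q → π ⟨c.y j, hj⟩ = q ^ 3 := by
    intro j hj hjQ
    have hmem : π ⟨c.y j, hj⟩ ∈ Subgroup.zpowers q := by
      have htop : Subgroup.zpowers q = ⊤ := Subgroup.eq_top_of_card_eq _ (by rw [Nat.card_zpowers, hord, hcard])
      rw [htop]; exact Subgroup.mem_top _
    obtain ⟨i, hi⟩ := mem_powers_iff_mem_zpowers.2 hmem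
    simp only at hi
    have h2 : q ^ (2 * i) = 1 := by
      rw [two_mul, pow_add, hi, ← map_mul]
      have : (⟨c.y j, hj⟩ * ⟨c.y j, hj⟩ : c.H) = 1 := Subtype.ext (c.y_mul_self j)
      rw [this, map_one]
    rw [← orderOf_dvd_iff_pow_eq_one, hord] at h2
    have hne : q ^ i ≠ 1 := fun h => hjQ ((QuotientGroup.eq_one_iff (N := c.Q.subgroupOf c.H) _).1 (hi.symm.trans h))
    rw [← hi, ← pow_mod_orderOf, hord]
    rw [← pow_mod_orderOf, hord] at hne
    have : i % 6 = 3 := by
      have : i % 6 ≠ 0 := fun h => hne (by rw [h, pow_zero])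
      omega
    rw [this]
  have h0 := c.y_mem_H (j := 0) le_rfl (by omega)
  have hk' := c.y_mem_H (j := c.k) (by omega) le_rfl
  apply c.mul_notMem_Q
  have h1 : π (⟨c.y 0, h0⟩ * ⟨c.y c.k, hk'⟩) = 1 := by
    rw [map_mul, hinv 0 h0 c.y0_notMem_Q, hinv c.k hk' c.yk_notMem_Q, ← pow_add]
    rw [show 3 + 3 = orderOf q by rw [hord]]
    exact pow_orderOf_eq_one q
  exact hker _ h1

theorem Q_commute (hD : c.k ≤ c.D + 1) {p q : G} (hp : p ∈ c.Q) (hq : q ∈ c.Q) : Commute p q :=
  c.commute_windows (i := 1) (j := 1) (by omega) (by omega)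
    (fun a b _ _ _ _ => c.commute_of_lt (by omega) (by omega)) hp hq

theorem Q_sq (hD : c.k ≤ c.D + 1) {p : G} (hp : p ∈ c.Q) : p * p = 1 := by
  let S : Subgroup G :=
    { carrier := {p | p * p = 1 ∧ p ∈ c.Q}
      one_mem' := ⟨one_mul 1, one_mem _⟩
      mul_mem' := fun {p q} hp hq => by
        refine ⟨?_, mul_mem hp.2 hq.2⟩
        calc p * q * (p * q) = p * (q * p) * q := by group
          _ = p * (p * q) * q := by rw [(c.Q_commute hD hp.2 hq.2).eq]
          _ = (p * p) * (q * q) := by group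
          _ = 1 := by rw [hp.1, hq.1, one_mul]
      inv_mem' := fun {p} hp => ⟨by rw [← mul_inv_rev, hp.1, inv_one], inv_mem hp.2⟩ }
  exact (c.W_le (by omega) S (fun j h1 h2 => ⟨c.y_mul_self j, c.y_mem_W (by omega) h1 h2⟩) hp).1

/-- An element of order 3 fixes at most a subgroup of index more than two of `Q`. -/
theorem fixed_small (hk : 3 ≤ c.k) (hD : c.D = c.k - 1) {x : G} (hx : x ∈ c.H) (hx3 : x ^ 3 = 1)
    (hx1 : x ≠ 1) (F : Subgroup G) (hF : F ≤ c.Q) (hFc : ∀ p ∈ F, Commute x p)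
    (hFidx : Nat.card c.Q ≤ 2 * Nat.card F) : False := by
  classical
  haveI := c.finite_H
  haveI hQfin : Finite c.Q := Nat.finite_of_card_ne_zero (by
    rw [show Nat.card c.Q = 2 ^ (c.k - 1) from c.card_W 1 (c.k - 1) (by omega)]; positivity)
  -- `x` centralises `Q`
  have hcen : ∀ p ∈ c.Q, Commute x p := by
    intro p hp
    by_cases hpF : p ∈ F
    · exact hFc p hpF
    have hne : (F.subgroupOf c.Q).index = 2 := by
      have h := (F.subgroupOf c.Q).card_mul_index
      rw [Nat.card_congr (Subgroup.subgroupOfEquivOfLe hF).toEquiv] at h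
      have h1 : (F.subgroupOf c.Q).index ≠ 1 := fun h1 => hpF ((Subgroup.subgroupOf_eq_top.1
        (Subgroup.index_eq_one.1 h1)) hp)
      have h2 : (F.subgroupOf c.Q).index ≠ 0 := Subgroup.index_ne_zero_of_finite
      haveI : Finite F := Finite.of_injective _ (Subgroup.inclusion_injective hF)
      have h3 : (F.subgroupOf c.Q).index ≤ 2 :=
        Nat.le_of_mul_le_mul_left (show Nat.card F * _ ≤ Nat.card F * 2 by linarith) Nat.card_pos
      omega
    have hxQ : ∀ q ∈ c.Q, x * q * x⁻¹ ∈ c.Q := fun q hq =>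
      (Subgroup.mem_normalizer_iff.1 (c.H_normalizes_Q hx) q).1 hq
    have hpF' : x * p * x⁻¹ ∉ F := by
      intro h
      apply hpF
      have h2 := hFc _ h
      have h3 : x * p * x⁻¹ = p := by
        calc x * p * x⁻¹ = x⁻¹ * (x * (x * p * x⁻¹)) := by group
          _ = x⁻¹ * ((x * p * x⁻¹) * x) := by rw [h2.eq]
          _ = p := by group
      rwa [h3] at h
    set f := p⁻¹ * (x * p * x⁻¹) with hf
    have hfF : f ∈ F := (Subgroup.mul_mem_iff_of_index_two hne (a := (⟨p⁻¹, inv_mem hp⟩ : c.Q))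
      (b := ⟨x * p * x⁻¹, hxQ p hp⟩)).2
      ⟨fun h => absurd (F.inv_mem_iff.1 h) hpF, fun h => absurd h hpF'⟩
    have hxp : x * p * x⁻¹ = p * f := by rw [hf, mul_inv_cancel_left]
    have hxf : x * f * x⁻¹ = f := by rw [(hFc f hfF).eq, mul_inv_cancel_right]
    have h3 : p * f * f * f = p := by
      have e1 : x * (x * (x * p * x⁻¹) * x⁻¹) * x⁻¹ = x ^ 3 * p * (x ^ 3)⁻¹ := by simp [pow_succ, mul_assoc]
      rw [hx3, one_mul, inv_one, mul_one, hxp, show x * (p * f) * x⁻¹ = (x * p * x⁻¹) * (x * f * x⁻¹) by group,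
        hxp, hxf, show x * (p * f * f) * x⁻¹ = (x * p * x⁻¹) * (x * f * x⁻¹) * (x * f * x⁻¹) by group,
        hxp, hxf] at e1
      exact e1
    have hf1 : f = 1 := by
      rwa [mul_assoc _ f f, c.Q_sq (by omega) (hF hfF), mul_one, mul_eq_left] at h3
    rw [hf1, mul_one, mul_inv_eq_iff_eq_mul] at hxp
    exact hxp
  -- so the centraliser of `Q` has index two, and contains `y 0 * y k`
  set C := Subgroup.centralizer (c.Q : Set G) ⊓ c.H with hC
  have hQC : c.Q ≤ C := le_inf (fun p hp => Subgroup.mem_centralizer_iff.2 fun q hq =>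
    (c.Q_commute (by omega) hq hp).eq) c.Q_le_H
  have hxC : x ∈ C := ⟨Subgroup.mem_centralizer_iff.2 fun q hq => (hcen q hq).eq.symm, hx⟩
  have hmove0 : ¬ Commute (c.y 0) (c.y ((c.k - 1 : ℕ) : ℤ)) := by
    have h := c.not_commute_D 0
    rwa [hD, zero_add] at h
  have hmovek : ¬ Commute (c.y 1) (c.y (c.k : ℤ)) := by
    have h := c.not_commute_D 1
    rwa [hD, show (1 : ℤ) + ((c.k - 1 : ℕ) : ℤ) = (c.k : ℤ) by omega] at h
  have hy0 : c.y 0 ∉ C := fun h => hmove0
    ((Subgroup.mem_centralizer_iff.1 h.1 (c.y ((c.k - 1 : ℕ) : ℤ)) (c.y_mem_W (by omega) (by omega) (by omega))).symm)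
  have hyk : c.y c.k ∉ C := fun h => hmovek
    (Subgroup.mem_centralizer_iff.1 h.1 (c.y 1) (c.y_mem_W (by omega) le_rfl (by omega)))
  haveI : Finite C := Finite.of_injective _ (Subgroup.inclusion_injective (inf_le_right : C ≤ c.H))
  have hidx : (C.subgroupOf c.H).index = 2 := by
    have h := (C.subgroupOf c.H).card_mul_index
    rw [Nat.card_congr (Subgroup.subgroupOfEquivOfLe (inf_le_right : C ≤ c.H)).toEquiv, c.card_H] at h
    have h2 : 2 ^ (c.k - 1) ∣ Nat.card C := by
      rw [← show Nat.card c.Q = 2 ^ (c.k - 1) from c.card_W 1 (c.k - 1) (by omega)]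
      exact Subgroup.card_dvd_of_le hQC
    have h3 : 3 ∣ Nat.card C := by
      have ho : orderOf x = 3 := haveI : Fact (Nat.Prime 3) := ⟨Nat.prime_three⟩; orderOf_eq_prime hx3 hx1
      have := orderOf_dvd_natCard (⟨x, hxC⟩ : C)
      rwa [Subgroup.orderOf_mk, ho] at this
    have h6 : 3 * 2 ^ (c.k - 1) ∣ Nat.card C :=
      Nat.Coprime.mul_dvd_of_dvd_of_dvd (Nat.Coprime.pow_right _ (by norm_num)) h3 h2
    obtain ⟨t, ht⟩ := h6
    have hk2 : 2 ^ c.k = 2 * 2 ^ (c.k - 1) := by rw [← pow_succ', Nat.sub_add_cancel c.k_pos]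
    rw [ht, hk2] at h
    have hmul : t * (C.subgroupOf c.H).index = 2 :=
      Nat.eq_of_mul_eq_mul_left (show 0 < 3 * 2 ^ (c.k - 1) by positivity) (by linarith)
    rcases (Nat.dvd_prime Nat.prime_two).1 ⟨t, hmul.symm.trans (mul_comm _ _)⟩ with h1 | h1
    · exact absurd ((Subgroup.subgroupOf_eq_top.1 (Subgroup.index_eq_one.1 h1)) (c.y_mem_H le_rfl (by omega))) hy0
    · exact h1
  have hprod : c.y 0 * c.y c.k ∈ C := (Subgroup.mul_mem_iff_of_index_two hidx
    (a := (⟨c.y 0, c.y_mem_H le_rfl (by omega)⟩ : c.H)) (b := ⟨c.y c.k, c.y_mem_H (by omega) le_rfl⟩)).2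
    ⟨fun h => absurd h hy0, fun h => absurd h hyk⟩
  have h1 := Subgroup.mem_centralizer_iff.1 hprod.1 (c.y 1) (c.y_mem_W (by omega) le_rfl (by omega))
  have h01 : Commute (c.y 0) (c.y 1) := c.commute_of_lt (by omega) (by omega)
  apply hmovek
  show c.y 1 * c.y c.k = c.y c.k * c.y 1
  apply mul_left_cancel (a := c.y 0)
  calc c.y 0 * (c.y 1 * c.y c.k) = c.y 1 * (c.y 0 * c.y c.k) := by rw [← mul_assoc, h01.eq, mul_assoc]
    _ = (c.y 0 * c.y c.k) * c.y 1 := h1
    _ = _ := mul_assoc _ _ _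

theorem eq_central_of_fixed (hk4 : c.k = 4) (hD : c.D = 3) {x p : G} (hx : x ∈ c.H) (hx3 : x ^ 3 = 1)
    (hx1 : x ≠ 1) (hp : p ∈ c.Q) (hxp : Commute x p) : p = 1 ∨ p = c.y 2 := by
  classical
  by_contra h
  push Not at h
  obtain ⟨hp1, hp2⟩ := h
  have hy2 : c.y 2 ∈ c.Q := c.y_mem_W (by omega) (by omega) (by omega)
  have hxy2 : Commute x (c.y 2) := Subgroup.mem_centralizer_singleton_iff.1
    (c.H_le_of_gens (Subgroup.centralizer {c.y 2}) (fun j h0 h4 => Subgroup.mem_centralizer_singleton_iff.2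
      (c.commute_of_lt (a := j) (b := 2) (by omega) (by omega)).eq) hx)
  refine c.fixed_small (by omega) (by omega) hx hx3 hx1 (Subgroup.centralizer {x} ⊓ c.Q) inf_le_right
    (fun q hq => (Subgroup.mem_centralizer_singleton_iff.1 hq.1).symm) ?_
  haveI : Finite c.Q := Nat.finite_of_card_ne_zero (by
    rw [show Nat.card c.Q = 2 ^ (c.k - 1) from c.card_W 1 (c.k - 1) (by omega)]; positivity)
  haveI : Finite ↥(Subgroup.centralizer {x} ⊓ c.Q) :=
    Finite.of_injective _ (Subgroup.inclusion_injective inf_le_right)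
  rw [show Nat.card c.Q = 2 ^ (c.k - 1) from c.card_W 1 (c.k - 1) (by omega), hk4]
  set F := Subgroup.centralizer {x} ⊓ c.Q
  have hpF : p ∈ F := ⟨Subgroup.mem_centralizer_singleton_iff.2 hxp.symm.eq, hp⟩
  have hyF : c.y 2 ∈ F := ⟨Subgroup.mem_centralizer_singleton_iff.2 hxy2.symm.eq, hy2⟩
  have hsub : ({1, p, c.y 2, p * c.y 2} : Finset G) ⊆ (Set.toFinite (F : Set G)).toFinset := by
    intro a ha
    simp only [Finset.mem_insert, Finset.mem_singleton] at ha
    rw [Set.Finite.mem_toFinset]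
    rcases ha with rfl | rfl | rfl | rfl
    · exact one_mem F
    · exact hpF
    · exact hyF
    · exact mul_mem hpF hyF
  have h4 := Finset.card_le_card hsub
  rw [← Set.ncard_eq_toFinset_card (F : Set G), ← Nat.card_coe_set_eq] at h4
  change _ ≤ Nat.card F at h4
  have hne : p * c.y 2 ≠ 1 := fun h => hp2 ((mul_eq_one_iff_eq_inv.1 h).trans (c.y_inv 2))
  have hcard : ({1, p, c.y 2, p * c.y 2} : Finset G).card = 4 := by
    rw [Finset.card_insert_of_notMem, Finset.card_insert_of_notMem, Finset.card_insert_of_notMem,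
      Finset.card_singleton]
    · simp [eq_comm, hp1]
    · simp [hp2, c.y_ne 2]
    · simp [Ne.symm hp1, Ne.symm (c.y_ne 2), Ne.symm hne]
  rw [hcard] at h4
  norm_num
  omega

theorem iso_one (hk : c.k = 1) : Nonempty (c.H ≃* Equiv.Perm (Fin 3)) := by
  haveI := c.finite_H
  set T := (c.W 0 c.k).subgroupOf c.H with hT
  have hcH : Nat.card c.H = 6 := by rw [c.card_H, hk]; norm_num
  have hcT : Nat.card T = 2 := by
    rw [hT, Nat.card_congr (Subgroup.subgroupOfEquivOfLe c.W0_le).toEquiv, c.card_W 0 c.k le_rfl, hk, pow_one]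
  have hidx : T.index = 3 := by
    have h := T.card_mul_index
    rw [hcT, hcH] at h
    omega
  have hcore : T.normalCore = ⊥ := by
    have hd := Subgroup.card_dvd_of_le T.normalCore_le
    rw [hcT] at hd
    rcases (Nat.dvd_prime Nat.prime_two).1 hd with h | h
    · exact Subgroup.card_eq_one.1 h
    · exfalso
      have heq : T.normalCore = T := Subgroup.eq_of_le_of_card_ge T.normalCore_le (by rw [h, hcT])
      have hn : T.Normal := heq ▸ inferInstance
      exact c.sylow_not_normal (c.W1_le.trans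
        ((Subgroup.normal_subgroupOf_iff_le_normalizer c.W0_le).1 hn))
  let φ := MulAction.toPermHom c.H (c.H ⧸ T)
  have hinj : Function.Injective φ := by
    rw [← MonoidHom.ker_eq_bot_iff, ← Subgroup.normalCore_eq_ker]; exact hcore
  have hΩ : Nat.card (c.H ⧸ T) = 3 := hidx
  have hbij : Function.Bijective φ := (Nat.bijective_iff_injective_and_card φ).2
    ⟨hinj, by rw [hcH, Nat.card_perm, hΩ]; rfl⟩
  exact ⟨(MulEquiv.ofBijective φ hbij).trans (Finite.equivFinOfCardEq hΩ).permCongrHom⟩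

theorem iso_two (hk : c.k = 2) : Nonempty (c.H ≃* DihedralGroup 6) := by
  haveI := c.finite_H
  have hD : c.D = 2 := by have := c.two_le_D (by omega); have := c.D_le; omega
  have h1 := c.y_mem_H (j := 1) (by norm_num) (by omega)
  have h0 := c.y_mem_H (j := 0) le_rfl (by omega)
  obtain ⟨e, -⟩ := dihedral_six (G := c.H) (by rw [c.card_H, hk]; norm_num) ⟨c.y 1, h1⟩ ⟨c.y 0, h0⟩
    (fun h => c.y_ne 1 (congrArg Subtype.val h)) (Subtype.ext (c.y_mul_self 1))
    (Subtype.ext (c.y_mul_self 0))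
    (fun x => Subtype.ext ((Subgroup.mem_centralizer_singleton_iff.1
      (c.H_le_of_gens (Subgroup.centralizer {c.y 1}) (fun j h0 h2 => Subgroup.mem_centralizer_singleton_iff.2
        (c.commute_of_lt (a := j) (b := 1) (by omega) (by omega)).eq) x.2)).symm))
    (by
      by_contra hall
      push Not at hall
      refine c.sylow_not_normal fun x hx => Subgroup.mem_normalizer_iff.2 ?_
      have hxH := c.W1_le hx
      have key : c.W 0 c.k ≤ (c.W 0 c.k).comap (MulAut.conj x).toMonoidHom :=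
        c.W_le le_rfl _ fun j hj1 hj2 => by
          show x * c.y j * x⁻¹ ∈ c.W 0 c.k
          by_cases hj : j = 1
          · have hc : Commute x (c.y 1) := c.commute_windows (i := 1) (n := c.k) (j := 1) (l := 1) le_rfl c.k_pos
              (fun a b _ _ _ _ => c.commute_of_lt (by omega) (by omega)) hx (c.y_mem 1)
            rw [hj, hc.eq, mul_inv_cancel_right]
            exact c.y_mem_W le_rfl (by omega) (by omega)
          · obtain rfl : j = 0 := by omega
            by_cases h : x * c.y 0 * x⁻¹ = c.y 0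
            · rw [h]; exact c.y_mem_W le_rfl le_rfl (by omega)
            · have h' := congrArg Subtype.val (hall ⟨x, hxH⟩ fun he => h (congrArg Subtype.val he))
              simp only [Subgroup.coe_mul, Subgroup.coe_inv] at h'
              rw [h']
              exact mul_mem (c.y_mem_W le_rfl (by omega) (by omega)) (c.y_mem_W le_rfl le_rfl (by omega))
      have heq : c.W 0 c.k = (c.W 0 c.k).comap (MulAut.conj x).toMonoidHom := by
        haveI : Finite (c.W 0 c.k) := Nat.finite_of_card_ne_zero (by rw [c.card_W 0 c.k le_rfl]; positivity)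
        haveI : Finite ((c.W 0 c.k).comap (MulAut.conj x).toMonoidHom) :=
          Finite.of_injective (fun z => (⟨MulAut.conj x z, z.2⟩ : c.W 0 c.k)) fun a b hab =>
            Subtype.ext ((MulAut.conj x).injective (congrArg Subtype.val hab))
        refine Subgroup.eq_of_le_of_card_ge key (Nat.card_le_card_of_injective
          (fun z => (⟨MulAut.conj x z, z.2⟩ : c.W 0 c.k)) fun a b hab =>
            Subtype.ext ((MulAut.conj x).injective (congrArg Subtype.val hab)))
      intro z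
      constructor
      · intro hz; exact key hz
      · intro hz; rw [heq]; exact hz)
  exact ⟨e.symm⟩

theorem iso_three (hk : c.k = 3) : Nonempty (c.H ≃* Equiv.Perm (Fin 4)) := by
  haveI := c.finite_H
  have hD : c.D = 2 := by
    have := c.two_D_le (by omega); have := c.two_k_le (by omega); omega
  refine CfsgLib.SmallGroups.nonempty_mulEquiv_perm_four (by rw [c.card_H, hk]; norm_num) fun x hx => ?_
  have hx' : orderOf (x : G) = 6 := by rw [Subgroup.orderOf_coe]; exact hx
  have hQ2 : ∀ {p : G}, p ∈ c.Q → p * p = 1 := fun hp => c.Q_sq (by omega) hp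
  rcases c.sq_or_cube x.2 with h | h
  · have h2 := hQ2 h
    rw [← pow_add, ← orderOf_dvd_iff_pow_eq_one, hx'] at h2
    norm_num at h2
  · have hne3 : (x : G) ^ 3 ≠ 1 := fun h' => by
      rw [← orderOf_dvd_iff_pow_eq_one, hx'] at h'; norm_num at h'
    have hne2 : (x : G) ^ 2 ≠ 1 := fun h' => by
      rw [← orderOf_dvd_iff_pow_eq_one, hx'] at h'; norm_num at h'
    haveI : Finite c.Q := Nat.finite_of_card_ne_zero (by
      rw [show Nat.card c.Q = 2 ^ (c.k - 1) from c.card_W 1 (c.k - 1) (by omega)]; positivity)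
    refine c.fixed_small (by omega) (by omega) (c.H.pow_mem x.2 2)
      (by rw [← pow_mul, ← orderOf_dvd_iff_pow_eq_one, hx']) hne2
      (Subgroup.zpowers ((x : G) ^ 3)) (Subgroup.zpowers_le.2 h) (fun p hp => ?_) ?_
    · obtain ⟨i, rfl⟩ := Subgroup.mem_zpowers_iff.1 hp
      exact (Commute.pow_pow_self (x : G) 2 3).zpow_right i
    · have ho : orderOf ((x : G) ^ 3) = 2 := orderOf_eq_prime (by rw [pow_two]; exact hQ2 h) hne3
      rw [Nat.card_zpowers, ho, show Nat.card c.Q = 2 ^ (c.k - 1) from c.card_W 1 (c.k - 1) (by omega), hk]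
      norm_num

theorem commutator_zero_three (hk : c.k = 4) (hD : c.D = 3) : ⁅c.y 0, c.y 3⁆ = c.y 1 * c.y 2 := by
  have hω : ⁅c.y 0, c.y 3⁆ ∈ c.W 1 2 := by
    simpa using c.commutator_y_mem (i := 0) (n := 3) (by omega) (by omega)
  have hω1 : ⁅c.y 0, c.y 3⁆ ≠ 1 := fun h => c.not_commute_D 0 (by
    rw [hD]; simpa [Commute, SemiconjBy] using commutatorElement_eq_one_iff_mul_comm.1 h)
  have hcm : ∀ a b : ℤ, a - b < 3 → b - a < 3 → Commute (c.y a) (c.y b) := fun a b h1 h2 =>
    c.commute_of_lt (by omega) (by omega)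
  have hfix : ∀ a b : ℤ, a - b < 3 → b - a < 3 → c.y a * c.y b * c.y a = c.y b := fun a b h1 h2 => by
    rw [(hcm a b h1 h2).eq, mul_assoc, c.y_mul_self, mul_one]
  have hc14 : ∀ w : G, c.g * w * c.g⁻¹ = ⁅c.y 0, c.y 3⁆ → ⁅c.y 1, c.y 4⁆ = w := by
    intro w hw
    have h : c.g * ⁅c.y 1, c.y 4⁆ * c.g⁻¹ = c.g * w * c.g⁻¹ := by
      rw [hw, show c.g * ⁅c.y 1, c.y 4⁆ * c.g⁻¹ = ⁅c.g * c.y 1 * c.g⁻¹, c.g * c.y 4 * c.g⁻¹⁆ by
        rw [commutatorElement_def, commutatorElement_def]; group, c.y_shift, c.y_shift]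
      norm_num
    exact mul_left_cancel (mul_right_cancel h)
  have act : ∀ a b w : ℤ, ⁅c.y a, c.y b⁆ = c.y w → c.y a * c.y b * c.y a = c.y w * c.y b := by
    intro a b w h
    rw [← h, commutatorElement_def, c.y_inv, c.y_inv, mul_assoc _ (c.y b) (c.y b), c.y_mul_self, mul_one]
  have act' : ∀ a b w : ℤ, ⁅c.y a, c.y b⁆ = c.y w → c.y b * c.y a * c.y b = c.y a * c.y w := by
    intro a b w h
    rw [← h, commutatorElement_def, c.y_inv, c.y_inv, ← mul_assoc, ← mul_assoc, ← mul_assoc, c.y_mul_self,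
      one_mul]
  -- `u = y 0 * y 4` would act on `Q` with order four
  have hno : ∀ p r₁ r₂ r₃ : G, p ∈ c.Q → (c.y 0 * c.y 4) * p * (c.y 0 * c.y 4)⁻¹ = r₁ →
      (c.y 0 * c.y 4) * r₁ * (c.y 0 * c.y 4)⁻¹ = r₂ → (c.y 0 * c.y 4) * r₂ * (c.y 0 * c.y 4)⁻¹ = r₃ →
      r₂ ≠ p → r₃ ≠ p → False := by
    intro p r₁ r₂ r₃ hp h1 h2 h3 hne2 hne3
    set u := c.y 0 * c.y 4
    have hu : u ∈ c.H := c.H.mul_mem (c.y_mem_H le_rfl (by omega)) (c.y_mem_H (by norm_num) (by omega))
    rcases c.sq_or_cube hu with h | h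
    · apply hne2
      rw [← h2, ← h1, show u * (u * p * u⁻¹) * u⁻¹ = u ^ 2 * p * (u ^ 2)⁻¹ by simp [pow_succ, mul_assoc],
        (c.Q_commute (by omega) h hp).eq, mul_inv_cancel_right]
    · apply hne3
      rw [← h3, ← h2, ← h1, show u * (u * (u * p * u⁻¹) * u⁻¹) * u⁻¹ = u ^ 3 * p * (u ^ 3)⁻¹ by simp [pow_succ, mul_assoc],
        (c.Q_commute (by omega) h hp).eq, mul_inv_cancel_right]
  have huconj : ∀ p : G, (c.y 0 * c.y 4) * p * (c.y 0 * c.y 4)⁻¹ = c.y 0 * (c.y 4 * p * c.y 4) * c.y 0 := fun p => by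
    rw [mul_inv_rev, c.y_inv, c.y_inv]; group
  have hsplit : ∀ a : ℤ, ∀ p q : G, c.y a * (p * q) * c.y a = (c.y a * p * c.y a) * (c.y a * q * c.y a) :=
    fun a p q => by
      rw [show c.y a * p * c.y a * (c.y a * q * c.y a) = c.y a * p * (c.y a * c.y a) * q * c.y a by group,
        c.y_mul_self, mul_one, mul_assoc (c.y a) p q]
  have hsq : c.y 2 * c.y 2 = 1 := c.y_mul_self 2
  have e0 : c.W 1 2 ≤ c.W 1 (1 + 1) := le_rfl
  rcases c.mem_or_mul_mem_last (i := 1) (n := 1) (by omega) (e0 hω) with h | h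
  · exfalso
    rcases c.eq_or_eq h with h' | h'
    · exact hω1 h'
    · have h14 : ⁅c.y 1, c.y 4⁆ = c.y 2 := hc14 _ (by rw [c.y_shift, h']; norm_num)
      -- here `y 0` sends `y 3` to `y 1 * y 3`
      have k1 : (c.y 0 * c.y 4) * c.y 1 * (c.y 0 * c.y 4)⁻¹ = c.y 1 * c.y 2 := by
        rw [huconj, act' 1 4 2 h14, hsplit, hfix 0 1 (by norm_num) (by norm_num),
          hfix 0 2 (by norm_num) (by norm_num)]
      have k2 : (c.y 0 * c.y 4) * c.y 3 * (c.y 0 * c.y 4)⁻¹ = c.y 1 * c.y 3 := by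
        rw [huconj, hfix 4 3 (by norm_num) (by norm_num), act 0 3 1 h']
      have k3 : (c.y 0 * c.y 4) * c.y 2 * (c.y 0 * c.y 4)⁻¹ = c.y 2 := by
        rw [huconj, hfix 4 2 (by norm_num) (by norm_num), hfix 0 2 (by norm_num) (by norm_num)]
      refine hno (c.y 3) (c.y 1 * c.y 3) (c.y 1 * c.y 2 * (c.y 1 * c.y 3))
        (c.y 1 * c.y 2 * c.y 2 * (c.y 1 * c.y 2 * (c.y 1 * c.y 3)))
        (c.y_mem_W (by omega) (by norm_num) (by omega)) k2 ?_ ?_ ?_ ?_
      · rw [← conj_mul, k1, k2]
      · rw [← conj_mul, ← conj_mul, ← conj_mul, k1, k2, k3]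
      · intro he
        apply c.y_ne 2
        rw [(hcm 1 2 (by norm_num) (by norm_num)).eq, mul_assoc, ← mul_assoc (c.y 1), c.y_mul_self, one_mul] at he
        exact mul_eq_right.1 he
      · intro he
        apply c.y_ne 1
        rw [mul_assoc (c.y 1) (c.y 2) (c.y 2), hsq, mul_one, ← mul_assoc, ← mul_assoc, ← mul_assoc,
          c.y_mul_self, one_mul, (hcm 2 1 (by norm_num) (by norm_num)).eq] at he
        exfalso
        have h5 : c.y 1 * c.y 2 ∈ c.W 1 2 := mul_mem (c.y_mem_W (by omega) (by norm_num) (by omega))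
          (c.y_mem_W (by omega) (by norm_num) (by omega))
        have h6 := mul_eq_right.1 he
        rw [mul_eq_one_iff_eq_inv, c.y_inv] at h6
        exact c.not_mem_first (i := 1) (n := 1) (by omega) (h6.symm ▸ c.y_mem 2)
  · rcases c.eq_or_eq h with h' | h'
    · exfalso
      norm_num at h'
      have h'' : ⁅c.y 0, c.y 3⁆ = c.y 2 := by rw [mul_eq_one_iff_eq_inv.1 h', c.y_inv]
      have h14 : ⁅c.y 1, c.y 4⁆ = c.y 3 := hc14 _ (by rw [c.y_shift, h'']; norm_num)
      have k1 : (c.y 0 * c.y 4) * c.y 1 * (c.y 0 * c.y 4)⁻¹ = c.y 1 * (c.y 2 * c.y 3) := by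
        rw [huconj, act' 1 4 3 h14, hsplit, hfix 0 1 (by norm_num) (by norm_num), act 0 3 2 h'']
      have k2 : (c.y 0 * c.y 4) * c.y 3 * (c.y 0 * c.y 4)⁻¹ = c.y 2 * c.y 3 := by
        rw [huconj, hfix 4 3 (by norm_num) (by norm_num), act 0 3 2 h'']
      have k3 : (c.y 0 * c.y 4) * c.y 2 * (c.y 0 * c.y 4)⁻¹ = c.y 2 := by
        rw [huconj, hfix 4 2 (by norm_num) (by norm_num), hfix 0 2 (by norm_num) (by norm_num)]
      refine hno (c.y 1) (c.y 1 * (c.y 2 * c.y 3)) (c.y 1 * (c.y 2 * c.y 3) * (c.y 2 * (c.y 2 * c.y 3)))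
        (c.y 1 * (c.y 2 * c.y 3) * (c.y 2 * (c.y 2 * c.y 3)) * (c.y 2 * (c.y 2 * (c.y 2 * c.y 3))))
        (c.y_mem_W (by omega) le_rfl (by omega)) k1 ?_ ?_ ?_ ?_
      · rw [← conj_mul, ← conj_mul, k1, k2, k3]
      · rw [← conj_mul, ← conj_mul, ← conj_mul, ← conj_mul, ← conj_mul, k1, k2, k3]
      · intro he
        apply c.y_ne 2
        rw [← mul_assoc (c.y 2) (c.y 2), hsq, one_mul, mul_assoc, mul_assoc, c.y_mul_self, mul_one] at he
        exact mul_eq_left.1 he
      · intro he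
        rw [← mul_assoc (c.y 2) (c.y 2), hsq, one_mul, mul_assoc (c.y 1), mul_assoc (c.y 2) (c.y 3) (c.y 3),
          c.y_mul_self, mul_one, mul_assoc (c.y 1), ← mul_assoc (c.y 2), hsq, one_mul] at he
        exact c.y_ne 3 (mul_eq_left.1 he)
    · norm_num at h'
      rw [← h', mul_assoc, c.y_mul_self, mul_one]

/-- Conjugation preserving a subgroup generated by two elements. -/
theorem closure_pair_normalized {x a b : G} (hx : x * x = 1) (ha : x * a * x ∈ Subgroup.closure ({a, b} : Set G))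
    (hb : x * b * x ∈ Subgroup.closure ({a, b} : Set G)) :
    x ∈ Subgroup.normalizer ((Subgroup.closure ({a, b} : Set G) : Subgroup G) : Set G) := by
  have hle : Subgroup.closure ({a, b} : Set G) ≤
      (Subgroup.closure ({a, b} : Set G)).comap (MulAut.conj x).toMonoidHom := by
    rw [Subgroup.closure_le]
    intro p hp
    show x * p * x⁻¹ ∈ Subgroup.closure ({a, b} : Set G)
    rw [inv_eq_of_mul_eq_one_right hx]
    rcases hp with rfl | rfl
    · exact ha
    · exact hb
  refine Subgroup.mem_normalizer_iff.2 fun p => ⟨fun hp => hle hp, fun hp => ?_⟩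
  have h : x * (x * p * x⁻¹) * x⁻¹ ∈ Subgroup.closure ({a, b} : Set G) := hle hp
  rwa [inv_eq_of_mul_eq_one_right hx, show x * (x * p * x) * x = (x * x) * p * (x * x) by group, hx, one_mul,
    mul_one] at h

theorem iso_four (hk : c.k = 4) :
    Nonempty (c.H ≃* Equiv.Perm (Fin 4) × Multiplicative (ZMod 2)) := by
  classical
  haveI := c.finite_H
  have hD : c.D = 3 := by
    have := c.two_D_le (by omega); have := c.two_k_le (by omega); omega
  have hcm : ∀ a b : ℤ, a - b < 3 → b - a < 3 → Commute (c.y a) (c.y b) := fun a b h1 h2 =>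
    c.commute_of_lt (by omega) (by omega)
  have hfix : ∀ a b : ℤ, a - b < 3 → b - a < 3 → c.y a * c.y b * c.y a = c.y b := fun a b h1 h2 => by
    rw [(hcm a b h1 h2).eq, mul_assoc, c.y_mul_self, mul_one]
  have hsplit : ∀ a : ℤ, ∀ p q : G, c.y a * (p * q) * c.y a = (c.y a * p * c.y a) * (c.y a * q * c.y a) :=
    fun a p q => by
      rw [show c.y a * p * c.y a * (c.y a * q * c.y a) = c.y a * p * (c.y a * c.y a) * q * c.y a by group,
        c.y_mul_self, mul_one, mul_assoc (c.y a) p q]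
  have hω := c.commutator_zero_three hk hD
  have h14 : ⁅c.y 1, c.y 4⁆ = c.y 2 * c.y 3 := by
    have h : c.g * ⁅c.y 1, c.y 4⁆ * c.g⁻¹ = c.g * (c.y 2 * c.y 3) * c.g⁻¹ := by
      rw [show c.g * ⁅c.y 1, c.y 4⁆ * c.g⁻¹ = ⁅c.g * c.y 1 * c.g⁻¹, c.g * c.y 4 * c.g⁻¹⁆ by
        rw [commutatorElement_def, commutatorElement_def]; group, ← conj_mul, c.y_shift, c.y_shift, c.y_shift,
        c.y_shift]
      norm_num [hω]
    exact mul_left_cancel (mul_right_cancel h)
  have a03 : c.y 0 * c.y 3 * c.y 0 = c.y 1 * c.y 2 * c.y 3 := by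
    rw [← hω, commutatorElement_def, c.y_inv, c.y_inv, mul_assoc _ (c.y 3) (c.y 3), c.y_mul_self, mul_one]
  have a41 : c.y 4 * c.y 1 * c.y 4 = c.y 1 * (c.y 2 * c.y 3) := by
    rw [← h14, commutatorElement_def, c.y_inv, c.y_inv, ← mul_assoc, ← mul_assoc, ← mul_assoc, c.y_mul_self,
      one_mul]
  set a := c.y 1 * c.y 2 with ha
  set b := c.y 2 * c.y 3 with hb
  set W := Subgroup.closure ({a, b} : Set G) with hW
  have haW : a ∈ W := Subgroup.subset_closure (Set.mem_insert _ _)
  have hbW : b ∈ W := Subgroup.subset_closure (Set.mem_insert_of_mem _ rfl)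
  have hy2Q : c.y 2 ∈ c.Q := c.y_mem_W (by omega) (by norm_num) (by omega)
  have hWQ : W ≤ c.Q := by
    rw [hW, Subgroup.closure_le]
    rintro p (rfl | rfl)
    · exact mul_mem (c.y_mem_W (by omega) le_rfl (by omega)) hy2Q
    · exact mul_mem hy2Q (c.y_mem_W (by omega) (by norm_num) (by omega))
  have hQc : ∀ {p q : G}, p ∈ c.Q → q ∈ c.Q → Commute p q := fun hp hq => c.Q_commute (by omega) hp hq
  have hQ2 : ∀ {p : G}, p ∈ c.Q → p * p = 1 := fun hp => c.Q_sq (by omega) hp
  have hWH : c.H ≤ Subgroup.normalizer (W : Set G) := by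
    refine c.H_le_of_gens _ fun j h0 h4 => ?_
    refine closure_pair_normalized (c.y_mul_self j) ?_ ?_
    · obtain rfl | rfl | rfl | rfl | rfl : j = 0 ∨ j = 1 ∨ j = 2 ∨ j = 3 ∨ j = 4 := by omega
      · rw [ha, hsplit, hfix 0 1 (by norm_num) (by norm_num), hfix 0 2 (by norm_num) (by norm_num)]; exact haW
      · rw [ha, hsplit, hfix 1 1 (by norm_num) (by norm_num), hfix 1 2 (by norm_num) (by norm_num)]; exact haW
      · rw [ha, hsplit, hfix 2 1 (by norm_num) (by norm_num), hfix 2 2 (by norm_num) (by norm_num)]; exact haW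
      · rw [ha, hsplit, hfix 3 1 (by norm_num) (by norm_num), hfix 3 2 (by norm_num) (by norm_num)]; exact haW
      · rw [ha, hsplit, a41, hfix 4 2 (by norm_num) (by norm_num)]
        have : c.y 1 * (c.y 2 * c.y 3) * c.y 2 = a * b := by
          rw [ha, hb]
          calc c.y 1 * (c.y 2 * c.y 3) * c.y 2 = c.y 1 * c.y 2 * (c.y 3 * c.y 2) := by group
            _ = c.y 1 * c.y 2 * (c.y 2 * c.y 3) := by rw [(hcm 3 2 (by norm_num) (by norm_num)).eq]
        rw [this]; exact mul_mem haW hbW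
    · obtain rfl | rfl | rfl | rfl | rfl : j = 0 ∨ j = 1 ∨ j = 2 ∨ j = 3 ∨ j = 4 := by omega
      · rw [hb, hsplit, hfix 0 2 (by norm_num) (by norm_num), a03]
        have : c.y 2 * (c.y 1 * c.y 2 * c.y 3) = a * b := by
          rw [ha, hb]
          calc c.y 2 * (c.y 1 * c.y 2 * c.y 3) = (c.y 2 * c.y 1) * (c.y 2 * c.y 3) := by group
            _ = c.y 1 * c.y 2 * (c.y 2 * c.y 3) := by rw [(hcm 2 1 (by norm_num) (by norm_num)).eq]
        rw [this]; exact mul_mem haW hbW
      · rw [hb, hsplit, hfix 1 2 (by norm_num) (by norm_num), hfix 1 3 (by norm_num) (by norm_num)]; exact hbW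
      · rw [hb, hsplit, hfix 2 2 (by norm_num) (by norm_num), hfix 2 3 (by norm_num) (by norm_num)]; exact hbW
      · rw [hb, hsplit, hfix 3 2 (by norm_num) (by norm_num), hfix 3 3 (by norm_num) (by norm_num)]; exact hbW
      · rw [hb, hsplit, hfix 4 2 (by norm_num) (by norm_num), hfix 4 3 (by norm_num) (by norm_num)]; exact hbW
  -- `W` has four elements and avoids `y 2`
  have haQ : a ∈ c.Q := hWQ haW
  have hbQ : b ∈ c.Q := hWQ hbW
  let V : Subgroup G :=
    { carrier := {p | p = 1 ∨ p = a ∨ p = b ∨ p = a * b}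
      one_mem' := Or.inl rfl
      mul_mem' := by
        have hab : b * a = a * b := (hQc hbQ haQ).eq
        have haa := hQ2 haQ
        have hbb := hQ2 hbQ
        have h1 : a * (a * b) = b := by rw [← mul_assoc, haa, one_mul]
        have h2 : b * (a * b) = a := by rw [← mul_assoc, hab, mul_assoc, hbb, mul_one]
        have h3 : a * b * a = b := by rw [mul_assoc, hab, h1]
        have h4 : a * b * b = a := by rw [mul_assoc, hbb, mul_one]
        have h5 : a * b * (a * b) = 1 := by rw [mul_assoc, h2, haa]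
        rintro p q (rfl | rfl | rfl | rfl) (rfl | rfl | rfl | rfl) <;>
          simp [haa, hbb, hab, h1, h2, h3, h4, h5]
      inv_mem' := by
        have hab : b * a = a * b := (hQc hbQ haQ).eq
        rintro p (rfl | rfl | rfl | rfl)
        · simp
        · right; left; exact inv_eq_of_mul_eq_one_right (hQ2 haQ)
        · right; right; left; exact inv_eq_of_mul_eq_one_right (hQ2 hbQ)
        · right; right; right; exact inv_eq_of_mul_eq_one_right (hQ2 (mul_mem haQ hbQ)) }
  have hWV : ∀ p ∈ W, p = 1 ∨ p = a ∨ p = b ∨ p = a * b := fun p hp =>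
    ((Subgroup.closure_le V).2 (by
      rintro q (rfl | rfl)
      · exact Or.inr (Or.inl rfl)
      · exact Or.inr (Or.inr (Or.inl rfl))) : W ≤ V) hp
  have hn1 : c.y 1 ∉ c.W 2 2 := c.not_mem_first (i := 1) (n := 2) (by omega)
  have hy22 : c.y 2 ∈ c.W 2 2 := c.y_mem_W (by omega) le_rfl (by omega)
  have hy32 : c.y 3 ∈ c.W 2 2 := c.y_mem_W (by omega) (by norm_num) (by omega)
  have hb22 : b ∈ c.W 2 2 := mul_mem hy22 hy32
  have ha22 : a ∉ c.W 2 2 := fun h => hn1 (by simpa [ha] using mul_mem h (inv_mem hy22))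
  have hab22 : a * b ∉ c.W 2 2 := fun h => ha22 (by simpa using mul_mem h (inv_mem hb22))
  have hb1 : b ≠ 1 := fun h => by
    rw [hb, mul_eq_one_iff_eq_inv, c.y_inv] at h
    exact c.not_mem_first (i := 2) (n := 1) (by omega) (h ▸ c.y_mem 3)
  have hy2W : c.y 2 ∉ W := by
    intro h
    rcases hWV _ h with h | h | h | h
    · exact c.y_ne 2 h
    · exact ha22 (h ▸ hy22)
    · exact c.y_ne 3 (mul_eq_left.1 h.symm)
    · exact hab22 (h ▸ hy22)
  haveI hWfin : Finite c.Q := Nat.finite_of_card_ne_zero (by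
    rw [show Nat.card c.Q = 2 ^ (c.k - 1) from c.card_W 1 (c.k - 1) (by omega)]; positivity)
  haveI : Finite W := Finite.of_injective _ (Subgroup.inclusion_injective hWQ)
  have hWcard : Nat.card W = 4 := by
    have hd := Subgroup.card_dvd_of_le hWQ
    rw [show Nat.card c.Q = 2 ^ (c.k - 1) from c.card_W 1 (c.k - 1) (by omega), hk] at hd
    have hle : Nat.card W ≠ 8 := fun h8 => hy2W (by
      rw [Subgroup.eq_of_le_of_card_ge hWQ (by
        rw [h8, show Nat.card c.Q = 2 ^ (c.k - 1) from c.card_W 1 (c.k - 1) (by omega), hk]; norm_num)]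
      exact hy2Q)
    have hge : 3 ≤ Nat.card W := by
      have hsub : ({1, a, b} : Finset G) ⊆ (Set.toFinite (W : Set G)).toFinset := by
        intro p hp
        simp only [Finset.mem_insert, Finset.mem_singleton] at hp
        rw [Set.Finite.mem_toFinset]
        rcases hp with rfl | rfl | rfl
        · exact one_mem W
        · exact haW
        · exact hbW
      have h3 := Finset.card_le_card hsub
      rw [← Set.ncard_eq_toFinset_card (W : Set G), ← Nat.card_coe_set_eq] at h3
      change _ ≤ Nat.card W at h3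
      have ha1 : a ≠ 1 := fun h => ha22 (h ▸ one_mem _)
      have hab' : a ≠ b := fun h => ha22 (h ▸ hb22)
      rw [Finset.card_insert_of_notMem, Finset.card_insert_of_notMem, Finset.card_singleton] at h3
      · exact h3
      · simp [hab']
      · simp [Ne.symm ha1, Ne.symm hb1]
    have hle8 := Nat.le_of_dvd (by norm_num) hd
    interval_cases hc : Nat.card W <;> simp_all
  -- the quotient by `W` is dihedral
  have hWleH : W ≤ c.H := hWQ.trans c.Q_le_H
  haveI : (W.subgroupOf c.H).Normal := (Subgroup.normal_subgroupOf_iff_le_normalizer hWleH).2 hWH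
  let π := QuotientGroup.mk' (W.subgroupOf c.H)
  have hcard12 : Nat.card (c.H ⧸ W.subgroupOf c.H) = 12 := by
    have h := Subgroup.card_eq_card_quotient_mul_card_subgroup (W.subgroupOf c.H)
    rw [Nat.card_congr (Subgroup.subgroupOfEquivOfLe hWleH).toEquiv, c.card_H, hWcard, hk] at h
    omega
  have h2H := c.y_mem_H (j := 2) (by norm_num) (by omega)
  have h0H := c.y_mem_H (j := 0) le_rfl (by omega)
  have h4H := c.y_mem_H (j := 4) (by norm_num) (by omega)
  have hcen : ∀ x ∈ c.H, Commute (c.y 2) x := fun x hx =>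
    (Subgroup.mem_centralizer_singleton_iff.1
      (c.H_le_of_gens (Subgroup.centralizer {c.y 2}) (fun j h0 h4 => Subgroup.mem_centralizer_singleton_iff.2
        (hcm j 2 (by omega) (by omega)).eq) hx)).symm
  obtain ⟨e, he⟩ := dihedral_six hcard12 (π ⟨c.y 2, h2H⟩) (π ⟨c.y 0, h0H⟩)
    (fun h => hy2W (Subgroup.mem_subgroupOf.1 ((QuotientGroup.eq_one_iff (⟨c.y 2, h2H⟩ : c.H)).1 h)))
    (by rw [← map_mul]; exact congrArg π (Subtype.ext (c.y_mul_self 2)) |>.trans (map_one π))
    (by rw [← map_mul]; exact congrArg π (Subtype.ext (c.y_mul_self 0)) |>.trans (map_one π))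
    (fun x => by
      induction x using QuotientGroup.induction_on with
      | _ z =>
        show π _ * π z = π z * π _
        rw [← map_mul, ← map_mul]
        exact congrArg π (Subtype.ext (hcen z z.2).eq))
    (by
      refine ⟨π ⟨c.y 4, h4H⟩, ?_⟩
      have hW0 : W ≤ c.W 0 c.k := hWQ.trans (c.W_mono le_rfl (by norm_num) (by omega))
      have hy00 : c.y 0 ∈ c.W 0 c.k := c.y_mem_W le_rfl le_rfl (by omega)
      have hy20 : c.y 2 ∈ c.W 0 c.k := c.y_mem_W le_rfl (by norm_num) (by omega)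
      have key : c.y 4 * c.y 0 * c.y 4 ∉ c.W 0 c.k := by
        intro hmem
        refine c.sylow_not_normal ?_
        refine c.W_le le_rfl _ fun j hj1 hj2 => ?_
        by_cases hj : j = 4
        · subst hj
          have hle : c.W 0 c.k ≤ (c.W 0 c.k).comap (MulAut.conj (c.y 4)).toMonoidHom :=
            c.W_le le_rfl _ fun i hi1 hi2 => by
              show c.y 4 * c.y i * (c.y 4)⁻¹ ∈ c.W 0 c.k
              rw [c.y_inv]
              by_cases hi : i = 0
              · subst hi; exact hmem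
              · have hiQ : c.y i ∈ c.Q := c.y_mem_W (by omega) (by omega) (by omega)
                have hQ0 : c.Q ≤ c.W 0 c.k := c.W_mono le_rfl (by norm_num) (by omega)
                have h := (Subgroup.mem_normalizer_iff.1 (c.H_normalizes_Q h4H) _).1 hiQ
                rw [c.y_inv] at h
                exact hQ0 h
          refine Subgroup.mem_normalizer_iff.2 fun p => ⟨fun hp => hle hp, fun hp => ?_⟩
          have h : c.y 4 * (c.y 4 * p * (c.y 4)⁻¹) * (c.y 4)⁻¹ ∈ c.W 0 c.k := hle hp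
          rwa [c.y_inv, show c.y 4 * (c.y 4 * p * c.y 4) * c.y 4 = (c.y 4 * c.y 4) * p * (c.y 4 * c.y 4) by group,
            c.y_mul_self, one_mul, mul_one] at h
        · exact Subgroup.le_normalizer (c.y_mem_W le_rfl (by omega) (by omega))
      have hrel : ∀ w : G, (hw : w ∈ c.H) → w ∈ c.W 0 c.k →
          π ⟨c.y 4, h4H⟩ * π ⟨c.y 0, h0H⟩ * (π ⟨c.y 4, h4H⟩)⁻¹ ≠ π ⟨w, hw⟩ := by
        intro w hw hw0 heq
        rw [← map_inv, ← map_mul, ← map_mul] at heq
        have h := QuotientGroup.eq.1 heq.symm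
        rw [Subgroup.mem_subgroupOf] at h
        apply key
        have h' := mul_mem hw0 (hW0 h)
        simp only [Subgroup.coe_mul, Subgroup.coe_inv, mul_inv_cancel_left, c.y_inv] at h'
        exact h'
      refine ⟨hrel (c.y 0) h0H hy00, ?_⟩
      rw [← map_mul π ⟨c.y 2, h2H⟩]
      exact hrel (c.y 2 * c.y 0) (mul_mem h2H h0H) (mul_mem hy20 hy00))
  -- the parity character
  let par : DihedralGroup 6 →* Multiplicative (ZMod 2) := MonoidHom.mk'
    (fun x => match x with
      | .r i => Multiplicative.ofAdd (i.val : ZMod 2)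
      | .sr i => Multiplicative.ofAdd (i.val : ZMod 2))
    (by decide)
  let χ : c.H →* Multiplicative (ZMod 2) := par.comp (e.symm.toMonoidHom.comp π)
  have hχ2 : χ ⟨c.y 2, h2H⟩ = Multiplicative.ofAdd (1 : ZMod 2) := by
    show par (e.symm (π ⟨c.y 2, h2H⟩)) = _
    rw [← he, e.symm_apply_apply]
    rfl
  have hχsurj : Function.Surjective χ := fun t => by
    have : t = 1 ∨ t = Multiplicative.ofAdd (1 : ZMod 2) := by revert t; decide
    rcases this with rfl | rfl
    · exact ⟨1, map_one χ⟩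
    · exact ⟨_, hχ2⟩
  have hS : Nat.card χ.ker = 24 := by
    have h := Subgroup.card_eq_card_quotient_mul_card_subgroup χ.ker
    rw [Nat.card_congr (QuotientGroup.quotientKerEquivOfSurjective χ hχsurj).toEquiv, c.card_H, hk,
      show Nat.card (Multiplicative (ZMod 2)) = 2 by simp] at h
    omega
  obtain ⟨eS⟩ := CfsgLib.SmallGroups.nonempty_mulEquiv_perm_four hS fun x hx => by
    have hx' : orderOf ((x : c.H) : G) = 6 := by
      rw [Subgroup.orderOf_coe, Subgroup.orderOf_coe]; exact hx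
    set p := ((x : c.H) : G) with hp
    rcases c.sq_or_cube (x : c.H).2 with h | h
    · have h2 := hQ2 h
      rw [← pow_add, ← orderOf_dvd_iff_pow_eq_one, hx'] at h2
      norm_num at h2
    · have hne2 : p ^ 2 ≠ 1 := fun h' => by
        rw [← orderOf_dvd_iff_pow_eq_one, hx'] at h'; norm_num at h'
      rcases c.eq_central_of_fixed hk hD (c.H.pow_mem (x : c.H).2 2)
        (by rw [← pow_mul, ← orderOf_dvd_iff_pow_eq_one, hx']) hne2 h (Commute.pow_pow_self p 2 3) with h3 | h3
      · rw [← orderOf_dvd_iff_pow_eq_one, hx'] at h3; norm_num at h3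
      · have : χ ((x : c.H) ^ 3) = 1 := by rw [map_pow, show χ (x : c.H) = 1 from x.2, one_pow]
        rw [show ((x : c.H) ^ 3) = (⟨c.y 2, h2H⟩ : c.H) from Subtype.ext h3, hχ2] at this
        exact absurd this (by decide)
  -- the product decomposition
  let z : c.H := ⟨c.y 2, h2H⟩
  let ψ : c.H → χ.ker × Multiplicative (ZMod 2) := fun x =>
    (⟨x * z ^ (Multiplicative.toAdd (χ x)).val, by
      rw [MonoidHom.mem_ker, map_mul, map_pow, hχ2]
      have : ∀ t : Multiplicative (ZMod 2),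
          t * Multiplicative.ofAdd (1 : ZMod 2) ^ (Multiplicative.toAdd t).val = 1 := by decide
      exact this _⟩, χ x)
  have hz2 : z * z = 1 := Subtype.ext (c.y_mul_self 2)
  have hzpow : ∀ s t : Multiplicative (ZMod 2), z ^ (Multiplicative.toAdd (s * t)).val =
      z ^ (Multiplicative.toAdd s).val * z ^ (Multiplicative.toAdd t).val := fun s t => by
    rw [← pow_add, toAdd_mul, ZMod.val_add]
    exact (pow_eq_pow_mod _ (by rw [pow_two, hz2])).symm
  have hψmul : ∀ x y, ψ (x * y) = ψ x * ψ y := fun x y => by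
    refine Prod.ext (Subtype.ext ?_) (map_mul χ x y)
    show x * y * z ^ (Multiplicative.toAdd (χ (x * y))).val = _
    rw [map_mul, hzpow]
    show _ = x * z ^ _ * (y * z ^ _)
    have hc : Commute (z ^ (Multiplicative.toAdd (χ x)).val) y :=
      (show Commute z y from Subtype.ext (hcen y y.2).eq).pow_left _
    rw [mul_assoc x, mul_assoc x, ← mul_assoc y, ← hc.eq, mul_assoc]
  have hψinj : Function.Injective ψ := fun x y h => by
    have h2 : χ x = χ y := congrArg Prod.snd h
    have h1 : x * z ^ (Multiplicative.toAdd (χ x)).val = y * z ^ (Multiplicative.toAdd (χ y)).val :=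
      congrArg (fun q : χ.ker × Multiplicative (ZMod 2) => (q.1 : c.H)) h
    rw [h2] at h1
    exact mul_right_cancel h1
  have hbij : Function.Bijective (MonoidHom.mk' ψ hψmul) := (Nat.bijective_iff_injective_and_card _).2
    ⟨hψinj, by rw [c.card_H, hk, Nat.card_prod, hS]; simp⟩
  exact ⟨(MulEquiv.ofBijective _ hbij).trans (eS.prodCongr (MulEquiv.refl _))⟩

end Chain

end CfsgLib.Minimal.ArcChain
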