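import Mathlib
import Cfsg.Agent.Lib.CoprimeAction.Abelian
import Cfsg.Agent.Lib.CoprimeAction.Aut

/-!
Generation of a group of odd order by the fixed points of a four-group of automorphisms.
-/

set_option autoImplicit false
set_option linter.style.haveILetI false

namespace CfsgLib.Minimal.AutGeneration

/-- If `u, v` generate a four-group of automorphisms of a group of odd order and the fixed points in the
invariant subgroup `W` of `u`, `v`, `u * v` lie in `H`, then `W ≤ H`. -/
theorem le_of_fixed {P : Type*} [Group P] [Finite P] (hodd : Odd (Nat.card P)) {u v : MulAut P}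
    (hu : u * u = 1) (hv : v * v = 1) (huv : u * v = v * u) (hu1 : u ≠ 1) (hv1 : v ≠ 1) (hne : u ≠ v)
    {W H : Subgroup P} (hWu : ∀ w ∈ W, u w ∈ W) (hWv : ∀ w ∈ W, v w ∈ W)
    (hfu : ∀ w ∈ W, u w = w → w ∈ H) (hfv : ∀ w ∈ W, v w = w → w ∈ H)
    (hfuv : ∀ w ∈ W, (u * v) w = w → w ∈ H) : W ≤ H := by
  let J : Subgroup (MulAut P) := Subgroup.closure {u, v}
  let φ : ↥J →* MulAut P := J.subtype
  haveI := CfsgLib.CoprimeAction.finite_semidirect φ
  let x : P ⋊[φ] J := SemidirectProduct.inr ⟨u, Subgroup.subset_closure (Set.mem_insert u {v})⟩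
  let y : P ⋊[φ] J := SemidirectProduct.inr ⟨v, Subgroup.subset_closure (Set.mem_insert_of_mem u rfl)⟩
  let i : P →* P ⋊[φ] J := SemidirectProduct.inl
  have hinv : ∀ a : J, ∀ w ∈ W, φ a w ∈ W := by
    rintro ⟨a, ha⟩
    have hS : ∀ b : MulAut P, b ∈ ({u, v} : Set (MulAut P)) → ∀ w ∈ W, b w ∈ W ∧ b⁻¹ w ∈ W := by
      rintro b (rfl | rfl) w hw
      · exact ⟨hWu w hw, by rw [inv_eq_of_mul_eq_one_right hu]; exact hWu w hw⟩
      · exact ⟨hWv w hw, by rw [inv_eq_of_mul_eq_one_right hv]; exact hWv w hw⟩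
    suffices h : ∀ w ∈ W, a w ∈ W ∧ a⁻¹ w ∈ W from fun w hw => (h w hw).1
    induction ha using Subgroup.closure_induction with
    | mem b hb => exact hS b hb
    | one => intro w hw; exact ⟨hw, by rwa [inv_one]⟩
    | mul b c _ _ hb hc =>
      intro w hw
      exact ⟨(hb _ (hc w hw).1).1, by rw [mul_inv_rev]; exact (hc _ (hb w hw).2).2⟩
    | inv b _ hb => intro w hw; exact ⟨(hb w hw).2, by rw [inv_inv]; exact (hb w hw).1⟩
  have hinj : Function.Injective i := SemidirectProduct.inl_injective
  have hnorm : ∀ a : J, (SemidirectProduct.inr a : P ⋊[φ] J) ∈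
      Subgroup.normalizer ((W.map i : Subgroup (P ⋊[φ] J)) : Set (P ⋊[φ] J)) := fun a =>
    CfsgLib.CoprimeAction.inr_le_normalizer_map_inl hinv ⟨a, rfl⟩
  have hcopW : (Nat.card (W.map i)).Coprime 2 := by
    rw [Subgroup.card_map_of_injective hinj]
    exact (hodd.of_dvd_nat W.card_subgroup_dvd_card).coprime_two_right
  have hder : ∀ z : MulAut P, ∀ hz : z ∈ J, ∀ w : P,
      i w ∈ Subgroup.centralizer ({(SemidirectProduct.inr ⟨z, hz⟩ : P ⋊[φ] J)} : Set _) → z w = w := by
    intro z hz w hw
    have h := (Subgroup.mem_centralizer_iff.1 hw) _ rfl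
    apply hinj
    have e : i (φ ⟨z, hz⟩ w) = SemidirectProduct.inr ⟨z, hz⟩ * i w * (SemidirectProduct.inr ⟨z, hz⟩)⁻¹ :=
      (SemidirectProduct.inl_aut (φ := φ) ⟨z, hz⟩ w).trans (by rw [map_inv])
    calc i (z w) = _ := e
      _ = i w := by rw [h, mul_inv_cancel_right]
  have hxy : x * y = y * x := by
    simp only [x, y, ← map_mul]
    exact congrArg _ (Subtype.ext huv)
  have hinjr : Function.Injective (SemidirectProduct.inr : J →* P ⋊[φ] J) := SemidirectProduct.inr_injective
  let A : Subgroup (P ⋊[φ] J) := Subgroup.closure {x, y}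
  haveI : IsMulCommutative A := Subgroup.isMulCommutative_closure (by
    rintro a (rfl | rfl) b (rfl | rfl) <;> first | rfl | exact hxy | exact hxy.symm)
  have hu2 : x * x = 1 := by
    simp only [x, ← map_mul]
    rw [show (⟨u, _⟩ : J) * ⟨u, _⟩ = 1 from Subtype.ext hu, map_one]
  have hv2 : y * y = 1 := by
    simp only [y, ← map_mul]
    rw [show (⟨v, _⟩ : J) * ⟨v, _⟩ = 1 from Subtype.ext hv, map_one]
  have hx1 : x ≠ 1 := fun h => hu1 (congrArg Subtype.val (hinjr (h.trans (map_one _).symm)))
  have hy1 : y ≠ 1 := fun h => hv1 (congrArg Subtype.val (hinjr (h.trans (map_one _).symm)))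
  have hxy1 : x ≠ y := fun h => hne (congrArg Subtype.val (hinjr h))
  have hmem : ∀ z ∈ A, z = 1 ∨ z = x ∨ z = y ∨ z = x * y := by
    intro z hz
    obtain ⟨m, n, rfl⟩ : ∃ m n : ℤ, x ^ m * y ^ n = z := by
      induction hz using Subgroup.closure_induction with
      | mem b hb =>
        rcases hb with rfl | rfl
        · exact ⟨1, 0, by simp⟩
        · exact ⟨0, 1, by simp⟩
      | one => exact ⟨0, 0, by simp⟩
      | mul b c _ _ hb hc =>
        obtain ⟨m, n, rfl⟩ := hb; obtain ⟨m', n', rfl⟩ := hc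
        refine ⟨m + m', n + n', ?_⟩
        have : y ^ n * x ^ m' = x ^ m' * y ^ n :=
          ((show Commute x y from hxy).zpow_zpow m' n).eq.symm
        rw [zpow_add, zpow_add, mul_assoc, ← mul_assoc (x ^ m') (y ^ n), ← this]
        group
      | inv b _ hb =>
        obtain ⟨m, n, rfl⟩ := hb
        refine ⟨-m, -n, ?_⟩
        rw [mul_inv_rev, zpow_neg, zpow_neg]
        exact ((show Commute x y from hxy).zpow_zpow m n).inv_inv.eq
    have red : ∀ (g : P ⋊[φ] J), g * g = 1 → ∀ k : ℤ, g ^ k = 1 ∨ g ^ k = g := by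
      intro g hg k
      rw [zpow_eq_zpow_emod (n := 2) k (by rw [zpow_two, hg])]
      rcases Int.emod_two_eq_zero_or_one k with h | h <;> rw [h]
      · exact Or.inl (zpow_zero g)
      · exact Or.inr (zpow_one g)
    rcases red x hu2 m with h | h <;> rcases red y hv2 n with h' | h' <;> rw [h, h'] <;> simp
  have hle : W.map i ≤ H.map i := by
    refine CfsgLib.CoprimeAction.le_of_centralizers (A := A) ?_ ?_ ?_ ?_
    · intro hcy
      obtain ⟨⟨g, hg⟩, hgen⟩ := IsCyclic.exists_generator (α := A)
      have hg2 : g * g = 1 := by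
        rcases hmem g hg with rfl | rfl | rfl | rfl
        · simp
        · exact hu2
        · exact hv2
        · rw [mul_assoc, ← mul_assoc y, ← hxy, ← mul_assoc, ← mul_assoc, hu2, one_mul, hv2]
      have hall : ∀ z ∈ A, z = 1 ∨ z = g := by
        intro z hz
        obtain ⟨k, hk⟩ := Subgroup.mem_zpowers_iff.1 (hgen ⟨z, hz⟩)
        have hk' : g ^ k = z := congrArg Subtype.val hk
        rw [← hk', zpow_eq_zpow_emod (n := 2) k (by rw [zpow_two, hg2])]
        rcases Int.emod_two_eq_zero_or_one k with h | h <;> rw [h]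
        · exact Or.inl (zpow_zero g)
        · exact Or.inr (zpow_one g)
      have hxg := (hall x (Subgroup.subset_closure (Set.mem_insert x {y}))).resolve_left hx1
      have hyg := (hall y (Subgroup.subset_closure (Set.mem_insert_of_mem x rfl))).resolve_left hy1
      exact hxy1 (hxg.trans hyg.symm)
    · refine (Subgroup.closure_le _).2 ?_
      rintro z (rfl | rfl) <;> exact hnorm _
    · refine Nat.Coprime.coprime_dvd_left ?_ (hcopW.symm.pow_left 2)
      have h4 : (A : Set (P ⋊[φ] J)) ⊆ {1, x, y, x * y} := fun z hz => by simpa using hmem z hz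
      have hA : Nat.card A ∣ 2 ^ 2 := by
        have h2 : IsPGroup 2 A := by
          rintro ⟨z, hz⟩
          refine ⟨1, Subtype.ext ?_⟩
          show z ^ 2 ^ 1 = 1
          rw [pow_one, pow_two]
          rcases hmem z hz with rfl | rfl | rfl | rfl
          · simp
          · exact hu2
          · exact hv2
          · show x * y * (x * y) = 1
            rw [mul_assoc, ← mul_assoc y, ← hxy, ← mul_assoc, ← mul_assoc, hu2, one_mul, hv2]
        obtain ⟨k, hk⟩ := IsPGroup.iff_card.1 h2
        have hcard : Nat.card A ≤ 4 := by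
          rw [← SetLike.coe_sort_coe, Nat.card_coe_set_eq]
          refine (Set.ncard_le_ncard h4 (Set.toFinite _)).trans ?_
          refine (Set.ncard_insert_le _ _).trans ?_
          refine (Nat.add_le_add_right (Set.ncard_insert_le _ _) 1).trans ?_
          refine (Nat.add_le_add_right (Nat.add_le_add_right (Set.ncard_insert_le _ _) 1) 1).trans ?_
          simp
        rw [hk]
        refine Nat.pow_dvd_pow 2 ?_
        by_contra hk2
        have : 2 ^ 3 ≤ 2 ^ k := Nat.pow_le_pow_right (by norm_num) (by omega)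
        omega
      exact hA
    · intro z hz hz1
      rintro _ ⟨⟨w, hw, rfl⟩, hcz⟩
      refine ⟨w, ?_, rfl⟩
      rcases hmem z hz with rfl | rfl | rfl | rfl
      · exact absurd rfl hz1
      · exact hfu w hw (hder u _ w hcz)
      · exact hfv w hw (hder v _ w hcz)
      · refine hfuv w hw ?_
        simp only [x, y, ← map_mul] at hcz
        exact hder (u * v) _ w hcz
  intro w hw
  obtain ⟨h, hh, he⟩ := hle ⟨w, hw, rfl⟩
  exact hinj he ▸ hh

end CfsgLib.Minimal.AutGeneration
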