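import Cfsg.Agent.Lib.NormalPComplement.ThompsonTwo
import Cfsg.Agent.Lib.NormalPComplement.GlaubermanThompson
import Cfsg.Agent.Lib.PSolvable.Basic
import Mathlib

/-!
A group in which the elements of order prime to `p` centralise every characteristic subgroup of a Sylow
`p`-subgroup that they normalise has a normal `p`-complement (order prime to 3 when `p = 2`); and Hall
subgroups for two primes in `p`-solvable groups.
-/

set_option autoImplicit false
set_option linter.style.haveILetI false

open Cfsg

universe u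

namespace CfsgLib.Minimal

open CfsgLib.NormalPComplement

/-- `K` is a characteristic subgroup of `P`, both viewed in the ambient group. -/
def CharIn {G : Type*} [Group G] (P K : Subgroup G) : Prop :=
  ∃ K' : Subgroup P, K'.Characteristic ∧ K'.map P.subtype = K

/-- Elements of order prime to `p` centralise the characteristic subgroups of `P` they normalise. -/
def Quiet (p : ℕ) {G : Type*} [Group G] (P : Subgroup G) : Prop :=
  ∀ K : Subgroup G, CharIn P K → ∀ x ∈ Subgroup.normalizer (K : Set G), (orderOf x).Coprime p →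
    x ∈ Subgroup.centralizer (K : Set G)

variable {p : ℕ}

theorem CharIn.le {G : Type*} [Group G] {P K : Subgroup G} (h : CharIn P K) : K ≤ P := by
  obtain ⟨K', -, rfl⟩ := h
  exact Subgroup.map_subtype_le K'

theorem CharIn.normalizer_le {G : Type*} [Group G] {P K : Subgroup G} (h : CharIn P K) :
    Subgroup.normalizer (P : Set G) ≤ Subgroup.normalizer (K : Set G) := by
  obtain ⟨K', hK', rfl⟩ := h
  intro g hg
  rw [Subgroup.mem_normalizer_iff]
  have key : ∀ g ∈ Subgroup.normalizer (P : Set G), ∀ x ∈ K'.map P.subtype,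
      g * x * g⁻¹ ∈ K'.map P.subtype := by
    rintro g hg _ ⟨y, hy, rfl⟩
    let c : MulAut P :=
      { toFun := fun z => ⟨g * z * g⁻¹, (Subgroup.mem_normalizer_iff.1 hg z).1 z.2⟩
        invFun := fun z => ⟨g⁻¹ * z * g⁻¹⁻¹, (Subgroup.mem_normalizer_iff.1 (inv_mem hg) z).1 z.2⟩
        left_inv := fun z => Subtype.ext (by simp [mul_assoc])
        right_inv := fun z => Subtype.ext (by simp [mul_assoc])
        map_mul' := fun z w => Subtype.ext (by simp [mul_assoc]) }
    refine ⟨c y, ?_, rfl⟩
    rw [← Subgroup.characteristic_iff_map_eq.1 hK' c]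
    exact ⟨y, hy, rfl⟩
  refine fun x => ⟨key g hg x, fun hx => ?_⟩
  have h := key g⁻¹ (inv_mem hg) _ hx
  rwa [show g⁻¹ * (g * x * g⁻¹) * g⁻¹⁻¹ = x by group] at h

/-- A functorial subgroup is characteristic. -/
theorem charIn_of_functor (W : ∀ (H : Type u) [Group H], Subgroup H → Subgroup H)
    (hW : ∀ (H H' : Type u) [Group H] [Group H'] (f : H →* H') (T : Subgroup H),
      Function.Injective f → W H' (T.map f) = (W H T).map f)
    {G : Type u} [Group G] (P : Subgroup G) : CharIn P (W G P) := by
  have htop : (⊤ : Subgroup P).map P.subtype = P := by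
    rw [← MonoidHom.range_eq_map, Subgroup.range_subtype]
  have h1 : W G P = (W P ⊤).map P.subtype := by rw [← hW _ _ _ _ P.subtype_injective, htop]
  refine ⟨W P ⊤, Subgroup.characteristic_iff_map_eq.2 fun φ => ?_, h1.symm⟩
  rw [← hW _ _ φ.toMonoidHom ⊤ φ.injective, Subgroup.map_top_of_surjective _ φ.surjective]

theorem charIn_center {G : Type u} [Group G] (P : Subgroup G) :
    CharIn P (P ⊓ Subgroup.centralizer (P : Set G)) :=
  charIn_of_functor (fun _ _ T => T ⊓ Subgroup.centralizer (T : Set _))
    (fun _ _ _ _ f T hf => (ThompsonJ.map_inf_centralizer hf T).symm) P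

theorem charIn_thompsonA {G : Type u} [Group G] (P : Subgroup G) :
    CharIn P (thompsonSubgroupAOf P) :=
  charIn_of_functor (fun _ _ T => thompsonSubgroupAOf T)
    (fun _ _ _ _ _ T hf => (map_thompsonSubgroupAOf hf T).symm) P

variable [hp : Fact p.Prime]

/-- The `p'`-part of a lift. -/
theorem exists_lift_coprime {G H : Type*} [Group G] [Finite G] [Group H] (f : G →* H) {x : G}
    (hx : (orderOf (f x)).Coprime p) : ∃ i : ℕ, f (x ^ i) = f x ∧ (orderOf (x ^ i)).Coprime p := by
  obtain ⟨a, b, hab, ⟨k, hk⟩, hb⟩ := exists_pParts (p := p) (isOfFinOrder_of_finite x)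
  refine ⟨b, ?_, hb⟩
  have h1 : orderOf (f (x ^ a)) = 1 := by
    refine Nat.eq_one_of_dvd_coprimes (hx.pow_right k) ?_ ((orderOf_map_dvd f _).trans hk)
    rw [map_pow]; exact orderOf_pow_dvd a
  rw [orderOf_eq_one_iff] at h1
  calc f (x ^ b) = f (x ^ a) * f (x ^ b) := by rw [h1, one_mul]
    _ = f x := by rw [← map_mul, hab]

/-- A subgroup containing a Sylow `p`-subgroup and the `p'`-elements is everything. -/
theorem le_of_sylow_of_coprime {G : Type*} [Group G] [Finite G] (P : Sylow p G) {L M : Subgroup G}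
    (hPL : (P : Subgroup G) ≤ L) (hPM : (P : Subgroup G) ≤ M)
    (h : ∀ x ∈ L, (orderOf x).Coprime p → x ∈ M) : L ≤ M := by
  rw [← Subgroup.relIndex_eq_one]
  by_contra hne
  obtain ⟨l, hl, hld⟩ := Nat.exists_prime_and_dvd hne
  rcases eq_or_ne l p with rfl | hlp
  · exact (P.subtype hPL).not_dvd_index (hld.trans (Subgroup.index_dvd_of_le
      (show ((P.subtype hPL : Sylow l L) : Subgroup L) ≤ M.subgroupOf L from fun z hz => hPM hz)))
  · haveI := Fact.mk hl
    obtain ⟨Q⟩ := (inferInstance : Nonempty (Sylow l L))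
    refine Q.not_dvd_index (hld.trans (Subgroup.index_dvd_of_le fun z hz => ?_))
    obtain ⟨k, hk⟩ := IsPGroup.iff_orderOf.1 Q.isPGroup' ⟨z, hz⟩
    rw [Subgroup.orderOf_mk] at hk
    exact h z z.2 (by rw [Subgroup.orderOf_coe, hk]; exact ((Nat.coprime_primes hl hp.out).2 hlp).pow_left k)

theorem quiet_subgroup {G : Type*} [Group G] {P L : Subgroup G} (h : Quiet p P) (hPL : P ≤ L) :
    Quiet p (P.subgroupOf L) := by
  intro K hK x hx hxc
  let e := Subgroup.subgroupOfEquivOfLe hPL
  have hKe : CharIn P (K.map L.subtype) := by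
    obtain ⟨K', hK', rfl⟩ := hK
    refine ⟨K'.map e.toMonoidHom, Subgroup.characteristic_iff_map_eq.2 fun φ => ?_, ?_⟩
    · have h1 := Subgroup.characteristic_iff_map_eq.1 hK' ((e.trans φ).trans e.symm)
      conv_rhs => rw [← h1]
      rw [Subgroup.map_map, Subgroup.map_map]
      congr 1
    · rw [Subgroup.map_map, Subgroup.map_map]
      rfl
  have hxN : (x : G) ∈ Subgroup.normalizer (K.map L.subtype : Set G) := by
    refine Subgroup.mem_normalizer_iff.2 fun y => ⟨?_, ?_⟩
    · rintro ⟨z, hz, rfl⟩
      exact ⟨x * z * x⁻¹, (Subgroup.mem_normalizer_iff.1 hx z).1 hz, rfl⟩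
    · rintro ⟨z, hz, hzy⟩
      refine ⟨x⁻¹ * z * x⁻¹⁻¹, (Subgroup.mem_normalizer_iff.1 (inv_mem hx) z).1 hz, ?_⟩
      simp only [map_mul, map_inv, hzy]
      simp [mul_assoc]
  have h2 := h _ hKe x hxN (by rwa [Subgroup.orderOf_coe])
  exact Subgroup.mem_centralizer_iff.2 fun z hz =>
    Subtype.ext (Subgroup.mem_centralizer_iff.1 h2 z ⟨z, hz, rfl⟩)

theorem quiet_quotient {G : Type*} [Group G] [Finite G] {P Z : Subgroup G} [Z.Normal] (h : Quiet p P)
    (hZ : CharIn P Z) : Quiet p (P.map (QuotientGroup.mk' Z)) := by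
  intro Kb hKb x hx hxc
  set f := QuotientGroup.mk' Z
  have hZP := hZ.le
  let π : P →* P.map f := f.subgroupMap P
  have hπ : Function.Surjective π := f.subgroupMap_surjective P
  obtain ⟨Kb', hKb', hKbm⟩ := hKb
  have hK : CharIn P (Kb.comap f) := by
    refine ⟨Kb'.comap π, Subgroup.characteristic_iff_comap_eq.2 fun φ => ?_, ?_⟩
    · obtain ⟨Z', hZ', hZm⟩ := hZ
      have hker : π.ker = Z' := by
        ext z
        rw [MonoidHom.mem_ker, Subtype.ext_iff]
        change f (z : G) = 1 ↔ _
        rw [QuotientGroup.mk'_apply, QuotientGroup.eq_one_iff, ← hZm]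
        exact Subgroup.mem_map_iff_mem P.subtype_injective
      have hk : π.ker ≤ (π.comp φ.toMonoidHom).ker := fun z hz => by
        rw [MonoidHom.mem_ker, MonoidHom.comp_apply, ← MonoidHom.mem_ker, hker]
        rw [hker] at hz
        exact (Subgroup.characteristic_iff_map_eq.1 hZ' φ).le ⟨z, hz, rfl⟩
      set ψ := π.liftOfSurjective hπ ⟨π.comp φ.toMonoidHom, hk⟩
      have hψ : ∀ z, ψ (π z) = π (φ z) := fun z => by
        simp [ψ, MonoidHom.liftOfRightInverse_comp_apply]
      have hψs : Function.Surjective ψ := fun y => by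
        obtain ⟨z, rfl⟩ := hπ y
        exact ⟨π (φ.symm z), by rw [hψ, φ.apply_symm_apply]⟩
      let ψe : MulAut (P.map f) := MulEquiv.ofBijective ψ ⟨Finite.injective_iff_surjective.2 hψs, hψs⟩
      have h1 := Subgroup.characteristic_iff_comap_eq.1 hKb' ψe
      ext z
      change π (φ z) ∈ Kb' ↔ π z ∈ Kb'
      conv_rhs => rw [← h1]
      rw [← hψ]
      rfl
    · ext y
      simp only [Subgroup.mem_map, Subgroup.mem_comap, ← hKbm]
      constructor
      · rintro ⟨z, hz, rfl⟩
        exact ⟨π z, hz, rfl⟩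
      · rintro ⟨w, hw, hwy⟩
        have hy : y ∈ P := by
          obtain ⟨v, hv, hv'⟩ := w.2
          have hv2 : f v = f y := hv'.trans hwy
          rw [QuotientGroup.mk'_apply, QuotientGroup.mk'_apply, QuotientGroup.eq] at hv2
          have h3 := P.mul_mem hv (hZP hv2)
          rwa [mul_inv_cancel_left] at h3
        exact ⟨⟨y, hy⟩, (show π ⟨y, hy⟩ = w from Subtype.ext hwy.symm) ▸ hw, rfl⟩
  obtain ⟨x0, rfl⟩ := QuotientGroup.mk'_surjective Z x
  obtain ⟨i, hi, hic⟩ := exists_lift_coprime f hxc
  rw [← hi] at hx ⊢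
  have hN : x0 ^ i ∈ Subgroup.normalizer (Kb.comap f : Set G) := by
    refine Subgroup.mem_normalizer_iff.2 fun y => ?_
    simp only [Subgroup.mem_comap, map_mul, map_inv]
    exact Subgroup.mem_normalizer_iff.1 hx (f y)
  have h2 := h _ hK _ hN hic
  refine Subgroup.mem_centralizer_iff.2 fun z hz => ?_
  obtain ⟨z0, rfl⟩ := QuotientGroup.mk'_surjective Z z
  rw [← map_mul, ← map_mul, Subgroup.mem_centralizer_iff.1 h2 z0 hz]

/-- The main lemma. -/
theorem hasNormalPComplement_of_quiet : ∀ (n : ℕ) (G : Type u) [Group G] [Finite G],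
    Nat.card G ≤ n → (p = 2 → ¬ 3 ∣ Nat.card G) → ∀ P : Sylow p G, Quiet p (P : Subgroup G) →
      Cfsg.HasNormalPComplement p G := by
  intro n
  induction n with
  | zero => intro G _ _ hn; have := Nat.card_pos (α := G); omega
  | succ n ih =>
    intro G _ _ hn h3 P hq
    set Z := (P : Subgroup G) ⊓ Subgroup.centralizer ((P : Subgroup G) : Set G) with hZdef
    have hZc : CharIn (P : Subgroup G) Z := charIn_center _
    by_cases hP : (P : Subgroup G) = ⊥
    · refine hasNormalPComplement_of_coprime (Nat.Coprime.symm (hp.out.coprime_iff_not_dvd.2 ?_))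
      have := P.not_dvd_index
      rwa [hP, Subgroup.index_bot] at this
    have hZne : Z ≠ ⊥ := inf_centralizer_ne_bot P.isPGroup' hP
    by_cases hC : Subgroup.centralizer (Z : Set G) = ⊤
    · have hcent : ∀ z ∈ Z, ∀ y, z * y = y * z := fun z hz y =>
        Subgroup.mem_centralizer_iff.1 (hC ▸ Subgroup.mem_top y) z hz
      haveI : Z.Normal := ⟨fun z hz g => by rwa [← hcent z hz g, mul_inv_cancel_right]⟩
      set f := QuotientGroup.mk' Z
      have hlt : Nat.card (G ⧸ Z) ≤ n := by
        have h1 := Z.card_mul_index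
        have h2 : 1 < Nat.card Z := (Subgroup.one_lt_card_iff_ne_bot Z).2 hZne
        have h4 : 0 < Z.index := Nat.pos_of_ne_zero Subgroup.index_ne_zero_of_finite
        rw [← Subgroup.index_eq_card]
        nlinarith
      have hbar := ih (G ⧸ Z) hlt (fun e hd => h3 e (hd.trans (Subgroup.card_quotient_dvd_card Z)))
        (P.mapSurjective (QuotientGroup.mk'_surjective Z)) (by
          rw [Sylow.coe_mapSurjective]; exact quiet_quotient hq hZc)
      refine hasNormalPComplement_of_frobeniusCondition fun Q hQ g hg hgc => ?_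
      refine Subgroup.mem_centralizer_iff.2 fun y hy => ?_
      have hgN : f g ∈ Subgroup.normalizer (Q.map f : Set (G ⧸ Z)) := by
        refine Subgroup.mem_normalizer_iff.2 fun w => ⟨?_, ?_⟩
        · rintro ⟨v, hv, rfl⟩
          exact ⟨g * v * g⁻¹, (Subgroup.mem_normalizer_iff.1 hg v).1 hv, by simp⟩
        · rintro ⟨v, hv, hvw⟩
          refine ⟨g⁻¹ * v * g⁻¹⁻¹, (Subgroup.mem_normalizer_iff.1 (inv_mem hg) v).1 hv, ?_⟩
          rw [map_mul, map_mul, hvw]
          simp [mul_assoc]
      have h1 := (hasNormalPComplement_iff_frobeniusCondition.1 hbar) (Q.map f) (hQ.map f) (f g) hgN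
        (hgc.coprime_dvd_left (orderOf_map_dvd f g))
      have h2 := Subgroup.mem_centralizer_iff.1 h1 (f y) ⟨y, hy, rfl⟩
      rw [← map_mul, ← map_mul, QuotientGroup.mk'_apply, QuotientGroup.mk'_apply, QuotientGroup.eq] at h2
      set z := (y * g)⁻¹ * (g * y)
      have hgy : g * y * g⁻¹ = y * z := by
        have hz : g * y = y * g * z := (mul_inv_cancel_left (y * g) (g * y)).symm
        rw [hz, mul_assoc y g z, ← hcent z h2 g]; group
      have hzy : ∀ m : ℕ, g ^ m * y * (g ^ m)⁻¹ = y * z ^ m := by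
        intro m
        induction m with
        | zero => simp
        | succ m ihm =>
          calc g ^ (m + 1) * y * (g ^ (m + 1))⁻¹ = g ^ m * (g * y * g⁻¹) * (g ^ m)⁻¹ := by
                rw [pow_succ]; group
            _ = (g ^ m * y * (g ^ m)⁻¹) * z := by
                rw [hgy, mul_assoc (g ^ m * y) _ z, ← mul_assoc (g ^ m) y z]
                simp only [mul_assoc]
                rw [hcent z h2 (g ^ m)⁻¹]
            _ = y * z ^ (m + 1) := by rw [ihm, pow_succ, mul_assoc]
      have hzg := hzy (orderOf g)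
      rw [pow_orderOf_eq_one, one_mul, inv_one, mul_one, left_eq_mul] at hzg
      obtain ⟨k, hk⟩ := IsPGroup.iff_orderOf.1 P.isPGroup' ⟨z, hZc.le h2⟩
      rw [Subgroup.orderOf_mk] at hk
      have hz1 : orderOf z = 1 :=
        Nat.eq_one_of_dvd_coprimes (hgc.pow_right k) (orderOf_dvd_of_pow_eq_one hzg) (hk ▸ dvd_rfl)
      rw [orderOf_eq_one_iff] at hz1
      rw [hz1, mul_one, mul_inv_eq_iff_eq_mul] at hgy
      exact hgy.symm
    · set L := Subgroup.centralizer (Z : Set G) with hL
      have hPL : (P : Subgroup G) ≤ L := fun x hx =>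
        Subgroup.mem_centralizer_iff.2 fun z hz => (Subgroup.mem_centralizer_iff.1 hz.2 x hx).symm
      have hLlt : Nat.card L ≤ n := by
        have h1 := L.card_mul_index
        have h2 : 1 < L.index := Subgroup.one_lt_index_of_ne_top hC
        have h4 : 0 < Nat.card L := Nat.card_pos
        nlinarith
      have hLn := ih L hLlt (fun e hd => h3 e (hd.trans (Subgroup.card_subgroup_dvd_card L)))
        (P.subtype hPL) (by rw [Sylow.coe_subtype]; exact quiet_subgroup hq hPL)
      set N := Subgroup.normalizer (thompsonSubgroupAOf (P : Subgroup G) : Set G) with hN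
      have hPN : (P : Subgroup G) ≤ N :=
        Subgroup.le_normalizer.trans (charIn_thompsonA (P : Subgroup G)).normalizer_le
      have hZJ : Z ≤ thompsonSubgroupAOf (P : Subgroup G) := by
        intro z hz
        obtain ⟨A, hA⟩ := exists_isMaxAbelian (P : Subgroup G)
        refine le_thompsonSubgroupAOf hA ?_
        have hc : IsMulCommutative (A ⊔ Subgroup.zpowers z : Subgroup G) := by
          refine isMulCommutative_iff_le_centralizer.2 (sup_le ?_ ?_)
          · rw [Subgroup.le_centralizer_iff]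
            refine sup_le (isMulCommutative_iff_le_centralizer.1 hA.comm) (Subgroup.zpowers_le.2 ?_)
            exact Subgroup.centralizer_le hA.le hz.2
          · rw [Subgroup.zpowers_le]
            have hzA : A ⊔ Subgroup.zpowers z ≤ (P : Subgroup G) := sup_le hA.le (Subgroup.zpowers_le.2 hz.1)
            exact Subgroup.centralizer_le hzA hz.2
        have heq : A = A ⊔ Subgroup.zpowers z := Subgroup.eq_of_le_of_card_ge le_sup_left
          (hA.card_le _ (sup_le hA.le (Subgroup.zpowers_le.2 hz.1)) hc)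
        rw [heq]
        exact Subgroup.mem_sup_right (Subgroup.mem_zpowers z)
      have hNL : N ≤ L := le_of_sylow_of_coprime P hPN hPL fun x hx hxc =>
        Subgroup.centralizer_le hZJ (hq _ (charIn_thompsonA _) x hx hxc)
      have hNn : Cfsg.HasNormalPComplement p N := hasNormalPComplement_of_le hNL hLn
      rcases eq_or_ne p 2 with rfl | hp2
      · refine hasNormalPComplement_two_of_thompsonA (fun hI => h3 rfl ?_) P hNn hLn
        obtain ⟨K, R, hR, ⟨e⟩⟩ := hI
        have h1 := Nat.card_congr e.toEquiv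
        rw [Nat.card_perm, Nat.card_fin] at h1
        have h2 : 3 ∣ Nat.card (K ⧸ R.subgroupOf K) := by rw [h1]; decide
        exact h2.trans ((Subgroup.card_quotient_dvd_card _).trans (Subgroup.card_subgroup_dvd_card K))
      · exact hasNormalPComplement_of_thompsonA hp2 P hNn hLn

/-- A `p`-solvable group has a subgroup of order the `p`-part times the `q`-part of its order. -/
theorem exists_pair_subgroup {q : ℕ} [hq : Fact q.Prime] (hpq : p ≠ q) : ∀ (n : ℕ) (L : Type u) [Group L]
    [Finite L], Nat.card L ≤ n → IsPSolvable p L → ∃ Y : Subgroup L,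
      (∀ r : ℕ, r.Prime → r ∣ Nat.card Y → r = p ∨ r = q) ∧ ¬ p ∣ Y.index ∧ ¬ q ∣ Y.index := by
  intro n
  induction n with
  | zero => intro L _ _ hn; have := Nat.card_pos (α := L); omega
  | succ n ih =>
    intro L _ _ hn hL
    rcases subsingleton_or_nontrivial L with hs | hs
    · refine ⟨⊤, fun r hr hd => ?_, by simp [hp.out.not_dvd_one], by simp [hq.out.not_dvd_one]⟩
      rw [Subgroup.card_top, Nat.card_unique (α := L)] at hd
      exact absurd hd hr.not_dvd_one
    -- reduction modulo a normal subgroup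
    have quot : ∀ N : Subgroup L, N.Normal → N ≠ ⊥ → ∃ Y1 : Subgroup L, N ≤ Y1 ∧
        (∀ r : ℕ, r.Prime → r ∣ N.relIndex Y1 → r = p ∨ r = q) ∧ ¬ p ∣ Y1.index ∧ ¬ q ∣ Y1.index := by
      intro N hN hne
      haveI := hN
      have hlt : Nat.card (L ⧸ N) ≤ n := by
        have h1 := N.card_mul_index
        have h2 := (Subgroup.one_lt_card_iff_ne_bot N).2 hne
        have h4 : 0 < N.index := Nat.pos_of_ne_zero Subgroup.index_ne_zero_of_finite
        rw [← Subgroup.index_eq_card]
        nlinarith
      obtain ⟨Yb, h1, h2, h3⟩ := ih (L ⧸ N) hlt (PSolvable.isPSolvable_quotient hL N)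
      have hidx : (Yb.comap (QuotientGroup.mk' N)).index = Yb.index :=
        Subgroup.index_comap_of_surjective _ (QuotientGroup.mk'_surjective N)
      refine ⟨Yb.comap (QuotientGroup.mk' N), QuotientGroup.le_comap_mk' N Yb, fun r hr hd => h1 r hr ?_,
        hidx ▸ h2, hidx ▸ h3⟩
      rwa [PSolvable.relIndex_eq_card_map,
        Subgroup.map_comap_eq_self_of_surjective (QuotientGroup.mk'_surjective N)] at hd
    by_cases ha : ∃ N : Subgroup L, N.Normal ∧ N ≠ ⊥ ∧ ∀ r : ℕ, r.Prime → r ∣ Nat.card N → r = p ∨ r = q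
    · obtain ⟨N, hN, hne, hNc⟩ := ha
      obtain ⟨Y1, hle, h1, h2, h3⟩ := quot N hN hne
      refine ⟨Y1, fun r hr hd => ?_, h2, h3⟩
      rw [← Subgroup.relIndex_bot_left, ← Subgroup.relIndex_mul_relIndex _ _ _ bot_le hle,
        Subgroup.relIndex_bot_left] at hd
      exact (hr.dvd_mul.1 hd).elim (hNc r hr) (h1 r hr)
    push Not at ha
    set N := Cfsg.pPrimeCore p L with hNdef
    have hNne : N ≠ ⊥ := (PSolvable.core_ne_bot hL).resolve_left fun hne => by
      obtain ⟨r, hr, hd, hrp, -⟩ := ha _ inferInstance hne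
      obtain ⟨k, hk⟩ := IsPGroup.iff_card.1 (CfsgLib.Cores.isPGroup_pCore p L)
      exact hrp ((Nat.prime_dvd_prime_iff_eq hr hp.out).1 (hr.dvd_of_dvd_pow (hk ▸ hd)))
    have hNp : (Nat.card N).Coprime p := CfsgLib.Cores.card_pPrimeCore_coprime p
    obtain ⟨Q⟩ := (inferInstance : Nonempty (Sylow q N))
    by_cases hQ : (Q : Subgroup N) = ⊥
    · have hNq : ¬ q ∣ Nat.card N := by
        have := Q.not_dvd_index
        rwa [hQ, Subgroup.index_bot] at this
      obtain ⟨Y1, hle, h1, h2, h3⟩ := quot N inferInstance hNne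
      have hcard : Nat.card (N.subgroupOf Y1) = Nat.card N :=
        Nat.card_congr (Subgroup.subgroupOfEquivOfLe hle).toEquiv
      have hcop : (Nat.card (N.subgroupOf Y1)).Coprime (N.subgroupOf Y1).index := by
        rw [hcard]
        refine Nat.coprime_of_dvd fun r hr hrN hrI => ?_
        rcases h1 r hr hrI with rfl | rfl
        · exact (hr.coprime_iff_not_dvd.1 hNp.symm) hrN
        · exact hNq hrN
      obtain ⟨C, hC⟩ := Subgroup.exists_right_complement'_of_coprime hcop
      have hidx : C.index = Nat.card N := by rw [hC.index_eq_card, hcard]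
      have hmap : (C.map Y1.subtype).index = Nat.card N * Y1.index := by
        rw [Subgroup.index_map_subtype, hidx]
      refine ⟨C.map Y1.subtype, fun r hr hd => h1 r hr ?_, ?_, ?_⟩
      · rw [Subgroup.card_map_of_injective Y1.subtype_injective] at hd
        rwa [Subgroup.relIndex, hC.symm.index_eq_card]
      · rw [hmap]
        exact fun hd => (hp.out.dvd_mul.1 hd).elim (hp.out.coprime_iff_not_dvd.1 hNp.symm) h2
      · rw [hmap]
        exact fun hd => (hq.out.dvd_mul.1 hd).elim hNq h3
    · set Q' := (Q : Subgroup N).map N.subtype with hQ'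
      set M := Subgroup.normalizer (Q' : Set L) with hM
      have htop : M ⊔ N = ⊤ := Sylow.normalizer_sup_eq_top Q
      have hMne : M ≠ ⊤ := by
        intro h
        haveI : Q'.Normal := Subgroup.normalizer_eq_top_iff.1 h
        obtain ⟨r, hr, hd, -, hrq⟩ := ha Q' inferInstance
          (fun h0 => hQ ((Subgroup.map_eq_bot_iff_of_injective _ N.subtype_injective).1 h0))
        obtain ⟨k, hk⟩ := IsPGroup.iff_card.1 (Q.isPGroup'.map N.subtype)
        exact hrq ((Nat.prime_dvd_prime_iff_eq hr hq.out).1 (hr.dvd_of_dvd_pow (hk ▸ hd)))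
      have hMlt : Nat.card M ≤ n := by
        have h1 := M.card_mul_index
        have h2 : 1 < M.index := Subgroup.one_lt_index_of_ne_top hMne
        have h4 : 0 < Nat.card M := Nat.card_pos
        nlinarith
      obtain ⟨Y, h1, h2, h3⟩ := ih M hMlt (PSolvable.isPSolvable_subgroup hL M)
      have hMi : M.index = M.relIndex N := by
        have e1 : N.relIndex M = N.index := by
          rw [← Subgroup.relIndex_top_right, ← htop, Subgroup.relIndex_sup_right]
        have e2 := Subgroup.relIndex_mul_index (inf_le_left : M ⊓ N ≤ M)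
        have e3 := Subgroup.relIndex_mul_index (inf_le_right : M ⊓ N ≤ N)
        rw [Subgroup.inf_relIndex_left, e1] at e2
        rw [Subgroup.inf_relIndex_right, ← e2, mul_comm N.index] at e3
        exact (Nat.eq_of_mul_eq_mul_right (Nat.pos_of_ne_zero Subgroup.index_ne_zero_of_finite) e3).symm
      have hQM : Q' ≤ M := Subgroup.le_normalizer
      have hMp : ¬ p ∣ M.index := fun hd => (hp.out.coprime_iff_not_dvd.1 hNp.symm)
        ((hMi ▸ hd).trans (Subgroup.index_dvd_card _))
      have hMq : ¬ q ∣ M.index := fun hd => Q.not_dvd_index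
        ((hMi ▸ hd).trans (Subgroup.index_dvd_of_le (fun z hz => hQM ⟨z, hz, rfl⟩)))
      have hmap : (Y.map M.subtype).index = Y.index * M.index := Subgroup.index_map_subtype Y
      refine ⟨Y.map M.subtype, fun r hr hd => h1 r hr ?_, ?_, ?_⟩
      · rwa [Subgroup.card_map_of_injective M.subtype_injective] at hd
      · rw [hmap]; exact fun hd => (hp.out.dvd_mul.1 hd).elim h2 hMp
      · rw [hmap]; exact fun hd => (hq.out.dvd_mul.1 hd).elim h3 hMq

end CfsgLib.Minimal
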