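import Mathlib

/-!
The characters of a normal abelian subgroup of odd order occurring in a vector of a module over a splitting
field of characteristic two.
-/

set_option autoImplicit false
set_option linter.style.haveILetI false
set_option linter.unusedSectionVars false

namespace CfsgLib.Minimal.CharSupport

variable {S : Type*} [Group S] (N : Subgroup S) [N.Normal] (K : Type*) [Field K]
  {V : Type*} [AddCommGroup V] [Module K V]

/-- The conjugation action on the characters of `N`. -/
def act (g : S) (χ : N →* Kˣ) : N →* Kˣ := χ.comp (MulAut.conjNormal g⁻¹ : MulAut N).toMonoidHom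

/-- The action as a `MulAction`. -/
abbrev charAction : MulAction S (N →* Kˣ) where
  smul g χ := act N K g χ
  one_smul χ := MonoidHom.ext fun a => by
    show χ ((MulAut.conjNormal (1 : S)⁻¹ : MulAut N) a) = χ a
    rw [inv_one, map_one]; rfl
  mul_smul g h χ := MonoidHom.ext fun a => by
    show χ ((MulAut.conjNormal (g * h)⁻¹ : MulAut N) a) =
      χ ((MulAut.conjNormal h⁻¹ : MulAut N) ((MulAut.conjNormal g⁻¹ : MulAut N) a))
    rw [mul_inv_rev, map_mul]; rfl

variable {N K} [Fintype N]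

/-- The projection on the `χ`-component. -/
def proj (ρ : S →* Module.End K V) (χ : N →* Kˣ) : Module.End K V :=
  ∑ a : N, ((χ a⁻¹ : Kˣ) : K) • ρ (a : S)

variable (ρ : S →* Module.End K V)

/-- The characters occurring in `v`. -/
def supp (v : V) : Set (N →* Kˣ) := {χ | proj ρ χ v ≠ 0}

omit [Fintype N] in
theorem act_act (g h : S) (χ : N →* Kˣ) : act N K g (act N K h χ) = act N K (g * h) χ :=
  ((charAction N K).mul_smul g h χ).symm

omit [Fintype N] in
theorem act_one (χ : N →* Kˣ) : act N K 1 χ = χ := (charAction N K).one_smul χ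

omit [N.Normal] in
theorem proj_apply (χ : N →* Kˣ) (v : V) :
    proj ρ χ v = ∑ a : N, ((χ a⁻¹ : Kˣ) : K) • ρ (a : S) v := by
  simp [proj, LinearMap.sum_apply, LinearMap.smul_apply]

theorem map_proj (g : S) (χ : N →* Kˣ) (v : V) :
    ρ g (proj ρ χ v) = proj ρ (act N K g χ) (ρ g v) := by
  rw [proj_apply, proj_apply, map_sum]
  refine Fintype.sum_equiv (MulAut.conjNormal g : MulAut N).toEquiv _ _ fun a => ?_
  rw [map_smul, ← Module.End.mul_apply, ← Module.End.mul_apply, ← map_mul, ← map_mul]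
  congr 2
  · show χ a⁻¹ = χ ((MulAut.conjNormal g⁻¹ : MulAut N) ((MulAut.conjNormal g : MulAut N) a)⁻¹)
    rw [← map_inv, ← MulAut.mul_apply, ← map_mul, inv_mul_cancel, map_one]; rfl
  · show ρ (g * a) = ρ (((MulAut.conjNormal g : MulAut N) a : S) * g)
    rw [MulAut.conjNormal_apply]; group

theorem supp_map (g : S) (v : V) : supp (N := N) ρ (ρ g v) = act N K g '' supp ρ v := by
  have hinj : Function.Injective (ρ g) := fun a b h => by
    have := congrArg (ρ g⁻¹) h
    rwa [← Module.End.mul_apply, ← Module.End.mul_apply, ← map_mul, inv_mul_cancel, map_one] at this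
  ext ψ
  have hψ : act N K g (act N K g⁻¹ ψ) = ψ := by rw [act_act, mul_inv_cancel, act_one]
  constructor
  · intro h
    refine ⟨act N K g⁻¹ ψ, fun h0 => h ?_, hψ⟩
    rw [← hψ, ← map_proj, h0, map_zero]
  · rintro ⟨χ, hχ, rfl⟩ h0
    rw [← map_proj] at h0
    exact hχ (hinj (h0.trans (map_zero (ρ g)).symm))

omit [N.Normal] in
theorem supp_smul {c : K} (hc : c ≠ 0) (v : V) : supp (N := N) ρ (c • v) = supp ρ v := by
  ext χ
  simp [supp, map_smul, hc]

theorem proj_eigen (hN : ∀ a b : N, a * b = b * a) (χ : N →* Kˣ) (b : N) (v : V) :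
    ρ (b : S) (proj ρ χ v) = ((χ b : Kˣ) : K) • proj ρ χ v := by
  rw [proj_apply, map_sum, Finset.smul_sum]
  refine Fintype.sum_equiv (Equiv.mulLeft b) _ _ fun a => ?_
  rw [map_smul, ← Module.End.mul_apply, ← map_mul, smul_smul, ← Units.val_mul, ← map_mul]
  congr 3
  rw [Equiv.coe_mulLeft, mul_inv_rev, hN a⁻¹ b⁻¹, mul_inv_cancel_left]

variable [CharP K 2]

omit [N.Normal] in
theorem natCast_card (hodd : Odd (Fintype.card N)) : ((Fintype.card N : ℕ) : K) = 1 := by
  obtain ⟨m, hm⟩ := hodd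
  rw [hm, Nat.cast_add, Nat.cast_mul, Nat.cast_ofNat, Nat.cast_one]
  rw [show (2 : K) = ((2 : ℕ) : K) by norm_cast, CharP.cast_eq_zero, zero_mul, zero_add]

theorem proj_of_eigen (hodd : Odd (Fintype.card N)) {χ : N →* Kˣ} {v : V}
    (hv : ∀ b : N, ρ (b : S) v = ((χ b : Kˣ) : K) • v) (ψ : N →* Kˣ) :
    (ψ = χ → proj ρ ψ v = v) ∧ (ψ ≠ χ → proj ρ ψ v = 0) := by
  have h : proj ρ ψ v = (∑ a : N, ((Units.coeHom K).comp (ψ⁻¹ * χ)) a) • v := by
    rw [proj_apply, Finset.sum_smul]
    refine Finset.sum_congr rfl fun a _ => ?_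
    rw [hv, smul_smul, ← Units.val_mul, map_inv]
    rfl
  refine ⟨fun e => ?_, fun hne => ?_⟩
  · subst e
    rw [h]
    simp [natCast_card hodd]
  · rw [h, sum_hom_units_eq_zero, zero_smul]
    intro e
    refine hne (MonoidHom.ext fun a => Units.ext ?_)
    have h1 := DFunLike.congr_fun e a
    simp only [MonoidHom.comp_apply, MonoidHom.mul_apply, MonoidHom.inv_apply, MonoidHom.one_apply,
      Units.coeHom_apply, Units.val_eq_one, inv_mul_eq_one] at h1
    rw [h1]

theorem supp_of_eigen (hodd : Odd (Fintype.card N)) {χ : N →* Kˣ} {v : V} (hv0 : v ≠ 0)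
    (hv : ∀ b : N, ρ (b : S) v = ((χ b : Kˣ) : K) • v) : supp (N := N) ρ v = {χ} := by
  ext ψ
  by_cases h : ψ = χ
  · simp [supp, h]
    subst h
    rw [(proj_of_eigen ρ hodd hv ψ).1 rfl]
    exact hv0
  · simp [supp, (proj_of_eigen ρ hodd hv ψ).2 h, h]

/-- Every nonzero vector involves a character. -/
theorem supp_nonempty [Finite K] (hN : ∀ a b : N, a * b = b * a) (hodd : Odd (Fintype.card N))
    [hroots : HasEnoughRootsOfUnity K (Monoid.exponent N)] {v : V} (hv : v ≠ 0) :
    (supp (N := N) ρ v).Nonempty := by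
  classical
  letI : CommGroup N := { (inferInstance : Group N) with mul_comm := hN }
  haveI : Finite (N →* Kˣ) := Finite.of_injective _ DFunLike.coe_injective
  haveI : Fintype (N →* Kˣ) := Fintype.ofFinite _
  by_contra hne
  have h0 : ∀ χ : N →* Kˣ, proj ρ χ v = 0 := fun χ => by
    by_contra h; exact hne ⟨χ, h⟩
  apply hv
  have hsum : ∑ χ : N →* Kˣ, proj ρ χ v = v := by
    simp only [proj_apply]
    rw [Finset.sum_comm]
    simp only [← Finset.sum_smul]
    rw [Finset.sum_eq_single (1 : N)]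
    · have hcard : Fintype.card (N →* Kˣ) = Fintype.card N := by
        rw [← Nat.card_eq_fintype_card, ← Nat.card_eq_fintype_card,
          CommGroup.card_monoidHom_of_hasEnoughRootsOfUnity]
      simp [hcard, natCast_card hodd]
    · intro a _ ha
      obtain ⟨φ, hφ⟩ := CommGroup.exists_apply_ne_one_of_hasEnoughRootsOfUnity N K (inv_ne_one.2 ha)
      have hshift : ((φ a⁻¹ : Kˣ) : K) * ∑ χ : N →* Kˣ, ((χ a⁻¹ : Kˣ) : K) =
          ∑ χ : N →* Kˣ, ((χ a⁻¹ : Kˣ) : K) := by
        rw [Finset.mul_sum]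
        refine Fintype.sum_equiv (Equiv.mulLeft φ) _ _ fun χ => ?_
        simp [MonoidHom.mul_apply]
      have : ∑ χ : N →* Kˣ, ((χ a⁻¹ : Kˣ) : K) = 0 := by
        by_contra hs
        exact hφ (Units.ext ((mul_eq_right₀ hs).1 hshift))
      rw [this, zero_smul]
    · intro h; exact absurd (Finset.mem_univ _) h
  rw [← hsum]
  exact Finset.sum_eq_zero fun χ _ => h0 χ

/-- The vectors involving only characters in `O`. -/
def within (O : Set (N →* Kˣ)) : Submodule K V := ⨅ χ ∈ Oᶜ, LinearMap.ker (proj ρ χ)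

omit [CharP K 2] [N.Normal] in
theorem mem_within {O : Set (N →* Kˣ)} {v : V} : v ∈ within ρ O ↔ supp ρ v ⊆ O := by
  simp only [within, Submodule.mem_iInf, Set.mem_compl_iff, LinearMap.mem_ker]
  exact ⟨fun h χ hχ => by_contra fun hO => hχ (h χ hO), fun h χ hO => by_contra fun hχ => hO (h hχ)⟩

end CfsgLib.Minimal.CharSupport
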