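import Mathlib

/-!
Elements of order three moving a subspace of dimension two of a module over the field of two elements,
and their conjugates inside groups of odd prime power order.
-/

set_option autoImplicit false
set_option linter.style.haveILetI false
set_option maxHeartbeats 1000000

namespace CfsgLib.Minimal.FourSupport

variable {G : Type*} [Group G] {V : Type*} [AddCommGroup V] [Module (ZMod 2) V]
  (ρ : G →* Module.End (ZMod 2) V)

theorem add_self (v : V) : v + v = 0 := by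
  rw [← two_smul (ZMod 2) v, show (2 : ZMod 2) = 0 from rfl, zero_smul]

theorem apply_mul (a b : G) (v : V) : ρ (a * b) v = ρ a (ρ b v) := by rw [map_mul]; rfl

theorem apply_one (v : V) : ρ 1 v = v := by rw [map_one]; rfl

theorem inv_apply (a : G) (v : V) : ρ a⁻¹ (ρ a v) = v := by
  rw [← apply_mul, inv_mul_cancel, apply_one]

theorem apply_inv (a : G) (v : V) : ρ a (ρ a⁻¹ v) = v := by
  rw [← apply_mul, mul_inv_cancel, apply_one]

/-- The subspace moved by `g`. -/
def moved (g : G) : Submodule (ZMod 2) V := LinearMap.range (ρ g - 1)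

theorem sub_mem_moved (g : G) (v : V) : ρ g v - v ∈ moved ρ g := ⟨v, rfl⟩

theorem moved_le_iff {g : G} {U : Submodule (ZMod 2) V} : moved ρ g ≤ U ↔ ∀ v, ρ g v - v ∈ U :=
  ⟨fun h v => h (sub_mem_moved ρ g v), by rintro h _ ⟨v, rfl⟩; exact h v⟩

theorem mem_moved_inv {g : G} {x : V} (hx : x ∈ moved ρ g) : ρ g x ∈ moved ρ g := by
  obtain ⟨v, rfl⟩ := hx
  exact ⟨ρ g v, by simp only [LinearMap.sub_apply, Module.End.one_apply, map_sub]⟩

theorem moved_conj (x g : G) : moved ρ (x * g * x⁻¹) = (moved ρ g).map (ρ x) := by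
  refine le_antisymm ((moved_le_iff ρ).2 fun v => ?_) ?_
  · refine ⟨ρ g (ρ x⁻¹ v) - ρ x⁻¹ v, sub_mem_moved ρ g _, ?_⟩
    rw [map_sub, apply_inv, ← apply_mul, ← apply_mul, mul_assoc]
  · rintro _ ⟨_, ⟨v, rfl⟩, rfl⟩
    refine ⟨ρ x v, ?_⟩
    simp only [LinearMap.sub_apply, Module.End.one_apply, map_sub]
    rw [← apply_mul, ← apply_mul, inv_mul_cancel_right]

/-- The elements moving every vector inside its coset of `U`. -/
def supportIn (U : Submodule (ZMod 2) V) : Subgroup G where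
  carrier := {g | ∀ v, ρ g v - v ∈ U}
  one_mem' := fun v => by rw [apply_one, sub_self]; exact U.zero_mem
  mul_mem' := fun {a b} ha hb v => by
    have h := U.add_mem (ha (ρ b v)) (hb v)
    rwa [← apply_mul, sub_add_sub_cancel] at h
  inv_mem' := fun {a} ha v => by
    have h := U.neg_mem (ha (ρ a⁻¹ v))
    rwa [apply_inv, neg_sub] at h

theorem mem_supportIn {g : G} {U : Submodule (ZMod 2) V} : g ∈ supportIn ρ U ↔ moved ρ g ≤ U :=
  (moved_le_iff ρ).symm

theorem moved_pow_le (g : G) (i : ℕ) : moved ρ (g ^ i) ≤ moved ρ g :=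
  (mem_supportIn ρ).1 (Subgroup.pow_mem _ ((mem_supportIn ρ).2 le_rfl) i)

theorem moved_eq_of_eq {g h : G} (e : ρ g = ρ h) : moved ρ g = moved ρ h := by
  unfold moved; rw [e]

theorem invariant_of_supportIn {g : G} {U : Submodule (ZMod 2) V} (hg : g ∈ supportIn ρ U) :
    ∀ v ∈ U, ρ g v ∈ U := fun v hv => by
  have h := U.add_mem (hg v) hv
  rwa [sub_add_cancel] at h

/-- An element of odd order fixing the vectors it creates acts trivially. -/
theorem fix_of_unipotent {g : G} (hodd : Odd (orderOf g)) {v : V}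
    (h : ρ g (ρ g v - v) = ρ g v - v) : ρ g v = v := by
  have h2 : ρ (g * g) v = v := by
    rw [map_sub] at h
    rw [apply_mul, sub_eq_iff_eq_add.1 h]
    calc ρ g v - v + ρ g v = (ρ g v + ρ g v) - v := by abel
      _ = v := by rw [add_self, zero_sub]; exact neg_eq_of_add_eq_zero_left (add_self v)
  obtain ⟨k, hk⟩ := hodd
  have hg : g = (g * g) ^ (k + 1) := by
    rw [← pow_two, ← pow_mul, show 2 * (k + 1) = (2 * k + 1) + 1 by ring, pow_succ, ← hk,
      pow_orderOf_eq_one, one_mul]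
  rw [hg]
  clear hg hk
  induction k + 1 with
  | zero => rw [pow_zero, apply_one]
  | succ n ih => rw [pow_succ, apply_mul, h2, ih]

/-- An element of odd order trivial on an invariant subspace containing what it moves is trivial. -/
theorem eq_one_of_fix {g : G} (hodd : Odd (orderOf g)) {U : Submodule (ZMod 2) V}
    (hU : g ∈ supportIn ρ U) (h : ∀ v ∈ U, ρ g v = v) : ρ g = 1 :=
  LinearMap.ext fun v => fix_of_unipotent ρ hodd (h _ (hU v))

section finite

variable [Finite V]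

/-- The fixed kernel of a group normalising `U` has index dividing `|GL(U)|`. -/
theorem exists_kernel (H : Subgroup G) (U : Submodule (ZMod 2) V)
    (hinv : ∀ g ∈ H, ∀ v ∈ U, ρ g v ∈ U) :
    ∃ N : Subgroup H, N.Normal ∧ (∀ g : H, g ∈ N ↔ ∀ v ∈ U, ρ (g : G) v = v) ∧
      N.index ∣ ∏ i : Fin (Module.finrank (ZMod 2) U),
        (2 ^ Module.finrank (ZMod 2) U - 2 ^ (i : ℕ)) := by
  let σ : H →* Module.End (ZMod 2) U :=
    { toFun := fun g => (ρ (g : G)).restrict (hinv g g.2)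
      map_one' := LinearMap.ext fun v => Subtype.ext (apply_one ρ _)
      map_mul' := fun a b => LinearMap.ext fun v => Subtype.ext (apply_mul ρ _ _ _) }
  refine ⟨σ.toHomUnits.ker, inferInstance, fun g => ?_, ?_⟩
  · rw [MonoidHom.mem_ker, Units.ext_iff]
    refine ⟨fun h v hv => congrArg Subtype.val (LinearMap.congr_fun h (⟨v, hv⟩ : U)), fun h => ?_⟩
    exact LinearMap.ext fun v => Subtype.ext (h v v.2)
  · rw [Subgroup.index_ker]
    refine (Subgroup.card_subgroup_dvd_card _).trans (dvd_of_eq ?_)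
    let b := Module.finBasis (ZMod 2) U
    rw [Nat.card_congr (Units.mapEquiv (LinearMap.toMatrixAlgEquiv b).toMulEquiv).toEquiv]
    rw [show Nat.card (Matrix (Fin (Module.finrank (ZMod 2) U)) (Fin (Module.finrank (ZMod 2) U)) (ZMod 2))ˣ
      = _ from Matrix.card_GL_field (𝔽 := ZMod 2) _, ZMod.card]

theorem card_GL_dvd {d : ℕ} (hd : d ≤ 4) : (∏ i : Fin d, (2 ^ d - 2 ^ (i : ℕ))) ∣ 20160 := by
  interval_cases d <;> decide

theorem card_GL_two : (∏ i : Fin 2, (2 ^ 2 - 2 ^ (i : ℕ))) = 6 := by decide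

/-- In a group of `r`-power order, the kernel on a space of dimension at most four. -/
theorem exists_kernel_pgroup {r : ℕ} [hr : Fact r.Prime] [Finite G] {H : Subgroup G} (hH : IsPGroup r H)
    (U : Submodule (ZMod 2) V) (hd : Module.finrank (ZMod 2) U ≤ 4)
    (hinv : ∀ g ∈ H, ∀ v ∈ U, ρ g v ∈ U) :
    ∃ N : Subgroup H, N.Normal ∧ (∀ g : H, g ∈ N ↔ ∀ v ∈ U, ρ (g : G) v = v) ∧
      ∃ k, N.index = r ^ k ∧ r ^ k ∣ 20160 ∧
        (Module.finrank (ZMod 2) U = 2 → r ^ k ∣ 6) := by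
  obtain ⟨N, hN, hmem, hdvd⟩ := exists_kernel ρ H U hinv
  haveI := hN
  obtain ⟨k, hk⟩ := hH.index N
  refine ⟨N, hN, hmem, k, hk, hk ▸ hdvd.trans (card_GL_dvd hd), fun h2 => ?_⟩
  rw [h2, card_GL_two] at hdvd
  exact hk ▸ hdvd

theorem prime_bound {r k : ℕ} (hr : r.Prime) (h5 : 5 ≤ r) (h : r ^ k ∣ 20160) :
    k ≤ 1 ∧ (k = 1 → r = 5 ∨ r = 7) := by
  have hr57 : 1 ≤ k → r = 5 ∨ r = 7 := fun hk => by
    have hd : r ∣ 2 ^ 6 * 3 ^ 2 * 5 * 7 := (dvd_pow_self r (by omega)).trans h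
    rcases hr.dvd_mul.1 hd with h | h
    · rcases hr.dvd_mul.1 h with h | h
      · rcases hr.dvd_mul.1 h with h | h
        · have := (Nat.prime_dvd_prime_iff_eq hr Nat.prime_two).1 (hr.dvd_of_dvd_pow h); omega
        · have := (Nat.prime_dvd_prime_iff_eq hr Nat.prime_three).1 (hr.dvd_of_dvd_pow h); omega
      · exact Or.inl ((Nat.prime_dvd_prime_iff_eq hr (by norm_num)).1 h)
    · exact Or.inr ((Nat.prime_dvd_prime_iff_eq hr (by norm_num)).1 h)
  refine ⟨?_, fun hk => hr57 hk.ge⟩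
  by_contra hk
  have h2 : r ^ 2 ∣ 20160 := (pow_dvd_pow r (by omega)).trans h
  rcases hr57 (by omega) with rfl | rfl <;> norm_num at h2

/-- No vector moved by an element `q` of odd order is fixed by it, so the moved four-group is
irreducible. -/
theorem moved_le_of_inf_ne_bot {q : G} (hodd : Odd (orderOf q))
    (hW : Module.finrank (ZMod 2) (moved ρ q) = 2) {N : Submodule (ZMod 2) V}
    (hN : ∀ v ∈ N, ρ q v ∈ N) (hne : N ⊓ moved ρ q ≠ ⊥) : moved ρ q ≤ N := by
  obtain ⟨v, ⟨hvN, hvW⟩, hv⟩ := (Submodule.ne_bot_iff _).1 hne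
  have hqv : ρ q v ≠ v := by
    intro h
    obtain ⟨m, rfl⟩ := hvW
    refine hv ?_
    simp only [LinearMap.sub_apply, Module.End.one_apply] at h ⊢
    rw [fix_of_unipotent ρ hodd h, sub_self]
  set X := N ⊓ moved ρ q
  refine le_trans (le_of_eq (Submodule.eq_of_le_of_finrank_le inf_le_right ?_).symm) (inf_le_left : X ≤ N)
  rw [hW]
  show 2 ≤ Module.finrank (ZMod 2) X
  by_contra hlt
  have hvX : v ∈ X := ⟨hvN, hvW⟩
  have hqX : ρ q v ∈ X := ⟨hN v hvN, mem_moved_inv ρ hvW⟩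
  have hle := Submodule.finrank_mono (show (ZMod 2) ∙ v ≤ X by simpa using hvX)
  rw [finrank_span_singleton hv] at hle
  have heq : (ZMod 2) ∙ v = X := Submodule.eq_of_le_of_finrank_le (by simpa using hvX)
    (by rw [finrank_span_singleton hv]; omega)
  rw [← heq, Submodule.mem_span_singleton] at hqX
  obtain ⟨c, hc⟩ := hqX
  have hc' : ∀ c : ZMod 2, c = 0 ∨ c = 1 := by decide
  rcases hc' c with rfl | rfl
  · rw [zero_smul] at hc
    exact hv (by rw [← inv_apply ρ q v, ← hc, map_zero])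
  · rw [one_smul] at hc
    exact hqv hc.symm

theorem finrank_map_apply (x : G) (U : Submodule (ZMod 2) V) :
    Module.finrank (ZMod 2) (U.map (ρ x)) = Module.finrank (ZMod 2) U :=
  (Submodule.equivMapOfInjective (ρ x) (fun a b h => by rw [← inv_apply ρ x a, h, inv_apply]) U).finrank_eq.symm

/-- An element of order seven moving at most four dimensions moves exactly three. -/
theorem finrank_moved_seven [Finite G] {g : G} (hodd : Odd (orderOf g)) (h7 : ρ g ^ 7 = 1)
    (hne : ρ g ≠ 1) (hd : Module.finrank (ZMod 2) (moved ρ g) ≤ 4) :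
    Module.finrank (ZMod 2) (moved ρ g) = 3 := by
  haveI : Fact (Nat.Prime 7) := ⟨by norm_num⟩
  set D := moved ρ g with hD
  let f : Module.End (ZMod 2) D := (ρ g).restrict (fun v hv => mem_moved_inv ρ hv)
  have hf : ∀ (n : ℕ) (v : D), ((f ^ n) v : V) = (ρ g ^ n) (v : V) := by
    intro n
    induction n with
    | zero => intro v; rfl
    | succ n ih => intro v; rw [pow_succ', pow_succ', Module.End.mul_apply, Module.End.mul_apply, ← ih]; rfl
  have hf7 : f ^ 7 = 1 := LinearMap.ext fun v => Subtype.ext (by rw [hf, h7]; rfl)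
  let u : (Module.End (ZMod 2) D)ˣ := Units.ofPowEqOne f 7 hf7 (by norm_num)
  let A := Subgroup.zpowers u
  have hA : IsPGroup 7 A := by
    rintro ⟨y, hy⟩
    obtain ⟨i, rfl⟩ := Subgroup.mem_zpowers_iff.1 hy
    refine ⟨1, Subtype.ext ?_⟩
    simp only [pow_one, SubmonoidClass.coe_pow, OneMemClass.coe_one]
    rw [← zpow_natCast, ← zpow_mul, mul_comm, zpow_mul, zpow_natCast,
      (Units.ext hf7 : u ^ 7 = 1), one_zpow]
  letI : MulAction A D :=
    { smul := fun a v => ((a : (Module.End (ZMod 2) D)ˣ) : Module.End (ZMod 2) D) v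
      one_smul := fun v => rfl
      mul_smul := fun a b v => rfl }
  have hfix : MulAction.fixedPoints A D = {0} := by
    ext v
    refine ⟨fun hv => ?_, fun hv => ?_⟩
    · have h1 : f v = v := hv ⟨u, Subgroup.mem_zpowers u⟩
      obtain ⟨m, hm⟩ := v.2
      refine Subtype.ext ?_
      have h2 : ρ g (v : V) = v := congrArg Subtype.val h1
      rw [← hm] at h2 ⊢
      simp only [LinearMap.sub_apply, Module.End.one_apply] at h2 ⊢
      rw [fix_of_unipotent ρ hodd h2, sub_self]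
      rfl
    · rw [Set.mem_singleton_iff.1 hv]
      intro a
      exact map_zero _
  have hmod := hA.card_modEq_card_fixedPoints D
  rw [hfix, Nat.card_coe_set_eq, Set.ncard_singleton,
    Module.natCard_eq_pow_finrank (K := ZMod 2) (V := D), Nat.card_zmod] at hmod
  have hpos : Module.finrank (ZMod 2) D ≠ 0 := fun h => hne (LinearMap.ext fun v => by
    have := sub_mem_moved ρ g v
    rw [← hD, Submodule.finrank_eq_zero.1 h, Submodule.mem_bot, sub_eq_zero] at this
    exact this)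
  set d := Module.finrank (ZMod 2) D
  rcases (by omega : d = 1 ∨ d = 2 ∨ d = 3 ∨ d = 4) with h | h | h | h <;> rw [h] at hmod ⊢ <;>
    simp [Nat.ModEq] at hmod

variable [Finite G]

/-- Commuting of two conjugates in a 3-group. -/
theorem commute_three {T : Subgroup G} (hT : IsPGroup 3 T) {a b : G} (ha : a ∈ T) (hb : b ∈ T)
    (hd : Module.finrank (ZMod 2) (moved ρ a ⊔ moved ρ b : Submodule (ZMod 2) V) ≤ 4) :
    ρ (a * b) = ρ (b * a) := by
  haveI : Fact (Nat.Prime 3) := ⟨Nat.prime_three⟩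
  set U := moved ρ a ⊔ moved ρ b
  set L := T ⊓ supportIn ρ U with hL
  have haL : a ∈ L := ⟨ha, (mem_supportIn ρ).2 le_sup_left⟩
  have hbL : b ∈ L := ⟨hb, (mem_supportIn ρ).2 le_sup_right⟩
  obtain ⟨N, hN, hmem, k, hk, hdvd, -⟩ := exists_kernel_pgroup ρ (hT.to_le inf_le_left : IsPGroup 3 L) U hd
    (fun g hg => invariant_of_supportIn ρ hg.2)
  haveI := hN
  have hk2 : k ≤ 2 := by
    by_contra h
    have := (pow_dvd_pow 3 (show 3 ≤ k by omega)).trans hdvd
    norm_num at this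
  have hcomm : ∀ x y : L ⧸ N, x * y = y * x := by
    have hc : Nat.card (L ⧸ N) = 3 ^ k := by rw [← Subgroup.index_eq_card, hk]
    rcases (by omega : k = 0 ∨ k = 1 ∨ k = 2) with rfl | rfl | rfl
    · haveI : Subsingleton (L ⧸ N) := (Nat.card_eq_one_iff_unique.1 (by simpa using hc)).1
      exact fun x y => Subsingleton.elim _ _
    · haveI : IsCyclic (L ⧸ N) := isCyclic_of_prime_card (p := 3) (by simpa using hc)
      exact fun x y => IsCyclic.commutative.is_comm.comm x y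
    · exact IsPGroup.commutative_of_card_eq_prime_sq hc
  set A : L := ⟨a, haL⟩
  set B : L := ⟨b, hbL⟩
  have hc : (A * B) * (B * A)⁻¹ ∈ N := by
    rw [← QuotientGroup.eq_one_iff, QuotientGroup.mk_mul, QuotientGroup.mk_inv, mul_inv_eq_one,
      QuotientGroup.mk_mul, QuotientGroup.mk_mul, hcomm]
  have hcT : (a * b) * (b * a)⁻¹ ∈ T := T.mul_mem (T.mul_mem ha hb) (T.inv_mem (T.mul_mem hb ha))
  have hodd : Odd (orderOf ((a * b) * (b * a)⁻¹)) := by
    obtain ⟨i, hi⟩ := IsPGroup.iff_orderOf.1 hT ⟨_, hcT⟩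
    rw [Subgroup.orderOf_mk] at hi
    rw [hi]; exact Odd.pow (by decide)
  have h1 := eq_one_of_fix ρ hodd ((A * B) * (B * A)⁻¹).2.2 ((hmem _).1 hc)
  calc ρ (a * b) = ρ ((a * b) * (b * a)⁻¹) * ρ (b * a) := by rw [← map_mul, inv_mul_cancel_right]
    _ = ρ (b * a) := by rw [h1, one_mul]

/-- Disjointness of the supports of commuting elements. -/
theorem fix_of_commute {a b : G} (hodd : Odd (orderOf b)) (ha2 : Module.finrank (ZMod 2) (moved ρ a) = 2)
    (hb2 : Module.finrank (ZMod 2) (moved ρ b) = 2) (hab : ρ (a * b) = ρ (b * a))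
    (hne : moved ρ b ≠ moved ρ a) : ∀ v ∈ moved ρ a, ρ b v = v := by
  have hinv : ∀ v ∈ moved ρ a, ρ b v ∈ moved ρ a := by
    rintro _ ⟨m, rfl⟩
    refine ⟨ρ b m, ?_⟩
    simp only [LinearMap.sub_apply, Module.End.one_apply, map_sub]
    rw [← apply_mul, hab, apply_mul]
  intro v hv
  by_contra hv'
  refine hne (Submodule.eq_of_le_of_finrank_eq (moved_le_of_inf_ne_bot ρ hodd hb2 hinv ?_) (by rw [hb2, ha2]))
  exact (Submodule.ne_bot_iff _).2
    ⟨ρ b v - v, ⟨Submodule.sub_mem _ (hinv v hv) hv, sub_mem_moved ρ b v⟩, sub_ne_zero.2 hv'⟩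

theorem finrank_sup_le (U W : Submodule (ZMod 2) V) :
    Module.finrank (ZMod 2) (U ⊔ W : Submodule (ZMod 2) V) ≤
      Module.finrank (ZMod 2) U + Module.finrank (ZMod 2) W := by
  have := Submodule.finrank_sup_add_finrank_inf_eq U W
  omega

/-- In a 3-group, an element of order three normalising an abelian set containing its commutator with
`q` fixes the subspace moved by `q`. -/
theorem map_moved_eq {T : Subgroup G} (hT : IsPGroup 3 T) {q e : G} (hq : q ∈ T) (he : e ∈ T)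
    (hW : Module.finrank (ZMod 2) (moved ρ q) = 2) (he3 : e ^ 3 = 1)
    (hc : Commute e (e * q * e⁻¹ * q⁻¹)) : (moved ρ q).map (ρ e) = moved ρ q := by
  haveI : Fact (Nat.Prime 3) := ⟨Nat.prime_three⟩
  have hodd : ∀ x ∈ T, Odd (orderOf x) := fun x hx => by
    obtain ⟨i, hi⟩ := IsPGroup.iff_orderOf.1 hT ⟨x, hx⟩
    rw [Subgroup.orderOf_mk] at hi
    rw [hi]; exact Odd.pow (by decide)
  set q1 := e * q * e⁻¹ with hq1
  set q2 := e * q1 * e⁻¹ with hq2
  have h1T : q1 ∈ T := T.mul_mem (T.mul_mem he hq) (T.inv_mem he)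
  have h2T : q2 ∈ T := T.mul_mem (T.mul_mem he h1T) (T.inv_mem he)
  have hW1 : moved ρ q1 = (moved ρ q).map (ρ e) := moved_conj ρ e q
  have hW2 : moved ρ q2 = (moved ρ q1).map (ρ e) := moved_conj ρ e q1
  have hd1 : Module.finrank (ZMod 2) (moved ρ q1) = 2 := by rw [hW1, finrank_map_apply, hW]
  have hd2 : Module.finrank (ZMod 2) (moved ρ q2) = 2 := by rw [hW2, finrank_map_apply, hd1]
  by_contra hne
  rw [← hW1] at hne
  have hne2 : moved ρ q2 ≠ moved ρ q := by
    intro h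
    apply hne
    have h3 : (moved ρ q2).map (ρ e) = moved ρ q := by
      rw [hW2, hW1, ← Submodule.map_comp, ← Submodule.map_comp,
        show ((ρ e).comp (ρ e)).comp (ρ e) = ρ (e ^ 3) by rw [pow_three, map_mul, map_mul]; rfl, he3,
        map_one]
      exact Submodule.map_id _
    rw [h, ← hW1] at h3
    exact h3
  have f1 := fix_of_commute ρ (hodd _ h1T) hW hd1
    (commute_three ρ hT hq h1T ((finrank_sup_le _ _).trans (by omega))) hne
  have f2 := fix_of_commute ρ (hodd _ h2T) hW hd2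
    (commute_three ρ hT hq h2T ((finrank_sup_le _ _).trans (by omega))) hne2
  have hrel : q2 = q1 * q⁻¹ * q1 := by
    have h := hc.eq
    calc q2 = e * (e * q * e⁻¹ * q⁻¹) * q * e⁻¹ := by rw [hq2, hq1]; group
      _ = (e * q * e⁻¹ * q⁻¹) * e * q * e⁻¹ := by rw [h]
      _ = q1 * q⁻¹ * q1 := by rw [hq1]; group
  have hbot : moved ρ q = ⊥ := by
    rw [Submodule.eq_bot_iff]
    intro w hw
    have hw' : ρ q⁻¹ w ∈ moved ρ q :=
      invariant_of_supportIn ρ (Subgroup.inv_mem _ ((mem_supportIn ρ).2 le_rfl)) w hw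
    have h := f2 w hw
    rw [hrel, apply_mul, apply_mul, f1 w hw, f1 _ hw'] at h
    have hfix : ρ q w = w := by conv_lhs => rw [← h, apply_inv]
    obtain ⟨m, rfl⟩ := hw
    simp only [LinearMap.sub_apply, Module.End.one_apply] at hfix ⊢
    rw [fix_of_unipotent ρ (hodd _ hq) hfix, sub_self]
  rw [hbot, finrank_bot] at hW
  exact absurd hW (by norm_num)

theorem cube_five : ∀ z : ZMod 5, 1 = z * (z * z) → z = 1 := by decide

section big

variable {p : ℕ} [hp : Fact p.Prime] {P : Subgroup G} {q : G}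

theorem odd_of_mem (hP : IsPGroup p P) (h5 : 5 ≤ p) {x : G} (hx : x ∈ P) : Odd (orderOf x) := by
  obtain ⟨i, hi⟩ := IsPGroup.iff_orderOf.1 hP ⟨x, hx⟩
  rw [Subgroup.orderOf_mk] at hi
  rw [hi]
  exact Odd.pow (hp.out.odd_of_ne_two (by omega))

theorem commutator_mem (hqN : q ∈ Subgroup.normalizer (P : Set G)) {x : G} (hx : x ∈ P) :
    x * q * x⁻¹ * q⁻¹ ∈ P := by
  rw [show x * q * x⁻¹ * q⁻¹ = x * (q * x⁻¹ * q⁻¹) by group]
  exact P.mul_mem hx ((Subgroup.mem_normalizer_iff.1 hqN _).1 (P.inv_mem hx))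

/-- Two elements of a `p`-group supported in a four dimensional space generate a cyclic image. -/
theorem exists_pow (hP : IsPGroup p P) (h5 : 5 ≤ p) {U : Submodule (ZMod 2) V}
    (hd : Module.finrank (ZMod 2) U ≤ 4) {g : G} (hg : g ∈ P) (hgU : g ∈ supportIn ρ U)
    (hne : ρ g ≠ 1) :
    (p = 5 ∨ p = 7) ∧ ρ g ^ p = 1 ∧ ∀ h ∈ P, h ∈ supportIn ρ U → ∃ i : ℕ, ρ h = ρ g ^ i := by
  set L := P ⊓ supportIn ρ U
  obtain ⟨N, hN, hmem, k, hk, hdvd, -⟩ := exists_kernel_pgroup ρ (hP.to_le inf_le_left : IsPGroup p L) U hd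
    (fun g hg => invariant_of_supportIn ρ hg.2)
  haveI := hN
  have hker : ∀ l : L, l ∈ N → ρ (l : G) = 1 := fun l hl =>
    eq_one_of_fix ρ (odd_of_mem hP h5 l.2.1) l.2.2 ((hmem l).1 hl)
  set x : L := ⟨g, hg, hgU⟩
  have hxN : x ∉ N := fun h => hne (hker x h)
  obtain ⟨hk1, hk57⟩ := prime_bound hp.out h5 hdvd
  have hk' : k = 1 := by
    rcases Nat.eq_zero_or_pos k with rfl | h
    · exact absurd ((Subgroup.index_eq_one.1 (by simpa using hk)) ▸ Subgroup.mem_top x) hxN
    · omega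
  subst hk'
  rw [pow_one] at hk
  refine ⟨hk57 rfl, ?_, fun h hh hhU => ?_⟩
  · rw [← map_pow]
    refine hker (x ^ p) ?_
    rw [← QuotientGroup.eq_one_iff, QuotientGroup.mk_pow, ← hk, Subgroup.index_eq_card]
    exact pow_card_eq_one'
  · have hcard : Nat.card (L ⧸ N) = p := by rw [← Subgroup.index_eq_card, hk]
    have hx1 : (x : L ⧸ N) ≠ 1 := fun e => hxN ((QuotientGroup.eq_one_iff x).1 e)
    obtain ⟨i, hi⟩ := (mem_powers_iff_mem_zpowers).2
      (zpowers_eq_top_of_prime_card hcard hx1 ▸ Subgroup.mem_top ((⟨h, Subgroup.mem_inf.2 ⟨hh, hhU⟩⟩ : L) : L ⧸ N))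
    simp only at hi
    rw [← QuotientGroup.mk_pow, QuotientGroup.eq] at hi
    refine ⟨i, ?_⟩
    have h1 := hker _ hi
    simp only [Subgroup.coe_mul, InvMemClass.coe_inv, SubmonoidClass.coe_pow] at h1
    rw [← map_pow, show h = g ^ i * ((g ^ i)⁻¹ * h) by group, map_mul, h1, mul_one]

/-- A conjugate of `q` moving another four-group generates with it the group of order 21. -/
theorem moved_data (hP : IsPGroup p P) (h5 : 5 ≤ p) (hqN : q ∈ Subgroup.normalizer (P : Set G))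
    (hq3 : ρ (q ^ 3) = 1) (hodd : Odd (orderOf q)) (hW : Module.finrank (ZMod 2) (moved ρ q) = 2)
    {x : G} (hx : x ∈ P) (hne : (moved ρ q).map (ρ x) ≠ moved ρ q) :
    Module.finrank (ZMod 2) (moved ρ (x * q * x⁻¹ * q⁻¹)) = 3 ∧
      moved ρ q ≤ moved ρ (x * q * x⁻¹ * q⁻¹) ∧
      (moved ρ q).map (ρ x) ≤ moved ρ (x * q * x⁻¹ * q⁻¹) := by
  set g := x * q * x⁻¹ * q⁻¹ with hgdef
  set q' := x * q * x⁻¹ with hq'
  have hgP : g ∈ P := commutator_mem hqN hx
  have hgq : q' = g * q := by rw [hgdef, inv_mul_cancel_right]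
  set U := moved ρ q ⊔ moved ρ q'
  have hd : Module.finrank (ZMod 2) U ≤ 4 := by
    refine (finrank_sup_le _ _).trans ?_
    rw [moved_conj, finrank_map_apply]; omega
  have hqU : q ∈ supportIn ρ U := (mem_supportIn ρ).2 le_sup_left
  have hgU : g ∈ supportIn ρ U :=
    Subgroup.mul_mem _ ((mem_supportIn ρ).2 le_sup_right) (Subgroup.inv_mem _ hqU)
  have hg1 : ρ g ≠ 1 := fun h => hne (by
    rw [← moved_conj, ← hq', hgq]
    exact moved_eq_of_eq ρ (by rw [map_mul, h, one_mul]))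
  obtain ⟨hp57, hgp, hpow⟩ := exists_pow ρ hP h5 hd hgP hgU hg1
  obtain ⟨i, hi⟩ := hpow (q * g * q⁻¹) ((Subgroup.mem_normalizer_iff.1 hqN g).1 hgP)
    (Subgroup.mul_mem _ (Subgroup.mul_mem _ hqU hgU) (Subgroup.inv_mem _ hqU))
  rcases hp57 with rfl | rfl
  · exfalso
    apply hg1
    let φ := ρ.toHomUnits
    have hu : ∀ y, ((φ y : (Module.End (ZMod 2) V)ˣ) : Module.End (ZMod 2) V) = ρ y := fun y => rfl
    set a := φ g
    set b := φ q
    have hb : b ^ 3 = 1 := Units.ext (by rw [← map_pow, hu, hq3]; rfl)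
    have ha : a ^ 5 = 1 := Units.ext (by rw [Units.val_pow_eq_pow_val, hu, hgp]; rfl)
    have hab : b * a * b⁻¹ = a ^ i := by
      rw [← map_mul, ← map_inv, ← map_mul]
      exact Units.ext (by rw [hu, hi, Units.val_pow_eq_pow_val, hu])
    have h3 : a = a ^ (i * (i * i)) := by
      have : (b ^ 3) * a * (b ^ 3)⁻¹ = a ^ (i * (i * i)) := by
        rw [pow_three, show b * (b * b) * a * (b * (b * b))⁻¹ =
          b * (b * (b * a * b⁻¹) * b⁻¹) * b⁻¹ by group, hab,
          ← conj_pow, hab, ← conj_pow, ← conj_pow, hab, ← pow_mul, ← pow_mul]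
      rwa [hb, one_mul, inv_one, mul_one] at this
    have hcomm : b * a = a * b := by
      by_contra hcne
      have ha1 : a ≠ 1 := fun h => hcne (by rw [h, one_mul, mul_one])
      haveI : Fact (Nat.Prime 5) := ⟨by norm_num⟩
      have ho : orderOf a = 5 := orderOf_eq_prime ha ha1
      have h4 : a ^ 1 = a ^ (i * (i * i)) := by rw [pow_one]; exact h3
      rw [pow_eq_pow_iff_modEq, ho, ← ZMod.natCast_eq_natCast_iff] at h4
      push_cast at h4
      have h5' : (i : ZMod 5) = ((1 : ℕ) : ZMod 5) := by rw [Nat.cast_one]; exact cube_five _ h4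
      rw [ZMod.natCast_eq_natCast_iff, ← ho, ← pow_eq_pow_iff_modEq, pow_one, ← hab,
        mul_inv_eq_iff_eq_mul] at h5'
      exact hcne h5'
    have h6 : (a * b) ^ 3 = 1 := by
      rw [← map_mul, ← hgq, hq', ← map_pow, conj_pow]
      exact Units.ext (by rw [hu, map_mul, map_mul, hq3, mul_one, ← map_mul, mul_inv_cancel, map_one]; rfl)
    rw [(show Commute a b from hcomm.symm).mul_pow, hb, mul_one] at h6
    have h7 : a = 1 := by
      calc a = (a ^ 3) ^ 2 * (a ^ 5)⁻¹ := by group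
        _ = 1 := by rw [h6, ha]; group
    exact congrArg Units.val h7
  have hd3 := finrank_moved_seven ρ (odd_of_mem hP h5 hgP) hgp hg1
    ((Submodule.finrank_mono ((mem_supportIn ρ).1 hgU)).trans hd)
  have hqD : ∀ v ∈ moved ρ g, ρ q v ∈ moved ρ g := by
    intro v hv
    obtain ⟨m, rfl⟩ := hv
    refine (moved_pow_le ρ g i : _) ?_
    rw [moved_eq_of_eq ρ (show ρ (g ^ i) = ρ (q * g * q⁻¹) by rw [map_pow, hi]), moved_conj]
    exact ⟨_, ⟨m, rfl⟩, rfl⟩
  have hle : moved ρ q ≤ moved ρ g := by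
    refine moved_le_of_inf_ne_bot ρ hodd hW hqD fun hbot => ?_
    have h1 := Submodule.finrank_sup_add_finrank_inf_eq (moved ρ g) (moved ρ q)
    have h2 := Submodule.finrank_mono (sup_le ((mem_supportIn ρ).1 hgU) le_sup_left : moved ρ g ⊔ moved ρ q ≤ U)
    rw [hbot, finrank_bot, hW, hd3] at h1
    omega
  refine ⟨hd3, hle, ?_⟩
  rw [← moved_conj, ← hq', hgq]
  exact (mem_supportIn ρ).1 (Subgroup.mul_mem _ ((mem_supportIn ρ).2 le_rfl) ((mem_supportIn ρ).2 hle))

/-- The `P`-translates of the moved four-group lie in a space of dimension at most three. -/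
theorem exists_invariant (hP : IsPGroup p P) (h5 : 5 ≤ p) (hqN : q ∈ Subgroup.normalizer (P : Set G))
    (hq3 : ρ (q ^ 3) = 1) (hodd : Odd (orderOf q)) (hW : Module.finrank (ZMod 2) (moved ρ q) = 2) :
    ∃ U : Submodule (ZMod 2) V, moved ρ q ≤ U ∧ Module.finrank (ZMod 2) U ≤ 3 ∧
      ∀ x ∈ P, ∀ v ∈ U, ρ x v ∈ U := by
  obtain ⟨U0, hWU0, hU0, hall⟩ : ∃ U0 : Submodule (ZMod 2) V, moved ρ q ≤ U0 ∧
      Module.finrank (ZMod 2) U0 ≤ 3 ∧ ∀ x ∈ P, (moved ρ q).map (ρ x) ≤ U0 := by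
    by_cases hfix : ∀ x ∈ P, (moved ρ q).map (ρ x) = moved ρ q
    · exact ⟨moved ρ q, le_rfl, by omega, fun x hx => (hfix x hx).le⟩
    push Not at hfix
    obtain ⟨x, hx, hxne⟩ := hfix
    obtain ⟨hgx3, hWgx, -⟩ := moved_data ρ hP h5 hqN hq3 hodd hW hx hxne
    refine ⟨_, hWgx, hgx3.le, fun y hy => ?_⟩
    by_cases hye : (moved ρ q).map (ρ y) = moved ρ q
    · rw [hye]; exact hWgx
    obtain ⟨hgy3, hWgy, hyWgy⟩ := moved_data ρ hP h5 hqN hq3 hodd hW hy hye
    refine hyWgy.trans ?_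
    set gx := x * q * x⁻¹ * q⁻¹
    set gy := y * q * y⁻¹ * q⁻¹
    have hd : Module.finrank (ZMod 2) (moved ρ gx ⊔ moved ρ gy : Submodule (ZMod 2) V) ≤ 4 := by
      have h1 := Submodule.finrank_sup_add_finrank_inf_eq (moved ρ gx) (moved ρ gy)
      have h2 := Submodule.finrank_mono (le_inf hWgx hWgy)
      omega
    have hne1 : ρ gx ≠ 1 := fun h => by
      have : moved ρ gx = ⊥ := by
        rw [moved_eq_of_eq ρ (h.trans ρ.map_one.symm), eq_bot_iff, moved_le_iff]
        intro v; rw [apply_one, sub_self]; exact Submodule.zero_mem _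
      rw [this, finrank_bot] at hgx3
      omega
    obtain ⟨-, -, hpow⟩ := exists_pow ρ hP h5 hd (commutator_mem hqN hx)
      ((mem_supportIn ρ).2 le_sup_left) hne1
    obtain ⟨i, hi⟩ := hpow gy (commutator_mem hqN hy) ((mem_supportIn ρ).2 le_sup_right)
    rw [moved_eq_of_eq ρ (show ρ gy = ρ (gx ^ i) by rw [map_pow, hi])]
    exact moved_pow_le ρ gx i
  refine ⟨⨆ x : P, (moved ρ q).map (ρ (x : G)), ?_,
    (Submodule.finrank_mono (iSup_le (fun y : P => hall (y : G) y.2))).trans hU0, ?_⟩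
  · exact fun v hv => Submodule.mem_iSup_of_mem (1 : P) ⟨v, hv, apply_one ρ v⟩
  · intro x hx v hv
    refine (show _ ≤ (⨆ y : P, (moved ρ q).map (ρ (y : G))).comap (ρ x) from iSup_le fun y => ?_) hv
    rintro _ ⟨w, hw, rfl⟩
    exact Submodule.mem_iSup_of_mem (⟨x, hx⟩ * y : P) ⟨w, hw, apply_mul ρ _ _ _⟩

end big

/-- The pointwise stabiliser of an invariant space in an elementary abelian group of order `r³`. -/
theorem card_fix_ge {r : ℕ} [hr : Fact r.Prime] {F : Subgroup G} (hF : Nat.card F = r ^ 3)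
    (U : Submodule (ZMod 2) V) (hinv : ∀ g ∈ F, ∀ v ∈ U, ρ g v ∈ U)
    (hd : Module.finrank (ZMod 2) U ≤ 4 ∧ 5 ≤ r ∨ Module.finrank (ZMod 2) U = 2 ∧ r = 3) :
    ∃ N : Subgroup F, r ^ 2 ≤ Nat.card N ∧ ∀ g ∈ N, ∀ v ∈ U, ρ (g : G) v = v := by
  obtain ⟨N, -, hmem, k, hk, hdvd, h6⟩ := exists_kernel_pgroup ρ (IsPGroup.of_card hF) U
    (by rcases hd with h | h <;> omega) hinv
  refine ⟨N, ?_, fun g hg => (hmem g).1 hg⟩
  have hk1 : k ≤ 1 := by
    rcases hd with ⟨-, h5⟩ | ⟨h2, rfl⟩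
    · exact (prime_bound hr.out h5 hdvd).1
    · by_contra h
      have := (pow_dvd_pow 3 (show 2 ≤ k by omega)).trans (h6 h2)
      norm_num at this
  have h := N.card_mul_index
  rw [hk, hF] at h
  refine Nat.le_of_mul_le_mul_right ?_ (pow_pos hr.out.pos k)
  rw [h, ← pow_add]
  exact Nat.pow_le_pow_right hr.out.pos (by omega)

end finite

end CfsgLib.Minimal.FourSupport
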