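/-
Minimal: a module for a Frobenius group without kernel fixed points is free over the complement.

Let `R` be a commutative ring with finitely many maximal ideals and `H` a finite group of
automorphisms of `R` such that every `h ≠ 1` moves some element modulo each maximal ideal.  Then
there are `θ θ'` with `∑ r, (r θ')(r v θ) = δ_{v,1}`, so every semilinear `H`-module is free.
-/
import Mathlib
import Cfsg.Agent.Lib.PSolvable.FrattiniFacts

set_option autoImplicit false
set_option linter.style.haveILetI false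
set_option linter.unusedVariables false

open scoped Pointwise

namespace CfsgLib.Minimal.FreeOverComplement

/-- Normal elements in a field with a faithful finite group action. -/
theorem exists_normal_element (S K : Type*) [Group S] [Finite S] [Field K] [MulSemiringAction S K]
    [FaithfulSMul S K] :
    ∃ θ : K, ∀ c : S → K, (∀ g : S, ∑ᶠ j : S, ((g * j) • θ) * c j = 0) → c = 0 := by
  classical
  haveI := Fintype.ofFinite S
  let K0 := FixedPoints.subfield S K
  let b := IsGalois.normalBasis K0 K
  let e := FixedPoints.toAlgAutMulEquiv S K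
  have he : ∀ (j : S) (x : K), e j x = j • x := fun j x => rfl
  refine ⟨b 1, fun c hc => ?_⟩
  have hb : ∀ j : S, b (e j) = j • b 1 := fun j => by rw [IsGalois.normalBasis_apply, he]
  let M : Matrix S S K := fun g j => g • b (e j)
  have hMc : Matrix.mulVec M c = 0 := funext fun g => by
    have := hc g
    rw [finsum_eq_sum_of_fintype] at this
    simpa [M, Matrix.mulVec, dotProduct, hb, mul_smul] using this
  by_contra hne
  obtain ⟨d, hd, hdM⟩ := Matrix.exists_vecMul_eq_zero_iff.2
    (Matrix.exists_mulVec_eq_zero_iff.1 ⟨c, hne, hMc⟩)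
  refine hd ?_
  let f : S → (K →* K) := fun g => (MulSemiringAction.toRingHom S K g).toMonoidHom
  have hinj : Function.Injective f := fun g g' h =>
    eq_of_smul_eq_smul fun x : K => DFunLike.congr_fun h x
  let L : K →ₗ[K0] K := ∑ g : S, (LinearMap.mulLeft K0 (d g)).comp (e g).toLinearMap
  have hL : L = 0 := by
    refine b.ext fun σ => ?_
    obtain ⟨j, rfl⟩ := e.surjective σ
    have := congrFun hdM j
    simpa [L, M, Matrix.vecMul, dotProduct, he] using this
  have hli := (linearIndependent_monoidHom K K).comp f hinj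
  rw [Fintype.linearIndependent_iff] at hli
  refine funext (hli d (funext fun x => ?_))
  have := LinearMap.congr_fun hL x
  simpa [L, f, he, Finset.sum_apply] using this

section Ring

variable {R : Type*} [CommRing R] {H : Type*} [Group H] [MulSemiringAction H R]

theorem isMaximal_smul (g : H) (m : Ideal R) [hm : m.IsMaximal] : (g • m).IsMaximal := by
  rw [Ideal.pointwise_smul_eq_comap]
  exact Ideal.comap_isMaximal_of_surjective _ (RingEquiv.surjective _)

/-- The `H`-action on maximal ideals. -/
@[reducible]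
def maxAction : MulAction H (MaximalSpectrum R) where
  smul g m := ⟨g • m.asIdeal, isMaximal_smul g m.asIdeal (hm := m.isMaximal)⟩
  one_smul m := MaximalSpectrum.ext (one_smul H m.asIdeal)
  mul_smul g g' m := MaximalSpectrum.ext (mul_smul g g' m.asIdeal)

/-- The dual pair behind freeness. -/
theorem exists_dual_pair [Fintype H] [DecidableEq H] [Finite (MaximalSpectrum R)]
    (hsep : ∀ h : H, h ≠ 1 → ∀ m : Ideal R, m.IsMaximal → ∃ r, h • r - r ∉ m) :
    ∃ θ θ' : R, (∀ u : H, ∑ s, ((u * s) • θ) * (s • θ') = if u = 1 then 1 else 0) ∧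
      (∀ v : H, ∑ r, (r • θ') * ((r * v) • θ) = if v = 1 then 1 else 0) := by
  classical
  letI := maxAction (R := R) (H := H)
  have hsmul : ∀ (g : H) (m : MaximalSpectrum R), (g • m).asIdeal = g • m.asIdeal := fun g m => rfl
  set Ω := MulAction.orbitRel.Quotient H (MaximalSpectrum R)
  let rep : Ω → MaximalSpectrum R := fun o => Quotient.out o
  have hrep : ∀ (o o' : Ω) (g : H), g • rep o = rep o' → o = o' := by
    intro o o' g hg
    rw [← Quotient.out_eq o, ← Quotient.out_eq o']
    exact (Quotient.sound (MulAction.orbitRel_apply.2 ⟨g, hg⟩)).symm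
  have hnormal : ∀ o : Ω, ∃ x : R, ∀ c : H → R ⧸ (rep o).asIdeal,
      (∀ g : H, g ∈ MulAction.stabilizer H (rep o) →
        ∑ᶠ j : MulAction.stabilizer H (rep o),
          Ideal.Quotient.mk (rep o).asIdeal ((g * (j : H)) • x) * c j = 0) →
      ∀ j ∈ MulAction.stabilizer H (rep o), c j = 0 := by
    intro o
    set m := (rep o).asIdeal with hm
    haveI : m.IsMaximal := (rep o).isMaximal
    letI : Field (R ⧸ m) := Ideal.Quotient.field m
    set S := MulAction.stabilizer H (rep o) with hS
    have hSm : ∀ j : S, ∀ r ∈ m, (j : H) • r ∈ m := fun j r hr => by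
      have h1 : (j : H) • rep o = rep o := j.2
      have h2 : (j : H) • m = m := congrArg MaximalSpectrum.asIdeal h1
      rw [← h2]
      exact Ideal.smul_mem_pointwise_smul _ _ _ hr
    let act : S → R ⧸ m →+* R ⧸ m := fun j =>
      Ideal.quotientMap m (MulSemiringAction.toRingHom H R (j : H)) (hSm j)
    letI : MulSemiringAction S (R ⧸ m) :=
      { smul := fun j x => act j x
        one_smul := fun x => by
          obtain ⟨r, rfl⟩ := Ideal.Quotient.mk_surjective x
          change Ideal.Quotient.mk m (((1 : S) : H) • r) = _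
          simp
        mul_smul := fun a b x => by
          obtain ⟨r, rfl⟩ := Ideal.Quotient.mk_surjective x
          change Ideal.Quotient.mk m (((a * b : S) : H) • r) = Ideal.Quotient.mk m ((a : H) • (b : H) • r)
          rw [Subgroup.coe_mul, mul_smul]
        smul_zero := fun j => map_zero (act j)
        smul_add := fun j => map_add (act j)
        smul_one := fun j => map_one (act j)
        smul_mul := fun j => map_mul (act j) }
    haveI : FaithfulSMul S (R ⧸ m) := ⟨fun {a b} hab => by
      by_contra hne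
      obtain ⟨r, hr⟩ := hsep ((b : H)⁻¹ * a) (fun h => hne (Subtype.ext (inv_mul_eq_one.1 h).symm))
        m inferInstance
      refine hr (Ideal.Quotient.eq.1 ?_)
      have h1 := congrArg (fun x => b⁻¹ • x) (hab (Ideal.Quotient.mk m r))
      simp only [inv_smul_smul] at h1
      rw [← mul_smul] at h1
      exact h1⟩
    obtain ⟨θ, hθ⟩ := exists_normal_element S (R ⧸ m)
    obtain ⟨x, rfl⟩ := Ideal.Quotient.mk_surjective θ
    refine ⟨x, fun c hc j hj => ?_⟩
    refine congrFun (hθ (fun j => c j) fun g => ?_) ⟨j, hj⟩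
    exact hc g g.2
  choose x hx using hnormal
  let pick : MaximalSpectrum R → R := fun m => if h : ∃ o, rep o = m then x h.choose else 0
  obtain ⟨θ, hθ⟩ := Ideal.exists_forall_sub_mem_ideal
    (I := fun m : MaximalSpectrum R => m.asIdeal)
    (fun m m' hne => Ideal.isCoprime_iff_sup_eq.2
      (m.isMaximal.coprime_of_ne m'.isMaximal fun h => hne (MaximalSpectrum.ext h))) pick
  let P : Matrix H H R := fun u s => (u * s) • θ
  have hrepdet : ∀ o : Ω, P.det ∉ (rep o).asIdeal := by
    intro o hdet
    set m := (rep o).asIdeal with hm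
    haveI : m.IsMaximal := (rep o).isMaximal
    letI : Field (R ⧸ m) := Ideal.Quotient.field m
    set q := Ideal.Quotient.mk m with hq
    have h0 : (q.mapMatrix P).det = 0 := by
      rw [← RingHom.map_det]; exact Ideal.Quotient.eq_zero_iff_mem.2 hdet
    obtain ⟨c, hc0, hc⟩ := Matrix.exists_mulVec_eq_zero_iff.2 h0
    refine hc0 (funext fun s0 => ?_)
    set S := MulAction.stabilizer H (rep o) with hS
    have key : ∀ a : H, (a ∈ S → q (a • θ) = q (a • x o)) ∧ (a ∉ S → q (a • θ) = 0) := by
      intro a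
      set m' := a⁻¹ • rep o with hm'
      have h1 : θ - pick m' ∈ m'.asIdeal := hθ m'
      have h2 : a • θ - a • pick m' ∈ m := by
        rw [← smul_sub]
        rw [hm', hsmul, Ideal.mem_inv_pointwise_smul_iff] at h1
        exact h1
      constructor
      · intro ha
        have : m' = rep o := (MulAction.stabilizer H (rep o)).inv_mem ha
        have hp : pick m' = x o := by
          have hex : ∃ o', rep o' = m' := ⟨o, this.symm⟩
          rw [show pick m' = x hex.choose from dif_pos hex]
          rw [hrep hex.choose o 1 (by rw [one_smul, hex.choose_spec, this])]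
        rw [← hp]
        exact Ideal.Quotient.eq.2 h2
      · intro ha
        have hp : pick m' = 0 := by
          refine dif_neg fun hex => ha ?_
          obtain ⟨o', ho'⟩ := hex
          have hoo : o = o' := hrep o o' a⁻¹ ho'.symm
          subst hoo
          have : a • rep o = rep o := by
            nth_rewrite 1 [ho']
            exact smul_inv_smul a (rep o)
          exact this
        rw [hp, smul_zero, sub_zero] at h2
        exact Ideal.Quotient.eq_zero_iff_mem.2 h2
    have hsum := hx o (fun j => c (s0 * j)) (fun g hg => ?_) 1 S.one_mem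
    · simpa using hsum
    have h3 : ∑ s, q ((g * s0⁻¹ * s) • θ) * c s = 0 := congrFun hc (g * s0⁻¹)
    rw [← Equiv.sum_comp (Equiv.mulLeft s0)] at h3
    simp only [Equiv.coe_mulLeft, inv_mul_cancel_right, ← mul_assoc] at h3
    rw [finsum_eq_sum_of_fintype, ← h3]
    rw [← Finset.sum_subtype (Finset.univ.filter (· ∈ S)) (by simp [hS, MulAction.mem_stabilizer_iff])
      (fun j : H => q ((g * j) • x o) * c (s0 * j)),
      ← Finset.sum_filter_add_sum_filter_not Finset.univ (· ∈ S)
      (fun j : H => q ((g * j) • θ) * c (s0 * j))]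
    have hz : ∑ j ∈ Finset.univ.filter (fun j => ¬ j ∈ S), q ((g * j) • θ) * c (s0 * j) = 0 := by
      refine Finset.sum_eq_zero fun j hj => ?_
      rw [(key (g * j)).2 fun h => (Finset.mem_filter.1 hj).2 ((S.mul_mem_cancel_left hg).1 h),
        zero_mul]
    rw [hz, add_zero]
    refine Finset.sum_congr rfl fun j hj => ?_
    rw [(key (g * j)).1 (S.mul_mem hg (Finset.mem_filter.1 hj).2)]
  have hunit : IsUnit P.det := by
    by_contra hnu
    obtain ⟨M, hM, hPM⟩ := exists_max_ideal_of_mem_nonunits (mem_nonunits_iff.2 hnu)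
    let mM : MaximalSpectrum R := ⟨M, hM⟩
    let o : Ω := Quotient.mk'' mM
    obtain ⟨g, hg⟩ : ∃ g : H, g • mM = rep o :=
      MulAction.orbitRel_apply.1 (Quotient.mk_out mM)
    refine hrepdet o ?_
    have hgP : g • P.det ∈ (rep o).asIdeal := by
      rw [← hg, hsmul]; exact Ideal.smul_mem_pointwise_smul _ _ _ hPM
    have hperm : g • P.det = (P.submatrix (Equiv.mulLeft g) id).det := by
      change MulSemiringAction.toRingHom H R g P.det = _
      rw [RingHom.map_det]
      refine congrArg Matrix.det (Matrix.ext fun u s => ?_)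
      change g • ((u * s) • θ) = ((g * u) * s) • θ
      rw [smul_smul, mul_assoc]
    rw [hperm, Matrix.det_permute] at hgP
    rcases Int.units_eq_one_or (Equiv.Perm.sign (Equiv.mulLeft g)) with h | h <;>
      rw [h] at hgP <;> simpa using hgP
  let cv : H → R := Matrix.mulVec P⁻¹ (fun u => if u = 1 then 1 else 0)
  have hcv : ∀ u : H, ∑ s, ((u * s) • θ) * cv s = if u = 1 then 1 else 0 := fun u => by
    have h1 : Matrix.mulVec P cv = fun u => if u = 1 then 1 else 0 := by
      simp only [cv, Matrix.mulVec_mulVec, Matrix.mul_nonsing_inv P hunit, Matrix.one_mulVec]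
    exact congrFun h1 u
  have hcs : ∀ t : H, t • cv 1 = cv t := by
    intro t
    have h1 : Matrix.mulVec P (fun s => t • cv (t⁻¹ * s)) = Matrix.mulVec P cv := by
      funext u
      change ∑ s, ((u * s) • θ) * (t • cv (t⁻¹ * s)) = ∑ s, ((u * s) • θ) * cv s
      rw [hcv u, ← Equiv.sum_comp (Equiv.mulLeft t)]
      have h2 := congrArg (t • ·) (hcv (t⁻¹ * u * t))
      simp only [Finset.smul_sum, smul_mul', smul_smul, smul_ite, smul_one, smul_zero] at h2
      rw [Equiv.coe_mulLeft]
      convert h2 using 2 with s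
      · rw [inv_mul_cancel_left]; congr 2; group
      · constructor
        · rintro rfl; group
        · intro h
          calc u = t * (t⁻¹ * u * t) * t⁻¹ := by group
            _ = 1 := by rw [h]; group
    have h3 := congrArg (Matrix.mulVec P⁻¹) h1
    simp only [Matrix.mulVec_mulVec, Matrix.nonsing_inv_mul P hunit, Matrix.one_mulVec] at h3
    simpa using congrFun h3 t
  refine ⟨θ, cv 1, fun u => by simp only [hcs]; exact hcv u, fun v => ?_⟩
  let Q : Matrix H H R := fun s g => (g * s) • cv 1
  have hPQ : P * Q = 1 := by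
    refine Matrix.ext fun a g => ?_
    change ∑ s, ((a * s) • θ) * ((g * s) • cv 1) = _
    have h2 := congrArg (g • ·) (hcv (g⁻¹ * a))
    simp only [Finset.smul_sum, smul_mul', smul_smul, smul_ite, smul_one, smul_zero] at h2
    rw [Matrix.one_apply]
    convert h2 using 2 with s
    · congr 1
      · congr 1; group
      · rw [mul_smul, hcs s]
    · rw [inv_mul_eq_one, eq_comm]
  have hQP : Q * P = 1 := mul_eq_one_comm.mp hPQ
  have h4 := congrFun (congrFun hQP 1) v
  rw [Matrix.one_apply] at h4
  have h5 : ∑ r : H, ((r * 1) • cv 1) * ((r * v) • θ) = if 1 = v then (1 : R) else 0 := h4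
  simpa [eq_comm] using h5

end Ring

variable {k : Type*} [Field k] {H : Type*} [Group H] [Fintype H]

/-- `σ` is free over `H`. -/
def IsFreeRep {V : Type*} [AddCommGroup V] [Module k V] (σ : H →* (V →ₗ[k] V)) : Prop :=
  ∃ W : Submodule k V, Function.Bijective fun f : H → W => ∑ h, σ h (f h : V)

theorem IsFreeRep.of_subsingleton {V : Type*} [AddCommGroup V] [Module k V] [Subsingleton V]
    (σ : H →* (V →ₗ[k] V)) : IsFreeRep σ :=
  ⟨⊤, fun a b _ => funext fun h => Subsingleton.elim _ _, fun v => ⟨0, Subsingleton.elim _ _⟩⟩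

theorem IsFreeRep.of_equiv {V V0 V1 : Type*} [AddCommGroup V] [Module k V] [AddCommGroup V0]
    [Module k V0] [AddCommGroup V1] [Module k V1] (e : (V0 × V1) ≃ₗ[k] V)
    {σ : H →* (V →ₗ[k] V)} {σ0 : H →* (V0 →ₗ[k] V0)} {σ1 : H →* (V1 →ₗ[k] V1)}
    (hc : ∀ h a b, σ h (e (a, b)) = e (σ0 h a, σ1 h b))
    (h0 : IsFreeRep σ0) (h1 : IsFreeRep σ1) : IsFreeRep σ := by
  obtain ⟨W0, hW0⟩ := h0
  obtain ⟨W1, hW1⟩ := h1
  refine ⟨(W0.prod W1).map e.toLinearMap, ?_⟩
  let ι : (W0 × W1) ≃ ((W0.prod W1).map e.toLinearMap) :=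
    Equiv.ofBijective (fun p => ⟨e ((p.1 : V0), (p.2 : V1)), ⟨_, ⟨p.1.2, p.2.2⟩, rfl⟩⟩) (by
      constructor
      · intro p q hpq
        have := e.injective (congrArg Subtype.val hpq)
        simp only [Prod.mk.injEq] at this
        exact Prod.ext (Subtype.ext this.1) (Subtype.ext this.2)
      · rintro ⟨_, ⟨a, b⟩, ⟨ha, hb⟩, rfl⟩
        exact ⟨(⟨a, ha⟩, ⟨b, hb⟩), rfl⟩)
  let E : (H → W0) × (H → W1) ≃ (H → ((W0.prod W1).map e.toLinearMap)) :=
    (Equiv.arrowProdEquivProdArrow H (fun _ => W0) (fun _ => W1)).symm.trans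
      (Equiv.arrowCongr (Equiv.refl H) ι)
  rw [← E.bijective.of_comp_iff]
  have : ((fun f : H → ((W0.prod W1).map e.toLinearMap) => ∑ h, σ h (f h : V)) ∘ E) =
      e ∘ Prod.map (fun f : H → W0 => ∑ h, σ0 h (f h : V0))
        (fun f : H → W1 => ∑ h, σ1 h (f h : V1)) := by
    funext ⟨f, g⟩
    simp only [Function.comp_apply, Prod.map]
    have hh : ∀ h, ((E (f, g)) h : V) = e ((f h : V0), (g h : V1)) := fun h => rfl
    simp only [hh, hc, ← map_sum]
    congr 1
    exact Prod.ext (by simp [Prod.fst_sum]) (by simp [Prod.snd_sum])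
  rw [this]
  exact e.bijective.comp (hW0.prodMap hW1)

/-- Coprime abelian group acting without fixed points, permuted fixed-point-freely by `H`. -/
theorem IsFreeRep.of_abelian {V : Type*} [AddCommGroup V] [Module k V] [FiniteDimensional k V]
    {E : Type*} [CommGroup E] [Fintype E] (τ : E →* (V →ₗ[k] V)) (σ : H →* (V →ₗ[k] V))
    (φ : H →* MulAut E) (hcomp : ∀ h e, σ h * τ e = τ (φ h e) * σ h)
    (hfpf : ∀ h : H, h ≠ 1 → ∀ e, φ h e = e → e = 1) (hcop : (Fintype.card E : k) ≠ 0)
    (hfix : ∀ v, (∀ e, τ e v = v) → v = 0) : IsFreeRep σ := by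
  classical
  rcases subsingleton_or_nontrivial V with h | h
  · exact IsFreeRep.of_subsingleton σ
  set Rsub : Subalgebra k (Module.End k V) := Algebra.adjoin k (Set.range τ) with hRsub
  haveI hcm : IsMulCommutative Rsub := by
    refine ⟨⟨fun a b => Subtype.ext ?_⟩⟩
    have hab : ∀ x ∈ Set.range τ, ∀ y ∈ Set.range τ, x * y = y * x := by
      rintro _ ⟨e, rfl⟩ _ ⟨e', rfl⟩
      rw [← map_mul, ← map_mul, mul_comm]
    exact congrArg Subtype.val ((Algebra.isMulCommutative_adjoin k hab).is_comm.comm a b)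
  letI : CommRing Rsub :=
    { (inferInstance : Ring Rsub) with mul_comm := fun a b => hcm.is_comm.comm a b }
  haveI : Module.Finite k Rsub := Module.Finite.of_injective Rsub.toSubmodule.subtype
    Subtype.val_injective
  haveI : IsArtinianRing Rsub := IsArtinianRing.of_finite k Rsub
  have hσ : ∀ h, σ h * σ h⁻¹ = 1 := fun h => by rw [← map_mul, mul_inv_cancel, map_one]
  have hσ' : ∀ h, σ h⁻¹ * σ h = 1 := fun h => by rw [← map_mul, inv_mul_cancel, map_one]
  have hinv : ∀ (h : H) (x : Module.End k V), x ∈ Rsub → σ h * x * σ h⁻¹ ∈ Rsub := by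
    intro h x hx
    induction hx using Algebra.adjoin_induction with
    | mem y hy =>
      obtain ⟨e, rfl⟩ := hy
      rw [hcomp, mul_assoc, hσ, mul_one]
      exact Algebra.subset_adjoin ⟨_, rfl⟩
    | algebraMap c =>
      rw [← Algebra.commutes, mul_assoc, hσ, mul_one]
      exact Subalgebra.algebraMap_mem _ c
    | add y z _ _ hy hz => rw [mul_add, add_mul]; exact add_mem hy hz
    | mul y z _ _ hy hz =>
      have : σ h * (y * z) * σ h⁻¹ = σ h * y * σ h⁻¹ * (σ h * z * σ h⁻¹) := by
        simp only [mul_assoc]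
        rw [← mul_assoc (σ h⁻¹) (σ h), hσ', one_mul]
      rw [this]; exact mul_mem hy hz
  letI : MulSemiringAction H Rsub :=
    { smul := fun h x => ⟨σ h * x * σ h⁻¹, hinv h x x.2⟩
      one_smul := fun x => Subtype.ext (by
        change σ 1 * (x : Module.End k V) * σ 1⁻¹ = x
        rw [inv_one, map_one, one_mul, mul_one])
      mul_smul := fun a b x => Subtype.ext (by
        change σ (a * b) * (x : Module.End k V) * σ (a * b)⁻¹ =
          σ a * (σ b * (x : Module.End k V) * σ b⁻¹) * σ a⁻¹
        simp only [mul_inv_rev, map_mul, mul_assoc])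
      smul_zero := fun h => Subtype.ext (by change σ h * 0 * σ h⁻¹ = 0; simp)
      smul_add := fun h x y => Subtype.ext (by
        change σ h * ((x : Module.End k V) + y) * σ h⁻¹ = σ h * x * σ h⁻¹ + σ h * y * σ h⁻¹
        rw [mul_add, add_mul])
      smul_one := fun h => Subtype.ext (by change σ h * 1 * σ h⁻¹ = 1; rw [mul_one, hσ])
      smul_mul := fun h x y => Subtype.ext (by
        change σ h * ((x : Module.End k V) * y) * σ h⁻¹ =
          σ h * x * σ h⁻¹ * (σ h * y * σ h⁻¹)
        simp only [mul_assoc]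
        rw [← mul_assoc (σ h⁻¹) (σ h), hσ', one_mul]) }
  let t : E →* Rsub :=
    { toFun := fun e => ⟨τ e, Algebra.subset_adjoin ⟨e, rfl⟩⟩
      map_one' := Subtype.ext (map_one τ)
      map_mul' := fun a b => Subtype.ext (map_mul τ a b) }
  have hsum : ∑ e, t e = 0 := by
    refine Subtype.ext (LinearMap.ext fun v => hfix _ fun e => ?_)
    simp only [AddSubmonoidClass.coe_finsetSum, LinearMap.sum_apply, map_sum]
    refine Fintype.sum_equiv (Equiv.mulLeft e) _ _ fun e' => ?_
    change τ e (τ e' v) = τ (e * e') v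
    rw [map_mul]; rfl
  have hsep : ∀ h : H, h ≠ 1 → ∀ m : Ideal Rsub, m.IsMaximal → ∃ r, h • r - r ∉ m := by
    intro h hh m hm
    by_contra hall
    push Not at hall
    have hsurj : Function.Surjective fun e : E => e⁻¹ * φ h e := by
      refine Finite.injective_iff_surjective.1 fun a b hab => ?_
      have h1 : φ h (a * b⁻¹) = a * b⁻¹ := by
        rw [map_mul, map_inv]
        calc φ h a * (φ h b)⁻¹ = a * (a⁻¹ * φ h a) * (φ h b)⁻¹ := by rw [mul_inv_cancel_left]
          _ = a * (b⁻¹ * φ h b) * (φ h b)⁻¹ := by rw [show a⁻¹ * φ h a = b⁻¹ * φ h b from hab]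
          _ = a * b⁻¹ := by group
      exact mul_inv_eq_one.1 (hfpf h hh _ h1)
    have hone : ∀ e, t e - 1 ∈ m := by
      intro e
      obtain ⟨d, rfl⟩ := hsurj e
      have h1 : h • t d = t (φ h d) := Subtype.ext (by
        change σ h * τ d * σ h⁻¹ = τ (φ h d)
        rw [hcomp, mul_assoc, hσ, mul_one])
      have h2 := m.mul_mem_left (t d⁻¹) (h1 ▸ hall (t d))
      rwa [mul_sub, ← map_mul, ← map_mul, inv_mul_cancel, map_one] at h2
    have h3 : (Fintype.card E : Rsub) ∈ m := by
      have : ∑ e, (t e - 1) ∈ m := m.sum_mem fun e _ => hone e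
      rw [Finset.sum_sub_distrib, hsum, zero_sub, Finset.sum_const, Finset.card_univ,
        nsmul_one] at this
      exact m.neg_mem_iff.1 this
    refine hm.ne_top (Ideal.eq_top_of_isUnit_mem m h3 ?_)
    rw [← map_natCast (algebraMap k Rsub)]
    exact (IsUnit.mk0 _ hcop).map _
  obtain ⟨θ, θ', ha, hb⟩ := exists_dual_pair (R := Rsub) hsep
  let T : Module.End k V := ∑ u, σ u
  have hσT : ∀ s, σ s * T = T := fun s => by
    simp only [T, Finset.mul_sum, ← map_mul]
    exact Equiv.sum_comp (Equiv.mulLeft s) fun u => σ u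
  have hTσ : ∀ s, T * σ s = T := fun s => by
    simp only [T, Finset.sum_mul, ← map_mul]
    exact Equiv.sum_comp (Equiv.mulRight s) fun u => σ u
  have hσx : ∀ (s : H) (x : Rsub),
      σ s * (x : Module.End k V) = ((s • x : Rsub) : Module.End k V) * σ s := fun s x => by
    change σ s * (x : Module.End k V) = σ s * x * σ s⁻¹ * σ s
    rw [mul_assoc (σ s * _), hσ', mul_one]
  let π : H → Module.End k V := fun s =>
    ((s • θ : Rsub) : Module.End k V) * T * ((s • θ' : Rsub) : Module.End k V)
  have hTxT : ∀ x : Rsub, T * (x : Module.End k V) * T =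
      ((∑ u, u • x : Rsub) : Module.End k V) * T := fun x => by
    conv_lhs => arg 1; arg 1; simp only [T]
    simp only [Finset.sum_mul, AddSubmonoidClass.coe_finsetSum, hσx]
    exact Finset.sum_congr rfl fun u _ => by rw [mul_assoc, hσT]
  have horth : ∀ s t, π s * π t = if s = t then π s else 0 := by
    intro s u
    have h1 : π s * π u = ((s • θ : Rsub) : Module.End k V) *
        (T * ((s • θ' * u • θ : Rsub) : Module.End k V) * T) *
          ((u • θ' : Rsub) : Module.End k V) := by
      simp only [π, MulMemClass.coe_mul, mul_assoc]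
    have h2 : ∑ w : H, w • (s • θ' * u • θ) = if s = u then (1 : Rsub) else 0 := by
      have := hb (s⁻¹ * u)
      rw [← Equiv.sum_comp (Equiv.mulRight s) fun r => (r • θ') * ((r * (s⁻¹ * u)) • θ)] at this
      simp only [inv_mul_eq_one] at this
      rw [← this]
      refine Finset.sum_congr rfl fun w _ => ?_
      rw [smul_mul', smul_smul, smul_smul, Equiv.coe_mulRight, mul_assoc, mul_inv_cancel_left]
    rw [h1, hTxT, h2]
    split_ifs with hsu
    · subst hsu; simp [π, mul_assoc]
    · simp
  have hone : ∑ s, π s = 1 := by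
    simp only [π, mul_assoc]
    have : ∀ s, T * ((s • θ' : Rsub) : Module.End k V) =
        ∑ u, (((u * s) • θ' : Rsub) : Module.End k V) * σ u := fun s => by
      simp only [T, Finset.sum_mul, hσx, smul_smul]
    simp only [this, Finset.mul_sum, ← mul_assoc, ← MulMemClass.coe_mul]
    rw [Finset.sum_comm]
    simp only [← Finset.sum_mul, ← AddSubmonoidClass.coe_finsetSum]
    have h5 : ∀ u : H, ∑ s, s • θ * (u * s) • θ' = if u = 1 then (1 : Rsub) else 0 := fun u => by
      have := ha u⁻¹
      rw [← Equiv.sum_comp (Equiv.mulLeft u) fun s => ((u⁻¹ * s) • θ) * (s • θ')] at this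
      simpa [inv_eq_one] using this
    simp only [h5]
    rw [Finset.sum_eq_single (1 : H) (fun u _ hu => by simp [hu]) (by simp)]
    simp
  have hconj : ∀ s, σ s * π 1 = π s * σ s := fun s => by
    simp only [π, one_smul]
    calc σ s * ((θ : Module.End k V) * T * θ') = (σ s * θ) * T * θ' := by simp only [mul_assoc]
      _ = ((s • θ : Rsub) : Module.End k V) * (σ s * T) * θ' := by rw [hσx]; simp only [mul_assoc]
      _ = ((s • θ : Rsub) : Module.End k V) * (T * σ s) * θ' := by rw [hσT, hTσ]
      _ = ((s • θ : Rsub) : Module.End k V) * T * (σ s * θ') := by simp only [mul_assoc]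
      _ = _ := by rw [hσx]; simp only [mul_assoc]
  have hπid : ∀ s (w : LinearMap.range (π 1)), π s (σ s (w : V)) = σ s (w : V) := by
    rintro s ⟨_, a, rfl⟩
    change (π s * (σ s * π 1)) a = (σ s * π 1) a
    rw [hconj, ← mul_assoc, horth, if_pos rfl]
  refine ⟨LinearMap.range (π 1), fun f g hfg => funext fun s => ?_, fun v => ?_⟩
  · have hs : ∀ f : H → LinearMap.range (π 1), π s (∑ h, σ h (f h : V)) = σ s (f s : V) := by
      intro f
      rw [map_sum, Finset.sum_eq_single s ?_ (by simp)]
      · exact hπid s (f s)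
      · intro u _ hu
        rw [← hπid u (f u)]
        change (π s * π u) (σ u (f u : V)) = 0
        rw [horth, if_neg (Ne.symm hu)]; rfl
    have h6 := congrArg (π s) hfg
    simp only [hs] at h6
    have h7 := congrArg (σ s⁻¹) h6
    change (σ s⁻¹ * σ s) (f s : V) = (σ s⁻¹ * σ s) (g s : V) at h7
    rw [hσ'] at h7
    exact Subtype.ext h7
  · refine ⟨fun s => ⟨σ s⁻¹ (π s v), σ s⁻¹ v, ?_⟩, ?_⟩
    · change (π 1 * σ s⁻¹) v = (σ s⁻¹ * π s) v
      congr 1
      calc π 1 * σ s⁻¹ = σ s⁻¹ * (σ s * π 1) * σ s⁻¹ := by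
            rw [← mul_assoc (σ s⁻¹), hσ', one_mul]
        _ = σ s⁻¹ * π s := by rw [hconj, ← mul_assoc, mul_assoc _ (σ s), hσ, mul_one]
    · have : ∀ s, σ s (σ s⁻¹ (π s v)) = π s v := fun s => by
        change (σ s * σ s⁻¹) (π s v) = _
        rw [hσ]; rfl
      simp only [this, ← LinearMap.sum_apply, hone]
      rfl

/-- A finite `p`-group fixes a nonzero vector in characteristic `p`. -/
theorem exists_fixed_of_isPGroup {V F : Type*} [AddCommGroup V] [Module k V] [Group F] [Finite F]
    {p : ℕ} [hp : Fact p.Prime] (hF : IsPGroup p F) (hk : (p : k) = 0) (τ : F →* (V →ₗ[k] V))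
    {v : V} (hv : v ≠ 0) : ∃ w, w ≠ 0 ∧ ∀ f, τ f w = w := by
  haveI : CharP k p := (CharP.charP_iff_prime_eq_zero hp.out).2 hk
  letI : Algebra (ZMod p) k := ZMod.algebra k p
  letI : Module (ZMod p) V := Module.compHom V (algebraMap (ZMod p) k)
  let M : Submodule (ZMod p) V := Submodule.span (ZMod p) (Set.range fun f => τ f v)
  haveI : Module.Finite (ZMod p) M := Module.Finite.span_of_finite _ (Set.finite_range _)
  haveI : Finite M := Module.finite_of_finite (ZMod p)
  have hM : ∀ f, ∀ w ∈ M, τ f w ∈ M := fun f w hw => by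
    induction hw using Submodule.span_induction with
    | mem x hx =>
      obtain ⟨g, rfl⟩ := hx
      refine Submodule.subset_span ⟨f * g, ?_⟩
      change τ (f * g) v = τ f (τ g v)
      rw [map_mul]; rfl
    | zero => rw [map_zero]; exact M.zero_mem
    | add x y _ _ hx hy => rw [map_add]; exact M.add_mem hx hy
    | smul c x _ hx =>
      rw [show c • x = algebraMap (ZMod p) k c • x from rfl, map_smul]
      exact M.smul_mem c hx
  letI : MulAction F M :=
    { smul := fun f w => ⟨τ f w, hM f w w.2⟩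
      one_smul := fun w => Subtype.ext (by change τ 1 (w : V) = w; rw [map_one]; rfl)
      mul_smul := fun a b w => Subtype.ext (by
        change τ (a * b) (w : V) = τ a (τ b w); rw [map_mul]; rfl) }
  have hvM : v ∈ M := Submodule.subset_span ⟨1, by simp⟩
  haveI : Nontrivial M := ⟨⟨⟨v, hvM⟩, 0, fun h => hv (congrArg Subtype.val h)⟩⟩
  have hdvd : p ∣ Nat.card M := by
    rw [Module.natCard_eq_pow_finrank (K := ZMod p), Nat.card_zmod]
    exact dvd_pow_self p (Module.finrank_pos (R := ZMod p) (M := M)).ne'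
  have h0 : (0 : M) ∈ MulAction.fixedPoints F M := fun f => Subtype.ext (map_zero (τ f))
  obtain ⟨w, hw, hw0⟩ := hF.exists_fixed_point_of_prime_dvd_card_of_fixed_point M hdvd h0
  exact ⟨w, fun h => hw0 (Subtype.ext h.symm), fun f => congrArg Subtype.val (hw f)⟩

/-- A nilpotent group without fixed vectors, permuted fixed-point-freely by `H`. -/
theorem IsFreeRep.of_nilpotent.{uV, uF} {V : Type uV} [AddCommGroup V] [Module k V]
    [FiniteDimensional k V] {F : Type uF} [Group F] [Finite F] [Group.IsNilpotent F]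
    (τ : F →* (V →ₗ[k] V)) (σ : H →* (V →ₗ[k] V)) (φ : H →* MulAut F)
    (hcomp : ∀ h f, σ h * τ f = τ (φ h f) * σ h)
    (hfpf : ∀ h : H, h ≠ 1 → ∀ f, φ h f = f → f = 1)
    (hfix : ∀ v, (∀ f, τ f v = v) → v = 0) : IsFreeRep σ := by
  classical
  induction hn : Nat.card F using Nat.strong_induction_on generalizing F V with
  | _ n ih =>
  subst hn
  rcases subsingleton_or_nontrivial V with h | h
  · exact IsFreeRep.of_subsingleton σ
  obtain ⟨v0, hv0⟩ := exists_ne (0 : V)
  obtain ⟨q, hq, hqF, hqk⟩ : ∃ q : ℕ, q.Prime ∧ q ∣ Nat.card F ∧ (q : k) ≠ 0 := by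
    by_contra hall
    push Not at hall
    have hne : Nat.card F ≠ 1 := fun h1 => by
      haveI := (Nat.card_eq_one_iff_unique.1 h1).1
      exact hv0 (hfix v0 fun f => by rw [Subsingleton.elim f 1, map_one]; rfl)
    obtain ⟨p, hp, hpF⟩ := Nat.exists_prime_and_dvd hne
    haveI := Fact.mk hp
    haveI : CharP k p := (CharP.charP_iff_prime_eq_zero hp).2 (hall p hp hpF)
    have hP : IsPGroup p F := IsPGroup.of_card (n := (Nat.card F).primeFactorsList.length) (by
      refine Nat.eq_prime_pow_of_unique_prime_dvd Nat.card_pos.ne' fun {q} hq hqd => ?_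
      exact ((Nat.prime_dvd_prime_iff_eq hp hq).1 ((CharP.cast_eq_zero_iff k p q).1 (hall q hq hqd))).symm)
    obtain ⟨w, hw, hwf⟩ := exists_fixed_of_isPGroup hP (hall p hp hpF) τ hv0
    exact hw (hfix w hwf)
  haveI := Fact.mk hq
  let E : Subgroup F :=
    { carrier := {z | z ∈ Subgroup.center F ∧ z ^ q = 1}
      one_mem' := ⟨one_mem _, one_pow q⟩
      mul_mem' := fun {a b} ha hb => ⟨mul_mem ha.1 hb.1, by
        rw [(show Commute a b from Subgroup.mem_center_iff.1 hb.1 a).mul_pow, ha.2, hb.2, one_mul]⟩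
      inv_mem' := fun {a} ha => ⟨inv_mem ha.1, by rw [inv_pow, ha.2, inv_one]⟩ }
  have hEchar : ∀ (h : H) (z : F), z ∈ E → φ h z ∈ E := fun h z hz => by
    refine ⟨Subgroup.mem_center_iff.2 fun g => (φ h).symm.injective ?_, by rw [← map_pow, hz.2, map_one]⟩
    rw [map_mul, map_mul, MulEquiv.symm_apply_apply]
    exact Subgroup.mem_center_iff.1 hz.1 _
  haveI hEn : E.Normal := ⟨fun z hz g => by
    rw [Subgroup.mem_center_iff.1 hz.1 g, mul_inv_cancel_right]; exact hz⟩
  have hEne : E ≠ ⊥ := by
    let S : Sylow q F := default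
    haveI : (S : Subgroup F).Normal := inferInstance
    obtain ⟨⟨z, hzS, hzZ⟩, hz1⟩ := Subgroup.ne_bot_iff_exists_ne_one.1
      (CfsgLib.PSolvable.inf_center_ne_bot (N := (S : Subgroup F)) (S.ne_bot_of_dvd_card hqF))
    obtain ⟨j, hj⟩ := IsPGroup.iff_orderOf.1 S.isPGroup' ⟨z, hzS⟩
    rw [Subgroup.orderOf_mk] at hj
    have hj0 : j ≠ 0 := by
      rintro rfl
      rw [pow_zero, orderOf_eq_one_iff] at hj
      exact hz1 (Subtype.ext hj)
    refine Subgroup.ne_bot_iff_exists_ne_one.2
      ⟨⟨z ^ q ^ (j - 1), Subgroup.pow_mem _ hzZ _, ?_⟩, fun h => ?_⟩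
    · rw [← pow_mul, ← pow_succ, Nat.sub_add_cancel (Nat.pos_of_ne_zero hj0), ← hj,
        pow_orderOf_eq_one]
    · have h1 : z ^ q ^ (j - 1) = 1 := congrArg Subtype.val h
      have := orderOf_dvd_of_pow_eq_one h1
      rw [hj, Nat.pow_dvd_pow_iff_le_right hq.one_lt] at this
      omega
  haveI : Fintype E := Fintype.ofFinite E
  letI : CommGroup E :=
    { (inferInstance : Group E) with
      mul_comm := fun a b => Subtype.ext (Subgroup.mem_center_iff.1 b.2.1 (a : F)) }
  have hcopE : (Fintype.card E : k) ≠ 0 := by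
    have hE : IsPGroup q E := fun z => ⟨1, Subtype.ext (by simpa using z.2.2)⟩
    obtain ⟨j, hj⟩ := IsPGroup.iff_card.1 hE
    rw [← Nat.card_eq_fintype_card, hj, Nat.cast_pow]
    exact pow_ne_zero _ hqk
  let φE : H →* MulAut E :=
    { toFun := fun h =>
        { toFun := fun z => ⟨φ h z, hEchar h z z.2⟩
          invFun := fun z => ⟨φ h⁻¹ z, hEchar _ z z.2⟩
          left_inv := fun z => Subtype.ext (by
            change φ h⁻¹ (φ h (z : F)) = z
            rw [← MulAut.mul_apply, ← map_mul, inv_mul_cancel, map_one, MulAut.one_apply])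
          right_inv := fun z => Subtype.ext (by
            change φ h (φ h⁻¹ (z : F)) = z
            rw [← MulAut.mul_apply, ← map_mul, mul_inv_cancel, map_one, MulAut.one_apply])
          map_mul' := fun a b => Subtype.ext (map_mul (φ h) (a : F) b) }
      map_one' := MulEquiv.ext fun z => Subtype.ext (by
        change φ 1 (z : F) = z; rw [map_one]; rfl)
      map_mul' := fun a b => MulEquiv.ext fun z => Subtype.ext (by
        change φ (a * b) (z : F) = φ a (φ b z); rw [map_mul]; rfl) }
  let P : Module.End k V := (Fintype.card E : k)⁻¹ • ∑ e : E, τ (e : F)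
  have hτP : ∀ e : E, τ (e : F) * P = P := fun e => by
    simp only [P, mul_smul_comm, Finset.mul_sum, ← map_mul]
    congr 1
    exact Equiv.sum_comp (Equiv.mulLeft e) fun x : E => τ (x : F)
  have hPfix : ∀ v, (∀ e : E, τ (e : F) v = v) → P v = v := fun v hv => by
    simp only [P, LinearMap.smul_apply, LinearMap.sum_apply, hv, Finset.sum_const, Finset.card_univ]
    rw [← Nat.cast_smul_eq_nsmul k, smul_smul, inv_mul_cancel₀ hcopE, one_smul]
  have hPP : ∀ v, P (P v) = P v := fun v => hPfix _ fun e => LinearMap.congr_fun (hτP e) v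
  have hPF : ∀ f : F, τ f * P = P * τ f := fun f => by
    simp only [P, mul_smul_comm, smul_mul_assoc, Finset.mul_sum, Finset.sum_mul, ← map_mul]
    exact congrArg _ (Finset.sum_congr rfl fun e _ =>
      congrArg τ (Subgroup.mem_center_iff.1 e.2.1 f))
  have hPH : ∀ h : H, σ h * P = P * σ h := fun h => by
    simp only [P, mul_smul_comm, smul_mul_assoc, Finset.mul_sum, Finset.sum_mul, hcomp]
    congr 1
    exact Equiv.sum_comp (φE h).toEquiv fun e : E => τ (e : F) * σ h
  let V0 : Submodule k V := LinearMap.range P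
  let V1 : Submodule k V := LinearMap.ker P
  have hres0 : ∀ T : Module.End k V, T * P = P * T → ∀ v ∈ V0, T v ∈ V0 := by
    rintro T hT _ ⟨w, rfl⟩
    exact ⟨T w, (LinearMap.congr_fun hT w).symm⟩
  have hres1 : ∀ T : Module.End k V, T * P = P * T → ∀ v ∈ V1, T v ∈ V1 := fun T hT v hv => by
    have : P (T v) = T (P v) := (LinearMap.congr_fun hT v).symm
    rw [LinearMap.mem_ker, this, LinearMap.mem_ker.1 hv, map_zero]
  let σ0 : H →* (V0 →ₗ[k] V0) :=
    { toFun := fun h => (σ h).restrict (hres0 _ (hPH h))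
      map_one' := by ext w; simp
      map_mul' := fun a b => by ext w; simp [map_mul] }
  let σ1 : H →* (V1 →ₗ[k] V1) :=
    { toFun := fun h => (σ h).restrict (hres1 _ (hPH h))
      map_one' := by ext w; simp
      map_mul' := fun a b => by ext w; simp [map_mul] }
  let τ1 : E →* (V1 →ₗ[k] V1) :=
    { toFun := fun e => (τ (e : F)).restrict (hres1 _ (hPF e))
      map_one' := by ext w; simp
      map_mul' := fun a b => by ext w; simp [map_mul] }
  let τ0' : F →* (V0 →ₗ[k] V0) :=
    { toFun := fun f => (τ f).restrict (hres0 _ (hPF f))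
      map_one' := by ext w; simp
      map_mul' := fun a b => by ext w; simp [map_mul] }
  have hker : E ≤ τ0'.ker := fun e he => by
    rw [MonoidHom.mem_ker]
    ext ⟨_, w, rfl⟩
    exact LinearMap.congr_fun (hτP ⟨e, he⟩) w
  let τ0 : F ⧸ E →* (V0 →ₗ[k] V0) := QuotientGroup.lift E τ0' hker
  have hmapE : ∀ h, E.map (φ h).toMonoidHom = E := fun h => by
    refine le_antisymm (by rintro _ ⟨z, hz, rfl⟩; exact hEchar h z hz) fun z hz =>
      ⟨φ h⁻¹ z, hEchar _ z hz, ?_⟩
    change φ h (φ h⁻¹ z) = z
    rw [← MulAut.mul_apply, ← map_mul, mul_inv_cancel, map_one, MulAut.one_apply]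
  let φ0 : H →* MulAut (F ⧸ E) :=
    { toFun := fun h => QuotientGroup.congr E E (φ h) (hmapE h)
      map_one' := MulEquiv.ext fun x => by
        obtain ⟨f, rfl⟩ := QuotientGroup.mk'_surjective E x
        change ((φ 1 f : F) : F ⧸ E) = _
        rw [map_one]; rfl
      map_mul' := fun a b => MulEquiv.ext fun x => by
        obtain ⟨f, rfl⟩ := QuotientGroup.mk'_surjective E x
        change ((φ (a * b) f : F) : F ⧸ E) = ((φ a (φ b f) : F) : F ⧸ E)
        rw [map_mul]; rfl }
  have hfpf0 : ∀ h : H, h ≠ 1 → ∀ x, φ0 h x = x → x = 1 := by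
    intro h hh x hx
    obtain ⟨f, rfl⟩ := QuotientGroup.mk'_surjective E x
    have hsurj : Function.Surjective fun e : E => e⁻¹ * φE h e := by
      refine Finite.injective_iff_surjective.1 fun a b hab => ?_
      have h1 : φ h ((a : F) * (b : F)⁻¹) = (a : F) * (b : F)⁻¹ := by
        have hab' : (a : F)⁻¹ * φ h a = (b : F)⁻¹ * φ h b := congrArg Subtype.val hab
        rw [map_mul, map_inv]
        calc φ h (a : F) * (φ h b)⁻¹ = a * ((a : F)⁻¹ * φ h a) * (φ h b)⁻¹ := by
              rw [mul_inv_cancel_left]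
          _ = a * (b : F)⁻¹ := by rw [hab']; group
      exact Subtype.ext (mul_inv_eq_one.1 (hfpf h hh _ h1))
    have hfE : f⁻¹ * φ h f ∈ E := (QuotientGroup.eq).1 (show ((f : F) : F ⧸ E) = (φ h f : F) from hx.symm)
    obtain ⟨e, he⟩ := hsurj ⟨_, hfE⟩
    have he' : (e : F)⁻¹ * φ h e = f⁻¹ * φ h f := congrArg Subtype.val he
    have hee : f = (e : F) := by
      have h1 : φ h (f * (e : F)⁻¹) = f * (e : F)⁻¹ := by
        rw [map_mul, map_inv]
        calc φ h f * (φ h e)⁻¹ = f * (f⁻¹ * φ h f) * (φ h e)⁻¹ := by rw [mul_inv_cancel_left]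
          _ = f * (e : F)⁻¹ := by rw [← he']; group
      exact mul_inv_eq_one.1 (hfpf h hh _ h1)
    exact (QuotientGroup.eq_one_iff f).2 (hee ▸ e.2)
  haveI : Group.IsNilpotent (F ⧸ E) := Group.nilpotent_of_surjective _ (QuotientGroup.mk'_surjective E)
  have hlt : Nat.card (F ⧸ E) < Nat.card F := by
    rw [Subgroup.card_eq_card_quotient_mul_card_subgroup E]
    exact lt_mul_of_one_lt_right Nat.card_pos
      (Nat.one_lt_iff_ne_zero_and_ne_one.2 ⟨Nat.card_pos.ne', fun h => hEne (Subgroup.eq_bot_of_card_eq _ h)⟩)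
  have free0 : IsFreeRep σ0 := by
    refine ih _ hlt τ0 σ0 φ0 ?_ hfpf0 ?_ rfl
    · intro h x
      obtain ⟨f, rfl⟩ := QuotientGroup.mk'_surjective E x
      ext w
      exact LinearMap.congr_fun (hcomp h f) (w : V)
    · intro w hw
      refine Subtype.ext (hfix (w : V) fun f => ?_)
      exact congrArg Subtype.val (hw (f : F ⧸ E))
  have free1 : IsFreeRep σ1 := by
    refine IsFreeRep.of_abelian τ1 σ1 φE (fun h e => ?_)
      (fun h hh e he => Subtype.ext (hfpf h hh _ (congrArg Subtype.val he))) hcopE (fun w hw => ?_)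
    · ext u
      exact LinearMap.congr_fun (hcomp h (e : F)) (u : V)
    · refine Subtype.ext ?_
      rw [← hPfix (w : V) fun e => congrArg Subtype.val (hw e)]
      exact LinearMap.mem_ker.1 w.2
  have hI : IsIdempotentElem P := LinearMap.ext hPP
  have hc : IsCompl V0 V1 := LinearMap.IsIdempotentElem.isCompl hI
  refine IsFreeRep.of_equiv (Submodule.prodEquivOfIsCompl V0 V1 hc) (fun h a b => ?_) free0 free1
  simp only [Submodule.coe_prodEquivOfIsCompl', map_add]
  rfl

/-- Translate freeness into an internal direct sum. -/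
theorem IsFreeRep.isInternal {V : Type*} [AddCommGroup V] [Module k V] [DecidableEq H]
    {σ : H →* (V →ₗ[k] V)} (hσ : IsFreeRep σ) :
    ∃ W : Submodule k V, DirectSum.IsInternal fun h : H => W.map (σ h) := by
  classical
  obtain ⟨W, hinj, hsurj⟩ := hσ
  refine ⟨W, DirectSum.isInternal_submodule_of_iSupIndep_of_iSup_eq_top ?_ ?_⟩
  · rw [iSupIndep_iff_finsetSum_eq_zero_imp_eq_zero]
    intro s v hv hsum
    have hpre : ∀ h : H, ∃ w : W, h ∈ s → σ h (w : V) = v h := fun h => by
      by_cases hs : h ∈ s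
      · obtain ⟨w, hw, hwe⟩ := hv h hs
        exact ⟨⟨w, hw⟩, fun _ => hwe⟩
      · exact ⟨0, fun h' => absurd h' hs⟩
    choose w hw using hpre
    let f : H → W := fun h => if h ∈ s then w h else 0
    have hf0 : f = 0 := hinj (by
      change ∑ h, σ h (f h : V) = ∑ h, σ h ((0 : H → W) h : V)
      simp only [Pi.zero_apply, ZeroMemClass.coe_zero, map_zero, Finset.sum_const_zero]
      rw [← hsum, ← Finset.sum_subset (Finset.subset_univ s) (fun h _ hs => by simp [f, hs])]
      exact Finset.sum_congr rfl fun h hs => by simp only [f, if_pos hs, hw h hs])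
    intro h hs
    rw [← hw h hs]
    have := congrFun hf0 h
    simp only [f, if_pos hs, Pi.zero_apply] at this
    simp [this]
  · rw [eq_top_iff]
    intro v _
    obtain ⟨f, rfl⟩ := hsurj v
    exact Submodule.sum_mem _ fun h _ =>
      Submodule.mem_iSup_of_mem h ⟨f h, (f h).2, rfl⟩

end CfsgLib.Minimal.FreeOverComplement
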