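import Cfsg.Agent.Lib.Minimal.GNSection

/-!
Pushing up: an embedding whose centre is not normal, seen from `S`.
-/

set_option autoImplicit false
set_option linter.unusedSectionVars false
set_option linter.style.haveILetI false

open Subgroup
open scoped Pointwise
open scoped commutatorElement

namespace CfsgLib.Minimal.GN

open Cfsg CfsgLib.TwoGroupTricks

universe u v

variable {S : Type u} [Group S] {G : Type v} [Group G] [Finite S]

/-- An embedding in which the centre of `S` is not normalised. -/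
structure Bad (p q : ℕ) (τ : S →* G) (M : Subgroup G) : Prop extends Push p q τ M where
  cd : IsCentralizerLarge (Qe p τ)
  cV : centralizer (Ve p τ : Set S) = Qe p τ
  Z_le : Subgroup.center S ≤ Ve p τ
  cardV : Nat.card (Ve p τ) = q * Nat.card (Subgroup.center S)
  cardZ : Nat.card (Subgroup.center S) = q * Nat.card (Ce p τ)
  powV : ∀ v ∈ Ve p τ, v ^ p = 1
  comm : ∀ v ∈ Ve p τ, ∀ s : S, ⁅v, s⁆ ∈ Subgroup.center S
  fixC : ∀ u : S, u ∉ Qe p τ → ∀ v ∈ Ve p τ, ⁅v, u⁆ ∈ Ce p τ → v ∈ Subgroup.center S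
  inter : ∀ g : G, g ∉ M → ∀ z ∈ Subgroup.center S, cv τ g z ∈ Subgroup.center S → z ∈ Ce p τ

namespace Bad

variable [Finite G] {p q : ℕ} {τ : S →* G} {M : Subgroup G} (h : Bad p q τ M)
include h

theorem V_le : Ve p τ ≤ Qe p τ := inf_le_left

theorem Z_le_Q : Subgroup.center S ≤ Qe p τ := h.Z_le.trans h.V_le

theorem comm_QV {a v : S} (ha : a ∈ Qe p τ) (hv : v ∈ Ve p τ) : ⁅a, v⁆ = 1 ∧ ⁅v, a⁆ = 1 :=
  (comm_eq_one_of_mem_centralizer hv.2 ha).symm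

theorem comm_V {a v : S} (ha : a ∈ Ve p τ) (hv : v ∈ Ve p τ) : ⁅a, v⁆ = 1 :=
  (h.comm_QV (h.V_le ha) hv).1

theorem fixed {u v : S} (hu : u ∉ Qe p τ) (hv : v ∈ Ve p τ) (e : ⁅v, u⁆ = 1) :
    v ∈ Subgroup.center S := h.fixC u hu v hv (e ▸ one_mem _)

theorem Ce_le_Z : Ce p τ ≤ Subgroup.center S := h.toPush.Ce_le_center

theorem cd_V : IsCentralizerLarge (Ve p τ) := by
  have h1 := isCentralizerLarge_centralizer h.cd
  have e : centralizer (Qe p τ : Set S) = Ve p τ := by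
    refine le_antisymm (fun x hx => ⟨?_, hx⟩) inf_le_right
    rw [← h.cV]
    exact Subgroup.centralizer_le (SetLike.coe_subset_coe.2 h.V_le) hx
  rwa [e] at h1

theorem cQ : centralizer (Qe p τ : Set S) = Ve p τ := by
  have e := double_centralizer_eq h.cd_V
  rwa [h.cV] at e

/-- The centraliser of an element of `V` outside the centre. -/
theorem centralizer_eq {v : S} (hv : v ∈ Ve p τ) (hvZ : v ∉ Subgroup.center S) {x : S}
    (e : ⁅v, x⁆ = 1) : x ∈ Qe p τ := by_contra fun hx => hvZ (h.fixed hx hv e)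

theorem natV : NatSec p q τ M (Ve p τ) (Subgroup.center S) (Ce p τ) where
  le_Q := h.V_le
  le_W := h.Ce_le_Z
  W_le := h.Z_le
  nrm₁ := h.toPush.nrm_Ve
  nrm₀ := h.toPush.nrm_Ce
  comm := fun a ha b hb => by rw [h.comm_V ha hb]; exact one_mem _
  pow := fun v hv => by rw [h.powV v hv]; exact one_mem _
  step := fun s v hv => comm_mem_symm (h.comm v hv s)
  stepW := fun s w hw => by
    rw [commutatorElement_eq_one_iff_mul_comm.2 (Subgroup.mem_center_iff.1 hw s)]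
    exact one_mem _
  fix := fun u hu v hv e => h.fixC u hu v hv (comm_mem_symm e)
  inter := h.inter
  cardW := h.cardZ
  card := by rw [h.cardV, h.cardZ]; ring_nf; rfl

theorem center_nrmM {c : G} (hc : c ∈ M) {z : S} (hz : z ∈ Subgroup.center S) :
    cv τ c z ∈ Subgroup.center S := h.natV.nrmM h.toPush hc hz

/-- Two conjugates of `S` meet in `O_p(G)` only. -/
theorem conj_not_mem {u : S} (hu : u ∉ Qe p τ) {g : G} (hg : g ∉ M) : g⁻¹ * τ u * g ∉ M := by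
  intro hh
  have hle : Subgroup.center S ≤ Ce p τ := by
    intro z hz
    have hzQ := h.Z_le_Q hz
    have hzV := h.Z_le hz
    set x := cv τ g z
    have hxV : x ∈ Ve p τ := h.toPush.nrm_Ve g z hzV
    have hxQ := h.V_le hxV
    have h1 := h.center_nrmM hh hz
    set y := cv τ (g⁻¹ * τ u * g) z
    have hyQ := h.Z_le_Q h1
    have e : cv τ g (y * z⁻¹) = ⁅u, x⁆ := by
      rw [h.toPush.cv_mul g hyQ (inv_mem hzQ), h.toPush.cv_inv g hzQ, h.toPush.cv_cv _ _ hzQ,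
        show g * (g⁻¹ * τ u * g) = τ u * g by group, ← h.toPush.cv_cv _ _ hzQ, h.toPush.cv_tau u hxQ]
      rfl
    have h2 : y * z⁻¹ ∈ Ce p τ := by
      refine h.inter g hg _ (mul_mem h1 (inv_mem hz)) ?_
      rw [e]
      exact comm_mem_symm (h.comm x hxV u)
    have h3 : ⁅u, x⁆ ∈ Ce p τ := e ▸ h.toPush.nrm_Ce g _ h2
    exact h.inter g hg z hz (h.fixC u hu x hxV (comm_mem_symm h3))
  have h1 := h.cardZ
  have h2 := Subgroup.card_le_of_le hle
  have h3 := h.one_lt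
  have h4 : 0 < Nat.card (Ce p τ) := Nat.card_pos
  nlinarith

theorem conj_cv {u : S} {g : G} {x : S} (hx : x ∈ Qe p τ) :
    cv τ g (cv τ (g⁻¹ * τ u * g) x) = u * cv τ g x * u⁻¹ := by
  rw [h.toPush.cv_cv _ _ hx, show g * (g⁻¹ * τ u * g) = τ u * g by group,
    ← h.toPush.cv_cv _ _ hx, h.toPush.cv_tau u (h.toPush.cv_mem g hx)]

/-- A normal subgroup of `G` inside the centre of `S` is central in `G`. -/
theorem le_Ce {H : Subgroup S} (hH : H ≤ Subgroup.center S) (hn : Nrm τ H) : H ≤ Ce p τ := by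
  obtain ⟨-, -, g, hg, -⟩ := h.braid
  exact fun z hz => h.inter g hg z (hH hz) (hH (hn g z hz))

/-! #### Transport -/

theorem centralizer_Cj (g : G) {H : Subgroup S} (hV : Ve p τ ≤ H) (hH : H ≤ Qe p τ) :
    centralizer (Cj τ g H : Set S) = Cj τ g (centralizer (H : Set S)) := by
  have hle : centralizer (H : Set S) ≤ Qe p τ :=
    (Subgroup.centralizer_le (SetLike.coe_subset_coe.2 hV)).trans h.cV.le
  ext x
  rw [h.toPush.mem_Cj g hle]
  constructor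
  · intro hx
    have hxQ : x ∈ Qe p τ := by
      rw [← h.cV]
      refine fun v hv => hx v ?_
      exact (h.toPush.mem_Cj g hH).2
        ⟨_, hV (h.toPush.nrm_Ve g⁻¹ v hv), h.toPush.cv_cv_inv g (h.V_le hv)⟩
    refine ⟨cv τ g⁻¹ x, fun y hy => ?_, h.toPush.cv_cv_inv g hxQ⟩
    have h1 := congrArg (cv τ g⁻¹) (hx _ (h.toPush.cv_mem_Cj g hH hy))
    rwa [h.toPush.cv_mul _ (h.toPush.cv_mem g (hH hy)) hxQ,
      h.toPush.cv_mul _ hxQ (h.toPush.cv_mem g (hH hy)), h.toPush.cv_inv_cv g (hH hy)] at h1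
  · rintro ⟨y, hy, rfl⟩ z hz
    obtain ⟨w, hw, rfl⟩ := (h.toPush.mem_Cj g hH).1 hz
    rw [← h.toPush.cv_mul g (hH hw) (hle hy), ← h.toPush.cv_mul g (hle hy) (hH hw), hy w hw]

theorem cd_Cj (g : G) {H : Subgroup S} (hcd : IsCentralizerLarge H) (hV : Ve p τ ≤ H)
    (hH : H ≤ Qe p τ) : IsCentralizerLarge (Cj τ g H) := by
  have hle : centralizer (H : Set S) ≤ Qe p τ :=
    (Subgroup.centralizer_le (SetLike.coe_subset_coe.2 hV)).trans h.cV.le
  unfold Cfsg.IsCentralizerLarge at hcd ⊢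
  rw [h.centralizer_Cj g hV hH, h.toPush.card_Cj g hH, h.toPush.card_Cj g hle]
  exact hcd

theorem cd_Xcl {H : Subgroup S} (hcd : IsCentralizerLarge H) (hV : Ve p τ ≤ H) (hH : H ≤ Qe p τ) :
    IsCentralizerLarge (Xcl τ H) := by
  rw [h.toPush.Xcl_eq hH, iSup]
  refine isCentralizerLarge_sSup ⟨_, ⟨1, rfl⟩⟩ ?_
  rintro _ ⟨g, rfl⟩
  exact h.cd_Cj g hcd hV hH

end Bad

/-! #### Elements trivial on the layers of a chain -/

namespace Push

variable [Finite G] {p q : ℕ} {τ : S →* G} {M : Subgroup G} (h : Push p q τ M)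
include h

theorem pow_fix {M₁ D M₀ : Subgroup S} (h1 : M₁ ≤ Qe p τ) (hD : D ≤ M₁) (h0 : M₀ ≤ D)
    (n0 : Nrm τ M₀) {g : G} (hgD : ∀ x ∈ M₁, cv τ g x * x⁻¹ ∈ D)
    (hg0 : ∀ x ∈ D, cv τ g x * x⁻¹ ∈ M₀) {x : S} (hx : x ∈ M₁) :
    cv τ (g ^ Nat.card S) x * x⁻¹ ∈ M₀ := by
  haveI := h.nrm_normal ((h0.trans hD).trans h1) n0
  set π := QuotientGroup.mk' M₀
  have hπ : ∀ y ∈ M₀, π y = 1 := fun y hy => (QuotientGroup.eq_one_iff y).2 hy
  have hcv : ∀ y ∈ Qe p τ, ∀ y' ∈ Qe p τ, π y = π y' → π (cv τ g y) = π (cv τ g y') := by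
    intro y hy y' hy' e
    have h2 : y * y'⁻¹ ∈ M₀ := (QuotientGroup.eq_one_iff _).1 (by
      show π (y * y'⁻¹) = 1
      rw [map_mul, map_inv, e, mul_inv_cancel])
    have h3 := hπ _ (n0 g _ h2)
    rw [h.cv_mul g hy (inv_mem hy'), h.cv_inv g hy', map_mul, map_inv] at h3
    exact mul_inv_eq_one.1 h3
  set c := cv τ g x * x⁻¹
  have hc : c ∈ D := hgD x hx
  have hcQ := h1 (hD hc)
  have hxQ := h1 hx
  have hgc : π (cv τ g c) = π c := by
    have := hπ _ (hg0 c hc)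
    rw [map_mul, map_inv] at this
    exact mul_inv_eq_one.1 this
  have key : ∀ n : ℕ, π (cv τ (g ^ n) x) = π (c ^ n * x) := by
    intro n
    induction n with
    | zero => rw [pow_zero, h.cv_one hxQ, pow_zero, one_mul]
    | succ n ih =>
      rw [pow_succ' g, ← h.cv_cv g _ hxQ,
        hcv _ (h.cv_mem _ hxQ) _ (mul_mem (pow_mem hcQ n) hxQ) ih,
        h.cv_mul g (pow_mem hcQ n) hxQ, map_mul, h.cv_pow g hcQ, map_pow, hgc, ← map_pow, ← map_mul]
      congr 1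
      rw [pow_succ, mul_assoc]
      congr 1
      simp [c]
  apply (QuotientGroup.eq_one_iff _).1
  show π (cv τ (g ^ Nat.card S) x * x⁻¹) = 1
  rw [map_mul, key, ← map_mul, pow_card_eq_one', one_mul, mul_inv_cancel, map_one]

/-- If the Sylow subgroup of a normal subgroup is trivial on `M₁/M₀`, and a `p`-power of each element
is, so is the whole subgroup. -/
theorem kill [hp : Fact p.Prime] {M₁ M₀ : Subgroup S} (h1 : M₁ ≤ Qe p τ) (h0 : M₀ ≤ M₁)
    (n1 : Nrm τ M₁) (n0 : Nrm τ M₀) (N : Subgroup G) (hN : N.Normal)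
    (hS : ∀ s : S, τ s ∈ N → ∀ x ∈ M₁, ⁅s, x⁆ ∈ M₀)
    (hpow : ∀ g ∈ N, ∃ j : ℕ, ∀ x ∈ M₁, cv τ (g ^ p ^ j) x * x⁻¹ ∈ M₀)
    {g : G} (hg : g ∈ N) {x : S} (hx : x ∈ M₁) : cv τ g x * x⁻¹ ∈ M₀ := by
  set K := h.secFix h1 h0 n1 n0
  haveI hK : K.Normal := h.secFix_normal h1 h0 n1 n0
  obtain ⟨j, hj⟩ := hpow g hg
  obtain ⟨a, r, hr, hor⟩ := Nat.exists_eq_pow_mul_and_not_dvd (orderOf_pos g).ne' p hp.out.ne_one
  have h2 : g ^ r ∈ K := by
    obtain ⟨P, hP⟩ := h.syl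
    have hpg : IsPGroup p (Subgroup.zpowers (g ^ r)) := by
      refine IsPGroup.of_card (n := a) ?_
      rw [Nat.card_zpowers, orderOf_pow_of_dvd (by rintro rfl; exact hr (dvd_zero p)) (hor ▸ dvd_mul_left _ _),
        hor, Nat.mul_div_cancel _ (Nat.pos_of_ne_zero (by rintro rfl; exact hr (dvd_zero p)))]
    obtain ⟨R, hR⟩ := hpg.exists_le_sylow
    obtain ⟨c, hc⟩ := MulAction.exists_smul_eq G P R
    have h3 : g ^ r ∈ (R : Subgroup G) := hR (Subgroup.mem_zpowers _)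
    rw [← hc, Sylow.coe_subgroup_smul, hP, Subgroup.mem_smul_pointwise_iff_exists] at h3
    obtain ⟨_, ⟨s, rfl⟩, e⟩ := h3
    have e' : c * τ s * c⁻¹ = g ^ r := e
    have hsN : τ s ∈ N := by
      have h4 := hN.conj_mem _ (pow_mem hg r) c⁻¹
      rw [← e'] at h4
      simpa [mul_assoc] using h4
    rw [← e']
    exact hK.conj_mem _ (h.tau_mem_secFix.2 (hS s hsN)) c
  have hcop : Nat.Coprime r (p ^ j) := (((Nat.Prime.coprime_iff_not_dvd hp.out).2 hr).symm).pow_right j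
  have h3 : g ^ (Nat.gcd r (p ^ j) : ℤ) ∈ K := by
    rw [Nat.gcd_eq_gcd_ab, zpow_add, zpow_mul, zpow_mul]
    exact mul_mem (zpow_mem (by rw [zpow_natCast]; exact h2) _)
      (zpow_mem (by rw [zpow_natCast]; exact hj) _)
  rw [hcop.gcd_eq_one] at h3
  exact (h.mem_secFix).1 (by simpa using h3) x hx

/-- Trivial on the layers of a two-step chain and killed on the Sylow part. -/
theorem kill₂ [Fact p.Prime] {M₁ D₁ D₂ M₀ : Subgroup S} (h1 : M₁ ≤ Qe p τ) (hd1 : D₁ ≤ M₁)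
    (hd2 : D₂ ≤ D₁) (h0 : M₀ ≤ D₂) (n1 : Nrm τ M₁) (n2 : Nrm τ D₂) (n0 : Nrm τ M₀)
    (N : Subgroup G) (hN : N.Normal) (hS : ∀ s : S, τ s ∈ N → ∀ x ∈ M₁, ⁅s, x⁆ ∈ M₀)
    (t1 : ∀ g ∈ N, ∀ x ∈ M₁, cv τ g x * x⁻¹ ∈ D₁) (t2 : ∀ g ∈ N, ∀ x ∈ D₁, cv τ g x * x⁻¹ ∈ D₂)
    (t3 : ∀ g ∈ N, ∀ x ∈ D₂, cv τ g x * x⁻¹ ∈ M₀)
    {g : G} (hg : g ∈ N) {x : S} (hx : x ∈ M₁) : cv τ g x * x⁻¹ ∈ M₀ := by
  refine h.kill h1 ((h0.trans hd2).trans hd1) n1 n0 N hN hS (fun a ha => ?_) hg hx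
  obtain ⟨j, hj⟩ := IsPGroup.iff_card.1 h.isP
  refine ⟨j + j, fun y hy => ?_⟩
  rw [pow_add, pow_mul, ← hj]
  refine h.pow_fix h1 (hd2.trans hd1) h0 n0 (fun z hz => ?_)
    (fun z hz => t3 _ (pow_mem ha _) z hz) hy
  exact h.pow_fix h1 hd1 hd2 n2 (t1 a ha) (t2 a ha) hz

end Push

end CfsgLib.Minimal.GN
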