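import Cfsg.Prelude.Def_BaumannBlocks
import Cfsg.Agent.Lib.Cores.PCore
import Cfsg.Agent.Lib.TwoGroupTricks.CentrallyLargeMin

/-!
Pushing up several embeddings of one `p`-group `S`: conjugation by an overgroup `G`, pulled back to `S`.
-/

set_option autoImplicit false
set_option linter.unusedSectionVars false
set_option linter.style.haveILetI false
set_option linter.unusedVariables false

open Subgroup
open scoped Pointwise
open scoped commutatorElement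

namespace CfsgLib.Minimal.GN

universe u v

variable {S : Type u} [Group S] {G : Type v} [Group G]

/-- `O_p(G)` pulled back to `S`. -/
def Qe (p : ℕ) (τ : S →* G) : Subgroup S := (Cfsg.pCore p G).comap τ

/-- The centre of `O_p(G)` pulled back to `S`. -/
def Ve (p : ℕ) (τ : S →* G) : Subgroup S := Qe p τ ⊓ centralizer (Qe p τ : Set S)

/-- The fixed points of `G` on `Ve`. -/
def Ce (p : ℕ) (τ : S →* G) : Subgroup S := (Subgroup.center G).comap τ ⊓ Ve p τ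

/-- Conjugation by an element of `G`, pulled back to `S`. -/
noncomputable def cv (τ : S →* G) (g : G) (x : S) : S := Function.invFun τ (g * τ x * g⁻¹)

/-- A subgroup of `S` that `G` normalises. -/
def Nrm (τ : S →* G) (H : Subgroup S) : Prop := ∀ g : G, ∀ x ∈ H, cv τ g x ∈ H

/-- The conjugate of a subgroup of `S`. -/
def Cj (τ : S →* G) (g : G) (H : Subgroup S) : Subgroup S :=
  ((H.map τ).map (MulAut.conj g).toMonoidHom).comap τ

/-- The normal closure in `G`, pulled back to `S`. -/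
def Xcl (τ : S →* G) (H : Subgroup S) : Subgroup S :=
  (Subgroup.normalClosure (τ '' (H : Set S))).comap τ

theorem comm_mul_left (x y z : G) : ⁅x * y, z⁆ = x * ⁅y, z⁆ * x⁻¹ * ⁅x, z⁆ := by
  simp only [commutatorElement_def]; group

theorem comm_mul_right (x y z : G) : ⁅x, y * z⁆ = ⁅x, y⁆ * (y * ⁅x, z⁆ * y⁻¹) := by
  simp only [commutatorElement_def]; group

theorem comm_conj (g x y : G) : ⁅g * x * g⁻¹, g * y * g⁻¹⁆ = g * ⁅x, y⁆ * g⁻¹ := by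
  simp only [commutatorElement_def]; group

theorem comm_mem_symm {K : Subgroup G} {x y : G} (h : ⁅x, y⁆ ∈ K) : ⁅y, x⁆ ∈ K := by
  rw [← commutatorElement_inv x y]; exact inv_mem h

theorem comm_eq_one_of_mem_centralizer {H : Subgroup G} {x y : G}
    (hx : x ∈ centralizer (H : Set G)) (hy : y ∈ H) : ⁅x, y⁆ = 1 ∧ ⁅y, x⁆ = 1 :=
  ⟨commutatorElement_eq_one_iff_mul_comm.2 (hx y hy).symm,
    commutatorElement_eq_one_iff_mul_comm.2 (hx y hy)⟩

theorem mem_centralizer_of_comm {H : Subgroup G} {x : G} (h : ∀ y ∈ H, ⁅x, y⁆ = 1) :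
    x ∈ centralizer (H : Set G) :=
  fun y hy => (commutatorElement_eq_one_iff_mul_comm.1 (h y hy)).symm

/-- The elements whose commutator with every element of `T` lies in the central subgroup `C`. -/
def cen (T : Set G) (C : Subgroup G) (hC : C ≤ Subgroup.center G) : Subgroup G where
  carrier := {x | ∀ t ∈ T, ⁅x, t⁆ ∈ C}
  one_mem' := fun t _ => by simp
  mul_mem' := fun {x y} hx hy t ht => by
    have h1 := Subgroup.mem_center_iff.1 (hC (hy t ht)) x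
    rw [comm_mul_left, h1, mul_inv_cancel_right]
    exact mul_mem (hy t ht) (hx t ht)
  inv_mem' := fun {x} hx t ht => by
    have e : ⁅x⁻¹, t⁆ = x⁻¹ * ⁅x, t⁆⁻¹ * x := by simp only [commutatorElement_def]; group
    rw [e, mul_assoc, ← Subgroup.mem_center_iff.1 (inv_mem (hC (hx t ht))) x, inv_mul_cancel_left]
    exact inv_mem (hx t ht)

theorem mem_cen {T : Set G} {C : Subgroup G} (hC : C ≤ Subgroup.center G) {x : G} :
    x ∈ cen T C hC ↔ ∀ t ∈ T, ⁅x, t⁆ ∈ C := Iff.rfl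

/-- Commutators with values in a central subgroup are bilinear in the second variable. -/
theorem comm_mul_right_central {C : Subgroup G} (hC : C ≤ Subgroup.center G) {x y z : G}
    (hz : ⁅x, z⁆ ∈ C) : ⁅x, y * z⁆ = ⁅x, y⁆ * ⁅x, z⁆ := by
  rw [comm_mul_right, Subgroup.mem_center_iff.1 (hC hz) y, mul_inv_cancel_right]

theorem comm_mul_left_central {C : Subgroup G} (hC : C ≤ Subgroup.center G) {x y z : G}
    (hz : ⁅y, z⁆ ∈ C) : ⁅x * y, z⁆ = ⁅y, z⁆ * ⁅x, z⁆ := by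
  rw [comm_mul_left, Subgroup.mem_center_iff.1 (hC hz) x, mul_inv_cancel_right]

/-- An element moving two others only centrally fixes their commutator. -/
theorem commute_comm {x a b : G} (ha : ⁅x, a⁆ ∈ Subgroup.center G) (hb : ⁅x, b⁆ ∈ Subgroup.center G) :
    ⁅x, ⁅a, b⁆⁆ = 1 := by
  rw [commutatorElement_eq_one_iff_mul_comm]
  have e : x * ⁅a, b⁆ * x⁻¹ = ⁅a, b⁆ := by
    rw [← comm_conj, show x * a * x⁻¹ = ⁅x, a⁆ * a by simp [commutatorElement_def],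
      show x * b * x⁻¹ = ⁅x, b⁆ * b by simp [commutatorElement_def]]
    have h1 := Subgroup.mem_center_iff.1 ha
    have h2 := Subgroup.mem_center_iff.1 hb
    generalize ⁅x, a⁆ = z at h1 ⊢
    generalize ⁅x, b⁆ = w at h2 ⊢
    simp only [commutatorElement_def, mul_inv_rev]
    calc z * a * (w * b) * (a⁻¹ * z⁻¹) * (b⁻¹ * w⁻¹)
        = z * (a * (w * b) * a⁻¹) * z⁻¹ * (b⁻¹ * w⁻¹) := by group
      _ = (a * (w * b) * a⁻¹) * (b⁻¹ * w⁻¹) := by rw [← h1 (a * (w * b) * a⁻¹), mul_inv_cancel_right]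
      _ = (a * w) * (b * a⁻¹ * b⁻¹ * w⁻¹) := by group
      _ = (w * a) * (b * a⁻¹ * b⁻¹ * w⁻¹) := by rw [h2 a]
      _ = w * (a * b * a⁻¹ * b⁻¹) * w⁻¹ := by group
      _ = a * b * a⁻¹ * b⁻¹ := by rw [← h2 (a * b * a⁻¹ * b⁻¹), mul_inv_cancel_right]
  calc x * ⁅a, b⁆ = x * ⁅a, b⁆ * x⁻¹ * x := by group
    _ = ⁅a, b⁆ * x := by rw [e]

section Join

variable [Finite S]

/-- Joins of centraliser-large subgroups. -/
theorem isCentralizerLarge_sSup {s : Set (Subgroup S)} (hne : s.Nonempty)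
    (hs : ∀ A ∈ s, Cfsg.IsCentralizerLarge A) : Cfsg.IsCentralizerLarge (sSup s) := by
  classical
  obtain ⟨A, hA⟩ := hne
  suffices key : ∀ t : Set (Subgroup S), t ⊆ s → Cfsg.IsCentralizerLarge (A ⊔ sSup t) by
    have := key s subset_rfl
    rwa [sup_eq_right.2 (le_sSup hA)] at this
  intro t
  induction t, Set.toFinite t using Set.Finite.induction_on with
  | empty => intro _; simpa using hs A hA
  | @insert a t _ _ ih =>
    intro hsub
    rw [sSup_insert, sup_left_comm, sup_comm]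
    exact (CfsgLib.TwoGroupTricks.isCentralizerLarge_sup_inf
      (ih ((Set.subset_insert _ _).trans hsub)) (hs a (hsub (Set.mem_insert _ _)))).1

end Join

/-- What the pushing-up hypotheses give for one embedding. -/
structure Push (p q : ℕ) (τ : S →* G) (M : Subgroup G) : Prop where
  inj : Function.Injective τ
  isP : IsPGroup p S
  one_lt : 1 < q
  pCore_le : Cfsg.pCore p G ≤ τ.range
  syl : ∃ P : Sylow p G, (P : Subgroup G) = τ.range
  char2 : centralizer (Cfsg.pCore p G : Set G) ≤ Cfsg.pCore p G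
  leM : τ.range ≤ M
  neM : M ≠ ⊤
  uniq : ∀ H : Subgroup G, τ.range ≤ H → H ≠ ⊤ → H ≤ M
  core : ∀ N : Subgroup G, N.Normal → N ⊔ τ.range ≠ ⊤ → ∀ s : S, τ s ∈ N → s ∈ Qe p τ
  card : Nat.card S = q * Nat.card (Qe p τ)
  comm_mem : ∀ s t : S, ⁅s, t⁆ ∈ Qe p τ
  braid : ∃ u : S, u ∉ Qe p τ ∧ ∃ g : G, g ∉ M ∧ (τ u * (g * τ u * g⁻¹) * τ u)⁻¹ * g ∈ M

namespace Push

variable {p q : ℕ} {τ : S →* G} {M : Subgroup G} (h : Push p q τ M)
include h

theorem tau_cv (g : G) {x : S} (hx : x ∈ Qe p τ) : τ (cv τ g x) = g * τ x * g⁻¹ :=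
  Function.invFun_eq (h.pCore_le ((Cfsg.pCore_normal p G).conj_mem _ hx g))

theorem cv_mem (g : G) {x : S} (hx : x ∈ Qe p τ) : cv τ g x ∈ Qe p τ := by
  show τ (cv τ g x) ∈ Cfsg.pCore p G
  rw [h.tau_cv g hx]
  exact (Cfsg.pCore_normal p G).conj_mem _ hx g

theorem cv_cv (g k : G) {x : S} (hx : x ∈ Qe p τ) : cv τ g (cv τ k x) = cv τ (g * k) x :=
  h.inj (by rw [h.tau_cv g (h.cv_mem k hx), h.tau_cv k hx, h.tau_cv (g * k) hx]; group)

theorem cv_one {x : S} (hx : x ∈ Qe p τ) : cv τ 1 x = x :=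
  h.inj (by rw [h.tau_cv 1 hx]; group)

theorem cv_inv_cv (g : G) {x : S} (hx : x ∈ Qe p τ) : cv τ g⁻¹ (cv τ g x) = x := by
  rw [h.cv_cv _ _ hx, inv_mul_cancel, h.cv_one hx]

theorem cv_cv_inv (g : G) {x : S} (hx : x ∈ Qe p τ) : cv τ g (cv τ g⁻¹ x) = x := by
  rw [h.cv_cv _ _ hx, mul_inv_cancel, h.cv_one hx]

theorem cv_mul (g : G) {x y : S} (hx : x ∈ Qe p τ) (hy : y ∈ Qe p τ) :
    cv τ g (x * y) = cv τ g x * cv τ g y :=
  h.inj (by rw [map_mul, h.tau_cv g (mul_mem hx hy), h.tau_cv g hx, h.tau_cv g hy, map_mul]; group)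

theorem cv_inv (g : G) {x : S} (hx : x ∈ Qe p τ) : cv τ g x⁻¹ = (cv τ g x)⁻¹ :=
  h.inj (by rw [map_inv, h.tau_cv g (inv_mem hx), h.tau_cv g hx, map_inv]; group)

theorem cv_pow (g : G) {x : S} (hx : x ∈ Qe p τ) (n : ℕ) : cv τ g (x ^ n) = cv τ g x ^ n :=
  h.inj (by rw [map_pow, h.tau_cv g (pow_mem hx n), h.tau_cv g hx, map_pow, conj_pow])

theorem cv_comm (g : G) {x y : S} (hx : x ∈ Qe p τ) (hy : y ∈ Qe p τ) :
    cv τ g ⁅x, y⁆ = ⁅cv τ g x, cv τ g y⁆ := by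
  simp only [commutatorElement_def]
  rw [h.cv_mul g (mul_mem (mul_mem hx hy) (inv_mem hx)) (inv_mem hy),
    h.cv_mul g (mul_mem hx hy) (inv_mem hx), h.cv_mul g hx hy, h.cv_inv g hx, h.cv_inv g hy]

theorem cv_tau (s : S) {x : S} (hx : x ∈ Qe p τ) : cv τ (τ s) x = s * x * s⁻¹ :=
  h.inj (by rw [h.tau_cv _ hx, map_mul, map_mul, map_inv])

theorem normal_Qe : (Qe p τ).Normal := (Cfsg.pCore_normal p G).comap τ

theorem conj_Qe (s : S) {x : S} (hx : x ∈ Qe p τ) : s * x * s⁻¹ ∈ Qe p τ :=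
  h.normal_Qe.conj_mem x hx s

/-! #### Normalised subgroups -/

theorem nrm_normal {H : Subgroup S} (hHQ : H ≤ Qe p τ) (hn : Nrm τ H) : H.Normal :=
  ⟨fun x hx s => h.cv_tau s (hHQ hx) ▸ hn (τ s) x hx⟩

theorem nrm_Qe : Nrm τ (Qe p τ) := fun g _ hx => h.cv_mem g hx

theorem map_normal {H : Subgroup S} (hHQ : H ≤ Qe p τ) (hn : Nrm τ H) : (H.map τ).Normal := by
  refine ⟨?_⟩
  rintro _ ⟨x, hx, rfl⟩ g
  exact ⟨cv τ g x, hn g x hx, h.tau_cv g (hHQ hx)⟩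

theorem nrm_of_map {H : Subgroup S} (hHQ : H ≤ Qe p τ) (hn : (H.map τ).Normal) : Nrm τ H := by
  intro g x hx
  obtain ⟨y, hy, e⟩ := hn.conj_mem _ ⟨x, hx, rfl⟩ g
  rw [← h.tau_cv g (hHQ hx)] at e
  rwa [← h.inj e]

theorem nrm_inf {H K : Subgroup S} (h1 : Nrm τ H) (h2 : Nrm τ K) : Nrm τ (H ⊓ K) :=
  fun g x hx => ⟨h1 g x hx.1, h2 g x hx.2⟩

theorem nrm_closure {s : Set S} (hs : s ⊆ Qe p τ)
    (hn : ∀ g : G, ∀ x ∈ s, cv τ g x ∈ Subgroup.closure s) : Nrm τ (Subgroup.closure s) := by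
  intro g x hx
  have key : x ∈ Qe p τ ∧ cv τ g x ∈ Subgroup.closure s := by
    induction hx using Subgroup.closure_induction with
    | mem y hy => exact ⟨hs hy, hn g y hy⟩
    | one =>
      refine ⟨one_mem _, ?_⟩
      have : cv τ g (1 : S) = 1 := h.inj (by rw [h.tau_cv g (one_mem _)]; simp)
      rw [this]; exact one_mem _
    | mul a b _ _ ha hb => exact ⟨mul_mem ha.1 hb.1, h.cv_mul g ha.1 hb.1 ▸ mul_mem ha.2 hb.2⟩
    | inv a _ ha => exact ⟨inv_mem ha.1, h.cv_inv g ha.1 ▸ inv_mem ha.2⟩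
  exact key.2

theorem nrm_sup {H K : Subgroup S} (hH : H ≤ Qe p τ) (hK : K ≤ Qe p τ) (h1 : Nrm τ H) (h2 : Nrm τ K) :
    Nrm τ (H ⊔ K) := by
  rw [← Subgroup.closure_eq H, ← Subgroup.closure_eq K, ← Subgroup.closure_union]
  refine h.nrm_closure (Set.union_subset hH hK) fun g x hx => Subgroup.subset_closure ?_
  exact hx.imp (h1 g x) (h2 g x)

theorem nrm_centralizer {H : Subgroup S} (hH : H ≤ Qe p τ) (hn : Nrm τ H) :
    Nrm τ (Qe p τ ⊓ centralizer (H : Set S)) := by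
  refine fun g x hx => ⟨h.cv_mem g hx.1, fun y hy => ?_⟩
  have h1 := hx.2 _ (hn g⁻¹ y hy)
  have h2 := congrArg (cv τ g) h1
  rwa [h.cv_mul g (h.cv_mem _ (hH hy)) hx.1, h.cv_mul g hx.1 (h.cv_mem _ (hH hy)),
    h.cv_cv_inv g (hH hy)] at h2

theorem Ve_le : Ve p τ ≤ Qe p τ := inf_le_left

theorem nrm_Ve : Nrm τ (Ve p τ) := h.nrm_centralizer le_rfl h.nrm_Qe

theorem Ce_le_center : Ce p τ ≤ Subgroup.center S := fun z hz =>
  Subgroup.mem_center_iff.2 fun s => h.inj (by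
    rw [map_mul, map_mul]; exact Subgroup.mem_center_iff.1 hz.1 (τ s))

theorem cv_Ce (g : G) {z : S} (hz : z ∈ Ce p τ) : cv τ g z = z :=
  h.inj (by rw [h.tau_cv g hz.2.1, Subgroup.mem_center_iff.1 hz.1 g, mul_inv_cancel_right])

theorem mem_Ce {z : S} (hz : z ∈ Ve p τ) (hfix : ∀ g : G, cv τ g z = z) : z ∈ Ce p τ :=
  ⟨Subgroup.mem_center_iff.2 fun g => by
    have h1 := congrArg τ (hfix g)
    rw [h.tau_cv g hz.1] at h1
    calc g * τ z = g * τ z * g⁻¹ * g := by group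
      _ = τ z * g := by rw [h1], hz⟩

theorem nrm_Ce : Nrm τ (Ce p τ) := fun g _ hz => (h.cv_Ce g hz).symm ▸ hz

/-! #### Conjugate subgroups -/

theorem mem_Cj (g : G) {H : Subgroup S} (hH : H ≤ Qe p τ) {x : S} :
    x ∈ Cj τ g H ↔ ∃ y ∈ H, cv τ g y = x := by
  constructor
  · rintro ⟨_, ⟨y, hy, rfl⟩, e⟩
    exact ⟨y, hy, h.inj ((h.tau_cv g (hH hy)).trans e)⟩
  · rintro ⟨y, hy, rfl⟩
    exact ⟨τ y, ⟨y, hy, rfl⟩, (h.tau_cv g (hH hy)).symm⟩

theorem cv_mem_Cj (g : G) {H : Subgroup S} (hH : H ≤ Qe p τ) {y : S} (hy : y ∈ H) :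
    cv τ g y ∈ Cj τ g H := (h.mem_Cj g hH).2 ⟨y, hy, rfl⟩

theorem Cj_le (g : G) {H : Subgroup S} (hH : H ≤ Qe p τ) : Cj τ g H ≤ Qe p τ := fun x hx => by
  obtain ⟨y, hy, rfl⟩ := (h.mem_Cj g hH).1 hx
  exact h.cv_mem g (hH hy)

theorem Cj_mono (g : G) {H K : Subgroup S} (hle : H ≤ K) : Cj τ g H ≤ Cj τ g K :=
  Subgroup.comap_mono (Subgroup.map_mono (Subgroup.map_mono hle))

theorem Cj_le_of_nrm (g : G) {H K : Subgroup S} (hK : K ≤ Qe p τ) (hn : Nrm τ K) (hle : H ≤ K) :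
    Cj τ g H ≤ K := fun x hx => by
  obtain ⟨y, hy, rfl⟩ := (h.mem_Cj g (hle.trans hK)).1 hx
  exact hn g y (hle hy)

theorem Cj_Cj_inv (g : G) {H : Subgroup S} (hH : H ≤ Qe p τ) : Cj τ g (Cj τ g⁻¹ H) = H := by
  ext x
  rw [h.mem_Cj g (h.Cj_le g⁻¹ hH)]
  constructor
  · rintro ⟨y, hy, rfl⟩
    obtain ⟨z, hz, rfl⟩ := (h.mem_Cj g⁻¹ hH).1 hy
    rwa [h.cv_cv_inv g (hH hz)]
  · exact fun hx => ⟨_, h.cv_mem_Cj g⁻¹ hH hx, h.cv_cv_inv g (hH hx)⟩

theorem Cj_inv_Cj (g : G) {H : Subgroup S} (hH : H ≤ Qe p τ) : Cj τ g⁻¹ (Cj τ g H) = H := by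
  simpa using h.Cj_Cj_inv g⁻¹ hH

theorem card_Cj (g : G) {H : Subgroup S} (hH : H ≤ Qe p τ) : Nat.card (Cj τ g H) = Nat.card H := by
  refine (Nat.card_congr (Equiv.ofBijective
    (fun y : H => (⟨cv τ g y, h.cv_mem_Cj g hH y.2⟩ : Cj τ g H)) ⟨fun a b e => ?_, fun x => ?_⟩)).symm
  · have e' := congrArg (cv τ g⁻¹) (Subtype.mk.inj e)
    rw [h.cv_inv_cv g (hH a.2), h.cv_inv_cv g (hH b.2)] at e'
    exact Subtype.ext e'
  · obtain ⟨y, hy, e⟩ := (h.mem_Cj g hH).1 x.2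
    exact ⟨⟨y, hy⟩, Subtype.ext e⟩

theorem Cj_of_nrm [Finite S] (g : G) {H : Subgroup S} (hH : H ≤ Qe p τ) (hn : Nrm τ H) : Cj τ g H = H :=
  Subgroup.eq_of_le_of_card_ge (h.Cj_le_of_nrm g hH hn le_rfl) (h.card_Cj g hH).ge

/-! #### Normal closures -/

theorem le_Xcl (H : Subgroup S) : H ≤ Xcl τ H := fun x hx =>
  Subgroup.subset_normalClosure ⟨x, hx, rfl⟩

theorem Xcl_le {H K : Subgroup S} (hK : K ≤ Qe p τ) (hn : Nrm τ K) (hle : H ≤ K) : Xcl τ H ≤ K := by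
  haveI := h.map_normal hK hn
  have : Subgroup.normalClosure (τ '' (H : Set S)) ≤ K.map τ := by
    refine Subgroup.normalClosure_le_normal ?_
    rintro _ ⟨x, hx, rfl⟩
    exact ⟨x, hle hx, rfl⟩
  intro x hx
  obtain ⟨y, hy, e⟩ := this hx
  rwa [← h.inj e]

theorem Xcl_le_Qe {H : Subgroup S} (hH : H ≤ Qe p τ) : Xcl τ H ≤ Qe p τ :=
  h.Xcl_le le_rfl h.nrm_Qe hH

theorem nrm_Xcl {H : Subgroup S} (hH : H ≤ Qe p τ) : Nrm τ (Xcl τ H) := fun g x hx => by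
  show τ (cv τ g x) ∈ Subgroup.normalClosure (τ '' (H : Set S))
  rw [h.tau_cv g (h.Xcl_le_Qe hH hx)]
  exact Subgroup.normalClosure_normal.conj_mem (τ x) hx g

/-- The closure is the join of the conjugates. -/
theorem Xcl_eq {H : Subgroup S} (hH : H ≤ Qe p τ) : Xcl τ H = ⨆ g : G, Cj τ g H := by
  refine le_antisymm (h.Xcl_le (iSup_le fun g => h.Cj_le g hH) ?_ ?_)
    (iSup_le fun g => h.Cj_le_of_nrm g (h.Xcl_le_Qe hH) (h.nrm_Xcl hH) (h.le_Xcl H))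
  · intro k x hx
    have key : x ∈ Qe p τ ∧ cv τ k x ∈ ⨆ g : G, Cj τ g H := by
      induction hx using Subgroup.iSup_induction' with
      | hp g y hy =>
        refine ⟨h.Cj_le g hH hy, ?_⟩
        obtain ⟨z, hz, rfl⟩ := (h.mem_Cj g hH).1 hy
        rw [h.cv_cv k g (hH hz)]
        exact Subgroup.mem_iSup_of_mem (k * g) (h.cv_mem_Cj _ hH hz)
      | h1 =>
        refine ⟨one_mem _, ?_⟩
        rw [show cv τ k (1 : S) = 1 from h.inj (by rw [h.tau_cv k (one_mem _)]; simp)]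
        exact one_mem _
      | hmul a b _ _ ha hb => exact ⟨mul_mem ha.1 hb.1, h.cv_mul k ha.1 hb.1 ▸ mul_mem ha.2 hb.2⟩
    exact key.2
  · intro x hx
    exact Subgroup.mem_iSup_of_mem 1 ((h.mem_Cj 1 hH).2 ⟨x, hx, h.cv_one (hH hx)⟩)

/-! #### Sections -/

/-- The elements of `G` acting trivially on `M₁/M₀`. -/
def secFix {M₁ M₀ : Subgroup S} (h1 : M₁ ≤ Qe p τ) (h0 : M₀ ≤ M₁) (n1 : Nrm τ M₁) (n0 : Nrm τ M₀) :
    Subgroup G where
  carrier := {g | ∀ x ∈ M₁, cv τ g x * x⁻¹ ∈ M₀}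
  one_mem' := fun x hx => by rw [h.cv_one (h1 hx), mul_inv_cancel]; exact one_mem _
  mul_mem' := fun {a b} ha hb x hx => by
    have hxQ := h1 hx
    have e : cv τ (a * b) x * x⁻¹ = cv τ a (cv τ b x * x⁻¹) * (cv τ a x * x⁻¹) := by
      rw [h.cv_mul a (h.cv_mem b hxQ) (inv_mem hxQ), h.cv_inv a hxQ, h.cv_cv a b hxQ]; group
    rw [e]
    exact mul_mem (n0 a _ (hb x hx)) (ha x hx)
  inv_mem' := fun {a} ha x hx => by
    have hxQ := h1 hx
    have hy := n1 a⁻¹ x hx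
    have h2 := ha _ hy
    rw [h.cv_cv_inv a hxQ] at h2
    have h3 := inv_mem h2
    rwa [mul_inv_rev, inv_inv] at h3

theorem mem_secFix {M₁ M₀ : Subgroup S} {h1 : M₁ ≤ Qe p τ} {h0 : M₀ ≤ M₁} {n1 : Nrm τ M₁}
    {n0 : Nrm τ M₀} {g : G} :
    g ∈ h.secFix h1 h0 n1 n0 ↔ ∀ x ∈ M₁, cv τ g x * x⁻¹ ∈ M₀ := Iff.rfl

theorem secFix_normal {M₁ M₀ : Subgroup S} (h1 : M₁ ≤ Qe p τ) (h0 : M₀ ≤ M₁) (n1 : Nrm τ M₁)
    (n0 : Nrm τ M₀) : (h.secFix h1 h0 n1 n0).Normal := by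
  refine ⟨fun a ha g x hx => ?_⟩
  have hxQ := h1 hx
  have hy := n1 g⁻¹ x hx
  have h2 := n0 g _ (ha _ hy)
  rwa [h.cv_mul g (h.cv_mem a (h1 hy)) (inv_mem (h1 hy)), h.cv_inv g (h1 hy), h.cv_cv_inv g hxQ,
    h.cv_cv a g⁻¹ hxQ, h.cv_cv g (a * g⁻¹) hxQ, ← mul_assoc] at h2

theorem tau_mem_secFix {M₁ M₀ : Subgroup S} {h1 : M₁ ≤ Qe p τ} {h0 : M₀ ≤ M₁} {n1 : Nrm τ M₁}
    {n0 : Nrm τ M₀} {s : S} :
    τ s ∈ h.secFix h1 h0 n1 n0 ↔ ∀ x ∈ M₁, ⁅s, x⁆ ∈ M₀ :=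
  forall₂_congr fun x hx => by rw [h.cv_tau s (h1 hx)]; rfl

theorem sup_top {N : Subgroup G} (hN : N.Normal) {u : S} (hu : u ∉ Qe p τ) (huN : τ u ∈ N) :
    N ⊔ τ.range = ⊤ :=
  by_contra fun hne => hu (h.core N hN hne u huN)

/-- Where `S` acts trivially, so does `G`. -/
theorem secFix_top {M₁ M₀ : Subgroup S} (h1 : M₁ ≤ Qe p τ) (h0 : M₀ ≤ M₁) (n1 : Nrm τ M₁)
    (n0 : Nrm τ M₀) (hs : ∀ s : S, ∀ x ∈ M₁, ⁅s, x⁆ ∈ M₀) (g : G) {x : S} (hx : x ∈ M₁) :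
    cv τ g x * x⁻¹ ∈ M₀ := by
  set N := h.secFix h1 h0 n1 n0
  haveI hN := h.secFix_normal h1 h0 n1 n0
  have hrange : τ.range ≤ N := by
    rintro _ ⟨s, rfl⟩; exact h.tau_mem_secFix.2 (hs s)
  have htop : N = ⊤ := by
    by_contra hne
    obtain ⟨u, hu, -⟩ := h.braid
    exact hu (h.core N hN (by rw [sup_eq_left.2 hrange]; exact hne) u (hrange ⟨u, rfl⟩))
  exact (h.mem_secFix).1 (htop ▸ Subgroup.mem_top g) x hx

/-- Below a section centralised outside `O_p(G)`, every subgroup normalised by `S` is normal. -/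
theorem nrm_between {M₁ M₀ H : Subgroup S} (h1 : M₁ ≤ Qe p τ) (h0 : M₀ ≤ M₁) (n1 : Nrm τ M₁)
    (n0 : Nrm τ M₀) {u : S} (hu : u ∉ Qe p τ) (hfix : ∀ x ∈ M₁, ⁅u, x⁆ ∈ M₀)
    (hH0 : M₀ ≤ H) (hH1 : H ≤ M₁) (hHn : H.Normal) : Nrm τ H := by
  intro g x hx
  haveI hN := h.secFix_normal h1 h0 n1 n0
  have htop := h.sup_top hN hu (h.tau_mem_secFix.2 hfix)
  have hg : g ∈ ((h.secFix h1 h0 n1 n0 ⊔ τ.range : Subgroup G) : Set G) := htop ▸ Subgroup.mem_top g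
  rw [Subgroup.normal_mul] at hg
  obtain ⟨n, hn, _, ⟨s, rfl⟩, rfl⟩ := hg
  have hy : s * x * s⁻¹ ∈ H := hHn.conj_mem x hx s
  have hyQ := h1 (hH1 hy)
  rw [← h.cv_cv n (τ s) (h1 (hH1 hx)), h.cv_tau s (h1 (hH1 hx))]
  have h2 := (h.mem_secFix).1 hn _ (hH1 hy)
  have h3 := H.mul_mem (hH0 h2) hy
  rwa [inv_mul_cancel_right] at h3

theorem normalizer_le [Finite G] : normalizer (τ.range : Set G) ≤ M := by
  refine h.uniq _ Subgroup.le_normalizer fun htop => ?_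
  haveI hn : (τ.range).Normal := Subgroup.normalizer_eq_top_iff.1 htop
  obtain ⟨u, hu, -⟩ := h.braid
  refine hu (h.core _ hn (fun hh => ?_) u ⟨u, rfl⟩)
  rw [sup_idem] at hh
  exact h.neM (top_le_iff.1 (hh ▸ h.leM))

/-- Two Sylow subgroups generate. -/
theorem gen [Finite G] [Fact p.Prime] {g : G} (hg : g ∉ M) :
    τ.range ⊔ τ.range.map (MulAut.conj g).toMonoidHom = ⊤ := by
  by_contra hne
  have hle := h.uniq _ le_sup_left hne
  obtain ⟨P, hP⟩ := h.syl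
  have hgP : ((g • P : Sylow p G) : Subgroup G) ≤ M := by
    rw [Sylow.coe_subgroup_smul, hP]
    exact le_sup_right.trans hle
  have hPM : (P : Subgroup G) ≤ M := hP ▸ h.leM
  obtain ⟨m, hm⟩ := MulAction.exists_smul_eq M (P.subtype hPM) ((g • P).subtype hgP)
  have hm' : (m : G) • P = g • P := by
    have h1 := congrArg (fun R : Sylow p M => (R : Subgroup M).map M.subtype) hm
    simp only [Sylow.coe_subgroup_smul, Sylow.coe_subtype] at h1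
    have h2 : ((MulAut.conj g • (P : Subgroup G)).subgroupOf M).map M.subtype = MulAut.conj g • (P : Subgroup G) :=
      Subgroup.map_subgroupOf_eq_of_le (by rw [← Sylow.coe_subgroup_smul]; exact hgP)
    rw [h2] at h1
    apply Sylow.ext
    rw [Sylow.coe_subgroup_smul, Sylow.coe_subgroup_smul, ← h1]
    ext x
    simp only [Subgroup.mem_map, Subgroup.mem_smul_pointwise_iff_exists, Subgroup.mem_subgroupOf]
    constructor
    · rintro ⟨y, hy, rfl⟩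
      exact ⟨_, ⟨⟨y, hPM hy⟩, hy, rfl⟩, rfl⟩
    · rintro ⟨_, ⟨y, hy, rfl⟩, rfl⟩
      exact ⟨y, hy, rfl⟩
  have hn : (m : G)⁻¹ * g ∈ normalizer (τ.range : Set G) := by
    rw [← hP]
    exact Sylow.smul_eq_iff_mem_normalizer.1 (by rw [mul_smul, ← hm', inv_smul_smul])
  exact hg (by simpa using M.mul_mem m.2 (h.normalizer_le hn))

end Push

end CfsgLib.Minimal.GN
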