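import Cfsg.Agent.Lib.Minimal.GNCritical

/-!
Pushing up two embeddings with commuting modules: the reaching case is impossible except for `p = 3`,
where the characteristic function `S₀` is carried by the core.
-/

set_option autoImplicit false
set_option linter.unusedSectionVars false
set_option linter.style.haveILetI false

open Subgroup
open scoped Pointwise
open scoped commutatorElement

namespace CfsgLib.Minimal.GN

open Cfsg CfsgLib.TwoGroupTricks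

universe u v w

variable {S : Type u} [Group S] [Finite S]
variable {Gb : Type v} [Group Gb] [Finite Gb] {Gc : Type w} [Group Gc] [Finite Gc]
variable {p qb qc : ℕ} [hp : Fact p.Prime] {τb : S →* Gb} {Mb : Subgroup Gb}
  {τc : S →* Gc} {Mc : Subgroup Gc}

theorem comm_sq_of_involution {y a : S} (ha : a * a = 1) : ⁅⁅y, a⁆, a⁆ = ⁅y, a⁆ * ⁅y, a⁆ := by
  have hi : a⁻¹ = a := inv_eq_of_mul_eq_one_right ha
  have e : a * ⁅y, a⁆⁻¹ * a = ⁅y, a⁆ := by
    simp only [commutatorElement_def, mul_inv_rev, inv_inv, hi]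
    calc a * (a * (y * (a * y⁻¹))) * a = (a * a) * (y * (a * y⁻¹)) * a := by group
      _ = y * a * y⁻¹ * a := by rw [ha]; group
  calc ⁅⁅y, a⁆, a⁆ = ⁅y, a⁆ * (a * ⁅y, a⁆⁻¹ * a⁻¹) := by simp only [commutatorElement_def]; group
    _ = ⁅y, a⁆ * ⁅y, a⁆ := by rw [hi, e]

theorem comm_inv_left_central {x z : S} (h : ⁅x, z⁆ ∈ Subgroup.center S) : ⁅x⁻¹, z⁆ = ⁅x, z⁆⁻¹ := by
  have e : ⁅x⁻¹, z⁆ = x⁻¹ * ⁅x, z⁆⁻¹ * x := by simp only [commutatorElement_def]; group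
  rw [e, mul_assoc, ← Subgroup.mem_center_iff.1 (inv_mem h) x, inv_mul_cancel_left]

theorem Push.fix_iff {G : Type v} [Group G] {q : ℕ} {τ : S →* G} {M : Subgroup G} (h : Push p q τ M)
    {M₀ : Subgroup S} (n0 : Nrm τ M₀) (a b : G) {x : S} (hx : x ∈ Qe p τ) :
    cv τ (a⁻¹ * b) x * x⁻¹ ∈ M₀ ↔ cv τ b x * (cv τ a x)⁻¹ ∈ M₀ := by
  constructor <;> intro hh
  · have h1 := n0 a _ hh
    rwa [h.cv_mul a (h.cv_mem _ hx) (inv_mem hx), h.cv_inv a hx, h.cv_cv a _ hx,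
      mul_inv_cancel_left] at h1
  · have h1 := n0 a⁻¹ _ hh
    rwa [h.cv_mul _ (h.cv_mem _ hx) (inv_mem (h.cv_mem _ hx)), h.cv_inv _ (h.cv_mem _ hx),
      h.cv_cv _ b hx, h.cv_inv_cv a hx] at h1

variable (hS : Covered S) (hb : Bad p qb τb Mb) (hc : Bad p qc τc Mc) (hne : Ve p τb ≠ Ve p τc)
  (hcb : Ve p τc ≤ Qe p τb)
include hS hb hc hne hcb

theorem Xb_comm : ∀ x ∈ Xcl τb (Ve p τc ⊔ Ve p τb), ∀ d ∈ Qe p τb, ⁅x, d⁆ ∈ Ce p τb :=
  Xc_comm hS hc hb hne.symm (V_le_symm hb hc hcb)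

theorem hi_double (hY : ¬ Xcl τb (Ve p τc ⊔ Ve p τb) ≤ Qe p τc) :
    ∀ s : S, ∀ i ∈ Xin p τb τc, ⁅s, i⁆ ∈ Subgroup.center S := by
  obtain ⟨U', hU'X, -, -, hU'⟩ := cover hS hc hb hne.symm (V_le_symm hb hc hcb) hY
  rintro s i hi
  obtain ⟨y, hy, r, hr, rfl⟩ := hU' s
  have h1 : ⁅r, i⁆ ∈ Ce p τc := comm_mem_symm (Xc_comm hS hb hc hne hcb i hi.1 r hr)
  have h2 : ⁅y, i⁆ ∈ Ce p τb := Xb_comm hS hb hc hne hcb y (hU'X hy) i hi.2
  rw [comm_mul_left_central le_rfl (hc.Ce_le_Z h1)]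
  exact mul_mem (hc.Ce_le_Z h1) (hb.Ce_le_Z h2)

theorem hi_double_Rad (hY : ¬ Xcl τb (Ve p τc ⊔ Ve p τb) ≤ Qe p τc) :
    ∀ s : S, ∀ i ∈ Xin p τb τc, ⁅s, i⁆ ∈ Rad p τb τc (cen_bc hb) := fun s i hi =>
  center_Rad hS hb hc hne hcb _ (hi_double hS hb hc hne hcb hY s i hi)

theorem q_le (hX : ¬ Xcl τc (Ve p τb ⊔ Ve p τc) ≤ Qe p τb)
    (hC : Ce p τb ⊓ Ce p τc ≤ Subgroup.center S)
    (hi : ∀ s : S, ∀ i ∈ Xin p τb τc, ⁅s, i⁆ ∈ Rad p τb τc hC) : qc ≤ qb := by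
  obtain ⟨-, hfix, hcard, -, -⟩ := natX hS hb hc hne hcb hX hC hi
  obtain ⟨a, ha, haQ⟩ := SetLike.not_le_iff_exists.1 hX
  set P := Xin p τb τc
  set J := Rad p τb τc hC
  let f : S ⧸ Qe p τc → ↥P ⧸ J.subgroupOf P := fun s =>
    QuotientGroup.mk ⟨⁅s.out, a⁆, step_Xc hS hb hc hne hcb _ a ha⟩
  have hf : Function.Injective f := by
    intro s t e
    have h1 : ⁅s.out, a⁆⁻¹ * ⁅t.out, a⁆ ∈ J := Subgroup.mem_subgroupOf.1 (QuotientGroup.eq.1 e)
    by_contra hne'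
    have hu : s.out⁻¹ * t.out ∉ Qe p τc := fun hh => hne' (by
      rw [← QuotientGroup.out_eq' s, ← QuotientGroup.out_eq' t, QuotientGroup.eq]; exact hh)
    refine haQ (hfix _ hu a ha ?_).2
    have hsa := step_Xc hS hb hc hne hcb s.out a ha
    have hJn : J.Normal := hc.toPush.nrm_normal
      ((inf_le_left : J ≤ _).trans (Xc_le hS hb hc hne hcb)) (Rad_nrm hS hb hc hne hcb hC)
    have e2 : ⁅s.out⁻¹ * t.out, a⁆ =
        s.out⁻¹ * (⁅t.out, a⁆ * ⁅s.out, a⁆⁻¹) * s.out := by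
      simp only [commutatorElement_def]; group
    rw [e2]
    have h2 : ⁅t.out, a⁆ * ⁅s.out, a⁆⁻¹ ∈ J := hJn.mem_comm h1
    simpa using hJn.conj_mem _ h2 s.out⁻¹
  have h2 := Nat.card_le_card_of_injective f hf
  have e1 := Subgroup.card_eq_card_quotient_mul_card_subgroup (Qe p τc)
  have e2 := Subgroup.card_eq_card_quotient_mul_card_subgroup (J.subgroupOf P)
  rw [Nat.card_congr (Subgroup.subgroupOfEquivOfLe (Rad_le hS hb hc hne hcb hC)).toEquiv, hcard] at e2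
  rw [hc.card] at e1
  rw [← Nat.eq_of_mul_eq_mul_right Nat.card_pos e1, ← Nat.eq_of_mul_eq_mul_right Nat.card_pos e2] at h2
  exact h2

/-- The single case: the other closure stays inside. -/
theorem single_false (hX : ¬ Xcl τc (Ve p τb ⊔ Ve p τc) ≤ Qe p τb)
    (hY : Xcl τb (Ve p τc ⊔ Ve p τb) ≤ Qe p τc) : False := by
  obtain ⟨U, hUX, hUp, -, hU⟩ := cover hS hb hc hne hcb hX
  have hbc := V_le_symm hb hc hcb
  set N₀ := Ve p τb ⊔ Ve p τc with hN₀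
  set R := Qe p τb ⊓ Qe p τc with hR
  set P := Xin p τb τc
  have hN0R : N₀ ≤ R := sup_le (le_inf hb.V_le hbc) (le_inf hcb hc.V_le)
  have nN0 : Nrm τb N₀ := by
    have := nrm_sup_V hS hc hb hne.symm hbc hY
    rwa [sup_comm] at this
  have nR : Nrm τb R := by
    have := hb.toPush.nrm_centralizer (hN0R.trans inf_le_left) nN0
    rwa [CfsgLib.Replacement.centralizer_sup, hb.cV, hc.cV, ← inf_assoc, inf_idem] at this
  obtain ⟨u₀, hu₀, hu₀Q⟩ : ∃ a ∈ U, a ∉ Qe p τb := by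
    by_contra! hcon
    refine hb.Qe_ne_top (eq_top_iff.2 fun s _ => ?_)
    obtain ⟨u, hu, y, hy, rfl⟩ := hU s
    exact mul_mem (hcon u hu) hy
  have hXc := Xc_comm hS hb hc hne hcb
  have hXn := Xc_normal hS hb hc hne hcb
  have hPR : P ≤ R := le_inf inf_le_right (inf_le_left.trans (Xc_le hS hb hc hne hcb))
  have hPn : P.Normal := by
    haveI := hXn; haveI := hb.toPush.normal_Qe
    exact Subgroup.normal_inf_normal _ _
  have hUR : ∀ u ∈ U, ∀ r ∈ R, ⁅u, r⁆ ∈ Ce p τc := fun u hu r hr => hXc u (hUX hu) r hr.2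
  have nP : Nrm τb P := hb.toPush.nrm_between inf_le_left hN0R nR nN0 hu₀Q
    (fun r hr => mem_sup_right (hUR u₀ hu₀ r hr).2) (N0_le_Xin hS hb hc hne hcb) hPR hPn
  obtain ⟨-, -, g, hg, -⟩ := hb.braid
  have hPRc : ∀ i ∈ P, ∀ r ∈ R, ⁅i, r⁆ ∈ Ce p τb := fun i hi r hr => by
    refine hb.inter g hg _ (hc.Ce_le_Z (hXc i hi.1 r hr.2)) ?_
    rw [hb.toPush.cv_comm g hi.2 hr.1]
    exact hc.Ce_le_Z (hXc _ (nP g i hi).1 _ (nR g r hr).2)
  set hC := cen_bc (τc := τc) hb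
  set J := Rad p τb τc hC
  have hPP : ∀ i ∈ P, ∀ i' ∈ P, ⁅i, i'⁆ ∈ Ce p τb ⊓ Ce p τc := fun i hi i' hi' =>
    ⟨hPRc i hi i' (hPR hi'), hXc i hi.1 i' (hPR hi').2⟩
  have hXdec : ∀ x ∈ Xcl τc N₀, ∃ u ∈ U, ∃ i ∈ P, x = u * i := fun x hx => by
    obtain ⟨u, hu, y, hy, rfl⟩ := hU x
    refine ⟨u, hu, y, ⟨?_, hy⟩, rfl⟩
    simpa using mul_mem (inv_mem (hUX hu)) hx
  have hJn : J.Normal := hc.toPush.nrm_normal
    ((inf_le_left : J ≤ _).trans (Xc_le hS hb hc hne hcb)) (Rad_nrm hS hb hc hne hcb hC)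
  have hi : ∀ s : S, ∀ i ∈ P, ⁅s, i⁆ ∈ J := by
    intro s i hi
    obtain ⟨u, hu, y, hy, rfl⟩ := hU s
    rw [comm_mul_left]
    refine mul_mem (hJn.conj_mem _ ?_ u)
      (center_Rad hS hb hc hne hcb _ (hc.Ce_le_Z (hUR u hu i (hPR hi))))
    have hyi : ⁅y, i⁆ ∈ P := mul_mem (hPn.conj_mem i hi y) (inv_mem hi)
    refine ⟨hyi.1, fun x hx => ?_⟩
    obtain ⟨u', hu', i', hi', rfl⟩ := hXdec x hx
    have hw : ⁅u'⁻¹, y⁻¹⁆ ∈ P := by
      haveI := hb.toPush.normal_Qe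
      refine Subgroup.mem_inf.2 ⟨?_, ?_⟩
      · rw [commutatorElement_def, mul_assoc, mul_assoc]
        exact mul_mem (inv_mem (hUX hu'))
          (by simpa [mul_assoc] using hXn.conj_mem _ (hUX hu') y⁻¹)
      · exact hb.comm_mem _ _
    have h1 : ⁅i, u'⁆ ∈ Subgroup.center S := hc.Ce_le_Z (comm_mem_symm (hUR u' hu' i (hPR hi)))
    have h2 := hPP i hi _ hw
    rw [comm_mul_right_central hC (hPP _ hyi i' hi'), comm_shift h1 (hC h2)]
    exact mul_mem h2 (hPP _ hyi i' hi')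
  obtain ⟨v, -, gc, -, -⟩ := hc.braid
  obtain ⟨y, hy, hyQ⟩ : ∃ y ∈ Qe p τb, y ∉ Qe p τc := by
    by_contra! hcon
    exact hc.Qe_ne_top (top_le_iff.1 ((sup_Q hb hc hne).symm.le.trans (sup_le hcon le_rfl)))
  refine crit_false hS hb hc hne hcb hX hC hi (hUX hu₀) hu₀Q hyQ ?_
  have hya : ⁅y, u₀⁆ ∈ P := step_Xc hS hb hc hne hcb y u₀ (hUX hu₀)
  by_cases hp2 : p = 2
  · subst hp2
    have ha2 : u₀ * u₀ = 1 := by rw [← pow_two]; exact hUp u₀ hu₀
    rw [comm_sq_of_involution ha2, ← pow_two]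
    refine hb.inter g hg _ (hc.Ce_le_Z (pow_Xc hS hb hc hne hcb _ hya.1).1) ?_
    rw [hb.toPush.cv_pow g hya.2]
    exact hc.Ce_le_Z (pow_Xc hS hb hc hne hcb _ (nP g _ hya).1).1
  -- odd characteristic
  haveI hQn := hb.toPush.normal_Qe
  have hmapQ : (Qe p τb).map τb = Cfsg.pCore p Gb := Subgroup.map_comap_eq_self hb.pCore_le
  set D := ⁅P, Qe p τb⁆
  have hDJ : D ≤ J := Subgroup.commutator_le.2 fun i hi' d _ => comm_mem_symm (hi d i hi')
  have hDQ : D ≤ Qe p τb := commutator_le_left inf_le_right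
  have nD : Nrm τb D := by
    refine hb.toPush.nrm_of_map hDQ ?_
    rw [Subgroup.map_commutator, hmapQ]
    exact @Subgroup.commutator_normal Gb _ _ _
      (hb.toPush.map_normal (inf_le_right : P ≤ Qe p τb) nP) (Cfsg.pCore_normal p Gb)
  haveI hDn : D.Normal := hb.toPush.nrm_normal hDQ nD
  have hJV : ∀ x ∈ J, x ∈ Ve p τb → x ∈ Subgroup.center S := fun x hx hxV =>
    hb.fixC u₀ hu₀Q x hxV (hx.2 u₀ (hUX hu₀)).1
  set F := ⁅Qe p τb, Qe p τb⁆ ⊔ Ce p τb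
  have hFQ : F ≤ Qe p τb := sup_le (commutator_le_left le_rfl) (inf_le_right.trans hb.V_le)
  have hFR : F ≤ R := sup_le (Subgroup.commutator_le.2 fun a ha b hb' =>
      ⟨(commutator_le_left le_rfl) (Subgroup.commutator_mem_commutator ha hb'), hc.comm_mem a b⟩)
    (le_inf (inf_le_right.trans hb.V_le) ((inf_le_right.trans le_sup_left).trans (hN0R.trans inf_le_right)))
  have nF : Nrm τb F := by
    refine hb.toPush.nrm_sup (commutator_le_left le_rfl) (inf_le_right.trans hb.V_le) ?_ hb.toPush.nrm_Ce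
    refine hb.toPush.nrm_of_map (commutator_le_left le_rfl) ?_
    rw [Subgroup.map_commutator, hmapQ]
    infer_instance
  haveI hFn : F.Normal := hb.toPush.nrm_normal hFQ nF
  set πD := QuotientGroup.mk' D
  have hFu : ∀ f ∈ F, ⁅f, u₀⁆ ∈ Ce p τb := by
    suffices hle : F ≤ cen {u₀} (Ce p τb) hb.Ce_le_Z from fun f hf => hle hf u₀ rfl
    refine sup_le (Subgroup.commutator_le.2 fun a ha b hb' t ht => ?_) fun z hz t _ => ?_
    · rw [Set.mem_singleton_iff.1 ht]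
      have hz : ⁅u₀, ⁅a, b⁆⁆ ∈ Ce p τc := hXc u₀ (hUX hu₀) _ (hc.comm_mem a b)
      have hzD : ⁅u₀, ⁅a, b⁆⁆ ∈ D := by
        apply (QuotientGroup.eq_one_iff _).1
        show πD ⁅u₀, ⁅a, b⁆⁆ = 1
        have hcm : ∀ i ∈ P, ∀ d ∈ Qe p τb, Commute (πD i) (πD d) := fun i hi' d hd =>
          commutatorElement_eq_one_iff_mul_comm.1 (by
            rw [← map_commutatorElement]
            exact (QuotientGroup.eq_one_iff _).2 (Subgroup.commutator_mem_commutator hi' hd))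
        have hm : ∀ d : S, ⁅u₀, d⁆ ∈ P := fun d =>
          inv_mem_iff.1 (by rw [commutatorElement_inv]; exact step_Xc hS hb hc hne hcb d u₀ (hUX hu₀))
        have e1 : πD ⁅⁅u₀, a⁆ * a, ⁅u₀, b⁆ * b⁆ = πD ⁅a, b⁆ := by
          rw [map_commutatorElement, map_mul, map_mul, map_commutatorElement, map_commutatorElement,
            comm_mul_left, comm_mul_right]
          have h1 : Commute (πD ⁅u₀, a⁆) (πD (⁅u₀, b⁆ * b)) :=
            hcm _ (hm a) _ (mul_mem (hm b).2 hb')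
          have h2 : Commute (πD ⁅u₀, b⁆) (πD a) := hcm _ (hm b) _ ha
          have h3 : Commute (πD ⁅u₀, b⁆) (πD ⁅a, b⁆) :=
            hcm _ (hm b) _ ((commutator_le_left le_rfl) (Subgroup.commutator_mem_commutator ha hb'))
          have h4 : Commute (πD ⁅u₀, a⁆) (πD ⁅a, b⁆) :=
            hcm _ (hm a) _ ((commutator_le_left le_rfl) (Subgroup.commutator_mem_commutator ha hb'))
          rw [← map_commutatorElement πD u₀ a, ← map_commutatorElement πD u₀ b, ← map_mul,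
            commutatorElement_eq_one_iff_mul_comm.2 h1.eq, mul_one,
            commutatorElement_eq_one_iff_mul_comm.2 h2.eq.symm, one_mul,
            ← map_commutatorElement πD a b, h3.eq, mul_inv_cancel_right, h4.eq, mul_inv_cancel_right]
        have e2 : ⁅u₀, ⁅a, b⁆⁆ = ⁅⁅u₀, a⁆ * a, ⁅u₀, b⁆ * b⁆ * ⁅a, b⁆⁻¹ := by
          simp only [commutatorElement_def]; group
        rw [e2, map_mul, e1, ← map_mul, mul_inv_cancel, map_one]
      have hzQ := hDQ hzD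
      have h5 := nD g _ hzD
      have hzZ := hc.Ce_le_Z hz
      refine comm_mem_symm (hb.inter g hg _ hzZ (hJV _ (hDJ h5) (hb.toPush.nrm_Ve g _ (hb.Z_le hzZ))))
    · rw [commutatorElement_eq_one_iff_mul_comm.2 (Subgroup.mem_center_iff.1 (hb.Ce_le_Z hz) t).symm]
      exact one_mem _
  have hFZ : ∀ z ∈ F, z ∈ Subgroup.center S → z ∈ Ce p τb := fun z hz hzZ =>
    hb.inter g hg z hzZ (hb.fixC u₀ hu₀Q _ (hb.toPush.nrm_Ve g z (hb.Z_le hzZ)) (hFu _ (nF g z hz)))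
  set N := hb.toPush.secFix hb.V_le (inf_le_right : Ce p τb ≤ Ve p τb) hb.toPush.nrm_Ve hb.toPush.nrm_Ce
  have hNn : N.Normal := hb.toPush.secFix_normal _ _ _ _
  have hCF : Ce p τb ≤ F := le_sup_right
  have hstepR : ∀ s : S, ∀ x ∈ Qe p τb, ⁅s, x⁆ ∈ R := fun s x _ => ⟨hb.comm_mem s x, hc.comm_mem s x⟩
  have hVFR : Ve p τb ⊔ F ≤ R := sup_le (le_sup_left.trans hN0R) hFR
  have nVF : Nrm τb (Ve p τb ⊔ F) := hb.toPush.nrm_sup hb.V_le hFQ hb.toPush.nrm_Ve nF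
  haveI hVFn : (Ve p τb ⊔ F).Normal := hb.toPush.nrm_normal (hVFR.trans inf_le_left) nVF
  have hstepF : ∀ s : S, ∀ r ∈ R, ⁅s, r⁆ ∈ Ve p τb ⊔ F := by
    intro s r hr
    obtain ⟨u, hu, d, hd, rfl⟩ := hU s
    rw [comm_mul_left]
    exact mul_mem (hVFn.conj_mem _ (mem_sup_right (mem_sup_left
      (Subgroup.commutator_mem_commutator hd hr.1))) u)
      (mem_sup_left (hb.Z_le (hc.Ce_le_Z (hUR u hu r hr))))
  have hkill : ∀ e ∈ N, ∀ x ∈ Qe p τb, cv τb e x * x⁻¹ ∈ F := by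
    intro e he x hx
    refine hb.toPush.kill₂ le_rfl (inf_le_left : R ≤ _) hVFR le_sup_right hb.toPush.nrm_Qe nVF nF N hNn
      (fun s hs z hz => ?_) (fun a _ z hz => hb.toPush.secFix_top le_rfl inf_le_left hb.toPush.nrm_Qe nR
        hstepR a hz)
      (fun a _ z hz => hb.toPush.secFix_top inf_le_left hVFR nR nVF hstepF a hz) (fun a ha z hz => ?_) he hx
    · have hsQ : s ∈ Qe p τb := by_contra fun hsQ => hb.not_V_le_center fun v hv =>
        hb.fixC s hsQ v hv (comm_mem_symm ((hb.toPush.tau_mem_secFix).1 hs v hv))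
      exact mem_sup_left (Subgroup.commutator_mem_commutator hsQ hz)
    · rw [← SetLike.mem_coe, Subgroup.mul_normal] at hz
      obtain ⟨v, hv, f, hf, rfl⟩ := hz
      rw [hb.toPush.cv_mul a (hb.V_le hv) (hFQ hf), mul_inv_rev]
      have h1 : cv τb a v * v⁻¹ ∈ F := hCF (ha v hv)
      have h2 := mul_mem h1 (hFn.conj_mem _ (mul_mem (nF a f hf) (inv_mem hf)) v)
      simpa [mul_assoc] using h2
  -- the element inverting the module
  obtain ⟨ub, hub, gb, hgb, hnb⟩ := hb.braid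
  have hp3 : 3 ≤ p := by have := hp.out.two_le; omega
  have hkm : ((p - 1) * (p - 1)) % p = 1 := by
    obtain ⟨m, rfl⟩ : ∃ m, p = m + 2 := ⟨p - 2, by omega⟩
    rw [show (m + 2 - 1) * (m + 2 - 1) = 1 + (m + 2) * m by simp; ring, Nat.add_mul_mod_self_left,
      Nat.mod_eq_of_lt (by omega)]
  obtain ⟨hsc1, -, hsc3⟩ := hb.natV.scalar hb.toPush hub hgb hnb (p - 1) (p - 1) hkm
  set t := tel τb ub gb (p - 1) (p - 1)
  set π := QuotientGroup.mk' F
  have hπ : ∀ {x y : S}, x * y⁻¹ ∈ F → π x = π y := fun {x y} hh => by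
    have h1 : π (x * y⁻¹) = 1 := (QuotientGroup.eq_one_iff _).2 hh
    rwa [map_mul, map_inv, mul_inv_eq_one] at h1
  have hct : ∀ x ∈ Qe p τb, π (cv τb t ⁅u₀, x⁆) = π ⁅u₀, cv τb t x⁆ := by
    intro x hx
    have hsx : ⁅u₀, x⁆ ∈ Qe p τb := hb.comm_mem _ _
    have he : (τb u₀ * t)⁻¹ * (t * τb u₀) ∈ N := by
      refine hb.toPush.mem_secFix.2 fun v hv => (hb.toPush.fix_iff hb.toPush.nrm_Ce _ _ (hb.V_le hv)).2 ?_
      have := hsc3 u₀ 1 (by rw [one_mul]) v hv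
      rwa [pow_one] at this
    have h1 := (hb.toPush.fix_iff nF _ _ hx).1 (hkill _ he x hx)
    rw [← hb.toPush.cv_cv _ _ hx, ← hb.toPush.cv_cv _ _ hx, hb.toPush.cv_tau u₀ hx,
      hb.toPush.cv_tau u₀ (hb.toPush.cv_mem t hx)] at h1
    have h2 := hπ h1
    rw [show u₀ * x * u₀⁻¹ = ⁅u₀, x⁆ * x by simp [commutatorElement_def],
      hb.toPush.cv_mul t hsx hx, map_mul,
      show u₀ * cv τb t x * u₀⁻¹ = ⁅u₀, cv τb t x⁆ * cv τb t x by simp [commutatorElement_def],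
      map_mul] at h2
    exact mul_right_cancel h2
  set m₀ := ⁅u₀, y⁆
  have hm₀ : m₀ ∈ P := inv_mem_iff.1 (by rw [commutatorElement_inv]; exact hya)
  set x₀ := ⁅u₀, m₀⁆
  have hx₀Z : x₀ ∈ Subgroup.center S := hc.Ce_le_Z (hUR u₀ hu₀ m₀ (hPR hm₀))
  have hr : cv τb t y * y⁻¹ ∈ R :=
    hb.toPush.secFix_top le_rfl inf_le_left hb.toPush.nrm_Qe nR hstepR t hy
  set r := cv τb t y * y⁻¹
  have hz : ⁅u₀, r⁆ ∈ Subgroup.center S := hc.Ce_le_Z (hUR u₀ hu₀ r hr)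
  have hm : π (cv τb t m₀) = π (⁅u₀, r⁆ * m₀) := by
    rw [hct y hy, show cv τb t y = r * y by simp [r], comm_mul_right]
    refine hπ ?_
    have h1 : ⁅r, m₀⁆ ∈ F := hCF (comm_mem_symm (hPRc m₀ hm₀ r hr))
    have h2 := hFn.conj_mem _ h1 ⁅u₀, r⁆
    simpa [m₀, commutatorElement_def, mul_assoc] using h2
  have hx0 : π (cv τb t x₀) = π x₀ := by
    rw [hct m₀ hm₀.2, map_commutatorElement, hm, ← map_commutatorElement]
    congr 1
    rw [comm_mul_right, commutatorElement_eq_one_iff_mul_comm.2 (Subgroup.mem_center_iff.1 hz u₀),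
      one_mul, Subgroup.mem_center_iff.1 hz x₀ |>.symm, mul_inv_cancel_right]
  have hxp : π x₀ ^ (p - 1) = π x₀ := by
    rw [← map_pow, ← hx0]
    exact (hπ (hCF (hsc1 x₀ hx₀Z))).symm
  have hxp' : π x₀ ^ p = 1 := by
    rw [← map_pow, hb.powV x₀ (hb.Z_le hx₀Z), map_one]
  have hx1 : π x₀ = 1 := by
    have h2 : π x₀ ^ 2 = 1 := by
      have e : π x₀ ^ p = π x₀ ^ (p - 1) * π x₀ := by rw [← pow_succ, Nat.sub_add_cancel (by omega)]
      rw [hxp'] at e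
      rw [pow_two]; nth_rewrite 1 [← hxp]; exact e.symm
    have h3 := pow_gcd_eq_one.2 ⟨hxp', h2⟩
    rwa [((Nat.coprime_primes hp.out Nat.prime_two).2 hp2).gcd_eq_one, pow_one] at h3
  have hfin := hFZ x₀ ((QuotientGroup.eq_one_iff _).1 hx1) hx₀Z
  have e : ⁅⁅y, u₀⁆, u₀⁆ = x₀ := by
    rw [show ⁅y, u₀⁆ = m₀⁻¹ from (commutatorElement_inv u₀ y).symm,
      comm_inv_left_central (Subgroup.center S |> fun _ => comm_mem_symm hx₀Z), commutatorElement_inv]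
  rw [e]; exact hfin

/-- The double case for `p ≠ 3`. -/
theorem double_false (hp3 : p ≠ 3) (hX : ¬ Xcl τc (Ve p τb ⊔ Ve p τc) ≤ Qe p τb)
    (hY : ¬ Xcl τb (Ve p τc ⊔ Ve p τb) ≤ Qe p τc) : False := by
  have hbc := V_le_symm hb hc hcb
  obtain ⟨U, hUX, hUp, -, hU⟩ := cover hS hb hc hne hcb hX
  obtain ⟨U', hU'X, hU'p, -, hU'⟩ := cover hS hc hb hne.symm hbc hY
  set N₀ := Ve p τb ⊔ Ve p τc
  obtain ⟨a, ha, haQ⟩ : ∃ a ∈ U, a ∉ Qe p τb := by
    by_contra! hcon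
    refine hb.Qe_ne_top (eq_top_iff.2 fun s _ => ?_)
    obtain ⟨u, hu, y, hy, rfl⟩ := hU s
    exact mul_mem (hcon u hu) hy
  set hC := cen_bc (τc := τc) hb
  have hY' : ¬ Xcl τc (Ve p τb ⊔ Ve p τc) ≤ Qe p τb := hX
  have hiR := hi_double_Rad hS hb hc hne hcb hY
  obtain ⟨u₀, hu₀, g, hg, hn⟩ := hc.braid
  obtain ⟨y₀, hy₀, r₀, hr₀, e₀⟩ := hU' u₀
  have hy₀Q : y₀ ∉ Qe p τc := fun hh => hu₀ (e₀ ▸ mul_mem hh hr₀)
  by_cases hp2 : p = 2
  · subst hp2
    refine crit_false hS hb hc hne hcb hX _ hiR (hUX ha) haQ hy₀Q ?_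
    rw [comm_sq_of_involution (by rw [← pow_two]; exact hUp a ha), ← pow_two]
    have hXbn := Xc_normal hS hc hb hne.symm hbc
    refine (pow_Xc hS hc hb hne.symm hbc _ ?_).1
    rw [commutatorElement_def, mul_assoc, mul_assoc]
    exact mul_mem (hU'X hy₀) (by simpa [mul_assoc] using hXbn.conj_mem _ (inv_mem (hU'X hy₀)) a)
  -- large characteristic
  refine crit_false hS hc hb hne.symm hbc hY (cen_bc hc) (hi_double_Rad hS hc hb hne.symm hbc hX)
    (hU'X hy₀) hy₀Q haQ ?_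
  obtain ⟨hdis, hfix, hPcard, hXcard, -⟩ := natX hS hb hc hne hcb hX hC hiR
  have hq : qc = qb := le_antisymm (q_le hS hb hc hne hcb hX _ hiR)
    (q_le hS hc hb hne.symm hbc hY (cen_bc hc) (hi_double_Rad hS hc hb hne.symm hbc hX))
  set X := Xcl τc N₀
  set P := Xin p τb τc
  set J := Rad p τb τc hC
  have hXQ : X ≤ Qe p τc := Xc_le hS hb hc hne hcb
  have nX : Nrm τc X := Xc_nrm hS hb hc hne hcb
  have hXc := Xc_comm hS hb hc hne hcb
  have nJ : Nrm τc J := Rad_nrm hS hb hc hne hcb hC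
  have hJX : J ≤ X := inf_le_left
  have hCcJ : Ce p τc ≤ J := fun z hz => center_Rad hS hb hc hne hcb hC (hc.Ce_le_Z hz)
  have hPS := hi_double hS hb hc hne hcb hY
  have hpX : ∀ x ∈ X, x ^ p = 1 := fun x hx => (pow_Xc hS hb hc hne hcb x hx).2 hp2
  have hNX : NatSec p qc τc Mc X P J :=
    { le_Q := hXQ, le_W := Rad_le hS hb hc hne hcb hC, W_le := inf_le_left, nrm₁ := nX, nrm₀ := nJ
      comm := fun x hx z hz => hCcJ (hXc x hx z (hXQ hz))
      pow := fun x hx => by rw [hpX x hx]; exact one_mem _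
      step := fun s x hx => step_Xc hS hb hc hne hcb s x hx
      stepW := hiR, fix := hfix, inter := hdis, cardW := by rw [hPcard, hq]
      card := hXcard }
  have hp5 : 5 ≤ p := by
    have h2 := hp.out.two_le
    rcases (Nat.lt_or_ge p 5) with h4 | h4
    · exfalso
      have h5 : p = 4 := by omega
      have h6 := hp.out
      rw [h5] at h6
      norm_num at h6
    · exact h4
  obtain ⟨l, hl⟩ := hp.out.odd_of_ne_two hp2
  set m := l + 1
  have hkm : (2 * m) % p = 1 := by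
    rw [show 2 * m = 1 + p by omega, Nat.add_mod_right, Nat.mod_eq_of_lt (by omega)]
  have hj : 2 % p = (4 * m) % p := by
    rw [show 4 * m = 2 + p * 2 by omega, Nat.add_mul_mod_self_left]
  obtain ⟨hV1, -, hV3⟩ := hc.natV.scalar hc.toPush hu₀ hg hn 2 m hkm
  obtain ⟨-, hX2, hX3⟩ := hNX.scalar hc.toPush hu₀ hg hn 2 m hkm
  set t := tel τc u₀ g 2 m
  -- the kernel on the graded section is trivial on the section
  have nCc := hc.toPush.nrm_Ce
  have hCcX : Ce p τc ≤ X := hCcJ.trans hJX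
  set NV := hc.toPush.secFix hc.V_le (inf_le_right : Ce p τc ≤ Ve p τc) hc.toPush.nrm_Ve nCc
  set NX := hc.toPush.secFix hXQ hJX nX nJ
  have hNn : (NV ⊓ NX).Normal := by
    haveI := hc.toPush.secFix_normal hc.V_le (inf_le_right : Ce p τc ≤ Ve p τc) hc.toPush.nrm_Ve nCc
    haveI := hc.toPush.secFix_normal hXQ hJX nX nJ
    exact Subgroup.normal_inf_normal _ _
  have hVJ : Ve p τc ≤ J := fun v hv => ⟨hc.toPush.le_Xcl _ (mem_sup_right hv), fun d hd => by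
    rw [(hc.comm_QV (hXQ hd) hv).2]; exact one_mem _⟩
  have hkill : ∀ e ∈ NV ⊓ NX, ∀ x ∈ X, cv τc e x * x⁻¹ ∈ Ce p τc := by
    intro e he x hx
    refine hc.toPush.kill₂ hXQ hJX hVJ inf_le_right nX hc.toPush.nrm_Ve nCc (NV ⊓ NX) hNn
      (fun s hs z hz => ?_) (fun a ha z hz => ha.2 z hz) (fun a _ z hz => ?_) (fun a ha z hz => ha.1 z hz)
      he hx
    · have hsQ : s ∈ Qe p τc := by_contra fun hsQ => hc.not_V_le_center fun v hv =>
        hc.fixC s hsQ v hv (comm_mem_symm ((hc.toPush.tau_mem_secFix).1 hs.1 v hv))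
      exact comm_mem_symm (hXc z hz s hsQ)
    · exact hc.toPush.secFix_top (hJX.trans hXQ) hVJ nJ hc.toPush.nrm_Ve
        (fun s j hj => hc.Z_le (hPS s j (Rad_le hS hb hc hne hcb hC hj))) a hz
  obtain ⟨A, _, π, ρ, hsurj, hadd, hker, hρ⟩ := hc.toPush.exists_rep hXQ hCcX nX nCc
    (fun x hx z hz => hXc x hx z (hXQ hz))
  have hπ1 : π 1 = 0 := by
    have := hadd 1 (one_mem _) 1 (one_mem _)
    rw [one_mul] at this
    exact left_eq_add.1 this
  have hpowπ : ∀ x ∈ X, ∀ n : ℕ, π (x ^ n) = n • π x := by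
    intro x hx n
    induction n with
    | zero => simpa using hπ1
    | succ n ih => rw [pow_succ, hadd _ (pow_mem hx n) _ hx, ih, succ_nsmul]
  have hA : ∀ z : A, p • z = 0 := fun z => by
    obtain ⟨x, hx, rfl⟩ := hsurj z
    rw [← hpowπ x hx, hpX x hx, hπ1]
  set N : AddMonoid.End A := ρ (τc u₀) - 1
  have hρu : ρ (τc u₀) = 1 + N := by simp [N]
  have hNπ : ∀ x ∈ X, N (π x) = π ⁅u₀, x⁆ := fun x hx => by
    show ρ (τc u₀) (π x) - π x = _
    rw [hρ _ x hx, hc.toPush.cv_tau u₀ (hXQ hx), sub_eq_iff_eq_add,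
      ← hadd _ (step_Xc hS hb hc hne hcb u₀ x hx).1 _ hx]
    congr 1
    simp [commutatorElement_def]
  have hzero : ∀ x ∈ X, π x = 0 → x ∈ Ce p τc := fun x hx e => by
    rw [← hπ1] at e
    simpa using (hker x hx 1 (one_mem _)).1 e
  have hNN : ∀ i ∈ P, N (N (π i)) = 0 := fun i hi => by
    have hz := hPS u₀ i hi
    have hzX := (step_Xc hS hb hc hne hcb u₀ i hi.1).1
    rw [hNπ i hi.1, hNπ _ hzX, commutatorElement_eq_one_iff_mul_comm.2 (Subgroup.mem_center_iff.1 hz u₀),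
      hπ1]
  have hN3 : N * N * N = 0 := AddMonoidHom.ext fun z => by
    obtain ⟨x, hx, rfl⟩ := hsurj z
    show N (N (N (π x))) = 0
    rw [hNπ x hx]
    exact hNN _ (step_Xc hS hb hc hne hcb u₀ x hx)
  have hpow4 : ρ (τc (u₀ ^ 4)) = 1 + 4 • N + 6 • (N * N) := by
    rw [map_pow, map_pow, hρu]
    have e : (1 + N) ^ 4 = 1 + 4 • N + 6 • (N * N) + 4 • (N * N * N) + (N * N * N) * N := by
      noncomm_ring
    rw [e, hN3]; simp
  have htu : ρ t * ρ (τc u₀) = ρ (τc (u₀ ^ 4)) * ρ t := by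
    have he : (τc (u₀ ^ 4) * t)⁻¹ * (t * τc u₀) ∈ NV ⊓ NX :=
      ⟨hc.toPush.mem_secFix.2 fun v hv => (hc.toPush.fix_iff nCc _ _ (hc.V_le hv)).2 (hV3 u₀ 4 hj v hv),
        hc.toPush.mem_secFix.2 fun x hx => (hc.toPush.fix_iff nJ _ _ (hXQ hx)).2 (hX3 u₀ 4 hj x hx)⟩
    rw [← map_mul, ← map_mul]
    refine DFunLike.ext _ _ fun z => ?_
    obtain ⟨x, hx, rfl⟩ := hsurj z
    rw [hρ _ x hx, hρ _ x hx, hker _ (nX _ x hx) _ (nX _ x hx)]
    exact (hc.toPush.fix_iff nCc _ _ (hXQ hx)).1 (hkill _ he x hx)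
  have htN : ρ t * N = (4 • N + 6 • (N * N)) * ρ t := by
    have h1 : ρ t * (1 + N) = (1 + 4 • N + 6 • (N * N)) * ρ t := by rw [← hρu, ← hpow4]; exact htu
    rw [mul_add, mul_one, add_assoc, add_mul, one_mul] at h1
    exact add_left_cancel h1
  have htNN : ρ t * (N * N) = 16 • (N * N * ρ t) := by
    have e : (4 • N + 6 • (N * N)) * (4 • N + 6 • (N * N)) =
        16 • (N * N) + 48 • (N * N * N) + 36 • ((N * N * N) * N) := by noncomm_ring
    rw [← mul_assoc, htN, mul_assoc, htN, ← mul_assoc, e, hN3]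
    simp [smul_mul_assoc, mul_assoc]
  -- the quadratic part vanishes
  set x := a
  have hxX : x ∈ X := hUX ha
  set w := ⁅u₀, x⁆
  have hw : w ∈ P := step_Xc hS hb hc hne hcb u₀ x hxX
  set z := ⁅u₀, w⁆
  have hzZ : z ∈ Subgroup.center S := hPS u₀ w hw
  have hzX : z ∈ X := (step_Xc hS hb hc hne hcb u₀ w hw.1).1
  have eN : N (N (π x)) = π z := by rw [hNπ x hxX, hNπ w hw.1]
  have h2z : ρ t (π z) = 2 • π z := by
    rw [hρ t z hzX, ← hpowπ z hzX, hker _ (nX t z hzX) _ (pow_mem hzX 2)]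
    exact hV1 z hzZ
  have hmz : N (N (ρ t (π x))) = m • π z := by
    have hd := hX2 x hxX
    have e : π (cv τc t x) = π (cv τc t x * (x ^ m)⁻¹) + m • π x := by
      rw [← hpowπ x hxX, ← hadd _ hd.1 _ (pow_mem hxX m), inv_mul_cancel_right]
    rw [hρ t x hxX, e, map_add, map_add, hNN _ hd, zero_add, map_nsmul, map_nsmul, eN]
  have hz0 : π z = 0 := by
    have e1 : ρ t (N (N (π x))) = 16 • N (N (ρ t (π x))) :=
      congrArg (fun f : AddMonoid.End A => f (π x)) htNN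
    rw [eN, h2z, hmz, smul_smul] at e1
    have e2 : (16 * m) • π z = 8 • π z :=
      nsmul_mod hA (by rw [show 16 * m = 8 + p * 8 by omega, Nat.add_mul_mod_self_left]) _
    rw [e2] at e1
    have e3 : 6 • π z = 0 := by
      have e4 : 8 • π z = 2 • π z + 6 • π z := by rw [← add_smul]
      rw [e4] at e1
      exact (left_eq_add.1 e1)
    have hcop : Nat.Coprime p 6 := (Nat.Prime.coprime_iff_not_dvd hp.out).2 fun hd => by
      have := Nat.le_of_dvd (by norm_num) hd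
      rcases (show p = 5 ∨ p = 6 by omega) with h5 | h5 <;> rw [h5] at hd
      · norm_num at hd
      · have h6 := hp.out
        rw [h5] at h6
        norm_num at h6
    have h1 := gcd_nsmul_eq_zero.2 ⟨hA (π z), e3⟩
    rwa [hcop.gcd_eq_one, one_smul] at h1
  have hzC : z ∈ Ce p τc := hzero z hzX hz0
  -- back to the covering element
  have hr1 : ⁅r₀, x⁆ ∈ Ce p τc := comm_mem_symm (hXc x hxX r₀ hr₀)
  have ew : w = ⁅r₀, x⁆ * ⁅y₀, x⁆ := by
    rw [show w = ⁅y₀ * r₀, x⁆ by rw [← e₀], comm_mul_left_central hc.Ce_le_Z hr1]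
  have hi0 : ⁅y₀, x⁆ ∈ P := step_Xc hS hb hc hne hcb y₀ x hxX
  have hq1 : ⁅y₀, ⁅y₀, x⁆⁆ ∈ Ce p τc := by
    have hr2 : ⁅r₀, ⁅y₀, x⁆⁆ ∈ Ce p τc := comm_mem_symm (hXc _ hi0.1 r₀ hr₀)
    have e : z = ⁅r₀, ⁅y₀, x⁆⁆ * ⁅y₀, ⁅y₀, x⁆⁆ := by
      rw [show z = ⁅y₀ * r₀, w⁆ by rw [← e₀], ew, comm_mul_right,
        commutatorElement_eq_one_iff_mul_comm.2 (Subgroup.mem_center_iff.1 (hc.Ce_le_Z hr1) _),
        one_mul, comm_mul_left_central hc.Ce_le_Z hr2,
        Subgroup.mem_center_iff.1 (mul_mem (hc.Ce_le_Z hr2) (hPS y₀ _ hi0)) ⁅r₀, x⁆, mul_inv_cancel_right]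
    have := mul_mem (inv_mem hr2) hzC
    rwa [e, inv_mul_cancel_left] at this
  have h1 := comm_mem_symm hq1
  rw [← commutatorElement_inv y₀ a, comm_inv_left_central (hc.Ce_le_Z h1)]
  exact inv_mem h1

end CfsgLib.Minimal.GN
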