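import Cfsg.Agent.Lib.Minimal.GNFn

/-!
Pushing up two embeddings with commuting modules: the closure in one overgroup reaching outside the other
core. The alternating form on that closure leaves a natural section without fixed points.
-/

set_option autoImplicit false
set_option linter.unusedSectionVars false
set_option linter.style.haveILetI false

open Subgroup
open scoped Pointwise
open scoped commutatorElement

namespace CfsgLib.Minimal.GN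

open Cfsg CfsgLib.TwoGroupTricks

universe u v w

variable {S : Type u} [Group S] [Finite S]
variable {Gb : Type v} [Group Gb] [Finite Gb] {Gc : Type w} [Group Gc] [Finite Gc]
variable {p qb qc : ℕ} [hp : Fact p.Prime] {τb : S →* Gb} {Mb : Subgroup Gb}
  {τc : S →* Gc} {Mc : Subgroup Gc}

/-- The part of the closure inside the other core. -/
def Xin (p : ℕ) (τb : S →* Gb) (τc : S →* Gc) : Subgroup S :=
  Xcl τc (Ve p τb ⊔ Ve p τc) ⊓ Qe p τb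

/-- The radical of the commutator form on the closure. -/
def Rad (p : ℕ) (τb : S →* Gb) (τc : S →* Gc) (hC : Ce p τb ⊓ Ce p τc ≤ Subgroup.center S) :
    Subgroup S :=
  Xcl τc (Ve p τb ⊔ Ve p τc) ⊓
    cen (Xcl τc (Ve p τb ⊔ Ve p τc) : Set S) (Ce p τb ⊓ Ce p τc) hC

theorem cen_bc (hb : Bad p qb τb Mb) : Ce p τb ⊓ Ce p τc ≤ Subgroup.center S :=
  inf_le_left.trans hb.Ce_le_Z

variable (hS : Covered S) (hb : Bad p qb τb Mb) (hc : Bad p qc τc Mc) (hne : Ve p τb ≠ Ve p τc)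
  (hcb : Ve p τc ≤ Qe p τb)
include hS hb hc hne hcb

theorem Xc_le : Xcl τc (Ve p τb ⊔ Ve p τc) ≤ Qe p τc :=
  hc.toPush.Xcl_le_Qe (sup_le (V_le_symm hb hc hcb) hc.V_le)

theorem Xc_nrm : Nrm τc (Xcl τc (Ve p τb ⊔ Ve p τc)) :=
  hc.toPush.nrm_Xcl (sup_le (V_le_symm hb hc hcb) hc.V_le)

theorem Xc_comm : ∀ x ∈ Xcl τc (Ve p τb ⊔ Ve p τc), ∀ d ∈ Qe p τc, ⁅x, d⁆ ∈ Ce p τc := by
  have := comm_Xcl hS hc hb hne.symm (V_le_symm hb hc hcb)
  rwa [sup_comm] at this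

theorem Xc_normal : (Xcl τc (Ve p τb ⊔ Ve p τc)).Normal :=
  hc.toPush.nrm_normal (Xc_le hS hb hc hne hcb) (Xc_nrm hS hb hc hne hcb)

theorem N0_le_Xin : Ve p τb ⊔ Ve p τc ≤ Xin p τb τc :=
  le_inf (hc.toPush.le_Xcl _) (sup_le hb.V_le hcb)

theorem step_Xc : ∀ s : S, ∀ x ∈ Xcl τc (Ve p τb ⊔ Ve p τc), ⁅s, x⁆ ∈ Xin p τb τc := by
  intro s x hx
  have hXn := Xc_normal hS hb hc hne hcb
  exact Subgroup.mem_inf.2 ⟨mul_mem (hXn.conj_mem x hx s) (inv_mem hx), hb.comm_mem s x⟩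

theorem pow_Xc : ∀ x ∈ Xcl τc (Ve p τb ⊔ Ve p τc), x ^ p ∈ Ce p τc ∧ (p ≠ 2 → x ^ p = 1) := by
  set X := Xcl τc (Ve p τb ⊔ Ve p τc)
  have hXQ := Xc_le hS hb hc hne hcb
  have hXc := Xc_comm hS hb hc hne hcb
  have hpw : ∀ c ∈ Ce p τc, c ^ p = 1 := fun c hc' => hc.powV c hc'.2
  let K : Subgroup S :=
    { carrier := {x | x ∈ X ∧ x ^ p ∈ Ce p τc ∧ (p ≠ 2 → x ^ p = 1)}
      one_mem' := ⟨one_mem _, by rw [one_pow]; exact one_mem _, fun _ => one_pow _⟩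
      mul_mem' := fun {a b} ha hb' => by
        have hcc : ⁅b, a⁆ ∈ Ce p τc := hXc b hb'.1 a (hXQ ha.1)
        have hcm : ∀ y : S, Commute ⁅b, a⁆ y := fun y =>
          (Subgroup.mem_center_iff.1 (hc.Ce_le_Z hcc) y).symm
        have e := CfsgLib.PushUp.RankOne.mul_pow_of_central (c := ⁅b, a⁆)
          (show b * a = ⁅b, a⁆ * (a * b) by simp [commutatorElement_def, mul_assoc]) (hcm a) (hcm b) p
        refine ⟨mul_mem ha.1 hb'.1, ?_, fun h2 => ?_⟩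
        · rw [e]; exact mul_mem (mul_mem ha.2.1 hb'.2.1) (pow_mem hcc _)
        · obtain ⟨j, hj⟩ := hp.out.dvd_choose_self (k := 2) two_ne_zero
            (by have := hp.out.two_le; omega)
          rw [e, ha.2.2 h2, hb'.2.2 h2, one_mul, one_mul, hj, pow_mul, hpw _ hcc, one_pow]
      inv_mem' := fun {a} ha => ⟨inv_mem ha.1, by rw [inv_pow]; exact inv_mem ha.2.1,
        fun h2 => by rw [inv_pow, ha.2.2 h2, inv_one]⟩ }
  have hN0 : Ve p τb ⊔ Ve p τc ≤ Qe p τc := sup_le (V_le_symm hb hc hcb) hc.V_le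
  have hN : ∀ v ∈ Ve p τb ⊔ Ve p τc, v ^ p = 1 := fun v hv => by
    rw [← SetLike.mem_coe, coe_sup_eq_mul hb.cd_V hc.cd_V] at hv
    obtain ⟨a, ha, b, hb', rfl⟩ := hv
    have hcm : Commute a b :=
      commutatorElement_eq_one_iff_mul_comm.1 (hb.comm_QV (hcb hb') ha).2
    rw [hcm.mul_pow, hb.powV a ha, hc.powV b hb', one_mul]
  have hle : X ≤ K := by
    refine hc.toPush.Xcl_le (fun x hx => hXQ hx.1) ?_ fun v hv => ?_
    · rintro g x ⟨hx, hx1, hx2⟩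
      have e := hc.toPush.cv_pow g (hXQ hx) p
      refine ⟨Xc_nrm hS hb hc hne hcb g x hx, ?_, fun h2 => ?_⟩
      · rw [← e, hc.toPush.cv_Ce g hx1]; exact hx1
      · rw [← e, hx2 h2, hc.toPush.cv_Ce g (one_mem _)]
    · refine ⟨hc.toPush.le_Xcl _ hv, ?_, fun _ => hN v hv⟩
      rw [hN v hv]; exact one_mem _
  exact fun x hx => (hle hx).2

/-- Outside the other core, a conjugate of the module covers. -/
theorem cover (hX : ¬ Xcl τc (Ve p τb ⊔ Ve p τc) ≤ Qe p τb) :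
    ∃ U : Subgroup S, U ≤ Xcl τc (Ve p τb ⊔ Ve p τc) ∧ (∀ u ∈ U, u ^ p = 1) ∧
      (∀ a ∈ U, ∀ b ∈ U, ⁅a, b⁆ = 1) ∧ (∀ s : S, ∃ u ∈ U, ∃ y ∈ Qe p τb, s = u * y) := by
  have hbc := V_le_symm hb hc hcb
  have hN0 : Ve p τb ⊔ Ve p τc ≤ Qe p τc := sup_le hbc hc.V_le
  obtain ⟨g, hg⟩ : ∃ g : Gc, ¬ Cj τc g (Ve p τb) ≤ Qe p τb := by
    by_contra! hcon
    refine hX ?_
    rw [hc.toPush.Xcl_eq hN0]
    refine iSup_le fun g x hx => ?_
    obtain ⟨y, hy, rfl⟩ := (hc.toPush.mem_Cj g hN0).1 hx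
    rw [← SetLike.mem_coe, coe_sup_eq_mul hb.cd_V hc.cd_V] at hy
    obtain ⟨a, ha, b, hb', rfl⟩ := hy
    rw [hc.toPush.cv_mul g (hbc ha) (hc.V_le hb')]
    exact mul_mem (hcon g (hc.toPush.cv_mem_Cj g hbc ha)) (hcb (hc.toPush.nrm_Ve g b hb'))
  set U := Cj τc g (Ve p τb)
  have hUQ : U ≤ Qe p τc := hc.toPush.Cj_le g hbc
  refine ⟨U, (hc.toPush.Cj_mono g le_sup_left).trans
    (hc.toPush.Cj_le_of_nrm g (Xc_le hS hb hc hne hcb) (Xc_nrm hS hb hc hne hcb) (hc.toPush.le_Xcl _)),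
    ?_, ?_, ?_⟩
  · intro u hu
    obtain ⟨v, hv, rfl⟩ := (hc.toPush.mem_Cj g hbc).1 hu
    rw [← hc.toPush.cv_pow g (hbc hv), hb.powV v hv, hc.toPush.cv_Ce g (one_mem _)]
  · intro a ha b hb'
    obtain ⟨v, hv, rfl⟩ := (hc.toPush.mem_Cj g hbc).1 ha
    obtain ⟨v', hv', rfl⟩ := (hc.toPush.mem_Cj g hbc).1 hb'
    rw [← hc.toPush.cv_comm g (hbc hv) (hbc hv'), hb.comm_V hv hv', hc.toPush.cv_Ce g (one_mem _)]
  obtain ⟨u₀, hu₀, hu₀Q⟩ := SetLike.not_le_iff_exists.1 hg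
  obtain ⟨v₀, hv₀, hne'⟩ : ∃ v₀ ∈ Ve p τb, ⁅u₀, v₀⁆ ≠ 1 := by
    by_contra! hcon
    exact hu₀Q (hb.cV ▸ mem_centralizer_of_comm hcon)
  have hz : cv τc g⁻¹ v₀ ∉ Qe p τb := by
    intro hh
    obtain ⟨v, hv, rfl⟩ := (hc.toPush.mem_Cj g hbc).1 hu₀
    have e := congrArg (cv τc g) (hb.comm_QV hh hv).2
    rw [hc.toPush.cv_comm g (hbc hv) (hc.toPush.cv_mem _ (hbc hv₀)),
      hc.toPush.cv_cv_inv g (hbc hv₀), hc.toPush.cv_Ce g (one_mem _)] at e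
    exact hne' e
  have hinf : Nat.card ↥(U ⊓ Qe p τb) ≤ Nat.card (Subgroup.center S) := by
    rw [← hc.toPush.card_Cj g (hb.Z_le.trans hbc)]
    refine Subgroup.card_le_of_le ?_
    rintro x ⟨hx, hxQ⟩
    obtain ⟨v, hv, rfl⟩ := (hc.toPush.mem_Cj g hbc).1 hx
    refine hc.toPush.cv_mem_Cj g (hb.Z_le.trans hbc) (hb.fixed hz hv ?_)
    have e := congrArg (cv τc g⁻¹) (hb.comm_QV hxQ hv₀).1
    rwa [hc.toPush.cv_comm _ (hc.toPush.cv_mem g (hbc hv)) (hbc hv₀),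
      hc.toPush.cv_inv_cv g (hbc hv), hc.toPush.cv_Ce _ (one_mem _)] at e
  intro s
  have heq : ((U : Set S) * (Qe p τb : Set S)) = Set.univ := by
    refine Set.eq_of_subset_of_ncard_le (Set.subset_univ _) ?_ (Set.toFinite _)
    rw [Set.ncard_univ, ← Nat.card_coe_set_eq]
    refine Nat.le_of_mul_le_mul_right ?_ (Nat.card_pos (α := Subgroup.center S))
    calc Nat.card S * Nat.card (Subgroup.center S)
        = Nat.card U * Nat.card (Qe p τb) := by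
          rw [hb.card, hc.toPush.card_Cj g hbc, hb.cardV]; ring
      _ ≤ _ := by
          rw [← CfsgLib.PSolvable.card_mul_mul_card_inf U (Qe p τb)]
          exact Nat.mul_le_mul_left _ hinf
  obtain ⟨u, hu, y, hy, rfl⟩ := heq.symm ▸ Set.mem_univ s
  exact ⟨u, hu, y, hy, rfl⟩

theorem mem_Rad {x : S} (hC : Ce p τb ⊓ Ce p τc ≤ Subgroup.center S) :
    x ∈ Rad p τb τc hC ↔ x ∈ Xcl τc (Ve p τb ⊔ Ve p τc) ∧
      ∀ y ∈ Xcl τc (Ve p τb ⊔ Ve p τc), ⁅x, y⁆ ∈ Ce p τb ⊓ Ce p τc := Iff.rfl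

theorem Rad_nrm (hC : Ce p τb ⊓ Ce p τc ≤ Subgroup.center S) : Nrm τc (Rad p τb τc hC) := by
  rintro g x ⟨hx, hx'⟩
  have hXQ := Xc_le hS hb hc hne hcb
  have nX := Xc_nrm hS hb hc hne hcb
  refine ⟨nX g x hx, fun d hd => ?_⟩
  have h1 := hx' _ (nX g⁻¹ d hd)
  have h2 := hc.toPush.cv_comm g (hXQ hx) (hXQ (nX g⁻¹ d hd))
  rw [hc.toPush.cv_cv_inv g (hXQ hd), hc.toPush.cv_Ce g h1.2] at h2
  exact h2 ▸ h1

theorem Rad_le (hC : Ce p τb ⊓ Ce p τc ≤ Subgroup.center S) :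
    Rad p τb τc hC ≤ Xin p τb τc := by
  rintro j ⟨hj, hj'⟩
  refine ⟨hj, by_contra fun hjQ => hb.not_V_le_center fun v hv => ?_⟩
  exact hb.fixC j hjQ v hv (comm_mem_symm (hj' v (hc.toPush.le_Xcl _ (mem_sup_left hv))).1)

theorem center_Rad (hC : Ce p τb ⊓ Ce p τc ≤ Subgroup.center S) {z : S}
    (hz : z ∈ Subgroup.center S) : z ∈ Rad p τb τc hC := by
  refine ⟨hc.toPush.le_Xcl _ (mem_sup_left (hb.Z_le hz)), fun d _ => ?_⟩
  rw [commutatorElement_eq_one_iff_mul_comm.2 (Subgroup.mem_center_iff.1 hz d).symm]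
  exact one_mem _

/-- The structure of the closure modulo the radical of its form. -/
theorem natX (hX : ¬ Xcl τc (Ve p τb ⊔ Ve p τc) ≤ Qe p τb)
    (hC : Ce p τb ⊓ Ce p τc ≤ Subgroup.center S)
    (hi : ∀ s : S, ∀ i ∈ Xin p τb τc, ⁅s, i⁆ ∈ Rad p τb τc hC) :
    (∀ g : Gc, g ∉ Mc → ∀ x ∈ Xin p τb τc, cv τc g x ∈ Xin p τb τc → x ∈ Rad p τb τc hC) ∧
    (∀ u : S, u ∉ Qe p τc → ∀ x ∈ Xcl τc (Ve p τb ⊔ Ve p τc), ⁅u, x⁆ ∈ Rad p τb τc hC →
      x ∈ Xin p τb τc) ∧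
    Nat.card (Xin p τb τc) = qb * Nat.card (Rad p τb τc hC) ∧
    Nat.card (Xcl τc (Ve p τb ⊔ Ve p τc)) * Nat.card (Rad p τb τc hC) ≤
      Nat.card (Xin p τb τc) * Nat.card (Xin p τb τc) ∧
    (∀ a ∈ Xcl τc (Ve p τb ⊔ Ve p τc), a ∉ Qe p τb → ∀ w ∈ Xin p τb τc,
      ⁅w, a⁆ ∈ Ce p τb → w ∈ Rad p τb τc hC) := by
  obtain ⟨U, hUX, -, -, hU⟩ := cover hS hb hc hne hcb hX
  set N₀ := Ve p τb ⊔ Ve p τc
  set X := Xcl τc N₀
  set P := Xin p τb τc
  set J := Rad p τb τc hC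
  have hXQ : X ≤ Qe p τc := Xc_le hS hb hc hne hcb
  have nX : Nrm τc X := Xc_nrm hS hb hc hne hcb
  have hXc := Xc_comm hS hb hc hne hcb
  have nJ : Nrm τc J := Rad_nrm hS hb hc hne hcb hC
  have hJP : J ≤ P := Rad_le hS hb hc hne hcb hC
  have hPX : P ≤ X := inf_le_left
  have hbc := V_le_symm hb hc hcb
  have hN0c : N₀ ≤ Qe p τc := sup_le hbc hc.V_le
  have hJn : J.Normal := hc.toPush.nrm_normal ((hJP.trans hPX).trans hXQ) nJ
  -- an element fixed by `G` modulo the radical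
  have hfix : ∀ f ∈ P, (∀ k : Gc, cv τc k f * f⁻¹ ∈ J) → f ∈ J := by
    intro f hf hk
    refine ⟨hf.1, fun d hd => ?_⟩
    suffices hle : X ≤ cen {f} (Ce p τb ⊓ Ce p τc) hC from comm_mem_symm (hle hd f rfl)
    show Xcl τc N₀ ≤ _
    rw [hc.toPush.Xcl_eq hN0c]
    refine iSup_le fun k x hx t ht => ?_
    rw [Set.mem_singleton_iff.1 ht]
    obtain ⟨y, hy, rfl⟩ := (hc.toPush.mem_Cj k hN0c).1 hx
    have hfQ := hXQ hf.1
    set f' := cv τc k⁻¹ f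
    have hf' : f' * f⁻¹ ∈ J := hk k⁻¹
    have hy' : ⁅y, f⁆ = 1 := by
      refine (comm_eq_one_of_mem_centralizer (H := N₀) ?_ hy).2
      rw [CfsgLib.Replacement.centralizer_sup, hb.cV, hc.cV]
      exact ⟨hf.2, hfQ⟩
    have h1 : ⁅y, f'⁆ ∈ Ce p τb ⊓ Ce p τc := by
      have h2 := comm_mem_symm (hf'.2 y (hc.toPush.le_Xcl _ hy))
      rw [show f' = f' * f⁻¹ * f by group, comm_mul_right, hy', mul_one, mul_inv_cancel, mul_one]
      exact h2
    have h3 := hc.toPush.cv_comm k (hN0c hy) (hc.toPush.cv_mem k⁻¹ hfQ)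
    rw [hc.toPush.cv_cv_inv k hfQ, hc.toPush.cv_Ce k h1.2] at h3
    exact h3 ▸ h1
  -- fixed points under a generating set
  have hstab : ∀ f ∈ X, ∀ H : Subgroup Gc, H = ⊤ → (∀ k ∈ H, cv τc k f * f⁻¹ ∈ J) →
      ∀ k : Gc, cv τc k f * f⁻¹ ∈ J := fun f _ H e hH k => hH k (e ▸ Subgroup.mem_top k)
  let stab : ∀ f : S, f ∈ X → Subgroup Gc := fun f hf =>
    { carrier := {k | cv τc k f * f⁻¹ ∈ J}
      one_mem' := by
        show cv τc 1 f * f⁻¹ ∈ J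
        rw [hc.toPush.cv_one (hXQ hf), mul_inv_cancel]; exact one_mem _
      mul_mem' := fun {a b} ha hb' => by
        have hfQ := hXQ hf
        show cv τc (a * b) f * f⁻¹ ∈ J
        have h1 := nJ a _ hb'
        rw [hc.toPush.cv_mul a (hc.toPush.cv_mem b hfQ) (inv_mem hfQ), hc.toPush.cv_inv a hfQ,
          hc.toPush.cv_cv a b hfQ] at h1
        have h2 := mul_mem h1 ha
        rwa [← mul_assoc, inv_mul_cancel_right] at h2
      inv_mem' := fun {a} ha => by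
        have hfQ := hXQ hf
        show cv τc a⁻¹ f * f⁻¹ ∈ J
        have h1 := inv_mem (nJ a⁻¹ _ ha)
        rw [hc.toPush.cv_mul _ (hc.toPush.cv_mem a hfQ) (inv_mem hfQ), hc.toPush.cv_inv _ hfQ,
          hc.toPush.cv_inv_cv a hfQ, mul_inv_rev, inv_inv] at h1
        exact h1 }
  have hrange : ∀ f (hf : f ∈ P), τc.range ≤ stab f (hPX hf) := by
    rintro f hf _ ⟨s, rfl⟩
    show cv τc (τc s) f * f⁻¹ ∈ J
    rw [hc.toPush.cv_tau s (hXQ hf.1)]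
    exact hi s f hf
  have hdis : ∀ g : Gc, g ∉ Mc → ∀ x ∈ P, cv τc g x ∈ P → x ∈ J := by
    intro g hg x hx hgx
    have hle : τc.range ⊔ τc.range.map (MulAut.conj g).toMonoidHom ≤ stab _ (hPX hgx) := by
      refine sup_le (hrange _ hgx) ?_
      rintro _ ⟨_, ⟨s, rfl⟩, rfl⟩
      show cv τc (g * τc s * g⁻¹) (cv τc g x) * (cv τc g x)⁻¹ ∈ J
      have hxQ := hXQ hx.1
      have h1 := nJ g _ (hi s x hx)
      rw [show ⁅s, x⁆ = cv τc (τc s) x * x⁻¹ by rw [hc.toPush.cv_tau s hxQ]; rfl,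
        hc.toPush.cv_mul g (hc.toPush.cv_mem _ hxQ) (inv_mem hxQ), hc.toPush.cv_inv g hxQ,
        hc.toPush.cv_cv g _ hxQ] at h1
      rwa [hc.toPush.cv_cv _ g hxQ, inv_mul_cancel_right]
    rw [hc.toPush.gen hg, top_le_iff] at hle
    have h1 := nJ g⁻¹ _ (hfix _ hgx fun k => (hle ▸ Subgroup.mem_top k :))
    rwa [hc.toPush.cv_inv_cv g (hXQ hx.1)] at h1
  -- the size of the part inside the other core
  obtain ⟨-, -, g, hg, -⟩ := hc.braid
  have hPQ : P ≤ Qe p τc := hPX.trans hXQ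
  have hcap : P ⊓ Cj τc g P ≤ J := by
    rintro y ⟨hy, hy'⟩
    obtain ⟨x, hx, rfl⟩ := (hc.toPush.mem_Cj g hPQ).1 hy'
    exact nJ g x (hdis g hg x hx hy)
  have hXb : Nat.card X ≤ qb * Nat.card P := by
    have h1 := CfsgLib.PSolvable.card_mul_mul_card_inf X (Qe p τb)
    have h2 : Nat.card ↥((X : Set S) * (Qe p τb : Set S)) ≤ Nat.card S :=
      Nat.card_le_card_of_injective _ Subtype.val_injective
    refine Nat.le_of_mul_le_mul_right ?_ (Nat.card_pos (α := Qe p τb))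
    calc Nat.card X * Nat.card (Qe p τb) ≤ Nat.card S * Nat.card P :=
          h1 ▸ Nat.mul_le_mul_right _ h2
      _ = _ := by rw [hb.card]; ring
  have hsub : ((P : Set S) * (Cj τc g P : Set S)) ⊆ X := by
    rintro _ ⟨a, ha, b, hb', rfl⟩
    exact mul_mem (hPX ha) (hc.toPush.Cj_le_of_nrm g hXQ nX hPX hb')
  have hprod := CfsgLib.PSolvable.card_mul_mul_card_inf P (Cj τc g P)
  rw [hc.toPush.card_Cj g hPQ] at hprod
  have hsubc : Nat.card ↥((P : Set S) * (Cj τc g P : Set S)) ≤ Nat.card X :=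
    Nat.card_le_card_of_injective (Set.inclusion hsub) (Set.inclusion_injective hsub)
  have hPle : Nat.card P ≤ qb * Nat.card J := by
    refine Nat.le_of_mul_le_mul_left ?_ (Nat.card_pos (α := P))
    calc Nat.card P * Nat.card P ≤ qb * Nat.card P * Nat.card J :=
          hprod ▸ Nat.mul_le_mul (hsubc.trans hXb) (Subgroup.card_le_of_le hcap)
      _ = _ := by ring
  obtain ⟨a₀, ha₀U, ha₀Q⟩ : ∃ a ∈ U, a ∉ Qe p τb := by
    by_contra! hcon
    refine hb.Qe_ne_top (eq_top_iff.2 fun s _ => ?_)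
    obtain ⟨u, hu, y, hy, rfl⟩ := hU s
    exact mul_mem (hcon u hu) hy
  have hVJ : Nat.card ↥(Ve p τb ⊓ J) ≤ Nat.card (Subgroup.center S) := Subgroup.card_le_of_le fun v hv =>
    hb.fixC a₀ ha₀Q v hv.1 (hv.2.2 a₀ (hUX ha₀U)).1
  have hVJsub : ((Ve p τb : Set S) * (J : Set S)) ⊆ P := by
    rintro _ ⟨a, ha, b, hb', rfl⟩
    exact mul_mem (N0_le_Xin hS hb hc hne hcb (mem_sup_left ha)) (hJP hb')
  have hVJc : qb * Nat.card J ≤ Nat.card ↥((Ve p τb : Set S) * (J : Set S)) := by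
    refine Nat.le_of_mul_le_mul_right ?_ (Nat.card_pos (α := Subgroup.center S))
    calc qb * Nat.card J * Nat.card (Subgroup.center S) = Nat.card (Ve p τb) * Nat.card J := by
          rw [hb.cardV]; ring
      _ ≤ _ := (CfsgLib.PSolvable.card_mul_mul_card_inf (Ve p τb) J) ▸ Nat.mul_le_mul_left _ hVJ
  have hPeq : ((Ve p τb : Set S) * (J : Set S)) = P := by
    refine Set.eq_of_subset_of_ncard_le hVJsub ?_ (Set.toFinite _)
    rw [← Nat.card_coe_set_eq, ← Nat.card_coe_set_eq, SetLike.coe_sort_coe]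
    exact hPle.trans hVJc
  have hPcard : Nat.card P = qb * Nat.card J := by
    refine le_antisymm hPle (hVJc.trans ?_)
    rw [hPeq, SetLike.coe_sort_coe]
  have hXeq : ((P : Set S) * (Cj τc g P : Set S)) = X := by
    refine Set.eq_of_subset_of_ncard_le hsub ?_ (Set.toFinite _)
    rw [← Nat.card_coe_set_eq, ← Nat.card_coe_set_eq, SetLike.coe_sort_coe]
    refine Nat.le_of_mul_le_mul_right ?_ (Nat.card_pos (α := J))
    calc Nat.card X * Nat.card J ≤ qb * Nat.card P * Nat.card J := Nat.mul_le_mul_right _ hXb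
      _ = Nat.card P * Nat.card P := by rw [hPcard]; ring
      _ ≤ _ := hprod ▸ Nat.mul_le_mul_left _ (Subgroup.card_le_of_le hcap)
  refine ⟨hdis, ?_, hPcard, ?_, ?_⟩
  · intro u hu x hx hux
    rw [← SetLike.mem_coe, ← hXeq] at hx
    obtain ⟨i, hi', f, hf, rfl⟩ := hx
    obtain ⟨i', hi'', rfl⟩ := (hc.toPush.mem_Cj g hPQ).1 hf
    have hfX : cv τc g i' ∈ X := nX g i' (hPX hi'')
    have hfQ := hXQ hfX
    have h1 : ⁅u, cv τc g i'⁆ ∈ J := by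
      rw [comm_mul_right] at hux
      have h2 : i * ⁅u, cv τc g i'⁆ * i⁻¹ ∈ J := by
        have := mul_mem (inv_mem (hi u i hi')) hux
        rwa [inv_mul_cancel_left] at this
      simpa [mul_assoc] using hJn.conj_mem _ h2 i⁻¹
    have hiQ := hPQ hi''
    have h2 : g⁻¹ * τc u * g ∈ stab i' (hPX hi'') := by
      show cv τc (g⁻¹ * τc u * g) i' * i'⁻¹ ∈ J
      have h3 := nJ g⁻¹ _ h1
      rw [show ⁅u, cv τc g i'⁆ = cv τc (τc u) (cv τc g i') * (cv τc g i')⁻¹ by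
          rw [hc.toPush.cv_tau u hfQ]; rfl,
        hc.toPush.cv_mul _ (hc.toPush.cv_mem _ hfQ) (inv_mem hfQ), hc.toPush.cv_inv _ hfQ,
        hc.toPush.cv_inv_cv g hiQ, hc.toPush.cv_cv _ g hiQ, hc.toPush.cv_cv _ _ hiQ, ← mul_assoc] at h3
      exact h3
    have htop : τc.range ⊔ Subgroup.zpowers (g⁻¹ * τc u * g) = ⊤ :=
      by_contra fun hne' => hc.conj_not_mem hu hg
        (hc.uniq _ le_sup_left hne' (mem_sup_right (Subgroup.mem_zpowers _)))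
    have hle := sup_le (hrange i' hi'') (Subgroup.zpowers_le.2 h2)
    rw [htop, top_le_iff] at hle
    have h4 : cv τc g i' * i'⁻¹ ∈ J := (hle ▸ Subgroup.mem_top g :)
    refine mul_mem hi' ?_
    have h5 := mul_mem (hJP h4) hi''
    rwa [inv_mul_cancel_right] at h5
  · calc Nat.card X * Nat.card J ≤ qb * Nat.card P * Nat.card J := Nat.mul_le_mul_right _ hXb
      _ = Nat.card P * (qb * Nat.card J) := by ring
      _ = _ := by rw [hPcard]
  · intro a ha haQ w hw hwa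
    rw [← SetLike.mem_coe, ← hPeq] at hw
    obtain ⟨v, hv, j, hj, rfl⟩ := hw
    have h1 : ⁅j, a⁆ ∈ Ce p τb ⊓ Ce p τc := hj.2 a ha
    rw [comm_mul_left_central hC h1] at hwa
    have h2 : ⁅v, a⁆ ∈ Ce p τb := by
      have := (Ce p τb).mul_mem ((Ce p τb).inv_mem h1.1) hwa
      rwa [inv_mul_cancel_left] at this
    exact mul_mem (center_Rad hS hb hc hne hcb hC (hb.fixC a haQ v hv h2)) hj

/-- The form is nowhere degenerate on diagonals. -/
theorem crit_false (hX : ¬ Xcl τc (Ve p τb ⊔ Ve p τc) ≤ Qe p τb)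
    (hC : Ce p τb ⊓ Ce p τc ≤ Subgroup.center S)
    (hi : ∀ s : S, ∀ i ∈ Xin p τb τc, ⁅s, i⁆ ∈ Rad p τb τc hC)
    {a : S} (ha : a ∈ Xcl τc (Ve p τb ⊔ Ve p τc)) (haQ : a ∉ Qe p τb) {y : S} (hy : y ∉ Qe p τc)
    (hval : ⁅⁅y, a⁆, a⁆ ∈ Ce p τb) : False := by
  obtain ⟨-, hfix, -, -, hnd⟩ := natX hS hb hc hne hcb hX hC hi
  exact haQ (hfix y hy a ha (hnd a ha haQ _ (step_Xc hS hb hc hne hcb y a ha) hval)).2

end CfsgLib.Minimal.GN
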