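import Cfsg.Agent.Lib.Minimal.GNFinal

/-!
Pushing up: the exceptional class is the main situation with trivial `S₀`.
-/

set_option autoImplicit false
set_option linter.unusedSectionVars false

open Subgroup
open scoped Pointwise
open scoped commutatorElement

namespace CfsgLib.Minimal.GN

open Cfsg CfsgLib.TwoGroupTricks

universe u

variable {S : Type u} [Group S] [Finite S] {p : ℕ} [hp : Fact p.Prime]

theorem Fn_top_eq (hS : IsPGroup p S) :
    Fn p (⊤ : Subgroup S) = if p = 2 then ⁅frattini S, (⊤ : Subgroup S)⁆ ⊔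
        (frattini ↥(frattini S)).map (frattini S).subtype
      else if p = 3 then ⁅⁅frattini S, (⊤ : Subgroup S)⁆, (⊤ : Subgroup S)⁆ ⊔
        (frattini ↥(frattini S)).map (frattini S).subtype
      else ⁅frattini S, (⊤ : Subgroup S)⁆ ⊔ Cfsg.powerClosure p 1 (⊤ : Subgroup S) := by
  rw [Fn, Phi_top hS]
  rfl

/-- The conditions of the exceptional class, apart from the elementary member. -/
theorem exceptional [Nontrivial S] (hS : IsPGroup p S) (hm : Main p S) (h0 : Fn p (⊤ : Subgroup S) = ⊥) :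
    ¬ IsMulCommutative S ∧ Cfsg.thompsonSubgroupA S = ⊤ ∧
      Cfsg.IsElementaryAbelian p (Subgroup.center S) ∧ Cfsg.IsElementaryAbelian p (frattini S) ∧
      (p = 2 → frattini S ≤ Subgroup.center S) ∧
      (p = 3 → frattini S ≤ Subgroup.upperCentralSeries S 2) ∧
      (3 < p → frattini S ≤ Subgroup.center S ∧ Monoid.exponent S = p) ∧
      (∀ A ∈ Cfsg.maxAbelianSubgroups S, ∀ B ∈ Cfsg.maxAbelianSubgroups S, ∀ Q : Subgroup S,
        Nat.card ↥A ^ 2 = Nat.card S * Nat.card ↥(Subgroup.center S) ∧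
        Nat.card ↥Q * Nat.card ↥(Subgroup.center ↥Q) ≤ Nat.card S * Nat.card ↥(Subgroup.center S) ∧
        ((A ⊔ B : Subgroup S) : Set S) = (A : Set S) * (B : Set S) ∧
        A ⊔ B = Subgroup.centralizer ((A ⊓ B : Subgroup S) : Set S)) := by
  rw [Fn_top_eq hS] at h0
  have hcent : ⁅frattini S, (⊤ : Subgroup S)⁆ = ⊥ → frattini S ≤ Subgroup.center S := fun h x hx =>
    Subgroup.mem_center_iff.2 fun y =>
      Subgroup.mem_centralizer_iff.1 (Subgroup.commutator_eq_bot_iff_le_centralizer.1 h hx) y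
        (Subgroup.mem_top y)
  have hPP : p = 2 ∨ p = 3 → (frattini ↥(frattini S)).map (frattini S).subtype = ⊥ := by
    rintro (hp' | hp')
    · rw [if_pos hp'] at h0; exact (sup_eq_bot_iff.1 h0).2
    · rw [if_neg (by omega), if_pos hp'] at h0; exact (sup_eq_bot_iff.1 h0).2
  have h2 : p = 2 → frattini S ≤ Subgroup.center S := fun hp' => by
    rw [if_pos hp'] at h0; exact hcent (sup_eq_bot_iff.1 h0).1
  have h3 : p = 3 → frattini S ≤ Subgroup.upperCentralSeries S 2 := fun hp' x hx => by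
    rw [if_neg (by omega), if_pos hp'] at h0
    refine Subgroup.mem_upperCentralSeries_succ_iff.2 fun y => ?_
    rw [Subgroup.upperCentralSeries_one]
    refine Subgroup.mem_center_iff.2 fun z => ?_
    exact Subgroup.mem_centralizer_iff.1 (Subgroup.commutator_eq_bot_iff_le_centralizer.1
      (sup_eq_bot_iff.1 h0).1 (Subgroup.commutator_mem_commutator hx (Subgroup.mem_top y))) z
      (Subgroup.mem_top z)
  have hbig : p ≠ 2 → p ≠ 3 → frattini S ≤ Subgroup.center S ∧ ∀ x : S, x ^ p = 1 := fun hp2 hp3 => by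
    rw [if_neg hp2, if_neg hp3] at h0
    refine ⟨hcent (sup_eq_bot_iff.1 h0).1, fun x => Subgroup.mem_bot.1 ((sup_eq_bot_iff.1 h0).2.le ?_)⟩
    exact Subgroup.subset_closure ⟨x, Subgroup.mem_top x, by rw [pow_one]⟩
  have hΦp := hS.to_subgroup (frattini S)
  refine ⟨hm.noncomm, hm.J_top, hm.elem, ?_, h2, h3, fun hp3 => ?_, ?_⟩
  · by_cases hsmall : p = 2 ∨ p = 3
    · have hb := (Subgroup.map_eq_bot_iff_of_injective _ (frattini S).subtype_injective).1 (hPP hsmall)
      refine ⟨⟨⟨fun a b => ?_⟩⟩, fun a ha => ?_⟩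
      · have h1 := CfsgLib.PGroups.commutatorElement_mem_frattini hΦp a b
        rw [hb, Subgroup.mem_bot] at h1
        exact commutatorElement_eq_one_iff_mul_comm.1 h1
      · have h1 := CfsgLib.PGroups.pow_mem_frattini hΦp (⟨a, ha⟩ : frattini S)
        rw [hb, Subgroup.mem_bot] at h1
        exact congrArg Subtype.val h1
    · obtain ⟨h1, h1'⟩ := hbig (fun h => hsmall (Or.inl h)) (fun h => hsmall (Or.inr h))
      exact ⟨⟨⟨fun a b => Subtype.ext (Subgroup.mem_center_iff.1 (h1 b.2) a)⟩⟩, fun a _ => h1' a⟩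
  · obtain ⟨h1, h1'⟩ := hbig (by omega) (by omega)
    refine ⟨h1, ?_⟩
    rcases (Nat.dvd_prime hp.out).1 (Monoid.exponent_dvd_of_forall_pow_eq_one h1') with h | h
    · exact absurd (Monoid.exp_eq_one_iff.1 h) (not_subsingleton S)
    · exact h
  · intro A hA B hB Q
    obtain ⟨hAl, hAc⟩ := hm.cl A hA
    obtain ⟨hBl, hBc⟩ := hm.cl B hB
    refine ⟨?_, ?_, coe_sup_eq_mul hAl hBl, ?_⟩
    · rw [← hm.large, pow_two]
      conv_lhs => arg 2; rw [← hAc]
      exact hAl
    · exact (le_maxCentralProduct Q).trans_eq (by rw [maxCentralProduct_eq, hm.large])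
    · rw [centralizer_inf_eq hAl hBl, hAc, hBc]

end CfsgLib.Minimal.GN
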