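import Cfsg.Agent.Lib.Minimal.GNMain

/-!
Pushing up: the pair in the main situation.
-/

set_option autoImplicit false
set_option linter.unusedSectionVars false
set_option linter.style.haveILetI false

open Subgroup
open scoped Pointwise
open scoped commutatorElement

namespace CfsgLib.Minimal.GN

open Cfsg CfsgLib.TwoGroupTricks

universe u

variable {S : Type u} [Group S] [Finite S] {p : ℕ} [hp : Fact p.Prime]

/-- The modules of the embeddings in which `T` is not normal. -/
def badModules (p : ℕ) (T : Subgroup S) : Set (Subgroup S) :=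
  {V | ∃ (G : Type u) (_ : Group G) (_ : Finite G) (τ : S →* G),
    Sit p τ ∧ ¬ (T.map τ).Normal ∧ V = Ve p τ}

theorem Sit.comp {G : Type u} [Group G] {τ : S →* G} (hs : Sit p τ) (α : S ≃* S) :
    Sit p (τ.comp α.toMonoidHom) := by
  have hr : (τ.comp α.toMonoidHom).range = τ.range := by
    rw [MonoidHom.range_comp, MonoidHom.range_eq_top.2 α.surjective, ← MonoidHom.range_eq_map]
  exact ⟨hs.inj.comp α.injective, hr ▸ hs.syl, hs.char2, hr ▸ hs.uniq, hs.quot⟩

theorem mem_Ve_comp {G : Type u} [Group G] {τ : S →* G} (α : S ≃* S) {x : S} :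
    x ∈ Ve p (τ.comp α.toMonoidHom) ↔ α x ∈ Ve p τ := by
  constructor
  · rintro ⟨h1, h2⟩
    refine ⟨h1, fun y hy => ?_⟩
    have h3 := congrArg α (h2 (α.symm y) (by
      show τ (α (α.symm y)) ∈ Cfsg.pCore p G
      rw [MulEquiv.apply_symm_apply]; exact hy))
    simpa using h3
  · rintro ⟨h1, h2⟩
    refine ⟨h1, fun y hy => α.injective ?_⟩
    rw [map_mul, map_mul]
    exact h2 (α y) hy

theorem badModules_map {T : Subgroup S} (hT : T.Characteristic) (α : S ≃* S) {V : Subgroup S}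
    (hV : V ∈ badModules p T) : V.map α.toMonoidHom ∈ badModules p T := by
  obtain ⟨G, iG, iF, τ, hs, hn, rfl⟩ := hV
  refine ⟨G, iG, iF, τ.comp α.symm.toMonoidHom, hs.comp α.symm, ?_, ?_⟩
  · rwa [← Subgroup.map_map, Subgroup.characteristic_iff_map_eq.1 hT α.symm]
  · ext x
    rw [mem_Ve_comp, Subgroup.mem_map_equiv]

theorem Main.large_top (hm : Main p S) : IsCentralizerLarge (⊤ : Subgroup S) := by
  unfold IsCentralizerLarge
  rw [hm.large, Subgroup.card_top, Subgroup.coe_top, Subgroup.centralizer_univ]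

/-- The pair in the main situation when `S₀` is nontrivial. -/
theorem exists_pair_of_main [Nontrivial S] (hS : IsPGroup p S) (hm : Main p S)
    (h0 : Fn p (⊤ : Subgroup S) ≠ ⊥) :
    ∃ S₁ S₂ : Subgroup S, GoodPair p S₁ S₂ ∧ maxCentralProduct ↥S₂ = maxCentralProduct ↥(JT S) := by
  set T := Fn p (⊤ : Subgroup S) ⊓ Subgroup.center S
  have hTc : T.Characteristic := inf_char (Fn_char hS) inferInstance
  set Z := Subgroup.center S
  set s := badModules p T
  -- each bad module
  have hbad : ∀ {G : Type u} [Group G] [Finite G] {τ : S →* G}, Sit p τ → ¬ (T.map τ).Normal →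
      ∃ (q : ℕ) (M : Subgroup G), Bad p q τ M ∧ ¬ Nrm τ T := by
    intro G _ _ τ hs hn
    have hZ : ¬ (Z.map τ).Normal := by
      intro hZn
      refine hn ⟨?_⟩
      rintro _ ⟨z, hz, rfl⟩ g
      haveI := hZn
      set N := centralizer ((Z.map τ : Subgroup G) : Set G)
      have hr : τ.range ≤ N := by
        rintro _ ⟨a, rfl⟩ _ ⟨b, hb, rfl⟩
        rw [← map_mul, ← map_mul, Subgroup.mem_center_iff.1 hb a]
      have htop : N = ⊤ := by
        by_contra hne
        obtain ⟨M, ⟨hM, hSM⟩, huniq⟩ := hs.uniq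
        obtain ⟨P, hP⟩ := hs.syl
        obtain ⟨K, hK, F, iF, iFt, n, hn', hF, ⟨θ⟩⟩ := hs.quot
        obtain ⟨hpush, -, -⟩ := exists_push (n := n)
          (π := θ.toMonoidHom.comp (QuotientGroup.mk' K)) hS hs.inj P hP hs.char2 hM hSM huniq hn' hF
          (θ.surjective.comp (QuotientGroup.mk'_surjective K))
        obtain ⟨u, hu, -⟩ := hpush.braid
        exact hu (hpush.core N inferInstance (by rw [sup_eq_left.2 hr]; exact hne) u (hr ⟨u, rfl⟩))
      refine ⟨z, hz, ?_⟩
      have h1 : τ z * g = g * τ z := (htop ▸ Subgroup.mem_top g : g ∈ N) _ ⟨z, hz.2, rfl⟩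
      rw [← h1, mul_inv_cancel_right]
    obtain ⟨q, M, hb⟩ := hs.exists_bad hS hm hZ
    exact ⟨q, M, hb, fun hN => hn (hb.toPush.map_normal (inf_le_right.trans hb.Z_le_Q) hN)⟩
  have hV : ∀ V ∈ s, IsCentralizerLarge V := by
    rintro V ⟨G, iG, iF, τ, hs, hn, rfl⟩
    obtain ⟨q, M, hb, -⟩ := hbad hs hn
    exact hb.cd_V
  -- pairs
  have hpair : ∀ {G : Type u} [Group G] [Finite G] {τ : S →* G} {q : ℕ} {M : Subgroup G},
      Bad p q τ M → ∀ V ∈ s, V ≠ Ve p τ →
        V ≤ Qe p τ ∧ Ve p τ ≤ centralizer (V : Set S) ∧ Nrm τ (V ⊔ Ve p τ) ∧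
          V ≤ centralizer (V : Set S) := by
    rintro G _ _ τ q M hb V ⟨G', iG', iF', τ', hs', hn', rfl⟩ hne
    obtain ⟨q', M', hb', hn⟩ := hbad hs' hn'
    obtain ⟨h1, h2⟩ := pair hm.covered hb' hb hne hn
    have h3 := V_le_symm hb' hb h1
    refine ⟨h3, fun x hx y hy => ?_, h2, fun x hx y hy => ?_⟩
    · exact commutatorElement_eq_one_iff_mul_comm.1 (hb'.comm_QV (h1 hx) hy).2
    · exact commutatorElement_eq_one_iff_mul_comm.1 (hb'.comm_V hy hx)
  set W := sSup (insert Z s)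
  have hcdZ : IsCentralizerLarge Z := by
    have := isCentralizerLarge_centralizer hm.large_top
    rwa [Subgroup.coe_top, Subgroup.centralizer_univ] at this
  have hWcd : IsCentralizerLarge W := isCentralizerLarge_sSup (Set.insert_nonempty _ _) (by
    rintro A (rfl | hA)
    exacts [hcdZ, hV A hA])
  have hWc : W.Characteristic := by
    refine Subgroup.characteristic_iff_map_le.2 fun α => ?_
    rw [Subgroup.map_le_iff_le_comap]
    refine sSup_le fun A hA => ?_
    rw [← Subgroup.map_le_iff_le_comap]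
    rcases hA with rfl | hA
    · exact (Subgroup.characteristic_iff_map_eq.1 inferInstance α).le.trans (le_sSup (Set.mem_insert _ _))
    · exact le_sSup (Set.mem_insert_of_mem _ (badModules_map hTc α hA))
  have hWab : W ≤ centralizer (W : Set S) := by
    refine sSup_le fun A hA => ?_
    rw [Subgroup.le_centralizer_iff]
    refine sSup_le fun B hB => ?_
    rcases hA with rfl | hA
    · exact fun x _ y hy => (Subgroup.mem_center_iff.1 hy x).symm
    rcases hB with rfl | hB
    · exact Subgroup.center_le_centralizer _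
    obtain ⟨G, iG, iF, τ, hs, hn, rfl⟩ := hB
    obtain ⟨q, M, hb, -⟩ := hbad hs hn
    by_cases hne : A = Ve p τ
    · subst hne
      exact fun x hx y hy => commutatorElement_eq_one_iff_mul_comm.1 (hb.comm_V hy hx)
    · exact (hpair hb A hA hne).2.1
  have hCL : IsCentrallyLarge (centralizer (W : Set S)) := by
    refine (isCentrallyLarge_iff _).2 ⟨isCentralizerLarge_centralizer hWcd, ?_⟩
    rw [double_centralizer_eq hWcd]; exact hWab
  have hT : T ≠ ⊥ := inf_center_ne_bot hS (Fn_char hS) h0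
  refine ⟨T, centralizer (W : Set S), ⟨hT, fun e => center_ne_bot hS (le_bot_iff.1 (e ▸
    Subgroup.center_le_centralizer _)), hTc, centralizer_char hWc, inf_le_right, hm.JT_top ▸ le_top,
    char_subgroupOf_top (centralizer_char hWc) hm.JT_top, ?_⟩, ?_⟩
  · intro G _ _ τ hs
    by_cases hn : (T.map τ).Normal
    · exact Or.inl hn
    right
    obtain ⟨q, M, hb, -⟩ := hbad hs hn
    have hmem : Ve p τ ∈ s := ⟨G, ‹_›, ‹_›, τ, hs, hn, rfl⟩
    have hVW : Ve p τ ≤ W := le_sSup (Set.mem_insert_of_mem _ hmem)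
    have hWQ : W ≤ Qe p τ := by
      refine sSup_le fun A hA => ?_
      rcases hA with rfl | hA
      · exact hb.Z_le_Q
      by_cases hne : A = Ve p τ
      · exact hne ▸ hb.V_le
      · exact (hpair hb A hA hne).1
    let K : Subgroup S :=
      { carrier := {x | x ∈ Qe p τ ∧ ∀ g, cv τ g x ∈ W}
        one_mem' := ⟨one_mem _, fun g => by rw [hb.toPush.cv_Ce g (one_mem _)]; exact one_mem _⟩
        mul_mem' := fun {a b} ha hb' => ⟨mul_mem ha.1 hb'.1, fun g => by
          rw [hb.toPush.cv_mul g ha.1 hb'.1]; exact mul_mem (ha.2 g) (hb'.2 g)⟩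
        inv_mem' := fun {a} ha => ⟨inv_mem ha.1, fun g => by
          rw [hb.toPush.cv_inv g ha.1]; exact inv_mem (ha.2 g)⟩ }
    have hWK : W ≤ K := by
      refine sSup_le fun A hA x hx => ?_
      rcases hA with rfl | hA
      · exact ⟨hb.Z_le_Q hx, fun g => hVW (hb.toPush.nrm_Ve g x (hb.Z_le hx))⟩
      by_cases hne : A = Ve p τ
      · exact ⟨hb.V_le (hne ▸ hx), fun g => hVW (hb.toPush.nrm_Ve g x (hne ▸ hx))⟩
      · obtain ⟨h1, -, h2, -⟩ := hpair hb A hA hne
        exact ⟨h1 hx, fun g => sup_le (le_sSup (Set.mem_insert_of_mem _ hA)) hVW (h2 g x (mem_sup_left hx))⟩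
    have hn2 := hb.toPush.nrm_centralizer hWQ fun g x hx => (hWK hx).2 g
    have hle : centralizer (W : Set S) ≤ Qe p τ := by
      rw [← hb.cV]; exact Subgroup.centralizer_le (SetLike.coe_subset_coe.2 hVW)
    rw [inf_eq_right.2 hle] at hn2
    exact hb.toPush.map_normal hle hn2
  · rw [maxCentralProduct_of_centrallyLarge hCL]
    refine (maxCentralProduct_of_centrallyLarge ((isCentrallyLarge_iff _).2 ⟨?_, ?_⟩)).symm
    · rw [hm.JT_top]; exact hm.large_top
    · rw [hm.JT_top]; exact le_top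

/-- No large abelian subgroup is elementary: a pair exists. -/
theorem exists_pair_of_not_elem [Nontrivial S] (hS : IsPGroup p S) (hm : Main p S)
    (hno : ∀ A ∈ Cfsg.maxAbelianSubgroups S, ¬ Cfsg.IsElementaryAbelian p A) :
    ∃ S₁ S₂ : Subgroup S, GoodPair p S₁ S₂ := by
  obtain ⟨A₀, hA₀, hmin⟩ := Set.exists_min_image (Cfsg.maxAbelianSubgroups S)
    (fun A => Nat.card (Cfsg.powerClosure p 1 A)) (Set.toFinite _) (exists_maxAbelian S)
  set m := Nat.card (Cfsg.powerClosure p 1 A₀)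
  set s : Set (Subgroup S) := {A | A ∈ Cfsg.maxAbelianSubgroups S ∧ Nat.card (Cfsg.powerClosure p 1 A) = m}
  set D := sSup ((fun A => Cfsg.powerClosure p 1 A) '' s)
  have hmap : ∀ A ∈ s, ∀ α : S ≃* S, A.map α.toMonoidHom ∈ s := by
    intro A hA α
    refine ⟨⟨?_, fun B hB => ?_⟩, ?_⟩
    · haveI := hA.1.1; infer_instance
    · rw [Subgroup.card_map_of_injective (f := α.toMonoidHom) α.injective]; exact hA.1.2 B hB
    · rw [← map_powerClosure, Subgroup.card_map_of_injective (f := α.toMonoidHom) α.injective]; exact hA.2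
  have hDc : D.Characteristic := by
    refine Subgroup.characteristic_iff_map_le.2 fun α => ?_
    rw [Subgroup.map_le_iff_le_comap]
    refine sSup_le ?_
    rintro _ ⟨A, hA, rfl⟩
    rw [← Subgroup.map_le_iff_le_comap, map_powerClosure]
    exact le_sSup ⟨_, hmap A hA α, rfl⟩
  have hD : D ≠ ⊥ := by
    intro e
    refine hno A₀ hA₀ ⟨hA₀.1, fun a ha => ?_⟩
    have h1 : Cfsg.powerClosure p 1 A₀ ≤ D := le_sSup ⟨A₀, ⟨hA₀, rfl⟩, rfl⟩
    exact Subgroup.mem_bot.1 (e.le (h1 (Subgroup.subset_closure ⟨a, ha, by rw [pow_one]⟩)))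
  refine ⟨Subgroup.center S, D, ⟨center_ne_bot hS, hD, inferInstance, hDc, le_rfl, hm.JT_top ▸ le_top,
    char_subgroupOf_top hDc hm.JT_top, ?_⟩⟩
  intro G _ _ τ hs
  by_cases hn : ((Subgroup.center S).map τ).Normal
  · exact Or.inl hn
  right
  obtain ⟨q, M, hb⟩ := hs.exists_bad hS hm hn
  set Q := Qe p τ
  set V := Ve p τ
  -- the minimal ones inside the core suffice
  have hin : ∀ A ∈ s, ∃ B ∈ s, B ≤ Q ∧ Cfsg.powerClosure p 1 B = Cfsg.powerClosure p 1 A := by
    intro A hA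
    obtain ⟨hAl, hAc⟩ := hm.cl A hA.1
    have hAQ := (isCentralizerLarge_sup_inf hAl hb.cd).2.1
    set B := (A ⊓ Q) ⊔ V
    have hBl : IsCentralizerLarge B := (isCentralizerLarge_sup_inf hAQ hb.cd_V).1
    have hBQ : B ≤ Q := sup_le inf_le_right hb.V_le
    have hBc : centralizer (B : Set S) = B := by
      rw [CfsgLib.Replacement.centralizer_sup, centralizer_inf_eq hAl hb.cd, hAc, hb.cQ, hb.cV]
      refine le_antisymm ?_ (sup_le (le_inf (inf_le_left.trans le_sup_left) inf_le_right)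
        (le_inf le_sup_right hb.V_le))
      rintro x ⟨hx, hxQ⟩
      replace hx : x ∈ ((A ⊔ V : Subgroup S) : Set S) := hx
      rw [coe_sup_eq_mul hAl hb.cd_V] at hx
      obtain ⟨a, ha, v, hv, rfl⟩ := hx
      exact mul_mem (mem_sup_left ⟨ha, (Subgroup.mul_mem_cancel_right Q (hb.V_le hv)).1 hxQ⟩)
        (mem_sup_right hv)
    have hcard : Nat.card B = Nat.card A := by
      have h1 : Nat.card B * Nat.card B = Nat.card A * Nat.card A := by
        conv_lhs => arg 2; rw [← hBc]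
        conv_rhs => arg 2; rw [← hAc]
        exact hBl.trans hAl.symm
      exact Nat.mul_self_inj.1 h1
    have hBm : B ∈ Cfsg.maxAbelianSubgroups S :=
      ⟨(isMulCommutative_iff_le_centralizer B).2 hBc.ge, fun C hC => (hA.1.2 C hC).trans hcard.ge⟩
    have hle : Cfsg.powerClosure p 1 B ≤ Cfsg.powerClosure p 1 A := by
      refine (Subgroup.closure_le _).2 ?_
      rintro _ ⟨x, hx, rfl⟩
      rw [← SetLike.mem_coe, coe_sup_eq_mul hAQ hb.cd_V] at hx
      obtain ⟨a, ha, v, hv, rfl⟩ := hx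
      refine Subgroup.subset_closure ⟨a, ha.1, ?_⟩
      simp only [pow_one]
      rw [(show Commute a v from commutatorElement_eq_one_iff_mul_comm.1 (hb.comm_QV ha.2 hv).1).mul_pow,
        hb.powV v hv, mul_one]
    have heq : Cfsg.powerClosure p 1 B = Cfsg.powerClosure p 1 A :=
      Subgroup.eq_of_le_of_card_ge hle (by rw [hA.2]; exact hmin B hBm)
    exact ⟨B, ⟨hBm, by rw [heq]; exact hA.2⟩, hBQ, heq⟩
  -- invariance
  let K : Subgroup S :=
    { carrier := {x | x ∈ Q ∧ ∀ g, cv τ g x ∈ D}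
      one_mem' := ⟨one_mem _, fun g => by rw [hb.toPush.cv_Ce g (one_mem _)]; exact one_mem _⟩
      mul_mem' := fun {a b} ha hb' => ⟨mul_mem ha.1 hb'.1, fun g => by
        rw [hb.toPush.cv_mul g ha.1 hb'.1]; exact mul_mem (ha.2 g) (hb'.2 g)⟩
      inv_mem' := fun {a} ha => ⟨inv_mem ha.1, fun g => by
        rw [hb.toPush.cv_inv g ha.1]; exact inv_mem (ha.2 g)⟩ }
  have hDK : D ≤ K := by
    refine sSup_le ?_
    rintro _ ⟨A, hA, rfl⟩
    obtain ⟨B, hB, hBQ, heq⟩ := hin A hA
    show Cfsg.powerClosure p 1 A ≤ K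
    rw [← heq]
    refine (Subgroup.closure_le _).2 ?_
    rintro _ ⟨x, hx, rfl⟩
    refine ⟨pow_mem (hBQ hx) _, fun g => ?_⟩
    set B' := Cj τ g B
    have hB'm : B' ∈ Cfsg.maxAbelianSubgroups S := by
      refine ⟨(isMulCommutative_iff_le_centralizer _).2 fun a ha b hb' => ?_, fun C hC => ?_⟩
      · obtain ⟨a', ha', rfl⟩ := (hb.toPush.mem_Cj g hBQ).1 ha
        obtain ⟨b', hb'', rfl⟩ := (hb.toPush.mem_Cj g hBQ).1 hb'
        rw [← hb.toPush.cv_mul g (hBQ hb'') (hBQ ha'), ← hb.toPush.cv_mul g (hBQ ha') (hBQ hb''),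
          (isMulCommutative_iff_le_centralizer B).1 hB.1.1 ha' b' hb'']
      · rw [hb.toPush.card_Cj g hBQ]; exact hB.1.2 C hC
    have hpB : Cfsg.powerClosure p 1 B ≤ Q := by
      refine (Subgroup.closure_le _).2 ?_
      rintro _ ⟨a, ha, rfl⟩; exact pow_mem (hBQ ha) _
    have hle : Cfsg.powerClosure p 1 B' ≤ Cj τ g (Cfsg.powerClosure p 1 B) := by
      refine (Subgroup.closure_le _).2 ?_
      rintro _ ⟨a, ha, rfl⟩
      obtain ⟨a', ha', rfl⟩ := (hb.toPush.mem_Cj g hBQ).1 ha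
      rw [← hb.toPush.cv_pow g (hBQ ha')]
      exact hb.toPush.cv_mem_Cj g hpB (Subgroup.subset_closure ⟨a', ha', rfl⟩)
    have hB's : B' ∈ s := by
      refine ⟨hB'm, le_antisymm ?_ (hmin B' hB'm)⟩
      rw [← hB.2, ← hb.toPush.card_Cj g hpB]
      exact Subgroup.card_le_of_le hle
    refine (le_sSup ⟨B', hB's, rfl⟩ : Cfsg.powerClosure p 1 B' ≤ D) ?_
    rw [hb.toPush.cv_pow g (hBQ hx)]
    exact Subgroup.subset_closure ⟨_, hb.toPush.cv_mem_Cj g hBQ hx, rfl⟩
  exact hb.toPush.map_normal (fun x hx => (hDK hx).1) fun g x hx => (hDK hx).2 g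

end CfsgLib.Minimal.GN
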