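import Cfsg.Agent.Lib.Minimal.GNPairs
import Cfsg.Agent.Lib.PGroups.Frattini
import Cfsg.Agent.Lib.PushUp.RankOne.Tools

/-!
The functor `S₀` of the pushing-up theorem and pairs of embeddings whose modules do not commute.
-/

set_option autoImplicit false
set_option linter.unusedSectionVars false
set_option linter.style.haveILetI false

open Subgroup
open scoped Pointwise
open scoped commutatorElement

namespace CfsgLib.Minimal.GN

open Cfsg CfsgLib.TwoGroupTricks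

universe u v w

/-- The Frattini subgroup of a subgroup. -/
def Phi {X : Type*} [Group X] (H : Subgroup X) : Subgroup X := (frattini ↥H).map H.subtype

/-- The characteristic function `S₀` of a `p`-group, on subgroups. -/
def Fn {X : Type*} [Group X] (p : ℕ) (H : Subgroup X) : Subgroup X :=
  if p = 2 then ⁅Phi H, H⁆ ⊔ Phi (Phi H)
  else if p = 3 then ⁅⁅Phi H, H⁆, H⁆ ⊔ Phi (Phi H)
  else ⁅Phi H, H⁆ ⊔ powerClosure p 1 H

section General

variable {X : Type*} [Group X] [Finite X] {p : ℕ} [hp : Fact p.Prime]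

theorem Phi_le_self (H : Subgroup X) : Phi H ≤ H := Subgroup.map_subtype_le _

theorem pow_mem_Phi {H : Subgroup X} (hH : IsPGroup p H) {x : X} (hx : x ∈ H) : x ^ p ∈ Phi H :=
  ⟨(⟨x, hx⟩ : H) ^ p, CfsgLib.PGroups.pow_mem_frattini hH _, rfl⟩

theorem comm_mem_Phi {H : Subgroup X} (hH : IsPGroup p H) {x y : X} (hx : x ∈ H) (hy : y ∈ H) :
    ⁅x, y⁆ ∈ Phi H :=
  ⟨⁅(⟨x, hx⟩ : H), ⟨y, hy⟩⁆, CfsgLib.PGroups.commutatorElement_mem_frattini hH _ _, rfl⟩

theorem Phi_le (p : ℕ) [Fact p.Prime] {H N : Subgroup X} (hc : ∀ x ∈ H, ∀ y ∈ H, ⁅x, y⁆ ∈ N)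
    (hpow : ∀ x ∈ H, x ^ p ∈ N) : Phi H ≤ N := by
  rw [Phi, Subgroup.map_le_iff_le_comap]
  refine CfsgLib.PGroups.frattini_le_of (p := p) ?_ fun x => ?_
  · rw [commutator_def, Subgroup.commutator_le]
    exact fun a _ b _ => hc a a.2 b b.2
  · exact hpow x x.2

theorem Phi_mono (hX : IsPGroup p X) {H K : Subgroup X} (h : H ≤ K) : Phi H ≤ Phi K :=
  Phi_le p (fun _ hx _ hy => comm_mem_Phi (hX.to_subgroup K) (h hx) (h hy))
    (fun _ hx => pow_mem_Phi (hX.to_subgroup K) (h hx))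

theorem map_Phi {Y : Type*} [Group Y] [Finite Y] {f : X →* Y} (hX : IsPGroup p X) (H : Subgroup X) :
    (Phi H).map f = Phi (H.map f) := by
  have hH := hX.to_subgroup H
  have hY : IsPGroup p (H.map f) := hH.map f
  refine le_antisymm (Subgroup.map_le_iff_le_comap.2 (Phi_le p (fun x hx y hy => ?_) fun x hx => ?_))
    (Phi_le p ?_ ?_)
  · rw [Subgroup.mem_comap, map_commutatorElement]
    exact comm_mem_Phi hY ⟨x, hx, rfl⟩ ⟨y, hy, rfl⟩
  · rw [Subgroup.mem_comap, map_pow]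
    exact pow_mem_Phi hY ⟨x, hx, rfl⟩
  · rintro _ ⟨x, hx, rfl⟩ _ ⟨y, hy, rfl⟩
    exact ⟨_, comm_mem_Phi hH hx hy, map_commutatorElement f x y⟩
  · rintro _ ⟨x, hx, rfl⟩
    exact ⟨_, pow_mem_Phi hH hx, map_pow f x p⟩

theorem powerClosure_mono {H K : Subgroup X} (h : H ≤ K) : powerClosure p 1 H ≤ powerClosure p 1 K :=
  Subgroup.closure_mono fun _ ⟨x, hx, e⟩ => ⟨x, h hx, e⟩

theorem map_powerClosure {Y : Type*} [Group Y] (f : X →* Y) (H : Subgroup X) :
    (powerClosure p 1 H).map f = powerClosure p 1 (H.map f) := by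
  rw [powerClosure, powerClosure, MonoidHom.map_closure]
  congr 1
  ext y
  constructor
  · rintro ⟨_, ⟨x, hx, rfl⟩, rfl⟩; exact ⟨f x, ⟨x, hx, rfl⟩, map_pow f x _⟩
  · rintro ⟨_, ⟨x, hx, rfl⟩, rfl⟩; exact ⟨_, ⟨x, hx, rfl⟩, map_pow f x _⟩

theorem Fn_mono (hX : IsPGroup p X) {H K : Subgroup X} (h : H ≤ K) : Fn p H ≤ Fn p K := by
  have h1 := Phi_mono hX h
  unfold Fn
  split_ifs
  · exact sup_le_sup (Subgroup.commutator_mono h1 h) (Phi_mono hX h1)
  · exact sup_le_sup (Subgroup.commutator_mono (Subgroup.commutator_mono h1 h) h) (Phi_mono hX h1)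
  · exact sup_le_sup (Subgroup.commutator_mono h1 h) (powerClosure_mono h)

theorem map_Fn {Y : Type*} [Group Y] [Finite Y] {f : X →* Y} (hX : IsPGroup p X) (H : Subgroup X) :
    (Fn p H).map f = Fn p (H.map f) := by
  unfold Fn
  split_ifs
  · rw [Subgroup.map_sup, Subgroup.map_commutator, map_Phi hX, map_Phi hX, map_Phi hX]
  · rw [Subgroup.map_sup, Subgroup.map_commutator, Subgroup.map_commutator, map_Phi hX,
      map_Phi hX, map_Phi hX]
  · rw [Subgroup.map_sup, Subgroup.map_commutator, map_Phi hX, map_powerClosure]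

theorem commutator_le_left {H K : Subgroup X} (hK : K ≤ H) : ⁅K, H⁆ ≤ H :=
  (Subgroup.commutator_mono hK le_rfl).trans H.commutator_le_self

theorem Fn_le_self (H : Subgroup X) : Fn p H ≤ H := by
  have h1 := Phi_le_self H
  unfold Fn
  split_ifs
  · exact sup_le (commutator_le_left h1) ((Phi_le_self _).trans h1)
  · exact sup_le (commutator_le_left (commutator_le_left h1)) ((Phi_le_self _).trans h1)
  · refine sup_le (commutator_le_left h1) ((Subgroup.closure_le _).2 ?_)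
    rintro _ ⟨x, hx, rfl⟩; exact pow_mem hx _

theorem Fn_le_Phi (hX : IsPGroup p X) (H : Subgroup X) : Fn p H ≤ Phi H := by
  have h1 := Phi_le_self H
  have hH := hX.to_subgroup H
  have h2 : ⁅Phi H, H⁆ ≤ Phi H :=
    Subgroup.commutator_le.2 fun a ha b hb => comm_mem_Phi hH (h1 ha) hb
  unfold Fn
  split_ifs
  · exact sup_le h2 (Phi_le_self _)
  · exact sup_le (Subgroup.commutator_le.2 fun a ha b hb => comm_mem_Phi hH (commutator_le_left h1 ha) hb)
      (Phi_le_self _)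
  · refine sup_le h2 ((Subgroup.closure_le _).2 ?_)
    rintro _ ⟨x, hx, rfl⟩; rw [pow_one]; exact pow_mem_Phi hH hx

theorem Phi_top (hX : IsPGroup p X) : Phi (⊤ : Subgroup X) = frattini X :=
  CfsgLib.PGroups.map_frattini_eq (hX.to_subgroup ⊤) _ (fun x => ⟨⟨x, Subgroup.mem_top x⟩, rfl⟩)

/-- A normal subgroup containing the powers and mutual commutators of three subgroups covering the
group contains the Frattini subgroup. -/
theorem Phi_top_le (p : ℕ) [Fact p.Prime] {A B C N : Subgroup X} (hN : N.Normal)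
    (hcov : ∀ x : X, ∃ a ∈ A, ∃ b ∈ B, ∃ c ∈ C, x = a * b * c)
    (hA : ∀ a ∈ A, a ^ p ∈ N) (hB : ∀ a ∈ B, a ^ p ∈ N) (hC : ∀ a ∈ C, a ^ p ∈ N)
    (hAA : ∀ a ∈ A, ∀ b ∈ A, ⁅a, b⁆ ∈ N) (hBB : ∀ a ∈ B, ∀ b ∈ B, ⁅a, b⁆ ∈ N)
    (hCC : ∀ a ∈ C, ∀ b ∈ C, ⁅a, b⁆ ∈ N) (hAB : ∀ a ∈ A, ∀ b ∈ B, ⁅a, b⁆ ∈ N)
    (hAC : ∀ a ∈ A, ∀ b ∈ C, ⁅a, b⁆ ∈ N) (hBC : ∀ a ∈ B, ∀ b ∈ C, ⁅a, b⁆ ∈ N) :
    Phi (⊤ : Subgroup X) ≤ N := by
  set π := QuotientGroup.mk' N
  have hc : ∀ {a b : X}, ⁅a, b⁆ ∈ N → Commute (π a) (π b) := fun {a b} h =>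
    commutatorElement_eq_one_iff_mul_comm.1 (by
      rw [← map_commutatorElement]; exact (QuotientGroup.eq_one_iff _).2 h)
  have h1 : ∀ x y : X, Commute (π x) (π y) ∧ π x ^ p = 1 := by
    intro x y
    obtain ⟨a, ha, b, hb, c, hc', rfl⟩ := hcov x
    obtain ⟨a', ha', b', hb', c', hc'', rfl⟩ := hcov y
    have hone : ∀ {z : X}, z ^ p ∈ N → π z ^ p = 1 := fun {z} h => by
      rw [← map_pow]; exact (QuotientGroup.eq_one_iff _).2 h
    simp only [map_mul]
    have eaa := hc (hAA a ha a' ha'); have eab := hc (hAB a ha b' hb'); have eac := hc (hAC a ha c' hc'')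
    have eba := (hc (hAB a' ha' b hb)).symm; have ebb := hc (hBB b hb b' hb')
    have ebc := hc (hBC b hb c' hc'')
    have eca := (hc (hAC a' ha' c hc')).symm; have ecb := (hc (hBC b' hb' c hc')).symm
    have ecc := hc (hCC c hc' c' hc'')
    refine ⟨((((eaa.mul_right eab).mul_right eac).mul_left ((eba.mul_right ebb).mul_right ebc)).mul_left
      ((eca.mul_right ecb).mul_right ecc)), ?_⟩
    rw [((hc (hAC a ha c hc')).mul_left (hc (hBC b hb c hc'))).mul_pow, (hc (hAB a ha b hb)).mul_pow,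
      hone (hA a ha), hone (hB b hb), hone (hC c hc'), one_mul, one_mul]
  refine Phi_le p (fun x _ y _ => (QuotientGroup.eq_one_iff _).1 ?_)
    fun x _ => (QuotientGroup.eq_one_iff _).1 ?_
  · show π ⁅x, y⁆ = 1
    rw [map_commutatorElement]; exact commutatorElement_eq_one_iff_mul_comm.2 (h1 x y).1
  · show π (x ^ p) = 1
    rw [map_pow]; exact (h1 x x).2

end General

variable {S : Type u} [Group S] [Finite S]
variable {Gb : Type v} [Group Gb] [Finite Gb] {Gc : Type w} [Group Gc] [Finite Gc]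
variable {p qb qc : ℕ} [hp : Fact p.Prime] {τb : S →* Gb} {Mb : Subgroup Gb}
  {τc : S →* Gc} {Mc : Subgroup Gc}

theorem Push.nrm_Fn {q : ℕ} (hb : Push p q τb Mb) : Nrm τb (Fn p (Qe p τb)) := by
  have hle : Fn p (Qe p τb) ≤ Qe p τb := Fn_le_self _
  refine hb.nrm_of_map hle ?_
  rw [map_Fn hb.isP, Qe, Subgroup.map_comap_eq_self hb.pCore_le]
  refine ⟨fun x hx g => ?_⟩
  have hpc := CfsgLib.Cores.isPGroup_pCore p Gb
  set P := Cfsg.pCore p Gb
  have hx' : x ∈ Fn p P := hx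
  -- transport through conjugation restricted to `P`
  let f : ↥P →* Gb := (MulAut.conj g).toMonoidHom.comp P.subtype
  have e1 : (Fn p (⊤ : Subgroup P)).map f = Fn p P := by
    rw [map_Fn hpc, ← MonoidHom.range_eq_map]
    congr 1
    ext y
    constructor
    · rintro ⟨z, rfl⟩; exact (Cfsg.pCore_normal p Gb).conj_mem _ z.2 g
    · intro hy
      exact ⟨⟨g⁻¹ * y * g, by simpa using (Cfsg.pCore_normal p Gb).conj_mem y hy g⁻¹⟩,
        by simp [f, mul_assoc]⟩
  have e2 : (Fn p (⊤ : Subgroup P)).map P.subtype = Fn p P := by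
    rw [map_Fn hpc, ← MonoidHom.range_eq_map, Subgroup.range_subtype]
  rw [← e1]
  rw [← e2] at hx'
  obtain ⟨z, hz, rfl⟩ := hx'
  exact ⟨z, hz, rfl⟩

/-- Two embeddings with non-commuting modules: the central part of `S₀` is normal in both. -/
theorem nrm_of_not_le (hb : Bad p qb τb Mb) (hc : Bad p qc τc Mc) (hcb : ¬ Ve p τc ≤ Qe p τb) :
    Nrm τb (Fn p (⊤ : Subgroup S) ⊓ Subgroup.center S) := by
  have hbc : ¬ Ve p τb ≤ Qe p τc := fun h => hcb (V_le_symm hc hb h)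
  obtain ⟨v₀, hv₀, hv₀Q⟩ := SetLike.not_le_iff_exists.1 hbc
  obtain ⟨w₀, hw₀, hw₀Q⟩ := SetLike.not_le_iff_exists.1 hcb
  have hinf : ∀ x ∈ Ve p τc, x ∈ Qe p τb → x ∈ Subgroup.center S := fun x hx hxQ =>
    hc.fixed hv₀Q hx (hb.comm_QV hxQ hv₀).1
  have hinf' : ∀ x ∈ Ve p τb, x ∈ Qe p τc → x ∈ Subgroup.center S := fun x hx hxQ =>
    hb.fixed hw₀Q hx (hc.comm_QV hxQ hw₀).1
  -- covering
  have hcount : ∀ {G₁ : Type v} [Group G₁] {G₂ : Type w} [Group G₂] {q₁ q₂ : ℕ} {τ₁ : S →* G₁}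
      {τ₂ : S →* G₂}, Nat.card (Ve p τ₂) = q₂ * Nat.card (Subgroup.center S) →
      Nat.card S = q₁ * Nat.card (Qe p τ₁) →
      (∀ x ∈ Ve p τ₂, x ∈ Qe p τ₁ → x ∈ Subgroup.center S) →
      q₂ ≤ q₁ ∧ (q₁ ≤ q₂ → ((Ve p τ₂ : Set S) * (Qe p τ₁ : Set S)) = Set.univ) := by
    intro G₁ _ G₂ _ q₁ q₂ τ₁ τ₂ h2 h1 hi
    have h3 := CfsgLib.PSolvable.card_mul_mul_card_inf (Ve p τ₂) (Qe p τ₁)
    rw [h2] at h3
    have hz : Nat.card ↥(Ve p τ₂ ⊓ Qe p τ₁) ≤ Nat.card (Subgroup.center S) :=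
      Subgroup.card_le_of_le fun x hx => hi x hx.1 hx.2
    have hT : Nat.card ↥((Ve p τ₂ : Set S) * (Qe p τ₁ : Set S)) ≤ Nat.card S :=
      Nat.card_le_card_of_injective _ Subtype.val_injective
    have hz0 : 0 < Nat.card (Subgroup.center S) := Nat.card_pos
    have hQ0 : 0 < Nat.card (Qe p τ₁) := Nat.card_pos
    refine ⟨?_, fun hq => ?_⟩
    · refine Nat.le_of_mul_le_mul_right ?_ (Nat.mul_pos hz0 hQ0)
      calc q₂ * (Nat.card (Subgroup.center S) * Nat.card (Qe p τ₁))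
          = q₂ * Nat.card (Subgroup.center S) * Nat.card (Qe p τ₁) := by ring
        _ ≤ Nat.card S * Nat.card (Subgroup.center S) := h3 ▸ Nat.mul_le_mul hT hz
        _ = _ := by rw [h1]; ring
    · refine Set.eq_univ_of_forall fun s => ?_
      have h4 : Nat.card S ≤ Nat.card ↥((Ve p τ₂ : Set S) * (Qe p τ₁ : Set S)) := by
        refine Nat.le_of_mul_le_mul_right ?_ hz0
        calc Nat.card S * Nat.card (Subgroup.center S)
            ≤ q₂ * Nat.card (Qe p τ₁) * Nat.card (Subgroup.center S) :=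
              Nat.mul_le_mul_right _ (h1 ▸ Nat.mul_le_mul_right _ hq)
          _ = q₂ * Nat.card (Subgroup.center S) * Nat.card (Qe p τ₁) := by ring
          _ ≤ _ := h3 ▸ Nat.mul_le_mul_left _ hz
      rw [Nat.card_coe_set_eq, ← Set.ncard_univ] at h4
      rw [Set.eq_of_subset_of_ncard_le (Set.subset_univ _) h4 (Set.toFinite _)]
      trivial
  have hcb' := hcount hc.cardV hb.card hinf
  have hbc' : qb ≤ qc := by
    have h3 := CfsgLib.PSolvable.card_mul_mul_card_inf (Ve p τb) (Qe p τc)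
    rw [hb.cardV] at h3
    have hz : Nat.card ↥(Ve p τb ⊓ Qe p τc) ≤ Nat.card (Subgroup.center S) :=
      Subgroup.card_le_of_le fun x hx => hinf' x hx.1 hx.2
    have hT : Nat.card ↥((Ve p τb : Set S) * (Qe p τc : Set S)) ≤ Nat.card S :=
      Nat.card_le_card_of_injective _ Subtype.val_injective
    refine Nat.le_of_mul_le_mul_right ?_
      (Nat.mul_pos (Nat.card_pos (α := Subgroup.center S)) (Nat.card_pos (α := Qe p τc)))
    calc qb * (Nat.card (Subgroup.center S) * Nat.card (Qe p τc))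
        = qb * Nat.card (Subgroup.center S) * Nat.card (Qe p τc) := by ring
      _ ≤ Nat.card S * Nat.card (Subgroup.center S) := h3 ▸ Nat.mul_le_mul hT hz
      _ = _ := by rw [hc.card]; ring
  have hQb : ((Ve p τc : Set S) * (Qe p τb : Set S)) = Set.univ := hcb'.2 hbc'
  have hQc : ((Ve p τb : Set S) * (Qe p τc : Set S)) = Set.univ := by
    have h3 := CfsgLib.PSolvable.card_mul_mul_card_inf (Ve p τb) (Qe p τc)
    rw [hb.cardV] at h3
    have hz : Nat.card ↥(Ve p τb ⊓ Qe p τc) ≤ Nat.card (Subgroup.center S) :=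
      Subgroup.card_le_of_le fun x hx => hinf' x hx.1 hx.2
    have hz0 : 0 < Nat.card (Subgroup.center S) := Nat.card_pos
    refine Set.eq_of_subset_of_ncard_le (Set.subset_univ _) ?_ (Set.toFinite _)
    rw [Set.ncard_univ, ← Nat.card_coe_set_eq]
    refine Nat.le_of_mul_le_mul_right ?_ hz0
    calc Nat.card S * Nat.card (Subgroup.center S)
        ≤ qb * Nat.card (Qe p τc) * Nat.card (Subgroup.center S) :=
          Nat.mul_le_mul_right _ (hc.card ▸ Nat.mul_le_mul_right _ hcb'.1)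
      _ = qb * Nat.card (Subgroup.center S) * Nat.card (Qe p τc) := by ring
      _ ≤ _ := h3 ▸ Nat.mul_le_mul_left _ hz
  set R := Qe p τb ⊓ Qe p τc
  have hsplit : ∀ s : S, ∃ a ∈ Ve p τc, ∃ b ∈ Ve p τb, ∃ r ∈ R, s = a * b * r := by
    intro s
    obtain ⟨a, ha, x, hx, rfl⟩ := hQb.symm ▸ Set.mem_univ s
    obtain ⟨b, hb', r, hr, rfl⟩ := hQc.symm ▸ Set.mem_univ x
    refine ⟨a, ha, b, hb', r, ⟨?_, hr⟩, by simp [mul_assoc]⟩
    have := mul_mem (inv_mem (hb.V_le hb')) hx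
    rwa [inv_mul_cancel_left] at this
  have hisP := hb.isP
  have hR := hisP.to_subgroup R
  have hRn : R.Normal := by
    haveI := hb.toPush.normal_Qe; haveI := hc.toPush.normal_Qe
    exact Subgroup.normal_inf_normal _ _
  set P₀ := Phi R ⊔ Subgroup.center S
  have hPhin : (Phi R).Normal := by
    refine ⟨fun x hx s => ?_⟩
    have e : (Phi R).map (MulAut.conj s).toMonoidHom = Phi R := by
      rw [map_Phi hisP]
      congr 1
      ext y
      exact ⟨by rintro ⟨z, hz, rfl⟩; exact hRn.conj_mem z hz s,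
        fun hy => ⟨s⁻¹ * y * s, by simpa using hRn.conj_mem y hy s⁻¹, by simp [mul_assoc]⟩⟩
    exact e.le ⟨x, hx, rfl⟩
  have hP0n : P₀.Normal := inferInstance
  have habR : ∀ a : S, a ∈ Ve p τc ∨ a ∈ Ve p τb → ∀ r ∈ R, ⁅a, r⁆ = 1 := by
    rintro a (ha | ha) r hr
    · exact (hc.comm_QV hr.2 ha).2
    · exact (hb.comm_QV hr.1 ha).2
  have hPhi : Phi (⊤ : Subgroup S) ≤ P₀ := by
    refine Phi_top_le p hP0n hsplit ?_ ?_ ?_ ?_ ?_ ?_ ?_ ?_ ?_
    · intro a ha; rw [hc.powV a ha]; exact one_mem _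
    · intro a ha; rw [hb.powV a ha]; exact one_mem _
    · exact fun a ha => mem_sup_left (pow_mem_Phi hR ha)
    · intro a ha b hb'; rw [hc.comm_V ha hb']; exact one_mem _
    · intro a ha b hb'; rw [hb.comm_V ha hb']; exact one_mem _
    · exact fun a ha b hb' => mem_sup_left (comm_mem_Phi hR ha hb')
    · exact fun a ha b _ => mem_sup_right (hc.comm a ha b)
    · intro a ha r hr; rw [habR a (Or.inl ha) r hr]; exact one_mem _
    · intro a ha r hr; rw [habR a (Or.inr ha) r hr]; exact one_mem _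
  have hdec : ∀ x ∈ Phi (⊤ : Subgroup S), ∃ f ∈ Phi R, ∃ z ∈ Subgroup.center S, x = f * z := fun x hx => by
    obtain ⟨f, hf, z, hz, rfl⟩ := Subgroup.mem_sup_of_normal_right.1 (hPhi hx)
    exact ⟨f, hf, z, hz, rfl⟩
  have hzc : ∀ {z : S}, z ∈ Subgroup.center S → ∀ s : S, ⁅z, s⁆ = 1 ∧ ⁅s, z⁆ = 1 := fun hz s =>
    comm_eq_one_of_mem_centralizer (H := ⊤) (Subgroup.center_le_centralizer _ hz) (Subgroup.mem_top s)
  have hcR : ∀ H : Subgroup S, H ≤ R → ∀ f ∈ H, ∀ s : S, ⁅f, s⁆ ∈ ⁅H, R⁆ := by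
    intro H hH f hf s
    obtain ⟨a, ha, b, hb', r, hr, rfl⟩ := hsplit s
    have h1 : ∀ {y : S}, (y ∈ Ve p τc ∨ y ∈ Ve p τb) → Commute y ⁅f, r⁆ := fun hy =>
      commutatorElement_eq_one_iff_mul_comm.1 (habR _ hy _
        (R.mul_mem (R.mul_mem (R.mul_mem (hH hf) hr) (R.inv_mem (hH hf))) (R.inv_mem hr)))
    have e : ⁅f, a * b * r⁆ = ⁅f, r⁆ := by
      rw [comm_mul_right, comm_mul_right,
        show ⁅f, a⁆ = 1 by rw [← commutatorElement_inv, habR a (Or.inl ha) f (hH hf), inv_one],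
        show ⁅f, b⁆ = 1 by rw [← commutatorElement_inv, habR b (Or.inr hb') f (hH hf), inv_one]]
      simp only [mul_one, mul_inv_cancel, one_mul]
      rw [((h1 (Or.inl ha)).mul_left (h1 (Or.inr hb'))).eq, mul_inv_cancel_right]
    rw [e]; exact Subgroup.commutator_mem_commutator hf hr
  have hc1 : ⁅Phi (⊤ : Subgroup S), (⊤ : Subgroup S)⁆ ≤ ⁅Phi R, R⁆ := by
    refine Subgroup.commutator_le.2 fun x hx s _ => ?_
    obtain ⟨f, hf, z, hz, rfl⟩ := hdec x hx
    rw [comm_mul_left, (hzc hz s).1, mul_one, mul_inv_cancel, one_mul]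
    exact hcR _ (Phi_le_self R) f hf s
  have hc2 : ⁅⁅Phi (⊤ : Subgroup S), (⊤ : Subgroup S)⁆, (⊤ : Subgroup S)⁆ ≤ ⁅⁅Phi R, R⁆, R⁆ :=
    Subgroup.commutator_le.2 fun x hx s _ =>
      hcR _ (commutator_le_left (Phi_le_self R)) x (hc1 hx) s
  have hzp : ∀ {z : S}, z ∈ Subgroup.center S → z ^ p = 1 := fun hz => hb.powV _ (hb.Z_le hz)
  have hPP : Phi (Phi (⊤ : Subgroup S)) ≤ Phi (Phi R) := by
    refine Phi_le p (fun x hx y hy => ?_) fun x hx => ?_
    · obtain ⟨f, hf, z, hz, rfl⟩ := hdec x hx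
      obtain ⟨f', hf', z', hz', rfl⟩ := hdec y hy
      rw [comm_mul_left, (hzc hz _).1, mul_one, mul_inv_cancel, one_mul, comm_mul_right, (hzc hz' f).2,
        mul_one, mul_inv_cancel, mul_one]
      exact comm_mem_Phi (hisP.to_subgroup _) hf hf'
    · obtain ⟨f, hf, z, hz, rfl⟩ := hdec x hx
      have hcom : Commute f z := Subgroup.mem_center_iff.1 hz f
      rw [hcom.mul_pow, hzp hz, mul_one]
      exact pow_mem_Phi (hisP.to_subgroup _) hf
  have hle : Fn p (⊤ : Subgroup S) ≤ Fn p R := by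
    unfold Fn
    split_ifs with h2 h3
    · exact sup_le_sup hc1 hPP
    · exact sup_le_sup hc2 hPP
    · refine sup_le_sup hc1 ((Subgroup.closure_le _).2 ?_)
      rintro _ ⟨x, -, rfl⟩
      obtain ⟨a, ha, b, hb', r, hr, rfl⟩ := hsplit x
      refine Subgroup.subset_closure ⟨r, hr, ?_⟩
      have hr' : Commute (a * b) r :=
        Commute.mul_left (commutatorElement_eq_one_iff_mul_comm.1 (habR a (Or.inl ha) r hr))
          (commutatorElement_eq_one_iff_mul_comm.1 (habR b (Or.inr hb') r hr))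
      have hcz : ⁅b, a⁆ ∈ Subgroup.center S := hb.comm b hb' a
      have hab : (a * b) ^ p = 1 := by
        have hcm : ∀ y : S, Commute ⁅b, a⁆ y := fun y => (Subgroup.mem_center_iff.1 hcz y).symm
        rw [CfsgLib.PushUp.RankOne.mul_pow_of_central (c := ⁅b, a⁆)
          (by simp [commutatorElement_def, mul_assoc]) (hcm a) (hcm b) p, hc.powV a ha, hb.powV b hb',
          one_mul, one_mul]
        obtain ⟨j, hj⟩ := hp.out.dvd_choose_self (k := 2) two_ne_zero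
          (by have := hp.out.two_le; omega)
        rw [hj, pow_mul, hzp hcz, one_pow]
      rw [pow_one, hr'.mul_pow, hab, one_mul]
  have heq : Fn p (⊤ : Subgroup S) = Fn p (Qe p τb) :=
    le_antisymm (hle.trans (Fn_mono hisP inf_le_left)) (Fn_mono hisP le_top)
  have e : Fn p (⊤ : Subgroup S) ⊓ Subgroup.center S = Fn p (⊤ : Subgroup S) ⊓ Ve p τb := by
    refine le_antisymm (inf_le_inf_left _ hb.Z_le) fun x hx => ⟨hx.1, ?_⟩
    exact hinf' x hx.2 (Fn_le_self R (hle hx.1)).2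
  rw [e, heq]
  exact hb.toPush.nrm_inf hb.toPush.nrm_Fn hb.toPush.nrm_Ve

end CfsgLib.Minimal.GN
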