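import Cfsg.Agent.Lib.Minimal.GNBad

/-!
Pushing up: commutators of a centraliser-large subgroup over a normal one with its centraliser are
central in the overgroup.
-/

set_option autoImplicit false
set_option linter.unusedSectionVars false
set_option linter.style.haveILetI false

open Subgroup
open scoped Pointwise
open scoped commutatorElement

namespace CfsgLib.Minimal.GN

open Cfsg CfsgLib.TwoGroupTricks

universe u v

variable {S : Type u} [Group S] {G : Type v} [Group G] [Finite S] [Finite G]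
variable {p q : ℕ} {τ : S →* G} {M : Subgroup G}

theorem Bad.fix_conj (h : Bad p q τ M) {g : G} (hg : g ∉ M) {u : S} (hu : u ∉ Qe p τ) {z z' : S}
    (hz : z ∈ Subgroup.center S) (hz' : z' ∈ Subgroup.center S)
    (e : u * cv τ g z * u⁻¹ = cv τ g z') : z ∈ Ce p τ := by
  have hzQ := h.Z_le_Q hz
  have hxV : cv τ g z ∈ Ve p τ := h.toPush.nrm_Ve g z (h.Z_le hz)
  have e1 : cv τ g (z' * z⁻¹) = ⁅u, cv τ g z⁆ := by
    rw [h.toPush.cv_mul g (h.Z_le_Q hz') (inv_mem hzQ), h.toPush.cv_inv g hzQ, ← e]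
    rfl
  have h2 : z' * z⁻¹ ∈ Ce p τ := by
    refine h.inter g hg _ (mul_mem hz' (inv_mem hz)) ?_
    rw [e1]
    exact comm_mem_symm (h.comm _ hxV u)
  have h3 : ⁅u, cv τ g z⁆ ∈ Ce p τ := e1 ▸ h.toPush.nrm_Ce g _ h2
  exact h.inter g hg z hz (h.fixC u hu _ hxV (comm_mem_symm h3))

theorem Bad.line (h : Bad p q τ M) {A : Subgroup S} (hAcd : IsCentralizerLarge A)
    (hA : centralizer (A : Set S) = A) (hAQ : ¬ A ≤ Qe p τ) {K₁ N₀ : Subgroup S}
    (hV : Ve p τ ≤ K₁) (hK : K₁ ≤ N₀) (hN : N₀ ≤ Qe p τ) (n1 : Nrm τ K₁)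
    (cd1 : IsCentralizerLarge K₁) (cd0 : IsCentralizerLarge N₀)
    (hcomm : ∀ n ∈ N₀, ∀ d ∈ centralizer (K₁ : Set S), ⁅n, d⁆ ∈ Subgroup.center S)
    (atom : ∀ n ∈ N₀, n ∉ K₁ → ∀ d ∈ centralizer (K₁ : Set S), ⁅n, d⁆ = 1 →
      d ∈ centralizer (N₀ : Set S)) :
    ∀ n ∈ N₀, ∀ d ∈ centralizer (K₁ : Set S), ⁅n, d⁆ ∈ Ce p τ := by
  set D₁ := centralizer (K₁ : Set S) with hD₁
  have hCcen := h.Ce_le_Z
  have hK1Q := hK.trans hN
  have hK1n : K₁.Normal := h.toPush.nrm_normal hK1Q n1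
  have hD1Q : D₁ ≤ Qe p τ :=
    (Subgroup.centralizer_le (SetLike.coe_subset_coe.2 hV)).trans h.cV.le
  have nD1 : Nrm τ D₁ := by
    have := h.toPush.nrm_centralizer hK1Q n1
    rwa [inf_eq_right.2 hD1Q] at this
  obtain ⟨u, huA, huQ⟩ := SetLike.not_le_iff_exists.1 hAQ
  have hAab : ∀ a ∈ A, ∀ b ∈ A, a * b = b * a := fun a ha b hb => by
    have h1 : b ∈ centralizer (A : Set S) := hA.symm ▸ hb
    exact h1 a ha
  set K₂ := Xcl τ N₀
  have hN0K2 : N₀ ≤ K₂ := h.toPush.le_Xcl N₀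
  have hK2Q : K₂ ≤ Qe p τ := h.toPush.Xcl_le_Qe hN
  have nK2 : Nrm τ K₂ := h.toPush.nrm_Xcl hN
  have cdK2 : IsCentralizerLarge K₂ := h.cd_Xcl cd0 (hV.trans hK) hN
  have cdD1 : IsCentralizerLarge D₁ := isCentralizerLarge_centralizer cd1
  have cdAD : IsCentralizerLarge (A ⊓ D₁) := (isCentralizerLarge_sup_inf hAcd cdD1).2.1
  have cdAK : IsCentralizerLarge (A ⊔ K₁) := (isCentralizerLarge_sup_inf hAcd cd1).1
  have hCAD : centralizer ((A ⊓ D₁ : Subgroup S) : Set S) = A ⊔ K₁ := by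
    rw [centralizer_inf_eq hAcd cdD1, hA, double_centralizer_eq cd1]
  set Y := centralizer (N₀ : Set S)
  have hYD : Y ≤ D₁ := Subgroup.centralizer_le (SetLike.coe_subset_coe.2 hK)
  have hVY : Ve p τ ≤ Y := fun v hv n hn => (hv.2 n (hN hn))
  -- first kind
  have claim1 : ∀ g : G, g ∉ M → ∀ n ∈ N₀, ∀ a ∈ A ⊓ D₁, ⁅cv τ g n, a⁆ ∈ Ce p τ := by
    intro g hg n hn a ha
    set B := (A ⊓ D₁) ⊓ Cj τ g Y
    have cdY := isCentralizerLarge_centralizer cd0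
    have cdYg := h.cd_Cj g cdY hVY (hYD.trans hD1Q)
    have hCY : centralizer (Cj τ g Y : Set S) = Cj τ g N₀ := by
      rw [h.centralizer_Cj g hVY (hYD.trans hD1Q), double_centralizer_eq cd0]
    have cdNg := h.cd_Cj g cd0 (hV.trans hK) hN
    have hCB : centralizer (B : Set S) = (A ⊔ K₁) ⊔ Cj τ g N₀ := by
      rw [centralizer_inf_eq cdAD cdYg, hCAD, hCY]
    set m := cv τ g n
    have hm : m ∈ centralizer (B : Set S) := hCB ▸ mem_sup_right (h.toPush.cv_mem_Cj g hN hn)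
    have huB : u ∈ centralizer (B : Set S) := fun b hb => hAab b hb.1.1 u huA
    have hw : u * m * u⁻¹ ∈ centralizer (B : Set S) := mul_mem (mul_mem huB hm) (inv_mem huB)
    have hmK : m ∈ K₂ := nK2 g n (hN0K2 hn)
    have hwK : u * m * u⁻¹ ∈ K₂ := (h.toPush.nrm_normal hK2Q nK2).conj_mem m hmK u
    rw [hCB, ← SetLike.mem_coe, coe_sup_eq_mul cdAK cdNg] at hw
    obtain ⟨α, hα, m₂, hm₂, e⟩ := hw
    obtain ⟨n₂, hn₂, rfl⟩ := (h.toPush.mem_Cj g hN).1 hm₂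
    have hαQ : α ∈ Qe p τ := hK2Q (by
      have : α = u * m * u⁻¹ * (cv τ g n₂)⁻¹ := by rw [← e]; group
      rw [this]; exact mul_mem hwK (inv_mem (nK2 g n₂ (hN0K2 hn₂))))
    have haD : a ∈ D₁ := ha.2
    have haQ := hD1Q haD
    set d := cv τ g⁻¹ a
    have hd : d ∈ D₁ := nD1 g⁻¹ a haD
    have ea : cv τ g d = a := h.toPush.cv_cv_inv g haQ
    have hαa : ⁅α, a⁆ = 1 := by
      have h1 : α ∈ centralizer ((A ⊓ D₁ : Subgroup S) : Set S) := hCAD ▸ hα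
      exact (comm_eq_one_of_mem_centralizer h1 ha).1
    have hz := hcomm n hn d hd
    have hz' := hcomm n₂ hn₂ d hd
    have e1 : ∀ k ∈ N₀, ⁅cv τ g k, a⁆ = cv τ g ⁅k, d⁆ := fun k hk => by
      rw [h.toPush.cv_comm g (hN hk) (hD1Q hd), ea]
    have hua : u * a * u⁻¹ = a := by rw [hAab u huA a ha.1, mul_inv_cancel_right]
    have e2 : u * ⁅m, a⁆ * u⁻¹ = ⁅cv τ g n₂, a⁆ := by
      rw [← comm_conj, hua, ← e, comm_mul_left, hαa, mul_one, e1 n₂ hn₂,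
        ← commutatorElement_eq_one_iff_mul_comm.1
          (h.comm_QV hαQ (h.toPush.nrm_Ve g _ (h.Z_le hz'))).1 |>.symm, mul_inv_cancel_right]
    rw [e1 n hn, e1 n₂ hn₂] at e2
    rw [e1 n hn]
    exact h.toPush.nrm_Ce g _ (h.fix_conj hg huQ hz hz' e2)
  -- second kind
  have claim2 : ∀ g : G, g ∉ M → ∀ n ∈ N₀, cv τ g n ∈ A ⊔ K₁ → ∀ d ∈ D₁, ⁅n, d⁆ ∈ Ce p τ := by
    intro g hg n hn hgn d hd
    set m := cv τ g n
    rw [← SetLike.mem_coe, coe_sup_eq_mul hAcd cd1] at hgn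
    obtain ⟨α, hα, k₀, hk₀, e⟩ := hgn
    set k := u * m * u⁻¹ * m⁻¹
    have hk : k ∈ K₁ := by
      have : k = α * ((u * k₀ * u⁻¹) * k₀⁻¹) * α⁻¹ := by
        have e' : u * α = α * u := hAab u huA α hα
        simp only [k, ← e]
        calc u * (α * k₀) * u⁻¹ * (α * k₀)⁻¹ = (u * α) * k₀ * u⁻¹ * k₀⁻¹ * α⁻¹ := by group
          _ = _ := by rw [e']; group
      rw [this]
      exact hK1n.conj_mem _ (mul_mem (hK1n.conj_mem _ hk₀ u) (inv_mem hk₀)) α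
    have hud : u * cv τ g d * u⁻¹ ∈ D₁ :=
      (h.toPush.nrm_normal hD1Q nD1).conj_mem _ (nD1 g d hd) u
    set d' := cv τ g⁻¹ (u * cv τ g d * u⁻¹)
    have hd' : d' ∈ D₁ := nD1 _ _ hud
    have hkQ := hK1Q hk
    have e2 : u * cv τ g ⁅n, d⁆ * u⁻¹ = cv τ g ⁅n, d'⁆ := by
      rw [h.toPush.cv_comm g (hN hn) (hD1Q hd), h.toPush.cv_comm g (hN hn) (hD1Q hd'),
        h.toPush.cv_cv_inv g (hD1Q hud), ← comm_conj,
        show u * cv τ g n * u⁻¹ = k * m by simp [k, m], comm_mul_left,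
        (comm_eq_one_of_mem_centralizer hud hk).2, mul_one]
      have h1 : cv τ g ⁅n, d'⁆ = ⁅m, u * cv τ g d * u⁻¹⁆ := by
        rw [h.toPush.cv_comm g (hN hn) (hD1Q hd'), h.toPush.cv_cv_inv g (hD1Q hud)]
      rw [← h1, ← commutatorElement_eq_one_iff_mul_comm.1
        (h.comm_QV hkQ (h.toPush.nrm_Ve g _ (h.Z_le (hcomm n hn d' hd')))).1 |>.symm,
        mul_inv_cancel_right]
    exact h.fix_conj hg huQ (hcomm n hn d hd) (hcomm n hn d' hd') e2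
  obtain ⟨-, -, g, hg, -⟩ := h.braid
  have hginv : g⁻¹ ∉ M := fun hh => hg (by simpa using M.inv_mem hh)
  set N := K₂ ⊓ (A ⊔ K₁)
  have hVN : Ve p τ ≤ N := le_inf ((hV.trans hK).trans hN0K2) (hV.trans le_sup_right)
  have hNQ : N ≤ Qe p τ := inf_le_left.trans hK2Q
  have cdN : IsCentralizerLarge N := (isCentralizerLarge_sup_inf cdK2 cdAK).2.1
  set Ng := Cj τ g N
  have cdNg : IsCentralizerLarge Ng := h.cd_Cj g cdN hVN hNQ
  by_cases hcase : N₀ ⊓ Ng ≤ K₁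
  · intro n hn d hd
    have h1 : d ∈ centralizer ((N₀ ⊓ Ng : Subgroup S) : Set S) :=
      Subgroup.centralizer_le (SetLike.coe_subset_coe.2 hcase) hd
    rw [centralizer_inf_eq cd0 cdNg, h.centralizer_Cj g hVN hNQ] at h1
    set L := cen (N₀ : Set S) (Ce p τ) hCcen
    suffices hle : centralizer (N₀ : Set S) ⊔ Cj τ g (centralizer (N : Set S)) ≤ L from
      comm_mem_symm (hle h1 n hn)
    refine sup_le (fun x hx y hy => ?_) ?_
    · rw [(comm_eq_one_of_mem_centralizer hx hy).1]; exact one_mem _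
    have hCN : centralizer (N : Set S) ≤ Cj τ g⁻¹ (L ⊓ Qe p τ) := by
      rw [centralizer_inf_eq cdK2 cdAK, CfsgLib.Replacement.centralizer_sup, hA]
      refine sup_le (fun x hx => ?_) fun x hx => ?_
      · have hxQ : x ∈ Qe p τ :=
          hD1Q (Subgroup.centralizer_le (SetLike.coe_subset_coe.2 (hK.trans hN0K2)) hx)
        have hgx : cv τ g x ∈ Qe p τ ⊓ centralizer (K₂ : Set S) :=
          h.toPush.nrm_centralizer hK2Q nK2 g x ⟨hxQ, hx⟩
        refine (h.toPush.mem_Cj _ inf_le_right).2 ⟨cv τ g x, ⟨fun y hy => ?_, hgx.1⟩, h.toPush.cv_inv_cv g hxQ⟩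
        rw [(comm_eq_one_of_mem_centralizer hgx.2 (hN0K2 hy)).1]; exact one_mem _
      · have hxQ : x ∈ Qe p τ := hD1Q hx.2
        refine (h.toPush.mem_Cj _ inf_le_right).2
          ⟨cv τ g x, ⟨fun y hy => ?_, h.toPush.cv_mem g hxQ⟩, h.toPush.cv_inv_cv g hxQ⟩
        have h2 := claim1 g⁻¹ hginv y hy x hx
        have h3 := h.toPush.nrm_Ce g _ h2
        rw [h.toPush.cv_comm g (h.toPush.cv_mem _ (hN hy)) hxQ, h.toPush.cv_cv_inv g (hN hy)] at h3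
        exact comm_mem_symm h3
    calc Cj τ g (centralizer (N : Set S)) ≤ Cj τ g (Cj τ g⁻¹ (L ⊓ Qe p τ)) := h.toPush.Cj_mono g hCN
      _ = L ⊓ Qe p τ := h.toPush.Cj_Cj_inv g inf_le_right
      _ ≤ L := inf_le_left
  · obtain ⟨n₀, hn₀, hn₀K⟩ := SetLike.not_le_iff_exists.1 hcase
    have hK1g : K₁ ≤ Ng := (h.toPush.Cj_of_nrm g hK1Q n1).symm.le.trans
      (h.toPush.Cj_mono g (le_inf (hK.trans hN0K2) le_sup_right))
    have h1 : centralizer (Ng : Set S) ≤ Y := fun d hd =>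
      atom n₀ hn₀.1 hn₀K d (Subgroup.centralizer_le (SetLike.coe_subset_coe.2 hK1g) hd)
        (comm_eq_one_of_mem_centralizer hd hn₀.2).2
    have h2 : N₀ ≤ Ng := by
      rw [← double_centralizer_eq cdNg]
      exact Subgroup.le_centralizer_iff.1 h1
    intro n hn d hd
    obtain ⟨w, hw, e⟩ := (h.toPush.mem_Cj g hNQ).1 (h2 hn)
    refine claim2 g⁻¹ hginv n hn ?_ d hd
    rw [← e, h.toPush.cv_inv_cv g (hNQ hw)]
    exact hw.2

end CfsgLib.Minimal.GN
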