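import Cfsg.Agent.Lib.Minimal.GNSetup
import Cfsg.Agent.Lib.Replacement.JTransfer
import Cfsg.Agent.Lib.TwoGroupTricks.CentrallyLargeMin
import Cfsg.Agent.Lib.TwoGroupTricks.CentrallyLargeReplace
import Cfsg.Agent.S2769
import Cfsg.Agent.S2770
import Cfsg.Agent.S2990

/-!
Pushing up: characteristic pairs outside the exceptional class.
-/

set_option autoImplicit false
set_option linter.unusedSectionVars false
set_option linter.style.haveILetI false

open Subgroup
open scoped Pointwise
open scoped commutatorElement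

namespace CfsgLib.Minimal.GN

open Cfsg CfsgLib.TwoGroupTricks

universe u

variable {S : Type u} [Group S] [Finite S] {p : ℕ} [hp : Fact p.Prime]

/-- `Z(J(S))`. -/
def ZJ (S : Type*) [Group S] : Subgroup S :=
  Cfsg.thompsonSubgroupA S ⊓ centralizer (Cfsg.thompsonSubgroupA S : Set S)

/-- `J̃(S)`. -/
def JT (S : Type*) [Group S] : Subgroup S := centralizer (ZJ S : Set S)

/-- A group with a Sylow subgroup `S` in the pushing-up situation. -/
structure Sit (p : ℕ) {G : Type u} [Group G] (τ : S →* G) : Prop where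
  inj : Function.Injective τ
  syl : ∃ P : Sylow p G, (P : Subgroup G) = τ.range
  char2 : centralizer (Cfsg.pCore p G : Set G) ≤ Cfsg.pCore p G
  uniq : ∃! M : Subgroup G, IsCoatom M ∧ τ.range ≤ M
  quot : ∃ (K : Subgroup G) (_ : K.Normal) (F : Type) (_ : Field F) (_ : Fintype F) (n : ℕ),
    1 ≤ n ∧ Fintype.card F = p ^ n ∧
      Nonempty (G ⧸ K ≃* Matrix.ProjectiveSpecialLinearGroup (Fin 2) F)

theorem sit_of_situation {G : Type u} [Group G] [Finite G] (P : Subgroup G) (e : S ≃* ↥P)
    (h : Cfsg.IsPushingUpSituation p P) : Sit p (P.subtype.comp e.toMonoidHom) := by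
  have hr : (P.subtype.comp e.toMonoidHom).range = P := by
    rw [MonoidHom.range_comp, MonoidHom.range_eq_top.2 e.surjective, ← MonoidHom.range_eq_map,
      Subgroup.range_subtype]
  obtain ⟨-, hP, hc, hu, K, hK, F, iF, iFt, n, hF, he⟩ := h
  refine ⟨P.subtype_injective.comp e.injective, by rw [hr]; exact hP, hc, by rw [hr]; exact hu,
    K, hK, F, iF, iFt, n, ?_, hF, he⟩
  by_contra hn
  have h1 := Fintype.one_lt_card (α := F)
  rw [hF, show n = 0 by omega, pow_zero] at h1
  omega

/-- The conclusion of the pushing-up theorems for a pair of subgroups. -/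
structure GoodPair (p : ℕ) (S₁ S₂ : Subgroup S) : Prop where
  ne₁ : S₁ ≠ ⊥
  ne₂ : S₂ ≠ ⊥
  char₁ : S₁.Characteristic
  char₂ : S₂.Characteristic
  le₁ : S₁ ≤ Subgroup.center S
  le₂ : S₂ ≤ JT S
  charJ : (S₂.subgroupOf (JT S)).Characteristic
  normal : ∀ (G : Type u) [Group G] [Finite G] (τ : S →* G), Sit p τ →
    (S₁.map τ).Normal ∨ (S₂.map τ).Normal

/-! ### Elementary facts -/

theorem range_inf_centralizer {G : Type*} [Group G] {f : S →* G} (hf : Function.Injective f) :
    f.range ⊓ centralizer (f.range : Set G) = (Subgroup.center S).map f := by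
  ext x
  constructor
  · rintro ⟨⟨s, rfl⟩, hx⟩
    exact ⟨s, Subgroup.mem_center_iff.2 fun t => hf (by rw [map_mul, map_mul, hx (f t) ⟨t, rfl⟩]), rfl⟩
  · rintro ⟨s, hs, rfl⟩
    refine ⟨⟨s, rfl⟩, ?_⟩
    rintro _ ⟨t, rfl⟩
    rw [← map_mul, ← map_mul, Subgroup.mem_center_iff.1 hs t]

theorem map_inf_centralizer {G : Type*} [Group G] {f : S →* G} (hf : Function.Injective f) (K H : Subgroup S) :
    K.map f ⊓ centralizer (H.map f : Set G) = (K ⊓ centralizer (H : Set S)).map f := by
  ext x
  constructor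
  · rintro ⟨⟨k, hk, rfl⟩, hx⟩
    exact ⟨k, ⟨hk, fun h hh => hf (by rw [map_mul, map_mul, hx (f h) ⟨h, hh, rfl⟩])⟩, rfl⟩
  · rintro ⟨k, ⟨hk, hkH⟩, rfl⟩
    refine ⟨⟨k, hk, rfl⟩, ?_⟩
    rintro _ ⟨h, hh, rfl⟩
    rw [← map_mul, ← map_mul, hkH h hh]

theorem centerThompsonAOf_range {G : Type*} [Group G] {f : S →* G} (hf : Function.Injective f) :
    Cfsg.centerThompsonAOf f.range = (ZJ S).map f := by
  have e : Cfsg.thompsonSubgroupAOf f.range = (Cfsg.thompsonSubgroupA S).map f := by
    rw [MonoidHom.range_eq_map, ← CfsgLib.NormalPComplement.map_thompsonSubgroupAOf hf,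
      CfsgLib.Replacement.JEngel.thompsonSubgroupAOf_top]
  rw [Cfsg.centerThompsonAOf, e, map_inf_centralizer hf]
  rfl

theorem thompson_char (S : Type u) [Group S] : (Cfsg.thompsonSubgroupA S).Characteristic := by
  refine Subgroup.characteristic_iff_map_eq.2 fun α => ?_
  rw [← CfsgLib.Replacement.JEngel.thompsonSubgroupAOf_top,
    CfsgLib.NormalPComplement.map_thompsonSubgroupAOf (f := α.toMonoidHom) α.injective,
    Subgroup.map_top_of_surjective _ α.surjective]

theorem centralizer_char {H : Subgroup S} (hH : H.Characteristic) :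
    (centralizer (H : Set S)).Characteristic := by
  refine Subgroup.characteristic_iff_map_le.2 fun α => ?_
  rintro _ ⟨x, hx, rfl⟩ y hy
  have h1 : α.symm y ∈ H := by
    rw [← Subgroup.characteristic_iff_map_eq.1 hH α.symm]
    exact ⟨y, hy, rfl⟩
  have h2 := congrArg α (hx _ h1)
  simpa using h2

theorem inf_char {H K : Subgroup S} (hH : H.Characteristic) (hK : K.Characteristic) :
    (H ⊓ K).Characteristic := by
  refine Subgroup.characteristic_iff_map_le.2 fun α => ?_
  rintro _ ⟨x, hx, rfl⟩
  exact ⟨(Subgroup.characteristic_iff_map_eq.1 hH α).le ⟨x, hx.1, rfl⟩,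
    (Subgroup.characteristic_iff_map_eq.1 hK α).le ⟨x, hx.2, rfl⟩⟩

theorem ZJ_char (S : Type u) [Group S] [Finite S] : (ZJ S).Characteristic :=
  inf_char (thompson_char S) (centralizer_char (thompson_char S))

theorem JT_char (S : Type u) [Group S] [Finite S] : (JT S).Characteristic := centralizer_char (ZJ_char S)

theorem Fn_char (hS : IsPGroup p S) : (Fn p (⊤ : Subgroup S)).Characteristic := by
  refine Subgroup.characteristic_iff_map_eq.2 fun α => ?_
  rw [map_Fn hS, Subgroup.map_top_of_surjective _ α.surjective]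

theorem inf_center_ne_bot (hS : IsPGroup p S) {N : Subgroup S} (hN : N.Characteristic) (hne : N ≠ ⊥) :
    N ⊓ Subgroup.center S ≠ ⊥ := by
  haveI := hN
  obtain ⟨z, hz, hz1, hzc⟩ := CfsgLib.TwoGroups.exists_mem_center_of_normal hS hne
  exact fun e => hz1 (Subgroup.mem_bot.1 (e.le ⟨hz, hzc⟩))

theorem char_subgroupOf_top {H K : Subgroup S} (hH : H.Characteristic) (hK : K = ⊤) :
    (H.subgroupOf K).Characteristic := by
  subst hK
  refine Subgroup.characteristic_iff_map_le.2 fun α => ?_
  rintro _ ⟨x, hx, rfl⟩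
  let β : S ≃* S := (Subgroup.topEquiv.symm.trans α).trans Subgroup.topEquiv
  have h1 : β (x : S) ∈ H :=
    (Subgroup.characteristic_iff_map_eq.1 hH β).le ⟨(x : S), hx, rfl⟩
  exact h1

theorem center_le_JT (S : Type*) [Group S] : Subgroup.center S ≤ JT S :=
  Subgroup.center_le_centralizer _

theorem center_le_ZJ : Subgroup.center S ≤ ZJ S := by
  obtain ⟨A, hA⟩ := exists_maxAbelian S
  refine le_inf ?_ (Subgroup.center_le_centralizer _)
  refine le_trans ?_ (le_sSup hA : A ≤ Cfsg.thompsonSubgroupA S)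
  exact (Subgroup.center_le_centralizer _).trans (centralizer_eq_of_maxAbelian hA).le

theorem center_ne_bot [Nontrivial S] (hS : IsPGroup p S) : Subgroup.center S ≠ ⊥ := by
  haveI := hS.center_nontrivial
  exact fun e => not_nontrivial_iff_subsingleton.2 (by rw [e]; infer_instance)
    (inferInstance : Nontrivial (Subgroup.center S))

theorem JT_ne_bot [Nontrivial S] (hS : IsPGroup p S) : JT S ≠ ⊥ := fun e =>
  center_ne_bot hS (le_bot_iff.1 (e ▸ center_le_JT S))

theorem card_center_map {Y : Type*} [Group Y] (f : S →* Y) (hf : Function.Injective f) (R : Subgroup S) :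
    Nat.card (R.map f) * Nat.card (Subgroup.center (R.map f)) = Nat.card R * Nat.card (Subgroup.center R) := by
  rw [← Nat.card_congr (R.equivMapOfInjective f hf).toEquiv,
    ← Nat.card_congr (Subgroup.centerCongr (R.equivMapOfInjective f hf)).toEquiv]

theorem maxCentralProduct_of_centrallyLarge {X : Subgroup S} (hX : IsCentrallyLarge X) :
    maxCentralProduct ↥X = maxCentralProduct S := by
  refine le_antisymm ?_ ?_
  · obtain ⟨R, hR⟩ := exists_centrallyLarge ↥X
    rw [← hR, ← card_center_map X.subtype X.subtype_injective R]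
    exact le_maxCentralProduct _
  · have h1 := le_maxCentralProduct (⊤ : Subgroup X)
    rw [← card_center_map X.subtype X.subtype_injective, ← MonoidHom.range_eq_map,
      Subgroup.range_subtype] at h1
    exact hX ▸ h1

/-! ### The main situation -/

/-- What remains after the elementary reductions. -/
structure Main (p : ℕ) (S : Type u) [Group S] : Prop where
  noncomm : ¬ IsMulCommutative S
  J_top : Cfsg.thompsonSubgroupA S = ⊤
  elem : Cfsg.IsElementaryAbelian p (Subgroup.center S)
  large : maxCentralizerProduct S = Nat.card S * Nat.card (Subgroup.center S)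
  cl : ∀ A ∈ Cfsg.maxAbelianSubgroups S, IsCentralizerLarge A ∧ centralizer (A : Set S) = A

theorem Main.covered (hm : Main p S) : Covered S := by
  intro Q hQ
  by_contra! hcon
  refine hQ (top_le_iff.1 (hm.J_top ▸ sSup_le fun A hA => ?_))
  exact hcon A (hm.cl A hA).1 (hm.cl A hA).2

theorem Main.JT_top (hm : Main p S) : JT S = ⊤ := by
  have e : ZJ S ≤ Subgroup.center S := by
    rintro z ⟨-, hz⟩
    exact Subgroup.mem_center_iff.2 fun s => hz s (hm.J_top ▸ Subgroup.mem_top s)
  exact eq_top_iff.2 fun s _ z hz => (Subgroup.mem_center_iff.1 (e hz) s).symm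

theorem Main.pow_center (hm : Main p S) : ∀ z ∈ Subgroup.center S, z ^ p = 1 := hm.elem.2

/-- An embedding with the centre not normal. -/
theorem Sit.exists_bad (hS : IsPGroup p S) (hm : Main p S) {G : Type u} [Group G] [Finite G] {τ : S →* G}
    (hs : Sit p τ) (hbad : ¬ ((Subgroup.center S).map τ).Normal) :
    ∃ (q : ℕ) (M : Subgroup G), Bad p q τ M := by
  obtain ⟨M, ⟨hM, hSM⟩, huniq⟩ := hs.uniq
  obtain ⟨P, hP⟩ := hs.syl
  obtain ⟨K, hK, F, iF, iFt, n, hn, hF, ⟨θ⟩⟩ := hs.quot
  let π : G →* Matrix.ProjectiveSpecialLinearGroup (Fin 2) F := θ.toMonoidHom.comp (QuotientGroup.mk' K)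
  have hπ : Function.Surjective π := θ.surjective.comp (QuotientGroup.mk'_surjective K)
  obtain ⟨hpush, hproj, hKM⟩ := exists_push (n := n) (π := π) hS hs.inj P hP hs.char2 hM hSM huniq hn hF hπ
  exact ⟨_, M, GN.exists_bad hm.large hm.pow_center hbad hpush hM huniq hproj hKM⟩

/-! ### The reductions -/

theorem map_powerClosure_center {G : Type*} [Group G] {f : S →* G} (hf : Function.Injective f) :
    (Cfsg.powerClosure p 1 (Subgroup.center S)).map f =
      Cfsg.powerClosure p 1 (f.range ⊓ centralizer (f.range : Set G)) := by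
  rw [range_inf_centralizer hf, map_powerClosure]

theorem powerClosure_char {H : Subgroup S} (hH : H.Characteristic) :
    (Cfsg.powerClosure p 1 H).Characteristic := by
  refine Subgroup.characteristic_iff_map_eq.2 fun α => ?_
  rw [map_powerClosure, Subgroup.characteristic_iff_map_eq.1 hH α]

/-- Outside the main situation there is a good pair. -/
theorem exists_pair_of_not_main [Nontrivial S] (hS : IsPGroup p S) (hm : ¬ Main p S) :
    ∃ S₁ S₂ : Subgroup S, GoodPair p S₁ S₂ ∧ maxCentralProduct ↥S₂ = maxCentralProduct ↥(JT S) := by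
  by_cases hab : IsMulCommutative S
  · have hcent : Subgroup.center S = ⊤ := eq_top_iff.2 fun x _ =>
      Subgroup.mem_center_iff.2 fun y => hab.is_comm.comm y x
    have hJT : JT S = ⊤ := top_le_iff.1 (hcent ▸ center_le_JT S)
    refine ⟨⊤, ⊤, ⟨top_ne_bot, top_ne_bot, inferInstance, inferInstance, hcent.ge, hJT.ge,
      char_subgroupOf_top inferInstance hJT, ?_⟩, by rw [hJT]⟩
    intro G _ _ τ hs
    left
    have h1 : τ.range ≤ Cfsg.pCore p G := fun x hx => hs.char2 fun a ha => by
      obtain ⟨P, hP⟩ := hs.syl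
      obtain ⟨s, rfl⟩ := (hP ▸ CfsgLib.Cores.pCore_le_sylow P : Cfsg.pCore p G ≤ τ.range) ha
      obtain ⟨t, rfl⟩ := hx
      rw [← map_mul, ← map_mul, hab.is_comm.comm s t]
    obtain ⟨P, hP⟩ := hs.syl
    rw [← MonoidHom.range_eq_map,
      le_antisymm h1 (hP ▸ CfsgLib.Cores.pCore_le_sylow P : Cfsg.pCore p G ≤ τ.range)]
    exact Cfsg.pCore_normal p G
  by_cases hcom : ⁅ZJ S, (⊤ : Subgroup S)⁆ = ⊥
  swap
  · have hch : (⁅ZJ S, (⊤ : Subgroup S)⁆).Characteristic := by
      refine Subgroup.characteristic_iff_map_eq.2 fun α => ?_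
      rw [Subgroup.map_commutator, Subgroup.characteristic_iff_map_eq.1 (ZJ_char S) α,
        Subgroup.map_top_of_surjective _ α.surjective]
    refine ⟨⁅ZJ S, ⊤⁆ ⊓ Subgroup.center S, JT S, ⟨inf_center_ne_bot hS hch hcom, JT_ne_bot hS,
      inf_char hch inferInstance, JT_char S, inf_le_right, le_rfl,
      by rw [Subgroup.subgroupOf_self]; infer_instance, ?_⟩, rfl⟩
    intro G _ _ τ hs
    obtain ⟨P, hP⟩ := hs.syl
    obtain ⟨K, hK, F, iF, iFt, n, hn, hF, he⟩ := hs.quot
    have e1 : ⁅Cfsg.centerThompsonAOf (P : Subgroup G), (P : Subgroup G)⁆ =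
        (⁅ZJ S, (⊤ : Subgroup S)⁆).map τ := by
      rw [Subgroup.map_commutator, hP, centerThompsonAOf_range hs.inj, ← MonoidHom.range_eq_map]
    have h := Cfsg.Agent.S2769.result P hs.char2 (by rw [hP]; exact hs.uniq) K F n hn hF he
      (by rw [e1]; exact fun e => hcom ((Subgroup.map_eq_bot_iff_of_injective _ hs.inj).1 e))
    rw [e1, hP, range_inf_centralizer hs.inj, ← Subgroup.map_inf _ _ τ hs.inj,
      centerThompsonAOf_range hs.inj, MonoidHom.range_eq_map, map_inf_centralizer hs.inj, top_inf_eq] at h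
    exact h
  have hZJ : ZJ S = Subgroup.center S := by
    refine le_antisymm (fun z hz => Subgroup.mem_center_iff.2 fun s => ?_) center_le_ZJ
    exact (Subgroup.mem_centralizer_iff.1
      (Subgroup.commutator_eq_bot_iff_le_centralizer.1 hcom hz) s (Subgroup.mem_top s))
  have hJT : JT S = ⊤ := eq_top_iff.2 fun s _ z hz =>
    (Subgroup.mem_center_iff.1 (hZJ ▸ hz) s).symm
  by_cases hel : Cfsg.IsElementaryAbelian p (Subgroup.center S)
  swap
  · have hne : Cfsg.powerClosure p 1 (Subgroup.center S) ≠ ⊥ := fun e => hel ⟨inferInstance, fun a ha =>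
      Subgroup.mem_bot.1 (e.le (Subgroup.subset_closure ⟨a, ha, by rw [pow_one]⟩))⟩
    refine ⟨Cfsg.powerClosure p 1 (Subgroup.center S), JT S, ⟨hne, JT_ne_bot hS,
      powerClosure_char inferInstance, JT_char S, (Subgroup.closure_le _).2 ?_, le_rfl,
      by rw [Subgroup.subgroupOf_self]; infer_instance, ?_⟩, rfl⟩
    · rintro _ ⟨x, hx, rfl⟩; exact pow_mem hx _
    intro G _ _ τ hs
    obtain ⟨P, hP⟩ := hs.syl
    obtain ⟨K, hK, F, iF, iFt, n, hn, hF, he⟩ := hs.quot
    have h := Cfsg.Agent.S2770.result P hs.char2 (by rw [hP]; exact hs.uniq) K F n hn hF he (by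
      rw [hP, range_inf_centralizer hs.inj]
      exact fun h => hel ⟨inferInstance, fun a ha => hs.inj (by
        rw [map_pow, h.2 (τ a) ⟨a, ha, rfl⟩, map_one])⟩)
    rw [hP, ← map_powerClosure_center hs.inj, centerThompsonAOf_range hs.inj, MonoidHom.range_eq_map,
      map_inf_centralizer hs.inj, top_inf_eq] at h
    exact h
  obtain ⟨Q, hQ⟩ := exists_minimalCentrallyLarge S
  by_cases hQab : ⁅Q, Q⁆ = ⊥
  · -- everything is in the main situation
    exfalso
    have hiff := minimal_iff_maxAbelian hQ ((isMulCommutative_iff_le_centralizer Q).2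
      (Subgroup.commutator_eq_bot_iff_le_centralizer.1 hQab))
    have hcl : ∀ A ∈ Cfsg.maxAbelianSubgroups S, IsCentrallyLarge A := fun A hA => ((hiff A).2 hA).1
    have hJL : IsCentrallyLarge (Cfsg.thompsonSubgroupA S) := isCentrallyLarge_sSup hcl (exists_maxAbelian S)
    obtain ⟨hJl, hJc⟩ := (isCentrallyLarge_iff _).1 hJL
    have hCJ : centralizer (Cfsg.thompsonSubgroupA S : Set S) = Subgroup.center S := by
      rw [← hZJ]; exact (inf_eq_right.2 hJc).symm
    have hJ : Cfsg.thompsonSubgroupA S = ⊤ := by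
      rw [← double_centralizer_eq hJl, hCJ, eq_top_iff]
      exact fun s _ z hz => (Subgroup.mem_center_iff.1 hz s).symm
    refine hm ⟨hab, hJ, hel, ?_, fun A hA =>
      ⟨((isCentrallyLarge_iff A).1 (hcl A hA)).1, centralizer_eq_of_maxAbelian hA⟩⟩
    rw [← hJl, hCJ, hJ, Subgroup.card_top]
  have hchQ : (⁅Q, Q⁆).Characteristic := Subgroup.characteristic_iff_map_eq.2 fun e => by
    rw [Subgroup.map_commutator]
    exact minimal_commutator_eq (isMinimalCentrallyLarge_map e hQ) hQ
  have hchJ : (Cfsg.minimalCentrallyLargeJoin S).Characteristic := by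
    refine Subgroup.characteristic_iff_map_le.2 fun e => ?_
    rw [Subgroup.map_le_iff_le_comap]
    refine sSup_le fun R hR => ?_
    rw [← Subgroup.map_le_iff_le_comap]
    exact le_sSup (isMinimalCentrallyLarge_map e hR)
  have hJcl : IsCentrallyLarge (Cfsg.minimalCentrallyLargeJoin S) :=
    isCentrallyLarge_sSup (fun R hR => hR.1) ⟨Q, hQ⟩
  have hne2 : Cfsg.minimalCentrallyLargeJoin S ≠ ⊥ := by
    intro e
    refine center_ne_bot hS (le_bot_iff.1 (e ▸ ?_))
    exact (Subgroup.center_le_centralizer _).trans ((isCentrallyLarge_iff _).1 hJcl).2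
  refine ⟨⁅Q, Q⁆ ⊓ Subgroup.center S, Cfsg.minimalCentrallyLargeJoin S, ⟨inf_center_ne_bot hS hchQ hQab,
    hne2, inf_char hchQ inferInstance, hchJ, inf_le_right, hJT ▸ le_top, char_subgroupOf_top hchJ hJT, ?_⟩, ?_⟩
  · intro G _ _ τ hs
    set P := τ.range
    let e : S ≃* ↥P := MonoidHom.ofInjective hs.inj
    have hcomp : P.subtype.comp e.toMonoidHom = τ := MonoidHom.ext fun x => rfl
    obtain ⟨K, hK, F, iF, iFt, n, hn, hF, he⟩ := hs.quot
    have hne : (⊤ : Subgroup G) ≠ ⊥ := by
      haveI : Nontrivial G := hs.inj.nontrivial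
      exact top_ne_bot
    have hE : Cfsg.IsPushingUpSituation p P := ⟨hne, hs.syl, hs.char2, hs.uniq, K, hK, F, iF, iFt, n, hF, he⟩
    have hJ' : P ≤ centralizer (Cfsg.centerThompsonAOf P : Set G) := by
      rw [centerThompsonAOf_range hs.inj, hZJ]
      rintro _ ⟨s, rfl⟩ _ ⟨z, hz, rfl⟩
      rw [← map_mul, ← map_mul, Subgroup.mem_center_iff.1 hz s]
    have hmin : ∀ {A B : Type u} [Group A] [Finite A] [Group B] [Finite B] (f : A ≃* B) (R : Subgroup A),
        IsMinimalCentrallyLarge R → IsMinimalCentrallyLarge (R.map f.toMonoidHom) := by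
      intro A B _ _ _ _ f R hR
      have hmax : maxCentralProduct A = maxCentralProduct B := by
        refine le_antisymm ?_ ?_
        · obtain ⟨X, hX⟩ := exists_centrallyLarge A
          rw [← hX, ← card_center_map f.toMonoidHom f.injective X]
          exact le_maxCentralProduct _
        · obtain ⟨X, hX⟩ := exists_centrallyLarge B
          rw [← hX, ← card_center_map f.symm.toMonoidHom f.symm.injective X]
          exact le_maxCentralProduct _
      refine ⟨?_, fun R' hle hR' => ?_⟩
      · unfold IsCentrallyLarge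
        rw [card_center_map f.toMonoidHom f.injective R, ← hmax]
        exact hR.1
      · have h1 : IsCentrallyLarge (R'.map f.symm.toMonoidHom) := by
          unfold IsCentrallyLarge
          rw [card_center_map f.symm.toMonoidHom f.symm.injective R', hmax]
          exact hR'
        have h2 := hR.2 _ (by
          rintro _ ⟨x, hx, rfl⟩
          obtain ⟨y, hy, rfl⟩ := hle hx
          show f.symm (f y) ∈ R
          rwa [MulEquiv.symm_apply_apply]) h1
        rw [← h2, Subgroup.map_map,
          show f.toMonoidHom.comp f.symm.toMonoidHom = MonoidHom.id B from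
            MonoidHom.ext fun x => f.apply_symm_apply x, Subgroup.map_id]
    have h := (Cfsg.Agent.S2990.result P hE hJ' (Q.map e.toMonoidHom) (hmin e Q hQ)).2.1
    have e1 : (⁅Q.map e.toMonoidHom, Q.map e.toMonoidHom⁆).map P.subtype = (⁅Q, Q⁆).map τ := by
      rw [← Subgroup.map_commutator, Subgroup.map_map, hcomp]
    have e2 : (Cfsg.minimalCentrallyLargeJoin ↥P).map P.subtype = (Cfsg.minimalCentrallyLargeJoin S).map τ := by
      rw [← hcomp, ← Subgroup.map_map]
      congr 1
      refine le_antisymm (sSup_le fun R hR => ?_) (Subgroup.map_le_iff_le_comap.2 (sSup_le fun R hR => ?_))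
      · intro x hx
        refine ⟨e.symm x, ?_, e.apply_symm_apply x⟩
        exact (le_sSup (hmin e.symm R hR) : R.map e.symm.toMonoidHom ≤ _) ⟨x, hx, rfl⟩
      · rw [← Subgroup.map_le_iff_le_comap]
        exact le_sSup (hmin e R hR)
    rw [e1, e2, range_inf_centralizer hs.inj, ← Subgroup.map_inf _ _ τ hs.inj, inf_comm] at h
    exact h
  · obtain ⟨X, hX⟩ : ∃ X : Subgroup S, IsCentrallyLarge X ∧ X = JT S := by
      have h2 : IsCentrallyLarge (Cfsg.thompsonSubgroupA S ⊔ Cfsg.minimalCentrallyLargeJoin S) := by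
        rw [sup_comm]
        exact isCentrallyLarge_sup_sSup hJcl _ fun A hA Y hY => (centrallyLarge_sup_maxAbelian hY hA).1
      have h4 := centralizer_centerJ_le h2 le_sup_left
      exact ⟨_, h2, (top_le_iff.1 (hJT.ge.trans h4)).trans hJT.symm⟩
    rw [maxCentralProduct_of_centrallyLarge hJcl, ← hX.2, maxCentralProduct_of_centrallyLarge hX.1]

end CfsgLib.Minimal.GN
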