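import Cfsg.Agent.Lib.Minimal.GNLine

/-!
Pushing up two embeddings: if the closure of the two modules in one overgroup stays inside the core of
the other, the join of the modules is normal there.
-/

set_option autoImplicit false
set_option linter.unusedSectionVars false
set_option linter.style.haveILetI false

open Subgroup
open scoped Pointwise
open scoped commutatorElement

namespace CfsgLib.Minimal.GN

open Cfsg CfsgLib.TwoGroupTricks

universe u v w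

variable {S : Type u} [Group S] [Finite S]

/-- `S` has self-centralising centraliser-large subgroups outside every proper subgroup. -/
def Covered (S : Type u) [Group S] [Finite S] : Prop :=
  ∀ Q : Subgroup S, Q ≠ ⊤ → ∃ A : Subgroup S,
    IsCentralizerLarge A ∧ centralizer (A : Set S) = A ∧ ¬ A ≤ Q

/-- Shifting a commutator with values in the centre. -/
theorem comm_shift {x y z : S} (h1 : ⁅x, z⁆ ∈ Subgroup.center S)
    (h2 : ⁅x, ⁅z⁻¹, y⁻¹⁆⁆ ∈ Subgroup.center S) :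
    ⁅⁅y, x⁆, z⁆ = ⁅x, ⁅z⁻¹, y⁻¹⁆⁆ := by
  set w := ⁅z⁻¹, y⁻¹⁆ with hw
  have h3 : ⁅y * x * y⁻¹, z⁆ = ⁅x, z⁆ * ⁅x, w⁆ := by
    have e : ⁅y * x * y⁻¹, z⁆ = y * ⁅x, z * w⁆ * y⁻¹ := by
      rw [← comm_conj y x (z * w)]
      congr 1
      simp [hw, commutatorElement_def, mul_assoc]
    rw [e, comm_mul_right_central le_rfl h2, Subgroup.mem_center_iff.1 (mul_mem h1 h2) y,
      mul_inv_cancel_right]
  have hxi : ⁅x⁻¹, z⁆ = ⁅x, z⁆⁻¹ := by
    have h4 : ⁅x * x⁻¹, z⁆ = x * ⁅x⁻¹, z⁆ * x⁻¹ * ⁅x, z⁆ := comm_mul_left _ _ _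
    rw [mul_inv_cancel, commutatorElement_one_left] at h4
    have h5 : x * ⁅x⁻¹, z⁆ * x⁻¹ = ⁅x, z⁆⁻¹ := eq_inv_of_mul_eq_one_left h4.symm
    calc ⁅x⁻¹, z⁆ = x⁻¹ * (x * ⁅x⁻¹, z⁆ * x⁻¹) * x := by group
      _ = ⁅x, z⁆⁻¹ := by
        rw [h5, mul_assoc, ← Subgroup.mem_center_iff.1 (inv_mem h1) x, inv_mul_cancel_left]
  rw [show ⁅y, x⁆ = (y * x * y⁻¹) * x⁻¹ from rfl,
    comm_mul_left_central le_rfl (hxi.symm ▸ inv_mem h1 : ⁅x⁻¹, z⁆ ∈ Subgroup.center S), h3, hxi,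
    inv_mul_cancel_left]

variable {Gb : Type v} [Group Gb] [Finite Gb] {Gc : Type w} [Group Gc] [Finite Gc]
variable {p qb qc : ℕ} {τb : S →* Gb} {Mb : Subgroup Gb} {τc : S →* Gc} {Mc : Subgroup Gc}

theorem Bad.Qe_ne_top {G : Type v} [Group G] [Finite G] {q : ℕ} {τ : S →* G} {M : Subgroup G}
    (h : Bad p q τ M) : Qe p τ ≠ ⊤ := by
  obtain ⟨u, hu, -⟩ := h.braid
  exact fun e => hu (e ▸ Subgroup.mem_top u)

theorem Bad.not_V_le_center {G : Type v} [Group G] [Finite G] {q : ℕ} {τ : S →* G} {M : Subgroup G}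
    (h : Bad p q τ M) : ¬ Ve p τ ≤ Subgroup.center S := by
  intro hle
  have h1 := Subgroup.card_le_of_le hle
  rw [h.cardV] at h1
  have := h.one_lt
  have h4 : 0 < Nat.card (Subgroup.center S) := Nat.card_pos
  nlinarith

theorem inf_V_le (hb : Bad p qb τb Mb) (hc : Bad p qc τc Mc) (hne : Ve p τb ≠ Ve p τc) :
    Ve p τb ⊓ Ve p τc ≤ Subgroup.center S := by
  rintro v ⟨hvb, hvc⟩
  by_cases h1 : Qe p τc ≤ Qe p τb
  · obtain ⟨u, hub, huc⟩ := SetLike.exists_of_lt (lt_of_le_of_ne h1 fun e => hne (by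
      rw [← hb.cQ, ← hc.cQ, e]))
    exact hc.fixed huc hvc (hb.comm_QV hub hvb).2
  · obtain ⟨u, huc, hub⟩ := SetLike.not_le_iff_exists.1 h1
    exact hb.fixed hub hvb (hc.comm_QV huc hvc).2

theorem sup_Q (hb : Bad p qb τb Mb) (hc : Bad p qc τc Mc) (hne : Ve p τb ≠ Ve p τc) :
    Qe p τb ⊔ Qe p τc = ⊤ := by
  have cd := (isCentralizerLarge_sup_inf hb.cd hc.cd).1
  have h1 := double_centralizer_eq cd
  rw [CfsgLib.Replacement.centralizer_sup, hb.cQ, hc.cQ] at h1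
  rw [← h1, eq_top_iff]
  intro s _ v hv
  exact (Subgroup.mem_center_iff.1 (inf_V_le hb hc hne hv) s).symm

theorem exists_mul (hb : Bad p qb τb Mb) (hc : Bad p qc τc Mc) (hne : Ve p τb ≠ Ve p τc) (s : S) :
    ∃ y ∈ Qe p τb, ∃ r ∈ Qe p τc, s = y * r := by
  have h1 : s ∈ ((Qe p τb ⊔ Qe p τc : Subgroup S) : Set S) := by
    rw [sup_Q hb hc hne]; exact Subgroup.mem_top s
  rw [coe_sup_eq_mul hb.cd hc.cd] at h1
  obtain ⟨y, hy, r, hr, rfl⟩ := h1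
  exact ⟨y, hy, r, hr, rfl⟩

theorem V_le_symm (hb : Bad p qb τb Mb) (hc : Bad p qc τc Mc) (hcb : Ve p τc ≤ Qe p τb) :
    Ve p τb ≤ Qe p τc := by
  rw [← hc.cV]
  rw [← hb.cV] at hcb
  exact Subgroup.le_centralizer_iff.1 hcb

variable (hS : Covered S) (hb : Bad p qb τb Mb) (hc : Bad p qc τc Mc) (hne : Ve p τb ≠ Ve p τc)
  (hcb : Ve p τc ≤ Qe p τb)
include hS hb hc hne hcb

/-- The first commutator bound. -/
theorem comm_Xcl : ∀ x ∈ Xcl τb (Ve p τb ⊔ Ve p τc), ∀ d ∈ Qe p τb, ⁅x, d⁆ ∈ Ce p τb := by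
  obtain ⟨A, hAcd, hA, hAQ⟩ := hS _ hb.Qe_ne_top
  set N₀ := Ve p τb ⊔ Ve p τc
  have hN : N₀ ≤ Qe p τb := sup_le hb.V_le hcb
  have hmul : ∀ n ∈ N₀, ∃ v ∈ Ve p τb, ∃ w ∈ Ve p τc, n = v * w := fun n hn => by
    rw [← SetLike.mem_coe, coe_sup_eq_mul hb.cd_V hc.cd_V] at hn
    obtain ⟨v, hv, w, hw, rfl⟩ := hn
    exact ⟨v, hv, w, hw, rfl⟩
  have hd1 : ∀ d ∈ centralizer (Ve p τb : Set S), d ∈ Qe p τb := fun d hd => hb.cV ▸ hd
  have hline := hb.line hAcd hA hAQ le_rfl le_sup_left hN hb.toPush.nrm_Ve hb.cd_V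
    (isCentralizerLarge_sup_inf hb.cd_V hc.cd_V).1
    (fun n hn d hd => by
      obtain ⟨v, hv, w, hw, rfl⟩ := hmul n hn
      rw [comm_mul_left_central le_rfl (hc.comm w hw d), (hb.comm_QV (hd1 d hd) hv).2, mul_one]
      exact hc.comm w hw d)
    (fun n hn hnV d hd e => by
      obtain ⟨v, hv, w, hw, rfl⟩ := hmul n hn
      rw [comm_mul_left_central le_rfl (hc.comm w hw d), (hb.comm_QV (hd1 d hd) hv).2, mul_one] at e
      have hwZ : w ∉ Subgroup.center S := fun h => hnV (mul_mem hv (hb.Z_le h))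
      show d ∈ centralizer ((Ve p τb ⊔ Ve p τc : Subgroup S) : Set S)
      rw [CfsgLib.Replacement.centralizer_sup, hc.cV]
      exact ⟨hd, hc.centralizer_eq hw hwZ e⟩)
  set L := cen (Qe p τb : Set S) (Ce p τb) hb.Ce_le_Z ⊓ Qe p τb
  have hn : Nrm τb L := by
    rintro g x ⟨hx, hxQ⟩
    refine ⟨fun d hd => ?_, hb.toPush.cv_mem g hxQ⟩
    have h1 := hb.toPush.nrm_Ce g _ (hx _ (hb.toPush.cv_mem g⁻¹ hd))
    rwa [hb.toPush.cv_comm g hxQ (hb.toPush.cv_mem _ hd), hb.toPush.cv_cv_inv g hd] at h1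
  have hle : N₀ ≤ L := fun n hn' => ⟨fun d hd => hline n hn' d (hb.cV.symm ▸ hd), hN hn'⟩
  exact fun x hx d hd => (hb.toPush.Xcl_le inf_le_right hn hle hx).1 d hd

/-- The second commutator bound. -/
theorem comm_Xcl_centralizer (hX : Xcl τc (Ve p τb ⊔ Ve p τc) ≤ Qe p τb) :
    ∀ x ∈ Xcl τc (Ve p τb ⊔ Ve p τc), ∀ d ∈ centralizer (Xcl τb (Ve p τb ⊔ Ve p τc) : Set S),
      ⁅x, d⁆ ∈ Ce p τb ⊓ Ce p τc := by
  obtain ⟨A, hAcd, hA, hAQ⟩ := hS _ hb.Qe_ne_top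
  set N₀ := Ve p τb ⊔ Ve p τc
  have hbc := V_le_symm hb hc hcb
  have hNb : N₀ ≤ Qe p τb := sup_le hb.V_le hcb
  have hNc : N₀ ≤ Qe p τc := sup_le hbc hc.V_le
  have cdN := (isCentralizerLarge_sup_inf hb.cd_V hc.cd_V).1
  set K₁ := Xcl τb N₀
  have hK1 : N₀ ≤ K₁ := hb.toPush.le_Xcl N₀
  have hK1Q : K₁ ≤ Qe p τb := hb.toPush.Xcl_le_Qe hNb
  have hCbc : Ce p τb ⊓ Ce p τc ≤ Subgroup.center S := inf_le_left.trans hb.Ce_le_Z
  have hsymm : ∀ x ∈ Xcl τc N₀, ∀ d ∈ Qe p τc, ⁅x, d⁆ ∈ Ce p τc := by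
    have := comm_Xcl hS hc hb hne.symm hbc
    rwa [sup_comm] at this
  have hDc : centralizer (K₁ : Set S) ≤ Qe p τc :=
    (Subgroup.centralizer_le (SetLike.coe_subset_coe.2 (le_sup_right.trans hK1))).trans hc.cV.le
  suffices hle : Xcl τc N₀ ≤ cen (centralizer (K₁ : Set S) : Set S) (Ce p τb ⊓ Ce p τc) hCbc from
    fun x hx d hd => hle hx d hd
  rw [hc.toPush.Xcl_eq hNc]
  refine iSup_le fun g => ?_
  set U := Cj τc g N₀
  have hUX : U ≤ Xcl τc N₀ := hc.toPush.Cj_le_of_nrm g (hc.toPush.Xcl_le_Qe hNc)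
    (hc.toPush.nrm_Xcl hNc) (hc.toPush.le_Xcl N₀)
  have cdU : IsCentralizerLarge U := hc.cd_Cj g cdN le_sup_right hNc
  have cdK : IsCentralizerLarge K₁ := hb.cd_Xcl cdN le_sup_left hNb
  have hmul : ∀ n ∈ K₁ ⊔ U, ∀ d ∈ centralizer (K₁ : Set S),
      ∃ x ∈ K₁, ∃ w ∈ U, n = x * w ∧ ⁅n, d⁆ = ⁅w, d⁆ := by
    intro n hn d hd
    rw [← SetLike.mem_coe, coe_sup_eq_mul cdK cdU] at hn
    obtain ⟨x, hx, w, hw, rfl⟩ := hn
    refine ⟨x, hx, w, hw, rfl, ?_⟩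
    have h1 := hsymm w (hUX hw) d (hDc hd)
    rw [comm_mul_left_central hc.Ce_le_Z h1, (comm_eq_one_of_mem_centralizer hd hx).2, mul_one]
  have hline := hb.line hAcd hA hAQ (le_sup_left.trans hK1) le_sup_left
    (sup_le hK1Q (hUX.trans hX)) (hb.toPush.nrm_Xcl hNb) cdK
    (isCentralizerLarge_sup_inf cdK cdU).1
    (fun n hn d hd => by
      obtain ⟨x, hx, w, hw, -, e⟩ := hmul n hn d hd
      rw [e]
      exact hc.Ce_le_Z (hsymm w (hUX hw) d (hDc hd)))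
    (fun n hn hnK d hd e => by
      obtain ⟨x, hx, w, hw, hxw, e'⟩ := hmul n hn d hd
      rw [e'] at e
      show d ∈ centralizer ((K₁ ⊔ U : Subgroup S) : Set S)
      rw [CfsgLib.Replacement.centralizer_sup]
      refine ⟨hd, ?_⟩
      obtain ⟨y, hy, rfl⟩ := (hc.toPush.mem_Cj g hNc).1 hw
      rw [← SetLike.mem_coe, coe_sup_eq_mul hb.cd_V hc.cd_V] at hy
      obtain ⟨v, hv, v', hv', rfl⟩ := hy
      have hv'' : cv τc g v' ∈ Ve p τc := hc.toPush.nrm_Ve g v' hv'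
      rw [hc.toPush.cv_mul g (hbc hv) (hc.V_le hv')] at e hxw
      have hvZ : v ∉ Subgroup.center S := fun hz => hnK (by
        rw [hxw]
        exact mul_mem hx (hK1 (mem_sup_right
          (mul_mem (hc.toPush.nrm_Ve g v (hc.Z_le hz)) hv''))))
      rw [comm_mul_left, (hc.comm_QV (hDc hd) hv'').2, mul_one, mul_inv_cancel, one_mul] at e
      have h1 := congrArg (cv τc g⁻¹) e
      rw [hc.toPush.cv_comm _ (hc.toPush.cv_mem g (hbc hv)) (hDc hd),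
        hc.toPush.cv_inv_cv g (hbc hv)] at h1
      have hone : cv τc g⁻¹ (1 : S) = 1 := hc.toPush.cv_Ce _ (one_mem _)
      rw [hone] at h1
      have hd' : cv τc g⁻¹ d ∈ centralizer (N₀ : Set S) := by
        rw [CfsgLib.Replacement.centralizer_sup, hb.cV, hc.cV]
        exact ⟨hb.centralizer_eq hv hvZ h1, hc.toPush.cv_mem _ (hDc hd)⟩
      change d ∈ centralizer (Cj τc g N₀ : Set S)
      rw [hc.centralizer_Cj g le_sup_right hNc,
        hc.toPush.mem_Cj g ((Subgroup.centralizer_le (SetLike.coe_subset_coe.2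
          (le_sup_right : Ve p τc ≤ N₀))).trans hc.cV.le)]
      exact ⟨_, hd', hc.toPush.cv_cv_inv g (hDc hd)⟩)
  exact fun w hw d hd => ⟨hline w (mem_sup_right hw) d hd, hsymm w (hUX hw) d (hDc hd)⟩

/-- The join of the two modules is normal in an overgroup whose closure stays in the other core. -/
theorem nrm_sup_V (hX : Xcl τc (Ve p τb ⊔ Ve p τc) ≤ Qe p τb) :
    Nrm τc (Ve p τb ⊔ Ve p τc) := by
  set N₀ := Ve p τb ⊔ Ve p τc
  have hbc := V_le_symm hb hc hcb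
  have hNb : N₀ ≤ Qe p τb := sup_le hb.V_le hcb
  have hNc : N₀ ≤ Qe p τc := sup_le hbc hc.V_le
  have cdN := (isCentralizerLarge_sup_inf hb.cd_V hc.cd_V).1
  set Xb := Xcl τb N₀
  set Xc := Xcl τc N₀
  have hXcQ : Xc ≤ Qe p τc := hc.toPush.Xcl_le_Qe hNc
  have hXbQ : Xb ≤ Qe p τb := hb.toPush.Xcl_le_Qe hNb
  have nXc := hc.toPush.nrm_Xcl hNc
  have cdXb : IsCentralizerLarge Xb := hb.cd_Xcl cdN le_sup_left hNb
  have cdXc : IsCentralizerLarge Xc := hc.cd_Xcl cdN le_sup_right hNc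
  have hXb : ∀ x ∈ Xb, ∀ d ∈ Qe p τb, ⁅x, d⁆ ∈ Ce p τb := comm_Xcl hS hb hc hne hcb
  have hXc : ∀ x ∈ Xc, ∀ d ∈ Qe p τc, ⁅x, d⁆ ∈ Ce p τc := by
    have := comm_Xcl hS hc hb hne.symm hbc
    rwa [sup_comm] at this
  have hXX := comm_Xcl_centralizer hS hb hc hne hcb hX
  set Cbc := Ce p τb ⊓ Ce p τc
  have hCbc : Cbc ≤ Subgroup.center S := inf_le_left.trans hb.Ce_le_Z
  set J := Xc ⊓ cen (Qe p τc : Set S) Cbc hCbc
  have hJX : J ≤ Xc := inf_le_left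
  have nJ : Nrm τc J := by
    rintro g x ⟨hx, hx'⟩
    refine ⟨nXc g x hx, fun d hd => ?_⟩
    have h1 := hx' _ (hc.toPush.cv_mem g⁻¹ hd)
    have h2 := hc.toPush.cv_comm g (hXcQ hx) (hc.toPush.cv_mem g⁻¹ hd)
    rw [hc.toPush.cv_cv_inv g hd, hc.toPush.cv_Ce g h1.2] at h2
    exact h2 ▸ h1
  have hXcn : Xc.Normal := hc.toPush.nrm_normal hXcQ nXc
  have hstep : ∀ s : S, ∀ x ∈ Xc, ⁅s, x⁆ ∈ J := by
    intro s x hx
    have hmem : ∀ s : S, ⁅s, x⁆ ∈ Xc := fun s => mul_mem (hXcn.conj_mem x hx s) (inv_mem hx)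
    have hcase : ∀ y ∈ Qe p τb, ⁅y, x⁆ ∈ J := by
      intro y hy
      refine ⟨hmem y, fun z hz => ?_⟩
      have hw : ⁅z⁻¹, y⁻¹⁆ ∈ centralizer ((Xb ⊓ Xc : Subgroup S) : Set S) :=
        mem_centralizer_of_comm fun i hi => by
          rw [← commutatorElement_inv i,
            commute_comm (hc.Ce_le_Z (hXc i hi.2 _ (inv_mem hz))) (hb.Ce_le_Z (hXb i hi.1 _ (inv_mem hy))),
            inv_one]
      rw [centralizer_inf_eq cdXb cdXc, ← SetLike.mem_coe,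
        coe_sup_eq_mul (isCentralizerLarge_centralizer cdXb) (isCentralizerLarge_centralizer cdXc)] at hw
      obtain ⟨a, ha, e', he', e⟩ := hw
      have h1 : ⁅x, a⁆ ∈ Cbc := hXX x hx a ha
      have h2 : ⁅x, e'⁆ = 1 := (comm_eq_one_of_mem_centralizer he' hx).2
      have h3 : ⁅x, ⁅z⁻¹, y⁻¹⁆⁆ ∈ Cbc := by
        rw [← e, comm_mul_right, h2, mul_one, mul_inv_cancel, mul_one]
        exact h1
      rw [comm_shift (hc.Ce_le_Z (hXc x hx z hz)) (hCbc h3)]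
      exact h3
    obtain ⟨y, hy, r, hr, rfl⟩ := exists_mul hb hc hne s
    have h1 : ⁅r, x⁆ ∈ Ce p τc := comm_mem_symm (hXc x hx r hr)
    rw [comm_mul_left, Subgroup.mem_center_iff.1 (hc.Ce_le_Z h1) y, mul_inv_cancel_right]
    refine mul_mem ⟨hmem r, fun d _ => ?_⟩ (hcase y hy)
    rw [commutatorElement_eq_one_iff_mul_comm.2 (Subgroup.mem_center_iff.1 (hc.Ce_le_Z h1) d).symm]
    exact one_mem _
  set H := N₀ ⊔ J
  have hHX : H ≤ Xc := sup_le (hc.toPush.le_Xcl N₀) hJX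
  have nH : Nrm τc H := fun g x hx => by
    have h1 := H.mul_mem (mem_sup_right (hc.toPush.secFix_top hXcQ hJX nXc nJ hstep g (hHX hx))) hx
    rwa [inv_mul_cancel_right] at h1
  set R := Qe p τc ⊓ cen (H : Set S) Cbc hCbc
  have nR : Nrm τc R := by
    rintro g r ⟨hr, hr'⟩
    refine ⟨hc.toPush.cv_mem g hr, fun x hx => ?_⟩
    have hx' := nH g⁻¹ x hx
    have h1 := hr' _ hx'
    have h2 := hc.toPush.cv_comm g hr (hXcQ (hHX hx'))
    rw [hc.toPush.cv_cv_inv g (hXcQ (hHX hx)), hc.toPush.cv_Ce g h1.2] at h2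
    exact h2 ▸ h1
  have hR : R = Qe p τb ⊓ Qe p τc := by
    refine le_antisymm ?_ ?_
    · rintro r ⟨hrc, hr'⟩
      refine ⟨by_contra fun hrQ => hb.not_V_le_center fun v hv => ?_, hrc⟩
      exact hb.fixC r hrQ v hv (comm_mem_symm (hr' v (mem_sup_left (mem_sup_left hv))).1)
    · rintro r ⟨hrb, hrc⟩
      refine ⟨hrc, ?_⟩
      suffices hle : H ≤ cen {r} Cbc hCbc from fun x hx => comm_mem_symm (hle hx r rfl)
      refine sup_le (sup_le (fun v hv t ht => ?_) fun v hv t ht => ?_) fun j hj t ht => ?_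
      · rw [Set.mem_singleton_iff.1 ht, (hb.comm_QV hrb hv).2]; exact one_mem _
      · rw [Set.mem_singleton_iff.1 ht, (hc.comm_QV hrc hv).2]; exact one_mem _
      · rw [Set.mem_singleton_iff.1 ht]; exact hj.2 r hrc
  rw [hR] at nR
  have h1 := hc.toPush.nrm_centralizer inf_le_right nR
  rwa [centralizer_inf_eq hb.cd hc.cd, hb.cQ, hc.cQ, inf_eq_right.2 hNc] at h1

end CfsgLib.Minimal.GN
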