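import Cfsg.Agent.Lib.Minimal.GNBase
import Cfsg.Agent.Lib.PSolvable.Products
import Mathlib.Algebra.Ring.GeomSum
import Mathlib.Tactic.NoncommRing

/-!
Pushing up: natural sections, their scalar elements, and linearised sections.
-/

set_option autoImplicit false
set_option linter.unusedSectionVars false
set_option linter.style.haveILetI false

open Subgroup
open scoped Pointwise
open scoped commutatorElement

namespace CfsgLib.Minimal.GN

universe u v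

/-- With `ab = -1` on `W`, the word `(1+ka)(1+mb)(1+ka)` with `km = 1` differs from the one with `k = m = 1`
by scalars. -/
theorem scalar_alg {A : Type*} [AddCommGroup A] (W W' : AddSubgroup A) (a b : AddMonoid.End A)
    (ha0 : ∀ w ∈ W, a w = 0) (hb0 : ∀ w ∈ W', b w = 0) (haW : ∀ x, a x ∈ W) (hbW : ∀ x, b x ∈ W')
    (hdis : ∀ x ∈ W, x ∈ W' → x = 0) (hinj : ∀ w ∈ W', a w = 0 → w = 0)
    (hn : ∀ w ∈ W, ((1 + a) * (1 + b) * (1 + a) : AddMonoid.End A) w ∈ W')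
    (k m : ℕ) (hkm : ∀ x : A, (k * m) • x = x) :
    (∀ w ∈ W, ((1 + k • a) * (1 + m • b) * (1 + k • a) : AddMonoid.End A) w =
        m • ((1 + a) * (1 + b) * (1 + a) : AddMonoid.End A) w ∧
        ((1 + a) * (1 + b) * (1 + a) : AddMonoid.End A) w = b w) ∧
    (∀ w ∈ W', ((1 + k • a) * (1 + m • b) * (1 + k • a) : AddMonoid.End A) w =
        k • ((1 + a) * (1 + b) * (1 + a) : AddMonoid.End A) w ∧
        ((1 + a) * (1 + b) * (1 + a) : AddMonoid.End A) w = a w) := by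
  have heval : ∀ (r s : ℕ) (x : A), ((1 + r • a) * (1 + s • b) * (1 + r • a) : AddMonoid.End A) x =
      (x + r • a x) + s • b (x + r • a x) + r • a ((x + r • a x) + s • b (x + r • a x)) := by
    intro r s x
    simp only [AddMonoid.End.coe_mul, Function.comp_apply]
    rfl
  have h11 : ((1 + a) * (1 + b) * (1 + a) : AddMonoid.End A) =
      (1 + (1 : ℕ) • a) * (1 + (1 : ℕ) • b) * (1 + (1 : ℕ) • a) := by simp
  have hab : ∀ w ∈ W, a (b w) = -w := fun w hw => by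
    have h1 := hn w hw
    rw [h11, heval] at h1
    simp only [ha0 w hw, one_smul, add_zero, map_add, zero_add] at h1
    have h2 : w + a (b w) ∈ W' := by
      have e : w + b w + a (b w) - b w = w + a (b w) := by abel
      exact e ▸ W'.sub_mem h1 (hbW w)
    have h3 := hdis _ (W.add_mem hw (haW _)) h2
    exact eq_neg_of_add_eq_zero_right h3
  have hba : ∀ w ∈ W', b (a w) = -w := fun w hw => by
    have h1 := hab _ (haW w)
    have h2 : a (b (a w) + w) = 0 := by rw [map_add, h1, neg_add_cancel]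
    exact eq_neg_of_add_eq_zero_left (hinj _ (W'.add_mem (hbW _) hw) h2)
  refine ⟨fun w hw => ?_, fun w hw => ?_⟩
  · have e : ∀ r s : ℕ, ((1 + r • a) * (1 + s • b) * (1 + r • a) : AddMonoid.End A) w =
        w + s • b w - (r * s) • w := by
      intro r s
      rw [heval]
      simp only [ha0 w hw, smul_zero, add_zero, map_add, map_nsmul, hab w hw, smul_neg, zero_add]
      rw [mul_smul, sub_eq_add_neg]
    rw [h11, e, e, hkm]
    simp
  · have e : ∀ r s : ℕ, ((1 + r • a) * (1 + s • b) * (1 + r • a) : AddMonoid.End A) w =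
        (w - (r * s) • w) + r • a w + r • (a w - (r * s) • a w) := by
      intro r s
      rw [heval]
      simp only [map_add, map_nsmul, hb0 w hw, hba w hw, ha0 _ (haW w), smul_neg, zero_add, add_zero,
        smul_zero, map_neg]
      simp only [← mul_smul, sub_eq_add_neg, smul_add, smul_neg]
      rw [show s * r = r * s from mul_comm _ _]
      abel
    rw [h11, e, e, hkm, hkm]
    simp

variable {S : Type u} [Group S] {G : Type v} [Group G] {p q : ℕ} {τ : S →* G} {M : Subgroup G}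

/-- A section linearised: an additive group with the action of `G`. -/
theorem Push.exists_rep (h : Push p q τ M) {M₁ M₀ : Subgroup S} (h1 : M₁ ≤ Qe p τ) (h0 : M₀ ≤ M₁)
    (n1 : Nrm τ M₁) (n0 : Nrm τ M₀) (hc : ∀ a ∈ M₁, ∀ b ∈ M₁, ⁅a, b⁆ ∈ M₀) :
    ∃ (A : Type u) (_ : AddCommGroup A) (π : S → A) (ρ : G →* AddMonoid.End A),
      (∀ a : A, ∃ x ∈ M₁, π x = a) ∧ (∀ x ∈ M₁, ∀ y ∈ M₁, π (x * y) = π x + π y) ∧
      (∀ x ∈ M₁, ∀ y ∈ M₁, π x = π y ↔ x * y⁻¹ ∈ M₀) ∧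
      (∀ (g : G), ∀ x ∈ M₁, ρ g (π x) = π (cv τ g x)) := by
  classical
  haveI : (M₀.subgroupOf M₁).Normal := ⟨fun y hy w => by
    have h1 := hc _ w.2 _ y.2
    rw [Subgroup.mem_subgroupOf] at hy ⊢
    simpa [commutatorElement_def, mul_assoc] using M₀.mul_mem h1 hy⟩
  letI : CommGroup (↥M₁ ⧸ M₀.subgroupOf M₁) :=
    { (inferInstance : Group (↥M₁ ⧸ M₀.subgroupOf M₁)) with
      mul_comm := fun a b => by
        induction a using QuotientGroup.induction_on with | _ a =>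
        induction b using QuotientGroup.induction_on with | _ b =>
        rw [← QuotientGroup.mk_mul, ← QuotientGroup.mk_mul, QuotientGroup.eq,
          Subgroup.mem_subgroupOf]
        have h1 := hc _ (M₁.inv_mem b.2) _ (M₁.inv_mem a.2)
        simpa [commutatorElement_def, mul_assoc] using h1 }
  let π : S → Additive (↥M₁ ⧸ M₀.subgroupOf M₁) := fun x =>
    if hx : x ∈ M₁ then Additive.ofMul (QuotientGroup.mk ⟨x, hx⟩) else 0
  have hπ : ∀ x (hx : x ∈ M₁), π x = Additive.ofMul (QuotientGroup.mk (⟨x, hx⟩ : ↥M₁)) :=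
    fun x hx => dif_pos hx
  let act : G → (↥M₁ →* ↥M₁) := fun g =>
    MonoidHom.mk' (fun x => ⟨cv τ g x, n1 g x x.2⟩) fun x y => Subtype.ext (h.cv_mul g (h1 x.2) (h1 y.2))
  let θ : G → AddMonoid.End (Additive (↥M₁ ⧸ M₀.subgroupOf M₁)) := fun g =>
    MonoidHom.toAdditive (QuotientGroup.map _ _ (act g) fun x hx => n0 g _ hx)
  refine ⟨_, inferInstance, π,
    { toFun := θ, map_one' := ?_, map_mul' := fun a b => ?_ }, ?_, ?_, ?_, ?_⟩
  · ext a
    obtain ⟨x, hx⟩ := QuotientGroup.mk_surjective a.toMul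
    obtain rfl : Additive.ofMul (QuotientGroup.mk x) = a := congrArg Additive.ofMul hx
    show Additive.ofMul (QuotientGroup.mk (act 1 x)) = _
    rw [show act 1 x = x from Subtype.ext (h.cv_one (h1 x.2))]
    rfl
  · ext c
    obtain ⟨x, hx⟩ := QuotientGroup.mk_surjective c.toMul
    obtain rfl : Additive.ofMul (QuotientGroup.mk x) = c := congrArg Additive.ofMul hx
    show Additive.ofMul (QuotientGroup.mk (act (a * b) x)) = _
    rw [show act (a * b) x = act a (act b x) from Subtype.ext (h.cv_cv a b (h1 x.2)).symm]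
    rfl
  · intro a
    obtain ⟨x, hx⟩ := QuotientGroup.mk_surjective a.toMul
    exact ⟨x, x.2, (hπ x x.2).trans (congrArg Additive.ofMul hx)⟩
  · intro x hx y hy
    rw [hπ _ (mul_mem hx hy), hπ _ hx, hπ _ hy]
    rfl
  · intro x hx y hy
    rw [hπ _ hx, hπ _ hy, Additive.ofMul.injective.eq_iff, eq_comm, QuotientGroup.eq,
      Subgroup.mem_subgroupOf]
    show y⁻¹ * x ∈ M₀ ↔ x * y⁻¹ ∈ M₀
    constructor <;> intro hh
    · have := (inferInstance : (M₀.subgroupOf M₁).Normal).conj_mem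
        ⟨y⁻¹ * x, mul_mem (inv_mem hy) hx⟩ hh ⟨y, hy⟩
      simpa [Subgroup.mem_subgroupOf] using this
    · have := (inferInstance : (M₀.subgroupOf M₁).Normal).conj_mem
        ⟨x * y⁻¹, mul_mem hx (inv_mem hy)⟩ hh ⟨y⁻¹, inv_mem hy⟩
      simpa [Subgroup.mem_subgroupOf, mul_assoc] using this
  · intro g x hx
    rw [hπ _ hx, hπ _ (n1 g x hx)]
    rfl

/-- An element of `G` acting as scalars on natural sections. -/
def tel (τ : S →* G) (u : S) (g : G) (k m : ℕ) : G :=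
  (τ u ^ k * (g * τ u * g⁻¹) ^ m * τ u ^ k) * (τ u * (g * τ u * g⁻¹) * τ u)⁻¹

theorem one_add_pow {R : Type*} [Ring R] {a : R} (ha : a * a = 0) : ∀ k : ℕ, (1 + a) ^ k = 1 + k • a
  | 0 => by simp
  | k + 1 => by
    rw [pow_succ, one_add_pow ha k]
    simp only [nsmul_eq_mul, Nat.cast_succ, add_mul, mul_add, one_mul, mul_one, mul_assoc, ha, mul_zero]
    abel

theorem nsmul_mod {p : ℕ} {A : Type*} [AddCommGroup A] (hA : ∀ x : A, p • x = 0) {a b : ℕ}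
    (hab : a % p = b % p) (x : A) : a • x = b • x := by
  rw [← Nat.mod_add_div a p, ← Nat.mod_add_div b p, hab]
  simp only [add_smul, mul_comm p, mul_smul, hA, smul_zero]

variable [Finite S] [Finite G]

/-- A natural section: `W` is the fixed group of `S` and meets its conjugates trivially. -/
structure NatSec (p q : ℕ) (τ : S →* G) (M : Subgroup G) (M₁ W M₀ : Subgroup S) : Prop where
  le_Q : M₁ ≤ Qe p τ
  le_W : M₀ ≤ W
  W_le : W ≤ M₁
  nrm₁ : Nrm τ M₁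
  nrm₀ : Nrm τ M₀
  comm : ∀ a ∈ M₁, ∀ b ∈ M₁, ⁅a, b⁆ ∈ M₀
  pow : ∀ x ∈ M₁, x ^ p ∈ M₀
  step : ∀ s : S, ∀ x ∈ M₁, ⁅s, x⁆ ∈ W
  stepW : ∀ s : S, ∀ w ∈ W, ⁅s, w⁆ ∈ M₀
  fix : ∀ u : S, u ∉ Qe p τ → ∀ x ∈ M₁, ⁅u, x⁆ ∈ M₀ → x ∈ W
  inter : ∀ g : G, g ∉ M → ∀ w ∈ W, cv τ g w ∈ W → w ∈ M₀
  cardW : Nat.card W = q * Nat.card M₀
  card : Nat.card M₁ * Nat.card M₀ ≤ Nat.card W * Nat.card W

namespace NatSec

variable {M₁ W M₀ : Subgroup S} (N : NatSec p q τ M M₁ W M₀) (h : Push p q τ M)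
include N h

theorem decomp {g : G} (hg : g ∉ M) {x : S} (hx : x ∈ M₁) :
    ∃ w ∈ W, ∃ w' ∈ W, x = w * cv τ g w' := by
  have hWQ := N.W_le.trans N.le_Q
  have hle : ((W : Set S) * (Cj τ g W : Set S)) ⊆ M₁ := by
    rintro _ ⟨a, ha, b, hb, rfl⟩
    exact mul_mem (N.W_le ha) (h.Cj_le_of_nrm g N.le_Q N.nrm₁ N.W_le hb)
  have hinf : W ⊓ Cj τ g W ≤ M₀ := by
    rintro y ⟨hy, hy'⟩
    obtain ⟨w, hw, rfl⟩ := (h.mem_Cj g hWQ).1 hy'
    exact N.nrm₀ g w (N.inter g hg w hw hy)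
  have hc := CfsgLib.PSolvable.card_mul_mul_card_inf W (Cj τ g W)
  rw [h.card_Cj g hWQ] at hc
  have heq : ((W : Set S) * (Cj τ g W : Set S)) = M₁ := by
    refine Set.eq_of_subset_of_ncard_le hle ?_ (Set.toFinite _)
    rw [← Nat.card_coe_set_eq, ← Nat.card_coe_set_eq, SetLike.coe_sort_coe]
    refine Nat.le_of_mul_le_mul_right ?_ (Nat.card_pos (α := ↥(W ⊓ Cj τ g W)))
    rw [hc]
    exact (Nat.mul_le_mul_left _ (Subgroup.card_le_of_le hinf)).trans N.card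
  have hx' : x ∈ ((W : Set S) * (Cj τ g W : Set S)) := heq.symm ▸ hx
  obtain ⟨a, ha, b, hb, rfl⟩ := hx'
  obtain ⟨w', hw', rfl⟩ := (h.mem_Cj g hWQ).1 hb
  exact ⟨a, ha, w', hw', rfl⟩

theorem conj_cv_not_mem {g : G} (hg : g ∉ M) {w : S} (hw : w ∈ W) (hwM : w ∉ M₀) :
    cv τ g w ∉ W := fun hh => hwM (N.inter g hg w hw hh)

/-- Commutation with a conjugate of `W` covers `W`. -/
theorem exists_comm {g : G} (hg : g ∉ M) {w' : S} (hw' : w' ∈ W) (hwM : w' ∉ M₀) {w : S}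
    (hw : w ∈ W) : ∃ s : S, ⁅s, cv τ g w'⁆ * w⁻¹ ∈ M₀ := by
  haveI : (M₀.subgroupOf W).Normal := ⟨fun y hy a => by
    have h1 := N.comm _ (N.W_le a.2) _ (N.W_le y.2)
    rw [Subgroup.mem_subgroupOf] at hy ⊢
    simpa [commutatorElement_def, mul_assoc] using M₀.mul_mem h1 hy⟩
  set x := cv τ g w'
  have hx : x ∈ M₁ := N.nrm₁ g _ (N.W_le hw')
  let f : S →* ↥W ⧸ M₀.subgroupOf W :=
    MonoidHom.mk' (fun s => QuotientGroup.mk (⟨⁅s, x⁆, N.step s x hx⟩ : ↥W)) fun s t => by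
      set A : ↥W := ⟨⁅t, x⁆, N.step t x hx⟩
      set B : ↥W := ⟨⁅s, x⁆, N.step s x hx⟩
      set Z : ↥W := ⟨⁅s, ⁅t, x⁆⁆, N.le_W (N.stepW s _ (N.step t x hx))⟩
      have e : (⟨⁅s * t, x⁆, N.step (s * t) x hx⟩ : ↥W) = Z * A * B := Subtype.ext (by
        show ⁅s * t, x⁆ = ⁅s, ⁅t, x⁆⁆ * ⁅t, x⁆ * ⁅s, x⁆
        rw [comm_mul_left]; congr 1
        simp only [commutatorElement_def]; group)
      have hZ : (QuotientGroup.mk Z : ↥W ⧸ M₀.subgroupOf W) = 1 :=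
        (QuotientGroup.eq_one_iff Z).2 (N.stepW s _ (N.step t x hx))
      rw [e, QuotientGroup.mk_mul, QuotientGroup.mk_mul, hZ, one_mul, ← QuotientGroup.mk_mul,
        ← QuotientGroup.mk_mul, QuotientGroup.eq, Subgroup.mem_subgroupOf]
      have h2 := N.comm _ (N.W_le (W.inv_mem B.2)) _ (N.W_le (W.inv_mem A.2))
      simpa [commutatorElement_def, mul_assoc] using h2
  have hker : Nat.card f.ker ≤ Nat.card (Qe p τ) := by
    refine Subgroup.card_le_of_le fun s hs => by_contra fun hsQ => ?_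
    have h1 := (QuotientGroup.eq_one_iff _).1 (MonoidHom.mem_ker.1 hs)
    exact N.conj_cv_not_mem h hg hw' hwM (N.fix s hsQ x hx (Subgroup.mem_subgroupOf.1 h1))
  have hrange : f.range = ⊤ := by
    refine Subgroup.eq_top_of_le_card _ ?_
    have e1 : Nat.card S = Nat.card f.range * Nat.card f.ker := by
      rw [Subgroup.card_eq_card_quotient_mul_card_subgroup f.ker,
        Nat.card_congr (QuotientGroup.quotientKerEquivRange f).toEquiv]
    have e2 := Subgroup.card_eq_card_quotient_mul_card_subgroup (M₀.subgroupOf W)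
    rw [N.cardW, Nat.card_congr (Subgroup.subgroupOfEquivOfLe N.le_W).toEquiv] at e2
    have e3 : Nat.card (↥W ⧸ M₀.subgroupOf W) = q :=
      (Nat.eq_of_mul_eq_mul_right Nat.card_pos e2).symm
    refine Nat.le_of_mul_le_mul_right ?_ (Nat.card_pos (α := Qe p τ))
    rw [e3, ← h.card, e1]
    exact Nat.mul_le_mul_left _ hker
  obtain ⟨s, hs⟩ : QuotientGroup.mk (⟨w, hw⟩ : ↥W) ∈ f.range := hrange ▸ Subgroup.mem_top _
  refine ⟨s, ?_⟩
  have h1 : w⁻¹ * ⁅s, x⁆ ∈ M₀ := Subgroup.mem_subgroupOf.1 (QuotientGroup.eq.1 hs.symm)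
  have := (inferInstance : (M₀.subgroupOf W).Normal).conj_mem
    ⟨_, mul_mem (inv_mem hw) (N.step s x hx)⟩ h1 ⟨w, hw⟩
  simpa [Subgroup.mem_subgroupOf] using this

/-- The maximal subgroup normalises `W`. -/
theorem nrmM {c : G} (hc : c ∈ M) {w : S} (hw : w ∈ W) : cv τ c w ∈ W := by
  obtain ⟨-, -, g, hg, -⟩ := h.braid
  have hwQ := N.le_Q (N.W_le hw)
  have hcw := N.nrm₁ c w (N.W_le hw)
  obtain ⟨a, ha, b, hb, e⟩ := N.decomp h hg hcw
  by_cases hbM : b ∈ M₀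
  · rw [e]; exact mul_mem ha (N.le_W (N.nrm₀ g b hbM))
  exfalso
  obtain ⟨s, hs⟩ := N.exists_comm h hg hb hbM ha
  have hsg : (τ s * g)⁻¹ * c ∉ M := fun hh => by
    have h1 : (τ s * g)⁻¹ ∈ M := by simpa using M.mul_mem hh (M.inv_mem hc)
    have h2 := M.mul_mem (M.inv_mem (h.leM ⟨s, rfl⟩)) (M.inv_mem h1)
    exact hg (by simpa using h2)
  have hbQ := N.le_Q (N.W_le hb)
  set x := cv τ g b
  have hxQ := h.cv_mem g hbQ
  -- `cv c w` agrees with `cv (τ s * g) b` modulo `M₀`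
  have hd : cv τ c w * (cv τ (τ s * g) b)⁻¹ ∈ M₀ := by
    rw [← h.cv_cv _ _ hbQ, h.cv_tau s hxQ, e]
    have h1 := M₀.inv_mem hs
    rw [mul_inv_rev, inv_inv] at h1
    simpa [commutatorElement_def, mul_assoc] using h1
  have h2 := N.nrm₀ ((τ s * g)⁻¹) _ hd
  rw [h.cv_mul _ (h.cv_mem c hwQ) (inv_mem (h.cv_mem _ hbQ)), h.cv_inv _ (h.cv_mem _ hbQ),
    h.cv_inv_cv _ hbQ, h.cv_cv _ _ hwQ] at h2
  have h3 : cv τ ((τ s * g)⁻¹ * c) w ∈ W := by simpa using W.mul_mem (N.le_W h2) hb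
  have hw0 := N.inter _ hsg w hw h3
  have h4 : cv τ g b ∈ W := by
    have : x = a⁻¹ * cv τ c w := by rw [e]; group
    rw [show cv τ g b = x from rfl, this]
    exact mul_mem (inv_mem ha) (N.le_W (N.nrm₀ c w hw0))
  exact hbM (N.inter g hg b hb h4)

/-- The scalar elements, and how they move the image of `S`. -/
theorem scalar [hp : Fact p.Prime] {u : S} (huQ : u ∉ Qe p τ) {g : G} (hg : g ∉ M)
    (hn : (τ u * (g * τ u * g⁻¹) * τ u)⁻¹ * g ∈ M) (k m : ℕ) (hkm : (k * m) % p = 1) :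
    (∀ w ∈ W, cv τ (tel τ u g k m) w * (w ^ k)⁻¹ ∈ M₀) ∧
    (∀ x ∈ M₁, cv τ (tel τ u g k m) x * (x ^ m)⁻¹ ∈ W) ∧
    (∀ (s : S) (j : ℕ), k % p = (j * m) % p → ∀ x ∈ M₁,
      cv τ (tel τ u g k m * τ s) x * (cv τ (τ (s ^ j) * tel τ u g k m) x)⁻¹ ∈ M₀) := by
  classical
  have h1 := N.le_Q
  obtain ⟨A, _, π, ρ, hsurj, hadd, hker, hρ⟩ :=
    h.exists_rep h1 (N.le_W.trans N.W_le) N.nrm₁ N.nrm₀ N.comm
  have hWQ := N.W_le.trans h1
  have hCle : Cj τ g W ≤ M₁ := h.Cj_le_of_nrm g h1 N.nrm₁ N.W_le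
  have hπ1 : π 1 = 0 := by
    have := hadd 1 (one_mem _) 1 (one_mem _)
    rw [one_mul] at this
    exact left_eq_add.1 this
  have hzero : ∀ x ∈ M₁, π x = 0 ↔ x ∈ M₀ := fun x hx => by
    rw [← hπ1, hker x hx 1 (one_mem _), inv_one, mul_one]
  have hinv : ∀ x ∈ M₁, π x⁻¹ = -π x := fun x hx => by
    have := hadd x hx x⁻¹ (inv_mem hx)
    rw [mul_inv_cancel, hπ1] at this
    exact eq_neg_of_add_eq_zero_right this.symm
  have hpowπ : ∀ x ∈ M₁, ∀ n : ℕ, π (x ^ n) = n • π x := by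
    intro x hx n
    induction n with
    | zero => simpa using hπ1
    | succ n ih => rw [pow_succ, hadd _ (pow_mem hx n) _ hx, ih, succ_nsmul]
  have hA : ∀ x : A, p • x = 0 := fun a => by
    obtain ⟨x, hx, rfl⟩ := hsurj a
    rw [← hpowπ x hx, hzero _ (pow_mem hx p)]
    exact N.pow x hx
  let sub : ∀ H : Subgroup S, H ≤ M₁ → AddSubgroup A := fun H hH =>
    { carrier := π '' (H : Set S)
      zero_mem' := ⟨1, one_mem _, hπ1⟩
      add_mem' := by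
        rintro _ _ ⟨x, hx, rfl⟩ ⟨y, hy, rfl⟩
        exact ⟨x * y, mul_mem hx hy, hadd x (hH hx) y (hH hy)⟩
      neg_mem' := by
        rintro _ ⟨x, hx, rfl⟩
        exact ⟨x⁻¹, inv_mem hx, hinv x (hH hx)⟩ }
  set W₁ := sub W N.W_le
  set W₂ := sub (Cj τ g W) hCle
  have hmem : ∀ x ∈ M₁, π x ∈ W₁ → x ∈ W := by
    rintro x hx ⟨w, hw, e⟩
    have h2 := N.le_W ((hker x hx w (N.W_le hw)).1 e.symm)
    simpa using W.mul_mem h2 hw
  have hconj : ∀ (c d : G) (x : A), ρ (c * d) x = ρ c (ρ d x) := fun c d x => by rw [map_mul]; rfl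
  -- the action of `S`
  set Ns : S → AddMonoid.End A := fun s => ρ (τ s) - 1
  have hNs : ∀ s : S, ρ (τ s) = 1 + Ns s := fun s => by simp [Ns]
  have hNsπ : ∀ s, ∀ x ∈ M₁, Ns s (π x) = π ⁅s, x⁆ := fun s x hx => by
    show ρ (τ s) (π x) - π x = _
    rw [hρ _ x hx, h.cv_tau s (h1 hx), sub_eq_iff_eq_add, ← hadd _ (N.W_le (N.step s x hx)) _ hx]
    congr 1
    simp [commutatorElement_def]
  have hNW : ∀ s, ∀ w ∈ W₁, Ns s w = 0 := by
    rintro s _ ⟨w, hw, rfl⟩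
    rw [hNsπ s w (N.W_le hw), hzero _ (N.W_le (N.step s w (N.W_le hw)))]
    exact N.stepW s w hw
  have hNim : ∀ s x, Ns s x ∈ W₁ := fun s a => by
    obtain ⟨x, hx, rfl⟩ := hsurj a
    exact ⟨_, N.step s x hx, (hNsπ s x hx).symm⟩
  have hNsq : ∀ s, Ns s * Ns s = 0 := fun s => AddMonoidHom.ext fun x => hNW s _ (hNim s x)
  have hNpow : ∀ (s : S) (j : ℕ), ρ (τ (s ^ j)) = 1 + j • Ns s := fun s j => by
    rw [map_pow, map_pow, hNs, one_add_pow (hNsq s)]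
  set a := Ns u
  set b : AddMonoid.End A := ρ g * a * ρ g⁻¹
  have hgW : ∀ w ∈ W₁, ρ g w ∈ W₂ := by
    rintro _ ⟨w, hw, rfl⟩
    exact ⟨cv τ g w, h.cv_mem_Cj g hWQ hw, (hρ g w (N.W_le hw)).symm⟩
  have hgW' : ∀ w ∈ W₂, ρ g⁻¹ w ∈ W₁ := by
    rintro _ ⟨w, hw, rfl⟩
    obtain ⟨y, hy, rfl⟩ := (h.mem_Cj g hWQ).1 hw
    exact ⟨y, hy, by rw [hρ _ _ (hCle hw), h.cv_inv_cv g (hWQ hy)]⟩
  have hdis : ∀ x ∈ W₁, x ∈ W₂ → x = 0 := by
    rintro x hx ⟨y', hy', rfl⟩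
    obtain ⟨y, hy, rfl⟩ := (h.mem_Cj g hWQ).1 hy'
    exact (hzero _ (hCle hy')).2 (N.nrm₀ g y (N.inter g hg y hy (hmem _ (hCle hy') hx)))
  have hsplit : ∀ x : A, ∃ y₁ ∈ W₁, ∃ y₂ ∈ W₂, x = y₁ + y₂ := fun c => by
    obtain ⟨x, hx, rfl⟩ := hsurj c
    obtain ⟨w, hw, w', hw', rfl⟩ := N.decomp h hg hx
    exact ⟨π w, ⟨w, hw, rfl⟩, π (cv τ g w'), ⟨_, h.cv_mem_Cj g hWQ hw', rfl⟩,
      hadd _ (N.W_le hw) _ (hCle (h.cv_mem_Cj g hWQ hw'))⟩
  set n : G := τ u * (g * τ u * g⁻¹) * τ u with hndef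
  set nk : G := τ u ^ k * (g * τ u * g⁻¹) ^ m * τ u ^ k with hnkdef
  have hρg : ρ (g * τ u * g⁻¹) = 1 + b := by
    have e : ρ g * ρ g⁻¹ = 1 := by rw [← map_mul, mul_inv_cancel, map_one]
    rw [map_mul, map_mul, hNs, mul_add, add_mul, mul_one, e]
  have hb2 : b * b = 0 := by
    have e : ρ g⁻¹ * ρ g = 1 := by rw [← map_mul, inv_mul_cancel, map_one]
    calc b * b = ρ g * a * (ρ g⁻¹ * ρ g) * a * ρ g⁻¹ := by simp only [b, mul_assoc]
      _ = ρ g * (a * a) * ρ g⁻¹ := by rw [e, mul_one, mul_assoc (ρ g) a a]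
      _ = 0 := by rw [hNsq u, mul_zero, zero_mul]
  have hρn : ρ n = (1 + a) * (1 + b) * (1 + a) := by rw [hndef, map_mul, map_mul, hρg, hNs]
  have hρnk : ρ nk = (1 + k • a) * (1 + m • b) * (1 + k • a) := by
    rw [hnkdef, map_mul, map_mul, map_pow, map_pow, hρg, hNs, one_add_pow (hNsq u), one_add_pow hb2]
  have hnW : ∀ w ∈ W₁, ((1 + a) * (1 + b) * (1 + a) : AddMonoid.End A) w ∈ W₂ := by
    intro w hw
    rw [← hρn]
    have hnM : g⁻¹ * n ∈ M := by simpa [hndef, mul_assoc] using M.inv_mem hn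
    obtain ⟨y, hy, rfl⟩ := hw
    refine ⟨cv τ g (cv τ (g⁻¹ * n) y), h.cv_mem_Cj g hWQ (N.nrmM h hnM hy), ?_⟩
    rw [h.cv_cv _ _ (hWQ hy), mul_inv_cancel_left, ← hρ _ y (N.W_le hy)]
  have hinjA : ∀ w ∈ W₂, a w = 0 → w = 0 := by
    rintro _ ⟨w, hw, rfl⟩ e
    rw [hNsπ u w (hCle hw), hzero _ (N.W_le (N.step u w (hCle hw)))] at e
    exact hdis _ ⟨w, N.fix u huQ w (hCle hw) e, rfl⟩ ⟨w, hw, rfl⟩
  obtain ⟨hs1, hs2⟩ := scalar_alg W₁ W₂ a b (hNW u)
    (fun w hw => by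
      show ρ g (a (ρ g⁻¹ w)) = 0
      rw [hNW u _ (hgW' w hw), map_zero])
    (hNim u) (fun x => hgW _ (hNim u _)) hdis hinjA hnW k m
    (fun x => (nsmul_mod hA (b := 1) (by rw [hkm, Nat.mod_eq_of_lt hp.out.one_lt]) x).trans (one_smul ℕ x))
  set t := tel τ u g k m with ht
  have htn : t * n = nk := inv_mul_cancel_right nk n
  have key : ∀ x : A, ∃ w₀ ∈ W₁, ∃ v ∈ W₂,
      x = v + w₀ ∧ ρ t x = m • v + k • w₀ := by
    intro x
    obtain ⟨y₁, hy₁, y₂, hy₂, e⟩ := hsplit (ρ n⁻¹ x)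
    have hx : x = ρ n y₁ + ρ n y₂ := by
      rw [← map_add, ← e, ← hconj, mul_inv_cancel, map_one]; rfl
    refine ⟨ρ n y₂, ?_, ρ n y₁, by rw [hρn]; exact hnW _ hy₁, hx, ?_⟩
    · rw [hρn, (hs2 y₂ hy₂).2]; exact hNim u _
    · conv_lhs => rw [hx]
      rw [map_add, ← hconj, ← hconj, htn, hρnk, (hs1 y₁ hy₁).1, (hs2 y₂ hy₂).1, hρn]
  have htW : ∀ w ∈ W₁, ρ t w = k • w := by
    intro w hw
    obtain ⟨w₀, hw₀, v, hv, e, et⟩ := key w
    have hv0 : v = 0 := hdis v (by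
      have : v = w - w₀ := by rw [e]; abel
      rw [this]; exact W₁.sub_mem hw hw₀) hv
    rw [hv0, zero_add] at e
    rw [et, hv0, smul_zero, zero_add, e]
  have htA : ∀ x, ρ t x - m • x ∈ W₁ := by
    intro x
    obtain ⟨w₀, hw₀, v, hv, rfl, et⟩ := key x
    have : ρ t (v + w₀) - m • (v + w₀) = k • w₀ - m • w₀ := by rw [et, smul_add]; abel
    rw [this]
    exact W₁.sub_mem (W₁.nsmul_mem hw₀ k) (W₁.nsmul_mem hw₀ m)
  refine ⟨fun w hw => ?_, fun x hx => ?_, fun s j hj x hx => ?_⟩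
  · rw [← hker _ (N.nrm₁ t w (N.W_le hw)) _ (pow_mem (N.W_le hw) k), ← hρ t w (N.W_le hw), hpowπ _ (N.W_le hw)]
    exact htW _ ⟨w, hw, rfl⟩
  · refine hmem _ (mul_mem (N.nrm₁ t x hx) (inv_mem (pow_mem hx m))) ?_
    rw [hadd _ (N.nrm₁ t x hx) _ (inv_mem (pow_mem hx m)), hinv _ (pow_mem hx m), hpowπ _ hx,
      ← hρ t x hx, ← sub_eq_add_neg]
    exact htA _
  · rw [← hker _ (N.nrm₁ _ x hx) _ (N.nrm₁ _ x hx), ← hρ _ x hx, ← hρ _ x hx, hconj, hconj, hNpow, hNs]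
    show ρ t (π x + Ns s (π x)) = ρ t (π x) + (j • Ns s) (ρ t (π x))
    rw [map_add, htW _ (hNim s _)]
    congr 1
    show k • Ns s (π x) = j • Ns s (ρ t (π x))
    obtain ⟨w, hw, e⟩ := htA (π x)
    have e' : ρ t (π x) = m • π x + π w := by rw [e]; abel
    rw [e', map_add, map_nsmul, hNW s _ ⟨w, hw, rfl⟩, add_zero, smul_smul]
    exact nsmul_mod hA hj _

end NatSec

end CfsgLib.Minimal.GN
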