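import Cfsg.Agent.Lib.Minimal.GNThree
import Cfsg.Agent.Lib.PushUp.RankOne.TwoCoupling
import Cfsg.Agent.Lib.PushUp.RankOne.Setup
import Cfsg.Agent.Lib.Amalgams.PSLFixedIndex
import Cfsg.Agent.Lib.TwoGroups.NormalAbelian

/-!
What the pushing-up hypotheses give for one embedding of a `p`-group `S` whose whole group is centraliser
large.
-/

set_option autoImplicit false
set_option linter.unusedSectionVars false
set_option linter.style.haveILetI false

open Subgroup
open scoped Pointwise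
open scoped commutatorElement MatrixGroups

namespace CfsgLib.Minimal.GN

open Cfsg CfsgLib.TwoGroupTricks
open CfsgLib.TwoGroupTricks.PushingUp (le_of_ne_top inf_normal_le_pCore)
open CfsgLib.PushUp.RankOne (upperPSL exists_conj_upperPSL card_sylowPSL weyl_word conj_upS_of_zero
  eq_top_of_upper)
open CfsgLib.ClassicalLinear (upS upperSL upS_coe upS_add)
open CfsgLib.SL2Gen (lowS lowS_coe)

universe u v

variable {S : Type u} [Group S] [Finite S] {G : Type v} [Group G] [Finite G] {p : ℕ} [hp : Fact p.Prime]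

/-- A normal subgroup strictly above a normal subgroup has an element outside it moved into it. -/
theorem exists_step (hS : IsPGroup p S) {N V : Subgroup S} [hN : N.Normal] [hV : V.Normal]
    (hle : ¬ V ≤ N) : ∃ v ∈ V, v ∉ N ∧ ∀ s : S, ⁅v, s⁆ ∈ N := by
  set π := QuotientGroup.mk' N
  haveI : (V.map π).Normal := hV.map π (QuotientGroup.mk'_surjective N)
  have hne : V.map π ≠ ⊥ := fun e => hle (by
    have := (Subgroup.map_eq_bot_iff _).1 e
    rwa [QuotientGroup.ker_mk'] at this)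
  obtain ⟨_, ⟨v, hv, rfl⟩, hv1, hvc⟩ :=
    CfsgLib.TwoGroups.exists_mem_center_of_normal (hS.to_quotient N) hne
  refine ⟨v, hv, fun h => hv1 ((QuotientGroup.eq_one_iff _).2 h), fun s => ?_⟩
  refine (QuotientGroup.eq_one_iff _).1 ?_
  show π ⁅v, s⁆ = 1
  rw [map_commutatorElement, commutatorElement_eq_one_iff_mul_comm]
  exact (Subgroup.mem_center_iff.1 hvc (π s)).symm

/-- The projection to `PSL₂(pⁿ)` seen from one embedding. -/
structure Proj (p n : ℕ) (F : Type) [Field F] [Fintype F] (τ : S →* G)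
    (π : G →* Matrix.ProjectiveSpecialLinearGroup (Fin 2) F) : Prop where
  hn : 1 ≤ n
  hF : Fintype.card F = p ^ n
  surj : Function.Surjective π
  ker_iff : ∀ s : S, π (τ s) = 1 ↔ s ∈ Qe p τ
  pow : ∀ s : S, π (τ s) ^ p = 1

variable {F : Type} [Field F] [Fintype F] {n : ℕ} {τ : S →* G}
  {π : G →* Matrix.ProjectiveSpecialLinearGroup (Fin 2) F} {M : Subgroup G}

theorem psl_upS_one_ne : (QuotientGroup.mk' (Subgroup.center (SL(2, F)))) (upS 1) ≠ 1 := by
  intro h
  have hc : upS (1 : F) ∈ Subgroup.center (SL(2, F)) := (QuotientGroup.eq_one_iff _).1 h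
  have h1 := congrArg (fun A : SL(2, F) => (A : Matrix (Fin 2) (Fin 2) F) 0 0)
    (Subgroup.mem_center_iff.1 hc (lowS 1))
  simp only [Matrix.SpecialLinearGroup.coe_mul, upS_coe, lowS_coe] at h1
  simp [Matrix.mul_apply] at h1

/-- The pushing-up hypotheses for an embedding. -/
theorem exists_push (hS : IsPGroup p S) (hτ : Function.Injective τ)
    (P : Sylow p G) (hP : (P : Subgroup G) = τ.range)
    (hc2 : centralizer (Cfsg.pCore p G : Set G) ≤ Cfsg.pCore p G) (hM : IsCoatom M)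
    (hSM : τ.range ≤ M) (huniq : ∀ M' : Subgroup G, IsCoatom M' ∧ τ.range ≤ M' → M' = M)
    (hn : 1 ≤ n) (hF : Fintype.card F = p ^ n) (hπ : Function.Surjective π) :
    Push p (p ^ n) τ M ∧ Proj p n F τ π ∧ π.ker ≤ M := by
  have hFc : Nat.card F = p ^ n := by rw [Nat.card_eq_fintype_card, hF]
  have huniq' : ∀ M' : Subgroup G, IsCoatom M' ∧ (P : Subgroup G) ≤ M' → M' = M := by rwa [hP]
  have hQR : Cfsg.pCore p G ≤ τ.range := hP ▸ CfsgLib.Cores.pCore_le_sylow P
  have hSker := (CfsgLib.TwoGroupTricks.PushingUp.card_le_mul_pCore P hM huniq' hn hFc π hπ).2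
  have hKM : π.ker ≤ M := le_sup_right.trans (le_of_ne_top huniq' le_sup_left hSker)
  set T := P.mapSurjective hπ
  have hT : ((T : Sylow p _) : Subgroup (Matrix.ProjectiveSpecialLinearGroup (Fin 2) F)) =
      τ.range.map π := by rw [← hP]; exact Sylow.coe_mapSurjective hπ P
  obtain ⟨γ, hγ⟩ := exists_conj_upperPSL hn hFc T rfl
  rw [hT] at hγ
  set mk' := QuotientGroup.mk' (Subgroup.center (SL(2, F)))
  have hform : ∀ s : S, ∃ t, π (τ s) = γ * mk' (upS t) * γ⁻¹ := fun s => by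
    obtain ⟨_, ⟨_, ⟨t, rfl⟩, rfl⟩, e⟩ := hγ.le ⟨τ s, ⟨s, rfl⟩, rfl⟩
    exact ⟨t, e.symm⟩
  have hpc : ((p : ℕ) : F) = 0 := by
    have h1 := FiniteField.cast_card_eq_zero F
    rw [hF, Nat.cast_pow] at h1
    exact eq_zero_of_pow_eq_zero h1
  have hpow : ∀ s : S, π (τ s) ^ p = 1 := fun s => by
    obtain ⟨t, e⟩ := hform s
    rw [e, conj_pow, ← map_pow, CfsgLib.PushUp.RankOne.upS_pow, hpc, zero_mul,
      show upS (0 : F) = 1 from Matrix.SpecialLinearGroup.transvection_coeff_zero _, map_one, mul_one,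
      mul_inv_cancel]
  have hker : ∀ s : S, π (τ s) = 1 ↔ s ∈ Qe p τ := by
    intro s
    constructor
    · exact fun h => inf_normal_le_pCore P hM huniq' π.ker hSker ⟨hP ▸ ⟨s, rfl⟩, h⟩
    · intro hs
      by_contra hne
      refine CfsgLib.PushUp.RankOne.sylowPSL_not_normal hn hFc T (eq_top_iff.2 fun δ _ => ?_)
      obtain ⟨g, rfl⟩ := hπ δ
      refine CfsgLib.PushUp.RankOne.sylowPSL_ti hn hFc T (z := π (τ s)) (hT ▸ ⟨τ s, ⟨s, rfl⟩, rfl⟩) hne ?_
      rw [hT, ← map_inv, ← map_mul, ← map_mul]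
      exact ⟨_, hQR ((Cfsg.pCore_normal p G).conj_mem _ hs g), rfl⟩
  have hmapQ : (Qe p τ).map τ = Cfsg.pCore p G := Subgroup.map_comap_eq_self hQR
  have hcard : Nat.card S = p ^ n * Nat.card (Qe p τ) := by
    have e1 := Subgroup.card_eq_card_quotient_mul_card_subgroup (π.comp τ).ker
    rw [Nat.card_congr (QuotientGroup.quotientKerEquivRange _).toEquiv, MonoidHom.range_comp, ← hT,
      card_sylowPSL hn hFc T,
      show (π.comp τ).ker = Qe p τ from Subgroup.ext fun s => hker s] at e1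
    exact e1
  -- the braiding elements
  obtain ⟨_, ⟨u, rfl⟩, hu⟩ := hγ.ge ⟨mk' (upS 1), ⟨upS 1, ⟨1, rfl⟩, rfl⟩, rfl⟩
  set w : SL(2, F) := upS 1 * lowS (-1) * upS 1 with hw
  have hww := weyl_word (F := F) (x := 1) (y := -1) (by ring)
  have hw00 : (w : Matrix (Fin 2) (Fin 2) F) 0 0 = 0 := by rw [hw, hww]; simp
  have hw10 : (w : Matrix (Fin 2) (Fin 2) F) 1 0 = -1 := by rw [hw, hww]; simp
  have hconj : w * upS 1 * w⁻¹ = lowS (-1) := by
    have := conj_upS_of_zero hw00 (-1)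
    rwa [neg_neg, hw10, neg_one_sq, one_mul] at this
  obtain ⟨g, hg⟩ := hπ (γ * mk' w * γ⁻¹)
  have hu' : π (τ u) = γ * mk' (upS 1) * γ⁻¹ := hu
  have huQ : u ∉ Qe p τ := fun h => psl_upS_one_ne (F := F) (by
    have e := (hker u).2 h
    rw [hu', mul_inv_eq_one] at e
    exact mul_left_cancel (e.trans (mul_one γ).symm))
  have hgM : g ∉ M := by
    intro hgM
    set H := ((M.map π).comap (MulAut.conj γ).toMonoidHom).comap mk'
    have hup : ∀ t : F, upS t ∈ H := fun t =>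
      Subgroup.map_mono hSM (hγ.ge ⟨mk' (upS t), ⟨upS t, ⟨t, rfl⟩, rfl⟩, rfl⟩)
    have hwH : w ∈ H := ⟨g, hgM, hg⟩
    have htop : H = ⊤ := eq_top_of_upper hup hwH (by rw [hw10]; exact neg_ne_zero.2 one_ne_zero)
    refine hM.1 (eq_top_iff.2 fun x _ => ?_)
    obtain ⟨h, hh⟩ := QuotientGroup.mk'_surjective (Subgroup.center (SL(2, F))) (γ⁻¹ * π x * γ)
    obtain ⟨m, hm, e⟩ : h ∈ H := htop ▸ Subgroup.mem_top h
    have e' : π m = π x := by
      rw [e]
      show γ * mk' h * γ⁻¹ = π x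
      rw [hh]; group
    have h1 : m⁻¹ * x ∈ M := hKM (by rw [MonoidHom.mem_ker, map_mul, map_inv, e', inv_mul_cancel])
    simpa using M.mul_mem hm h1
  refine ⟨{ inj := hτ, isP := hS, one_lt := Nat.one_lt_pow (by omega) hp.out.one_lt, pCore_le := hQR
            syl := ⟨P, hP⟩, char2 := hc2, leM := hSM, neM := hM.1
            uniq := fun H hH hne => le_of_ne_top huniq hH hne
            core := fun N hN hne s hs => ?_
            card := hcard, comm_mem := fun s t => (hker _).1 ?_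
            braid := ⟨u, huQ, g, hgM, hKM ?_⟩ }, ⟨hn, hF, hπ, hker, hpow⟩, hKM⟩
  · haveI := hN
    exact inf_normal_le_pCore P hM huniq' N (by rw [sup_comm, hP]; exact hne) ⟨hP ▸ ⟨s, rfl⟩, hs⟩
  · obtain ⟨a, ha⟩ := hform s
    obtain ⟨b, hb⟩ := hform t
    rw [map_commutatorElement, map_commutatorElement, ha, hb, comm_conj,
      ← map_commutatorElement mk', commutatorElement_eq_one_iff_mul_comm.2
        (show upS a * upS b = upS b * upS a by rw [← upS_add, ← upS_add, add_comm]),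
      map_one, mul_one, mul_inv_cancel]
  · rw [MonoidHom.mem_ker, map_mul, map_inv, inv_mul_eq_one]
    have e : mk' w * mk' (upS 1) * (mk' w)⁻¹ = mk' (lowS (-1)) := by
      rw [← map_inv, ← map_mul, ← map_mul, hconj]
    have e2 : mk' w = mk' (upS 1) * mk' (lowS (-1)) * mk' (upS 1) := by rw [hw, map_mul, map_mul]
    simp only [map_mul, map_inv, hg, hu']
    calc _ = γ * (mk' (upS 1) * (mk' w * mk' (upS 1) * (mk' w)⁻¹) * mk' (upS 1)) * γ⁻¹ := by group
      _ = γ * mk' w * γ⁻¹ := by rw [e, ← e2]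

omit [Fintype F] in
theorem card_eq_map_mul' {A B : Type*} [Group A] [Group B] (f : A →* B) (K : Subgroup A) :
    Nat.card K = Nat.card (K.map f) * Nat.card (f.ker.subgroupOf K) := by
  have h := Subgroup.card_eq_card_quotient_mul_card_subgroup (f.comp K.subtype).ker
  rw [Nat.card_congr (QuotientGroup.quotientKerEquivRange (f.comp K.subtype)).toEquiv,
    MonoidHom.range_comp, Subgroup.range_subtype, ← MonoidHom.comap_ker] at h
  exact h

/-- An embedding in which the centre of a centraliser-large `S` is not normal. -/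
theorem exists_bad (hF1 : maxCentralizerProduct S = Nat.card S * Nat.card (Subgroup.center S))
    (hZ : ∀ z ∈ Subgroup.center S, z ^ p = 1)
    (hbad : ¬ ((Subgroup.center S).map τ).Normal)
    (h : Push p (p ^ n) τ M) (hM : IsCoatom M)
    (huniq : ∀ M' : Subgroup G, IsCoatom M' ∧ τ.range ≤ M' → M' = M)
    (hj : Proj p n F τ π) (hKM : π.ker ≤ M) : Bad p (p ^ n) τ M := by
  have hS := h.isP
  have hFc : Nat.card F = p ^ n := by rw [Nat.card_eq_fintype_card, hj.hF]
  obtain ⟨P, hP⟩ := h.syl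
  set Z := Subgroup.center S
  set V := Ve p τ
  set Q := Qe p τ
  have hQn := h.normal_Qe
  have hVQ : V ≤ Q := inf_le_left
  have hmapQ : Q.map τ = Cfsg.pCore p G := Subgroup.map_comap_eq_self h.pCore_le
  have hZQ : Z ≤ Q := fun z hz => h.char2 fun a ha => by
    obtain ⟨s, rfl⟩ := h.pCore_le ha
    rw [← map_mul, ← map_mul, Subgroup.mem_center_iff.1 hz s]
  have hZV : Z ≤ V := le_inf hZQ (Subgroup.center_le_centralizer _)
  -- the module generated by the conjugates of the centre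
  let K : Subgroup S :=
    { carrier := {x | x ∈ V ∧ x ^ p = 1}
      one_mem' := ⟨one_mem _, one_pow p⟩
      mul_mem' := fun {a b} ha hb => ⟨mul_mem ha.1 hb.1, by
        rw [(show Commute a b from ((comm_eq_one_of_mem_centralizer ha.1.2 hb.1.1).1 |>
          commutatorElement_eq_one_iff_mul_comm.1)).mul_pow, ha.2, hb.2, one_mul]⟩
      inv_mem' := fun {a} ha => ⟨inv_mem ha.1, by rw [inv_pow, ha.2, inv_one]⟩ }
  have hKV : K ≤ V := fun x hx => hx.1
  have nK : Nrm τ K := fun g x hx => ⟨h.nrm_Ve g x hx.1, by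
    rw [← h.cv_pow g (hVQ hx.1), hx.2, h.cv_Ce g (one_mem _)]⟩
  haveI hKn : (K.map τ).Normal := h.map_normal (hKV.trans hVQ) nK
  set V₀ := Subgroup.normalClosure ((Z.map τ : Subgroup G) : Set G)
  haveI hV0n : V₀.Normal := Subgroup.normalClosure_normal
  have hZK : Z ≤ K := fun z hz => ⟨hZV hz, hZ z hz⟩
  have hV0K : V₀ ≤ K.map τ := Subgroup.normalClosure_le_normal (SetLike.coe_subset_coe.2 (Subgroup.map_mono hZK))
  have hZ0 : Z.map τ ≤ V₀ := Subgroup.subset_normalClosure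
  have hV0p : IsPGroup p V₀ := ((hS.to_subgroup K).map τ).to_le hV0K
  have hV0ab : V₀ ≤ centralizer (V₀ : Set G) := fun x hx y hy => by
    obtain ⟨a, ha, rfl⟩ := hV0K hx
    obtain ⟨b, hb, rfl⟩ := hV0K hy
    rw [← map_mul, ← map_mul, commutatorElement_eq_one_iff_mul_comm.1
      (comm_eq_one_of_mem_centralizer ha.1.2 hb.1.1).2]
  obtain ⟨u₀, hu₀, g₀, hg₀, -⟩ := h.braid
  have hnS : ¬ (P : Subgroup G).Normal := fun hn' => hu₀
    (CfsgLib.Cores.le_pCore P.2 (N := (P : Subgroup G)) (hP ▸ ⟨u₀, rfl⟩ : τ u₀ ∈ (P : Subgroup G)))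
  have hCV : (P : Subgroup G) ⊔ centralizer (V₀ : Set G) ≠ ⊤ := by
    intro e
    refine hbad ⟨?_⟩
    rintro _ ⟨z, hz, rfl⟩ g
    have hg : g ∈ (((P : Subgroup G) ⊔ centralizer (V₀ : Set G) : Subgroup G) : Set G) :=
      e ▸ Subgroup.mem_top g
    haveI : (centralizer (V₀ : Set G)).Normal := inferInstance
    rw [Subgroup.mul_normal] at hg
    obtain ⟨a, ha, c, hc, rfl⟩ := hg
    obtain ⟨s, rfl⟩ : a ∈ τ.range := hP ▸ ha
    refine ⟨z, hz, ?_⟩
    have h1 : c * τ z * c⁻¹ = τ z := by rw [← hc _ (hZ0 ⟨z, hz, rfl⟩), mul_inv_cancel_right]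
    have h2 : τ s * τ z * (τ s)⁻¹ = τ z := by
      rw [← map_mul, Subgroup.mem_center_iff.1 hz s, map_mul, mul_inv_cancel_right]
    calc τ z = τ s * (c * τ z * c⁻¹) * (τ s)⁻¹ := by rw [h1, h2]
      _ = _ := by group
  have huniq' : ∀ M' : Subgroup G, IsCoatom M' ∧ (P : Subgroup G) ≤ M' → M' = M := by rwa [hP]
  have hbound := CfsgLib.TwoGroupTricks.PushingUp.card_bound P hM huniq' hj.hn hFc π hj.surj V₀ hV0p
    hV0ab hnS hCV
  have hVlow : p ^ n * Nat.card Z ≤ Nat.card K := by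
    have h1 : Nat.card Z ≤ Nat.card ↥(V₀ ⊓ centralizer ((P : Subgroup G) : Set G)) := by
      have e : Nat.card (Z.map τ) = Nat.card Z := Subgroup.card_map_of_injective h.inj
      rw [← e]
      refine Subgroup.card_le_of_le (le_inf hZ0 ?_)
      rintro _ ⟨z, hz, rfl⟩ a ha
      obtain ⟨s, rfl⟩ : a ∈ τ.range := hP ▸ ha
      rw [← map_mul, ← map_mul, Subgroup.mem_center_iff.1 hz s]
    have h2 := Subgroup.card_le_of_le hV0K
    rw [Subgroup.card_map_of_injective h.inj] at h2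
    exact ((Nat.mul_le_mul_left _ h1).trans hbound).trans h2
  have hKcard := Subgroup.card_le_of_le hKV
  have hVC : V ≤ centralizer (Q : Set S) := inf_le_right
  have hVcard := Subgroup.card_le_of_le hVC
  have hQC := le_maxCentralizerProduct Q
  rw [hF1, h.card] at hQC
  have hCQle : Nat.card (centralizer (Q : Set S)) ≤ p ^ n * Nat.card Z := by
    refine Nat.le_of_mul_le_mul_left ?_ (Nat.card_pos (α := Q))
    calc Nat.card Q * Nat.card (centralizer (Q : Set S)) ≤ p ^ n * Nat.card Q * Nat.card Z := hQC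
      _ = _ := by ring
  have cardV : Nat.card V = p ^ n * Nat.card Z :=
    le_antisymm (hVcard.trans hCQle) (hVlow.trans hKcard)
  have hcQ : centralizer (Q : Set S) = V :=
    (Subgroup.eq_of_le_of_card_ge hVC (hCQle.trans cardV.ge)).symm
  have hKeq : K = V := Subgroup.eq_of_le_of_card_ge hKV (cardV.le.trans hVlow)
  have powV : ∀ v ∈ V, v ^ p = 1 := fun v hv => (hKeq.ge hv).2
  have cd : IsCentralizerLarge Q := by
    unfold IsCentralizerLarge
    rw [hcQ, cardV, hF1, h.card]; ring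
  have cV : centralizer (V : Set S) = Q := by rw [← hcQ, double_centralizer_eq cd]
  -- fixed points modulo the fixed space
  set C := Ce p τ
  have hCV' : C ≤ V := inf_le_right
  set N := h.secFix hVQ hCV' h.nrm_Ve h.nrm_Ce
  haveI hNn : N.Normal := h.secFix_normal _ _ _ _
  have hNtop : N ⊔ τ.range ≠ ⊤ := by
    intro e
    refine hbad ⟨?_⟩
    suffices hle : Z ≤ C by
      rintro _ ⟨z, hz, rfl⟩ g
      refine ⟨z, hz, ?_⟩
      have h1 := h.tau_cv g (hZQ hz)
      rwa [h.cv_Ce g (hle hz)] at h1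
    intro z hz
    have hzQ := hZQ hz
    have hin : ∀ g : G, cv τ g z * z⁻¹ ∈ C := by
      intro g
      have hg : g ∈ ((N ⊔ τ.range : Subgroup G) : Set G) := e ▸ Subgroup.mem_top g
      rw [Subgroup.normal_mul] at hg
      obtain ⟨a, ha, _, ⟨s, rfl⟩, rfl⟩ := hg
      rw [← h.cv_cv a (τ s) hzQ, h.cv_tau s hzQ, Subgroup.mem_center_iff.1 hz s, mul_inv_cancel_right]
      exact (h.mem_secFix).1 ha z (hZV hz)
    let φ : G →* S :=
      { toFun := fun g => cv τ g z * z⁻¹
        map_one' := by rw [h.cv_one hzQ, mul_inv_cancel]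
        map_mul' := fun a b => by
          have e1 : cv τ a (cv τ b z * z⁻¹) = cv τ b z * z⁻¹ := h.cv_Ce a (hin b)
          rw [h.cv_mul a (h.cv_mem b hzQ) (inv_mem hzQ), h.cv_inv a hzQ, h.cv_cv a b hzQ] at e1
          have hc := Subgroup.mem_center_iff.1 (h.Ce_le_center (hin b)) (cv τ a z * z⁻¹)
          rw [hc, ← e1]; group }
    have hk : τ.range ≤ φ.ker := by
      rintro _ ⟨s, rfl⟩
      show cv τ (τ s) z * z⁻¹ = 1
      rw [h.cv_tau s hzQ, Subgroup.mem_center_iff.1 hz s, mul_inv_cancel_right, mul_inv_cancel]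
    have hidx : φ.ker.index = 1 := by
      have h1 : φ.ker.index ∣ (P : Subgroup G).index := Subgroup.index_dvd_of_le (hP ▸ hk)
      obtain ⟨j, hj'⟩ := IsPGroup.iff_card.1 (hS.to_subgroup φ.range)
      rw [Subgroup.index_ker, hj'] at h1 ⊢
      rcases j with _ | j
      · exact pow_zero p
      · exact absurd ((dvd_pow_self p (by omega)).trans h1) (Sylow.not_dvd_index P)
    refine h.mem_Ce (hZV hz) fun g => ?_
    have : g ∈ φ.ker := (Subgroup.index_eq_one.1 hidx).symm ▸ Subgroup.mem_top g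
    exact mul_inv_eq_one.1 this
  have hNM : N ≤ M := le_sup_left.trans (h.uniq _ le_sup_right hNtop)
  haveI hCn : (C.map τ).Normal := h.map_normal (hCV'.trans hVQ) h.nrm_Ce
  set mkC := QuotientGroup.mk' (C.map τ)
  have hCker : C.map τ ≤ π.ker := by
    rintro _ ⟨c, hc, rfl⟩
    exact (hj.ker_iff c).2 (hVQ (hCV' hc))
  let π' : G ⧸ C.map τ →* Matrix.ProjectiveSpecialLinearGroup (Fin 2) F :=
    QuotientGroup.lift (C.map τ) π hCker
  have hπ' : Function.Surjective π' := fun z => by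
    obtain ⟨x, rfl⟩ := hj.surj z
    exact ⟨mkC x, rfl⟩
  set W := (V.map τ).map mkC
  haveI hWn : W.Normal := (h.map_normal hVQ h.nrm_Ve).map mkC (QuotientGroup.mk'_surjective _)
  have hWp : IsPGroup p W := ((hS.to_subgroup V).map τ).map mkC
  have hWC : ∀ x : G, mkC x ∈ centralizer (W : Set (G ⧸ C.map τ)) → x ∈ N := by
    intro x hx
    refine (h.mem_secFix).2 fun v hv => ?_
    have h1 := hx (mkC (τ v)) ⟨τ v, ⟨v, hv, rfl⟩, rfl⟩
    have h2 : mkC (τ (cv τ x v * v⁻¹)) = 1 := by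
      rw [map_mul, h.tau_cv x (hVQ hv), map_inv]
      simp only [map_mul, map_inv]
      rw [← h1]; group
    obtain ⟨c, hc, e⟩ := (QuotientGroup.eq_one_iff _).1 h2
    exact h.inj e ▸ hc
  have fixC : ∀ u : S, u ∉ Q → ∀ v ∈ V, ⁅v, u⁆ ∈ C → v ∈ Z := by
    intro u hu
    have key : p ^ n ≤ CfsgLib.Amalgams.fixIndex W (mkC (τ u)) := by
      rcases Nat.eq_or_lt_of_le hj.hn with h1 | h2
      · rw [← h1, pow_one]
        exact CfsgLib.Amalgams.prime_le_fixIndex hWp fun hc =>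
          hu (h.core N hNn hNtop u (hWC _ hc))
      have hsimp : IsSimpleGroup (Matrix.ProjectiveSpecialLinearGroup (Fin 2) F) := by
        refine CfsgLib.ClassicalLinear.isSimpleGroup_psl_fin le_rfl fun _ => ?_
        rw [hFc]
        calc 4 = 2 ^ 2 := rfl
          _ ≤ p ^ 2 := Nat.pow_le_pow_left hp.out.two_le 2
          _ ≤ p ^ n := Nat.pow_le_pow_right hp.out.pos h2
      have hNK : N ≤ π.ker := by
        rcases (Subgroup.Normal.map hNn π hj.surj).eq_bot_or_eq_top with e | e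
        · exact (Subgroup.map_eq_bot_iff _).1 e
        · exfalso
          have h1 : N ⊔ π.ker = ⊤ := by rw [← Subgroup.comap_map_eq, e, Subgroup.comap_top]
          exact hM.1 (top_le_iff.1 (h1 ▸ sup_le hNM hKM))
      refine CfsgLib.Amalgams.psl_two_fixIndex_bound hj.hn hj.hF hWp hπ' (fun a ha => ?_)
        (fun e => hu ((hj.ker_iff u).1 e)) (hj.pow u)
      obtain ⟨x, rfl⟩ := QuotientGroup.mk'_surjective _ a
      exact hNK (hWC x ha)
    set Y := V ⊓ cen {u} C h.Ce_le_center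
    set f := mkC.comp τ
    have hfker : f.ker = C := by
      ext x
      rw [MonoidHom.mem_ker]
      exact (QuotientGroup.eq_one_iff _).trans
        ⟨fun ⟨c, hc, e⟩ => h.inj e ▸ hc, fun hx => ⟨x, hx, rfl⟩⟩
    have hCY : C ≤ Y := fun c hc => ⟨hCV' hc, fun t _ => by
      rw [commutatorElement_eq_one_iff_mul_comm.2
        (Subgroup.mem_center_iff.1 (h.Ce_le_center hc) t).symm]
      exact one_mem _⟩
    have hfW : V.map f = W := (Subgroup.map_map V mkC τ).symm
    set W' := W ⊓ centralizer ({mkC (τ u)} : Set (G ⧸ C.map τ))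
    have hYW : Y.map f ≤ W' := by
      rintro _ ⟨y, hy, rfl⟩
      refine ⟨hfW.le ⟨y, hy.1, rfl⟩, Subgroup.mem_centralizer_singleton_iff.2 ?_⟩
      refine (commutatorElement_eq_one_iff_mul_comm.1 ?_)
      show ⁅f y, f u⁆ = 1
      rw [← map_commutatorElement, ← MonoidHom.mem_ker, hfker]
      exact hy.2 u rfl
    have hW : Nat.card W' * CfsgLib.Amalgams.fixIndex W (mkC (τ u)) = Nat.card W := by
      rw [← Nat.card_congr (Subgroup.subgroupOfEquivOfLe (inf_le_left : W' ≤ W)).toEquiv]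
      exact Subgroup.card_mul_index _
    have eV := card_eq_map_mul' f V
    have eY := card_eq_map_mul' f Y
    rw [hfker, Nat.card_congr (Subgroup.subgroupOfEquivOfLe hCV').toEquiv, hfW, ← hW] at eV
    rw [hfker, Nat.card_congr (Subgroup.subgroupOfEquivOfLe hCY).toEquiv] at eY
    have hle : p ^ n * Nat.card Y ≤ Nat.card V := by
      rw [eY, eV]
      calc p ^ n * (Nat.card (Y.map f) * Nat.card C)
          ≤ CfsgLib.Amalgams.fixIndex W (mkC (τ u)) * (Nat.card W' * Nat.card C) :=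
            Nat.mul_le_mul key (Nat.mul_le_mul_right _ (Subgroup.card_le_of_le hYW))
        _ = _ := by ring
    rw [cardV] at hle
    have hZY : Z ≤ Y := fun z hz => ⟨hZV hz, fun t _ => by
      rw [commutatorElement_eq_one_iff_mul_comm.2 (Subgroup.mem_center_iff.1 hz t).symm]
      exact one_mem _⟩
    have hYZ : Z = Y := Subgroup.eq_of_le_of_card_ge hZY (Nat.le_of_mul_le_mul_left hle h.one_lt.le)
    exact fun v hv hvu => hYZ.ge ⟨hv, fun t ht => by rw [Set.mem_singleton_iff.1 ht]; exact hvu⟩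
  have fixed : ∀ u : S, u ∉ Q → ∀ v ∈ V, ⁅v, u⁆ = 1 → v ∈ Z := fun u hu v hv e =>
    fixC u hu v hv (e ▸ one_mem _)
  -- conjugates of the centre
  have inter : ∀ g : G, g ∉ M → ∀ z ∈ Z, cv τ g z ∈ Z → z ∈ C := by
    intro g hg z hz hgz
    have hzQ := hZQ hz
    have hH : centralizer ({g * τ z * g⁻¹} : Set G) = ⊤ := by
      rw [eq_top_iff, ← h.gen hg]
      refine sup_le ?_ ?_
      · rintro _ ⟨s, rfl⟩
        refine Subgroup.mem_centralizer_singleton_iff.2 ?_
        rw [← h.tau_cv g hzQ, ← map_mul, ← map_mul, Subgroup.mem_center_iff.1 hgz s]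
      · rintro _ ⟨_, ⟨s, rfl⟩, rfl⟩
        refine Subgroup.mem_centralizer_singleton_iff.2 ?_
        show g * τ s * g⁻¹ * (g * τ z * g⁻¹) = g * τ z * g⁻¹ * (g * τ s * g⁻¹)
        calc g * τ s * g⁻¹ * (g * τ z * g⁻¹) = g * τ (s * z) * g⁻¹ := by rw [map_mul]; group
          _ = g * τ (z * s) * g⁻¹ := by rw [Subgroup.mem_center_iff.1 hz s]
          _ = _ := by rw [map_mul]; group
    refine ⟨Subgroup.mem_center_iff.2 fun x => ?_, hZV hz⟩
    have h1 := Subgroup.mem_centralizer_singleton_iff.1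
      (hH ▸ Subgroup.mem_top (g * x * g⁻¹) : g * x * g⁻¹ ∈ centralizer ({g * τ z * g⁻¹} : Set G))
    refine mul_left_cancel (a := g) (mul_right_cancel (b := g⁻¹) ?_)
    simpa [mul_assoc] using h1
  have hCZ : C ≤ Z := h.Ce_le_center
  -- the orders
  have hVn : V.Normal := h.nrm_normal hVQ h.nrm_Ve
  have hqZ : Nat.card Z ≤ p ^ n * Nat.card C := by
    set A := Cj τ g₀ Z
    have hAV : A ≤ V := h.Cj_le_of_nrm g₀ hVQ h.nrm_Ve hZV
    have h3 := CfsgLib.PSolvable.card_mul_mul_card_inf Z A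
    rw [h.card_Cj g₀ hZQ] at h3
    have h4 : Nat.card ↥((Z : Set S) * (A : Set S)) ≤ Nat.card V := by
      rw [Nat.card_coe_set_eq, ← SetLike.coe_sort_coe, Nat.card_coe_set_eq]
      refine Set.ncard_le_ncard ?_ (Set.toFinite _)
      rintro _ ⟨a, ha, b, hb, rfl⟩
      exact mul_mem (hZV ha) (hAV hb)
    have h5 : Nat.card ↥(Z ⊓ A) ≤ Nat.card C := by
      refine Subgroup.card_le_of_le ?_
      rintro x ⟨hx, hxA⟩
      obtain ⟨z, hz, rfl⟩ := (h.mem_Cj g₀ hZQ).1 hxA
      have hzC := inter g₀ hg₀ z hz hx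
      rwa [h.cv_Ce g₀ hzC]
    refine Nat.le_of_mul_le_mul_left ?_ (Nat.card_pos (α := Z))
    calc Nat.card Z * Nat.card Z ≤ p ^ n * Nat.card Z * Nat.card C := by
          rw [← h3, ← cardV]; exact Nat.mul_le_mul h4 h5
      _ = _ := by ring
  have hZn : Z.Normal := inferInstance
  set Z₂ := V ⊓ cen Set.univ Z le_rfl
  have hZ₂mem : ∀ {v : S}, v ∈ Z₂ ↔ v ∈ V ∧ ∀ s : S, ⁅v, s⁆ ∈ Z := fun {v} =>
    ⟨fun hv => ⟨hv.1, fun s => hv.2 s trivial⟩, fun hv => ⟨hv.1, fun s _ => hv.2 s⟩⟩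
  have hZZ₂ : Z ≤ Z₂ := fun z hz => hZ₂mem.2 ⟨hZV hz, fun s => by
    rw [commutatorElement_eq_one_iff_mul_comm.2 (Subgroup.mem_center_iff.1 hz s).symm]
    exact one_mem _⟩
  have hVnle : ¬ V ≤ Z := fun hle => by
    have h1 := Subgroup.card_le_of_le hle
    rw [cardV] at h1
    have := h.one_lt
    have h4 : 0 < Nat.card Z := Nat.card_pos
    nlinarith
  have cardZ : Nat.card Z = p ^ n * Nat.card C := by
    refine le_antisymm hqZ ?_
    obtain ⟨v, hv, hvZ, hvs⟩ := exists_step hS (hN := hZn) (hV := hVn) hVnle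
    let f : S ⧸ Q → ↥Z ⧸ C.subgroupOf Z := fun s => QuotientGroup.mk ⟨⁅v, s.out⁆, hvs _⟩
    have hf : Function.Injective f := by
      intro s t e
      have h1 : ⁅v, s.out⁆⁻¹ * ⁅v, t.out⁆ ∈ C := Subgroup.mem_subgroupOf.1 (QuotientGroup.eq.1 e)
      rw [← QuotientGroup.out_eq' s, ← QuotientGroup.out_eq' t, QuotientGroup.eq]
      by_contra hne
      refine hvZ (fixC _ hne v hv ?_)
      rw [comm_mul_right_central le_rfl (hvs _)]
      have h2 : ⁅v, s.out⁻¹⁆ = ⁅v, s.out⁆⁻¹ := by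
        refine eq_inv_of_mul_eq_one_left ?_
        rw [← comm_mul_right_central le_rfl (hvs _), inv_mul_cancel, commutatorElement_one_right]
      rw [h2]; exact h1
    have h2 := Nat.card_le_card_of_injective f hf
    have e1 := Subgroup.card_eq_card_quotient_mul_card_subgroup Q
    have e2 := Subgroup.card_eq_card_quotient_mul_card_subgroup (C.subgroupOf Z)
    rw [Nat.card_congr (Subgroup.subgroupOfEquivOfLe hCZ).toEquiv] at e2
    rw [h.card] at e1
    rw [← Nat.eq_of_mul_eq_mul_right Nat.card_pos e1] at h2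
    rw [e2]
    exact Nat.mul_le_mul_right _ h2
  have comm : ∀ v ∈ V, ∀ s : S, ⁅v, s⁆ ∈ Z := by
    suffices hle : V ≤ Z₂ from fun v hv => (hZ₂mem.1 (hle hv)).2
    by_contra hle
    haveI hZ₂n : Z₂.Normal := ⟨fun x hx s => by
      have h1 := (hZ₂mem.1 hx).2 s
      have e : s * x * s⁻¹ = ⁅x, s⁆⁻¹ * x := by simp [commutatorElement_def, mul_assoc]
      rw [e]
      exact mul_mem (inv_mem (hZZ₂ h1)) hx⟩
    obtain ⟨w, hw, hwZ₂, hws⟩ := exists_step hS (hN := hZ₂n) (hV := hVn) hle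
    have hsym : ∀ s t : S, ⁅w, s⁆ ∈ Z → ⁅⁅w, t⁆, s⁆ = 1 := by
      intro s t hwsZ
      have hst : ⁅w, s * t⁆ = ⁅w, t * s⁆ := by
        have hc : ⁅s, t⁆ ∈ Q := h.comm_mem s t
        have h1 : ∀ x ∈ V, Commute ⁅s, t⁆ x := fun x hx =>
          commutatorElement_eq_one_iff_mul_comm.1 (comm_eq_one_of_mem_centralizer hx.2 hc).2
        rw [show s * t = ⁅s, t⁆ * (t * s) by simp [commutatorElement_def, mul_assoc],
          comm_mul_right, commutatorElement_eq_one_iff_mul_comm.2 (h1 w hw).symm.eq, one_mul,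
          (h1 _ (hws (t * s)).1).eq, mul_inv_cancel_right]
      rw [comm_mul_right, comm_mul_right_central le_rfl hwsZ] at hst
      have h3 : s * ⁅w, t⁆ * s⁻¹ = ⁅w, t⁆ :=
        mul_left_cancel (hst.trans (Subgroup.mem_center_iff.1 hwsZ ⁅w, t⁆))
      refine commutatorElement_eq_one_iff_mul_comm.2 ?_
      exact (mul_inv_eq_iff_eq_mul.1 h3).symm
    let f : S ⧸ Q → ↥Z₂ ⧸ Z.subgroupOf Z₂ := fun s => QuotientGroup.mk ⟨⁅w, s.out⁆, hws _⟩
    have hf : Function.Injective f := by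
      intro s t e
      have h1 : ⁅w, s.out⁆⁻¹ * ⁅w, t.out⁆ ∈ Z := Subgroup.mem_subgroupOf.1 (QuotientGroup.eq.1 e)
      rw [← QuotientGroup.out_eq' s, ← QuotientGroup.out_eq' t, QuotientGroup.eq]
      by_contra hne
      set a := s.out
      set b := t.out
      have e2 : ⁅w, a⁻¹ * b⁆ = a⁻¹ * (⁅w, a⁆⁻¹ * ⁅w, b⁆) * a := by
        simp only [commutatorElement_def]; group
      have h2 : ⁅w, a⁻¹ * b⁆ ∈ Z := by
        rw [e2]
        simpa using hZn.conj_mem _ h1 a⁻¹
      exact hwZ₂ (hZ₂mem.2 ⟨hw, fun x => fixed _ hne _ (hws x).1 (hsym _ x h2)⟩)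
    have h2 := Nat.card_le_card_of_injective f hf
    have e1 := Subgroup.card_eq_card_quotient_mul_card_subgroup Q
    have e2 := Subgroup.card_eq_card_quotient_mul_card_subgroup (Z.subgroupOf Z₂)
    rw [Nat.card_congr (Subgroup.subgroupOfEquivOfLe hZZ₂).toEquiv] at e2
    rw [h.card] at e1
    rw [← Nat.eq_of_mul_eq_mul_right Nat.card_pos e1] at h2
    refine hle (Subgroup.eq_of_le_of_card_ge inf_le_left ?_).ge
    rw [cardV, e2]
    exact Nat.mul_le_mul_right _ h2
  exact { toPush := h, cd := cd, cV := cV, Z_le := hZV, cardV := cardV, cardZ := cardZ, powV := powV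
          comm := comm, fixC := fixC, inter := inter }

end CfsgLib.Minimal.GN
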