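import Cfsg.Agent.Lib.Minimal.GNCases

/-!
Pushing up two embeddings with commuting modules: the remaining case `p = 3`, and the summary for pairs of
embeddings in which the central part of `S₀` is not normal.
-/

set_option autoImplicit false
set_option linter.unusedSectionVars false
set_option linter.style.haveILetI false

open Subgroup
open scoped Pointwise
open scoped commutatorElement

namespace CfsgLib.Minimal.GN

open Cfsg CfsgLib.TwoGroupTricks

universe u v w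

theorem comm_pow_central {X : Type*} [Group X] {x a : X} (h : ⁅x, a⁆ ∈ Subgroup.center X) (n : ℕ) :
    ⁅x, a ^ n⁆ = ⁅x, a⁆ ^ n := by
  induction n with
  | zero => simp
  | succ n ih => rw [pow_succ, comm_mul_right_central le_rfl h, ih, pow_succ]

theorem Phi_normal {X : Type*} [Group X] [Finite X] {p : ℕ} [Fact p.Prime] (hX : IsPGroup p X)
    {R : Subgroup X} (hR : R.Normal) : (Phi R).Normal := by
  refine ⟨fun x hx s => ?_⟩
  have e : (Phi R).map (MulAut.conj s).toMonoidHom = Phi R := by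
    rw [map_Phi hX]
    congr 1
    ext y
    exact ⟨by rintro ⟨z, hz, rfl⟩; exact hR.conj_mem z hz s,
      fun hy => ⟨s⁻¹ * y * s, by simpa using hR.conj_mem y hy s⁻¹, by simp [mul_assoc]⟩⟩
  exact e.le ⟨x, hx, rfl⟩

variable {S : Type u} [Group S] [Finite S]
variable {Gb : Type v} [Group Gb] [Finite Gb] {Gc : Type w} [Group Gc] [Finite Gc]
variable {p qb qc : ℕ} [hp : Fact p.Prime] {τb : S →* Gb} {Mb : Subgroup Gb}
  {τc : S →* Gc} {Mc : Subgroup Gc}

variable (hS : Covered S) (hb : Bad p qb τb Mb) (hc : Bad p qc τc Mc) (hne : Ve p τb ≠ Ve p τc)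
  (hcb : Ve p τc ≤ Qe p τb)
include hS hb hc hne hcb

/-- The double case for `p = 3`. -/
theorem double_three (hp3 : p = 3) (hX : ¬ Xcl τc (Ve p τb ⊔ Ve p τc) ≤ Qe p τb)
    (hY : ¬ Xcl τb (Ve p τc ⊔ Ve p τb) ≤ Qe p τc) :
    Nrm τb (Fn p (⊤ : Subgroup S) ⊓ Subgroup.center S) := by
  have hisP := hb.isP
  have hbc := V_le_symm hb hc hcb
  obtain ⟨U, hUX, hUp, hUab, hU⟩ := cover hS hb hc hne hcb hX
  obtain ⟨U', hU'X, hU'p, hU'ab, hU'⟩ := cover hS hc hb hne.symm hbc hY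
  set Z := Subgroup.center S
  set Xc := Xcl τc (Ve p τb ⊔ Ve p τc)
  set Xb := Xcl τb (Ve p τc ⊔ Ve p τb)
  have hXc : ∀ x ∈ Xc, ∀ d ∈ Qe p τc, ⁅x, d⁆ ∈ Z := fun x hx d hd =>
    hc.Ce_le_Z (Xc_comm hS hb hc hne hcb x hx d hd)
  have hXb : ∀ x ∈ Xb, ∀ d ∈ Qe p τb, ⁅x, d⁆ ∈ Z := fun x hx d hd =>
    hb.Ce_le_Z (Xb_comm hS hb hc hne hcb x hx d hd)
  have hXcQ : Xc ≤ Qe p τc := Xc_le hS hb hc hne hcb
  have hXbQ : Xb ≤ Qe p τb := Xc_le hS hc hb hne.symm hbc
  have hXcn : Xc.Normal := Xc_normal hS hb hc hne hcb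
  have hXbn : Xb.Normal := Xc_normal hS hc hb hne.symm hbc
  set R := Qe p τb ⊓ Qe p τc
  have hsplit : ∀ s : S, ∃ a ∈ U, ∃ b ∈ U', ∃ r ∈ R, s = a * b * r := by
    intro s
    obtain ⟨a, ha, x, hx, rfl⟩ := hU s
    obtain ⟨b, hb', r, hr, rfl⟩ := hU' x
    refine ⟨a, ha, b, hb', r, ⟨?_, hr⟩, by simp [mul_assoc]⟩
    have := mul_mem (inv_mem (hXbQ (hU'X hb'))) hx
    rwa [inv_mul_cancel_left] at this
  have hR := hisP.to_subgroup R
  have hRn : R.Normal := by
    haveI := hb.toPush.normal_Qe; haveI := hc.toPush.normal_Qe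
    exact Subgroup.normal_inf_normal _ _
  set W := Xc ⊓ Xb
  have hstep : ∀ s : S, ∀ w ∈ W, ⁅s, w⁆ ∈ Z := by
    intro s w hw
    obtain ⟨a, ha, b, hb', r, hr, rfl⟩ := hsplit s
    suffices ∀ t : S, t ∈ U ∨ t ∈ U' ∨ t ∈ R → t ∈ cen {w} Z le_rfl from
      mul_mem (mul_mem (this a (Or.inl ha)) (this b (Or.inr (Or.inl hb')))) (this r (Or.inr (Or.inr hr)))
        w rfl
    rintro t ht z rfl
    rcases ht with ht | ht | ht
    · exact hXc t (hUX ht) z (hXcQ hw.1)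
    · exact hXb t (hU'X ht) z (hXbQ hw.2)
    · exact comm_mem_symm (hXc z hw.1 t ht.2)
  set T := Subgroup.closure {x : S | ∃ a ∈ U, ∃ b ∈ U', x = ⁅a, b⁆} ⊔ Z
  have hZW : Z ≤ W := le_inf
    ((hb.Z_le.trans le_sup_left).trans (hc.toPush.le_Xcl _))
    ((hb.Z_le.trans le_sup_right).trans (hb.toPush.le_Xcl _))
  have hcW : ∀ a ∈ U, ∀ b ∈ U', ⁅a, b⁆ ∈ W := fun a ha b hb' =>
    Subgroup.mem_inf.2 ⟨by
        rw [commutatorElement_def, mul_assoc, mul_assoc]
        exact mul_mem (hUX ha) (by simpa [mul_assoc] using hXcn.conj_mem _ (inv_mem (hUX ha)) b),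
      by rw [commutatorElement_def]
         exact mul_mem (hXbn.conj_mem _ (hU'X hb') a) (inv_mem (hU'X hb'))⟩
  have hTW : T ≤ W := sup_le ((Subgroup.closure_le _).2 (by rintro _ ⟨a, ha, b, hb', rfl⟩; exact hcW a ha b hb'))
    hZW
  have hTn : T.Normal := ⟨fun x hx s => by
    rw [show s * x * s⁻¹ = ⁅s, x⁆ * x by simp [commutatorElement_def]]
    exact mul_mem (mem_sup_right (hstep s x (hTW hx))) hx⟩
  have hTc : ∀ t ∈ T, ∀ w ∈ W, Commute t w := by
    intro t ht w hw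
    have hle : T ≤ centralizer {w} := by
      refine sup_le ((Subgroup.closure_le _).2 ?_) fun z hz => ?_
      · rintro _ ⟨a, ha, b, hb', rfl⟩
        refine Subgroup.mem_centralizer_singleton_iff.2 ?_
        exact (commutatorElement_eq_one_iff_mul_comm.1
          (commute_comm (comm_mem_symm (hstep a w hw)) (comm_mem_symm (hstep b w hw)))).symm
      · exact Subgroup.mem_centralizer_singleton_iff.2 (Subgroup.mem_center_iff.1 hz w).symm
    exact Subgroup.mem_centralizer_singleton_iff.1 (hle ht)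
  have hTp : ∀ t ∈ T, t ^ p = 1 := fun t ht =>
    (pow_Xc hS hb hc hne hcb t (hTW ht).1).2 (by omega)
  have hPn := Phi_normal hisP hRn
  have hzp : ∀ {z : S}, z ∈ Z → z ^ p = 1 := fun hz => hb.powV _ (hb.Z_le hz)
  have hPc : ∀ x : S, (∀ r ∈ R, ⁅x, r⁆ ∈ Z) → ∀ f ∈ Phi R, Commute x f := by
    intro x hx f hf
    have hle : Phi R ≤ centralizer {x} := Phi_le p
      (fun a ha b hb' => Subgroup.mem_centralizer_singleton_iff.2
        (commutatorElement_eq_one_iff_mul_comm.1 (commute_comm (hx a ha) (hx b hb'))).symm)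
      (fun a ha => Subgroup.mem_centralizer_singleton_iff.2 (commutatorElement_eq_one_iff_mul_comm.1
        (by rw [comm_pow_central (hx a ha) p]; exact hzp (hx a ha))).symm)
    exact (Subgroup.mem_centralizer_singleton_iff.1 (hle hf)).symm
  have hUc : ∀ a ∈ U, ∀ f ∈ Phi R, Commute a f := fun a ha =>
    hPc a fun r hr => hXc a (hUX ha) r hr.2
  have hU'c : ∀ a ∈ U', ∀ f ∈ Phi R, Commute a f := fun a ha =>
    hPc a fun r hr => hXb a (hU'X ha) r hr.1
  have hTP : ∀ t ∈ T, ∀ f ∈ Phi R, Commute t f := fun t ht =>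
    hPc t fun r hr => hXc t (hTW ht).1 r hr.2
  have hN : (T ⊔ Phi R).Normal := inferInstance
  have hPhi : Phi (⊤ : Subgroup S) ≤ T ⊔ Phi R := by
    refine Phi_top_le p hN hsplit ?_ ?_ ?_ ?_ ?_ ?_ ?_ ?_ ?_
    · intro a ha; rw [hUp a ha]; exact one_mem _
    · intro a ha; rw [hU'p a ha]; exact one_mem _
    · exact fun a ha => mem_sup_right (pow_mem_Phi hR ha)
    · intro a ha b hb'; rw [hUab a ha b hb']; exact one_mem _
    · intro a ha b hb'; rw [hU'ab a ha b hb']; exact one_mem _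
    · exact fun a ha b hb' => mem_sup_right (comm_mem_Phi hR ha hb')
    · exact fun a ha b hb' => mem_sup_left (mem_sup_left (Subgroup.subset_closure ⟨a, ha, b, hb', rfl⟩))
    · exact fun a ha r hr => mem_sup_left (mem_sup_right (hXc a (hUX ha) r hr.2))
    · exact fun a ha r hr => mem_sup_left (mem_sup_right (hXb a (hU'X ha) r hr.1))
  have hdec : ∀ x ∈ Phi (⊤ : Subgroup S), ∃ t ∈ T, ∃ f ∈ Phi R, x = t * f := fun x hx => by
    obtain ⟨t, ht, f, hf, rfl⟩ := Subgroup.mem_sup_of_normal_right.1 (hPhi hx)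
    exact ⟨t, ht, f, hf, rfl⟩
  have hPR : ∀ {f r : S}, f ∈ Phi R → r ∈ R → ⁅f, r⁆ ∈ Phi R := fun hf hr =>
    comm_mem_Phi hR (Phi_le_self _ hf) hr
  have hcR : ∀ f ∈ Phi R, ∀ s : S, ∃ r ∈ R, ⁅f, s⁆ = ⁅f, r⁆ := by
    intro f hf s
    obtain ⟨a, ha, b, hb', r, hr, rfl⟩ := hsplit s
    refine ⟨r, hr, ?_⟩
    rw [comm_mul_right, commutatorElement_eq_one_iff_mul_comm.2
      ((hUc a ha f hf).symm.mul_right (hU'c b hb' f hf).symm).eq, one_mul,
      (((hUc a ha _ (hPR hf hr)).mul_left (hU'c b hb' _ (hPR hf hr)))).eq, mul_inv_cancel_right]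
  have hc1 : ⁅Phi (⊤ : Subgroup S), (⊤ : Subgroup S)⁆ ≤ Z ⊔ ⁅Phi R, R⁆ := by
    refine Subgroup.commutator_le.2 fun x hx s _ => ?_
    obtain ⟨t, ht, f, hf, rfl⟩ := hdec x hx
    obtain ⟨r, hr, e⟩ := hcR f hf s
    rw [comm_mul_left, e, (hTP t ht _ (hPR hf hr)).eq, mul_inv_cancel_right]
    exact mul_mem (mem_sup_right (Subgroup.commutator_mem_commutator hf hr))
      (mem_sup_left (comm_mem_symm (hstep s t (hTW ht))))
  have hc2 : ⁅⁅Phi (⊤ : Subgroup S), (⊤ : Subgroup S)⁆, (⊤ : Subgroup S)⁆ ≤ ⁅⁅Phi R, R⁆, R⁆ := by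
    refine Subgroup.commutator_le.2 fun x hx s _ => ?_
    obtain ⟨z, hz, g, hg, rfl⟩ := Subgroup.mem_sup_of_normal_left.1 (hc1 hx)
    have hgP : g ∈ Phi R := (Subgroup.commutator_le.2 fun a ha b hb' => hPR ha hb') hg
    obtain ⟨r, hr, e⟩ := hcR g hgP s
    rw [comm_mul_left, commutatorElement_eq_one_iff_mul_comm.2 (Subgroup.mem_center_iff.1 hz s).symm,
      mul_one, e, ← Subgroup.mem_center_iff.1 hz, mul_inv_cancel_right]
    exact Subgroup.commutator_mem_commutator hg hr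
  have hPP : Phi (Phi (⊤ : Subgroup S)) ≤ Phi (Phi R) := by
    refine Phi_le p (fun x hx y hy => ?_) fun x hx => ?_
    · obtain ⟨t, ht, f, hf, rfl⟩ := hdec x hx
      obtain ⟨t', ht', f', hf', rfl⟩ := hdec y hy
      have h1 : ⁅t, t' * f'⁆ = 1 := commutatorElement_eq_one_iff_mul_comm.2
        ((hTc t ht t' (hTW ht')).mul_right (hTP t ht f' hf')).eq
      have h2 : ⁅f, t'⁆ = 1 := commutatorElement_eq_one_iff_mul_comm.2 (hTP t' ht' f hf).symm.eq
      have hff : ⁅f, f'⁆ ∈ Phi R := hPR hf (Phi_le_self _ hf')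
      rw [comm_mul_left, h1, mul_one, comm_mul_right, h2, one_mul, (hTP t' ht' _ hff).eq,
        mul_inv_cancel_right, (hTP t ht _ hff).eq, mul_inv_cancel_right]
      exact comm_mem_Phi (hisP.to_subgroup _) hf hf'
    · obtain ⟨t, ht, f, hf, rfl⟩ := hdec x hx
      rw [(hTP t ht f hf).mul_pow, hTp t ht, one_mul]
      exact pow_mem_Phi (hisP.to_subgroup _) hf
  have hle : Fn p (⊤ : Subgroup S) ≤ Fn p R := by
    unfold Fn
    rw [if_neg (by omega), if_pos hp3, if_neg (by omega), if_pos hp3]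
    exact sup_le_sup hc2 hPP
  have heq : Fn p (⊤ : Subgroup S) = Fn p (Qe p τb) :=
    le_antisymm (hle.trans (Fn_mono hisP inf_le_left)) (Fn_mono hisP le_top)
  obtain ⟨a, ha, haQ⟩ : ∃ a ∈ U, a ∉ Qe p τb := by
    by_contra! hcon
    refine hb.Qe_ne_top (eq_top_iff.2 fun s _ => ?_)
    obtain ⟨u, hu, y, hy, rfl⟩ := hU s
    exact mul_mem (hcon u hu) hy
  have e : Fn p (⊤ : Subgroup S) ⊓ Z = Fn p (⊤ : Subgroup S) ⊓ Ve p τb := by
    refine le_antisymm (inf_le_inf_left _ hb.Z_le) fun x hx => ⟨hx.1, ?_⟩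
    exact hb.fixed haQ hx.2 (commutatorElement_eq_one_iff_mul_comm.2
      (hUc a ha x (Fn_le_Phi hisP R (hle hx.1))).eq.symm)
  rw [e, heq]
  exact hb.toPush.nrm_inf hb.toPush.nrm_Fn hb.toPush.nrm_Ve

/-- If the closure leaves the other core, the central part of `S₀` is normal. -/
theorem nrm_of_Xcl_not_le (hX : ¬ Xcl τc (Ve p τb ⊔ Ve p τc) ≤ Qe p τb) :
    Nrm τb (Fn p (⊤ : Subgroup S) ⊓ Subgroup.center S) := by
  by_cases hY : Xcl τb (Ve p τc ⊔ Ve p τb) ≤ Qe p τc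
  · exact (single_false hS hb hc hne hcb hX hY).elim
  by_cases hp3 : p = 3
  · exact double_three hS hb hc hne hcb hp3 hX hY
  · exact (double_false hS hb hc hne hcb hp3 hX hY).elim

omit hcb
/-- Two embeddings, in one of which the central part of `S₀` is not normal: the modules commute and
their join is normal in the other one. -/
theorem pair (hn : ¬ Nrm τb (Fn p (⊤ : Subgroup S) ⊓ Subgroup.center S)) :
    Ve p τc ≤ Qe p τb ∧ Nrm τc (Ve p τb ⊔ Ve p τc) := by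
  have hcb : Ve p τc ≤ Qe p τb := by
    by_contra hcb
    exact hn (nrm_of_not_le hb hc hcb)
  refine ⟨hcb, nrm_sup_V hS hb hc hne hcb ?_⟩
  by_contra hX
  exact hn (nrm_of_Xcl_not_le hS hb hc hne hcb hX)

end CfsgLib.Minimal.GN
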