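import Mathlib

/-!
A model of the extraspecial group of order 32 of minus type, generated by four involutions no two of
which commute, and its automorphism group.
-/

set_option autoImplicit false
set_option linter.style.haveILetI false
set_option linter.unusedSimpArgs false

namespace CfsgLib.Minimal.MinusFive

/-- `⟨a, b, c, d, e⟩` stands for `z ^ e * t₁ ^ a * t₂ ^ b * t₃ ^ c * t₄ ^ d`. -/
@[ext]
structure Mdl where
  a : ZMod 2
  b : ZMod 2
  c : ZMod 2
  d : ZMod 2
  e : ZMod 2
deriving DecidableEq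

namespace Mdl

def toTuple : Mdl ≃ ZMod 2 × ZMod 2 × ZMod 2 × ZMod 2 × ZMod 2 where
  toFun x := (x.a, x.b, x.c, x.d, x.e)
  invFun p := ⟨p.1, p.2.1, p.2.2.1, p.2.2.2.1, p.2.2.2.2⟩
  left_inv _ := rfl
  right_inv _ := rfl

instance instFintypeMdl : Fintype Mdl := Fintype.ofEquiv _ toTuple.symm

instance instMulMdl : Mul Mdl :=
  ⟨fun x y => ⟨x.a + y.a, x.b + y.b, x.c + y.c, x.d + y.d,
    x.e + y.e + (x.b * y.a + x.c * y.a + x.c * y.b + x.d * y.a + x.d * y.b + x.d * y.c)⟩⟩

instance instOneMdl : One Mdl := ⟨⟨0, 0, 0, 0, 0⟩⟩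

instance instInvMdl : Inv Mdl :=
  ⟨fun x => ⟨x.a, x.b, x.c, x.d,
    x.e + (x.b * x.a + x.c * x.a + x.c * x.b + x.d * x.a + x.d * x.b + x.d * x.c)⟩⟩

theorem mul_def (x y : Mdl) : x * y = ⟨x.a + y.a, x.b + y.b, x.c + y.c, x.d + y.d,
    x.e + y.e + (x.b * y.a + x.c * y.a + x.c * y.b + x.d * y.a + x.d * y.b + x.d * y.c)⟩ := rfl

theorem one_def : (1 : Mdl) = ⟨0, 0, 0, 0, 0⟩ := rfl

instance instGroupMdl : Group Mdl :=
  Group.ofLeftAxioms
    (fun x y z => by simp only [mul_def]; ext <;> simp only <;> ring)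
    (fun x => by simp only [mul_def, one_def]; ext <;> simp)
    (fun x => by revert x; decide)

/-- The central involution. -/
def gz : Mdl := ⟨0, 0, 0, 0, 1⟩

/-- The five classes of involutions. -/
def T : Fin 5 → Mdl :=
  ![⟨1, 0, 0, 0, 0⟩, ⟨0, 1, 0, 0, 0⟩, ⟨0, 0, 1, 0, 0⟩, ⟨0, 0, 0, 1, 0⟩, ⟨1, 1, 1, 1, 0⟩]

/-- The class of an involution. -/
def idx (x : Mdl) : Fin 5 :=
  if x.a = 1 ∧ x.b = 0 then 0 else if x.a = 0 ∧ x.b = 1 then 1
  else if x.c = 1 ∧ x.d = 0 then 2 else if x.c = 0 ∧ x.d = 1 then 3 else 4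

theorem idx_T : ∀ i, idx (T i) = i := by decide

theorem idx_gz_mul : ∀ x : Mdl, idx (gz * x) = idx x := by decide

theorem sing : ∀ x : Mdl, x * x = 1 → x ≠ 1 → x ≠ gz → x = T (idx x) ∨ x = gz * T (idx x) := by
  decide

theorem center_cases : ∀ x : Mdl, (∀ y, y * x = x * y) → x = 1 ∨ x = gz := by decide

theorem gz_comm : ∀ y : Mdl, y * gz = gz * y := by decide

theorem gz_ne : gz ≠ 1 := by decide

theorem gz_mem_center : gz ∈ Subgroup.center Mdl := Subgroup.mem_center_iff.2 gz_comm

theorem T_props : ∀ i : Fin 5, T i * T i = 1 ∧ T i ≠ 1 ∧ T i ≠ gz := by decide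

theorem T_swap : ∀ i j : Fin 5, i ≠ j → T j * T i = gz * (T i * T j) := by decide

/-- Every sign pattern on the generators is realised by an inner automorphism. -/
theorem inner_signs : ∀ p : Fin 4 → Bool, ∃ g : Mdl, ∀ i : Fin 4,
    g * T i.castSucc * g⁻¹ = (if p i then gz else 1) * T i.castSucc := by decide

theorem conj_T : ∀ (g : Mdl) (i : Fin 5), g * T i * g⁻¹ = T i ∨ g * T i * g⁻¹ = gz * T i := by decide

/-- `x = z ^ e * t₁ ^ a * t₂ ^ b * t₃ ^ c * t₄ ^ d`. -/
theorem decomp : ∀ x : Mdl, x = (if x.e = 1 then gz else 1) * ((if x.a = 1 then T 0 else 1) *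
    ((if x.b = 1 then T 1 else 1) * ((if x.c = 1 then T 2 else 1) * (if x.d = 1 then T 3 else 1)))) := by
  decide

theorem mem_closure (x : Mdl) : x ∈ Subgroup.closure (Set.range fun i : Fin 4 => T i.castSucc) := by
  have hT : ∀ i : Fin 4, T i.castSucc ∈ Subgroup.closure (Set.range fun i : Fin 4 => T i.castSucc) :=
    fun i => Subgroup.subset_closure ⟨i, rfl⟩
  have hz : gz ∈ Subgroup.closure (Set.range fun i : Fin 4 => T i.castSucc) := by
    rw [show gz = T (0 : Fin 4).castSucc * T (1 : Fin 4).castSucc * (T (0 : Fin 4).castSucc *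
      T (1 : Fin 4).castSucc) by decide]
    exact mul_mem (mul_mem (hT 0) (hT 1)) (mul_mem (hT 0) (hT 1))
  rw [decomp x]
  refine mul_mem ?_ (mul_mem ?_ (mul_mem ?_ (mul_mem ?_ ?_))) <;> split <;>
    first | exact one_mem _ | exact hz | exact hT 0 | exact hT 1 | exact hT 2 | exact hT 3

theorem hom_ext {H : Type*} [Monoid H] {f g : Mdl →* H} (h : ∀ i : Fin 4, f (T i.castSucc) = g (T i.castSucc)) :
    f = g :=
  MonoidHom.ext fun x => MonoidHom.eqOn_closure (f := f) (g := g)
    (s := Set.range fun i : Fin 4 => T i.castSucc) (fun z hz => by obtain ⟨i, rfl⟩ := hz; exact h i)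
    (mem_closure x)

/-! ### The universal property -/

section Lift

variable {H : Type*} [Group H] {z : H} {t : Fin 4 → H}

/-- The map defined by the normal form. -/
def evalMdl (z : H) (t : Fin 4 → H) (x : Mdl) : H :=
  (if x.e = 1 then z else 1) * ((if x.a = 1 then t 0 else 1) *
    ((if x.b = 1 then t 1 else 1) * ((if x.c = 1 then t 2 else 1) * (if x.d = 1 then t 3 else 1))))

/-- Four involutions with commutators equal to the central involution `z`. -/
structure Rel (z : H) (t : Fin 4 → H) : Prop where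
  zz : z * z = 1
  zc : ∀ h : H, h * z = z * h
  tt : ∀ i, t i * t i = 1
  swap : ∀ i j, i < j → t j * t i = z * (t i * t j)

theorem Rel.eval_mul (r : Rel z t) (x y : Mdl) : evalMdl z t (x * y) = evalMdl z t x * evalMdl z t y := by
  have hzz : ∀ h, z * (z * h) = h := fun h => by rw [← mul_assoc, r.zz, one_mul]
  have htt : ∀ i h, t i * (t i * h) = h := fun i h => by rw [← mul_assoc, r.tt, one_mul]
  have htz : ∀ i h, t i * (z * h) = z * (t i * h) := fun i h => by rw [← mul_assoc, r.zc, mul_assoc]
  have s10 : ∀ h, t 1 * (t 0 * h) = z * (t 0 * (t 1 * h)) := fun h => by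
    rw [← mul_assoc, r.swap 0 1 (by decide)]; simp only [mul_assoc]
  have s20 : ∀ h, t 2 * (t 0 * h) = z * (t 0 * (t 2 * h)) := fun h => by
    rw [← mul_assoc, r.swap 0 2 (by decide)]; simp only [mul_assoc]
  have s21 : ∀ h, t 2 * (t 1 * h) = z * (t 1 * (t 2 * h)) := fun h => by
    rw [← mul_assoc, r.swap 1 2 (by decide)]; simp only [mul_assoc]
  have s30 : ∀ h, t 3 * (t 0 * h) = z * (t 0 * (t 3 * h)) := fun h => by
    rw [← mul_assoc, r.swap 0 3 (by decide)]; simp only [mul_assoc]
  have s31 : ∀ h, t 3 * (t 1 * h) = z * (t 1 * (t 3 * h)) := fun h => by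
    rw [← mul_assoc, r.swap 1 3 (by decide)]; simp only [mul_assoc]
  have s32 : ∀ h, t 3 * (t 2 * h) = z * (t 2 * (t 3 * h)) := fun h => by
    rw [← mul_assoc, r.swap 2 3 (by decide)]; simp only [mul_assoc]
  have e10 := r.swap 0 1 (by decide)
  have e20 := r.swap 0 2 (by decide)
  have e21 := r.swap 1 2 (by decide)
  have e30 := r.swap 0 3 (by decide)
  have e31 := r.swap 1 3 (by decide)
  have e32 := r.swap 2 3 (by decide)
  have hz' : ∀ i, t i * z = z * t i := fun i => r.zc (t i)
  -- left multiplication by the generators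
  have hgen : ∀ g ∈ ({gz, T 0, T 1, T 2, T 3} : Set Mdl), ∀ y, evalMdl z t (g * y) =
      evalMdl z t g * evalMdl z t y := by
    rintro g hg ⟨ya, yb, yc, yd, ye⟩
    rcases hg with rfl | rfl | rfl | rfl | rfl <;> fin_cases ya <;> fin_cases yb <;> fin_cases yc <;>
      fin_cases yd <;> fin_cases ye <;>
        simp +decide [evalMdl, gz, T, mul_def, hzz, htt, htz, s10, s20, s21, s30, s31, s32, r.zz, r.tt,
          e10, e20, e21, e30, e31, e32, hz']
  let S : Subgroup Mdl :=
    { carrier := {g | ∀ y, evalMdl z t (g * y) = evalMdl z t g * evalMdl z t y}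
      one_mem' := fun y => by simp +decide [evalMdl, one_def, mul_def]
      mul_mem' := fun {g h} hg hh y => by rw [mul_assoc, hg, hh, hg h, mul_assoc]
      inv_mem' := fun {g} hg y => by
        have h1 := hg (g⁻¹ * y)
        have h2 := hg g⁻¹
        rw [mul_inv_cancel_left] at h1
        rw [mul_inv_cancel, show evalMdl z t 1 = 1 by simp +decide [evalMdl, one_def]] at h2
        rw [eq_inv_mul_of_mul_eq h1.symm, inv_eq_of_mul_eq_one_right h2.symm] }
  have hS : ∀ g, g ∈ S := fun g => by
    refine (Subgroup.closure_le S).2 ?_ (mem_closure g)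
    rintro _ ⟨i, rfl⟩
    refine hgen _ ?_
    fin_cases i <;> simp
  exact hS x y

/-- The homomorphism sending the generators to `t`. -/
def Rel.lift (r : Rel z t) : Mdl →* H :=
  MonoidHom.mk' (evalMdl z t) r.eval_mul

theorem Rel.lift_T (r : Rel z t) (i : Fin 4) : r.lift (T i.castSucc) = t i := by
  show evalMdl z t _ = _
  fin_cases i <;> simp +decide [evalMdl, T]

theorem Rel.lift_gz (r : Rel z t) : r.lift gz = z := by
  show evalMdl z t _ = _
  simp +decide [evalMdl, gz]

theorem Rel.lift_injective (r : Rel z t) (hz : z ≠ 1) : Function.Injective r.lift := by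
  rw [← MonoidHom.ker_eq_bot_iff, Subgroup.eq_bot_iff_forall]
  intro x hx
  rw [MonoidHom.mem_ker] at hx
  -- a noncentral element of the kernel would put the central involution into it
  by_cases hc : ∀ y, y * x = x * y
  · rcases center_cases x hc with h | h
    · exact h
    · exact absurd (by rw [← r.lift_gz, ← h, hx]) hz
  · exfalso
    push Not at hc
    obtain ⟨y, hy⟩ := hc
    have key : ∀ u w : Mdl, u * w = w * u ∨ u * w = gz * (w * u) := by decide
    have h := (key y x).resolve_left hy
    have h' := congrArg r.lift h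
    simp only [map_mul, r.lift_gz, hx, mul_one, one_mul] at h'
    exact hz (mul_eq_right.1 h'.symm)

end Lift

/-! ### The automorphism group -/

theorem aut_gz (f : MulAut Mdl) : f gz = gz := by
  rcases center_cases (f gz) (fun y => by
    obtain ⟨y, rfl⟩ := f.surjective y
    rw [← map_mul, ← map_mul, gz_comm]) with h | h
  · exact absurd (f.injective (h.trans (map_one f).symm)) gz_ne
  · exact h

theorem aut_T (f : MulAut Mdl) (i : Fin 5) :
    f (T i) = T (idx (f (T i))) ∨ f (T i) = gz * T (idx (f (T i))) :=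
  sing _ (by rw [← map_mul, (T_props i).1, map_one])
    (fun h => (T_props i).2.1 (f.injective (h.trans (map_one f).symm)))
    (fun h => (T_props i).2.2 (f.injective (h.trans (aut_gz f).symm)))

theorem idx_comp (f g : MulAut Mdl) (i : Fin 5) : idx (f (g (T i))) = idx (f (T (idx (g (T i))))) := by
  rcases aut_T g i with h | h
  · rw [← h]
  · conv_lhs => rw [h, map_mul, aut_gz, idx_gz_mul]

/-- The action on the five classes of noncentral involutions. -/
def permEquiv (f : MulAut Mdl) : Equiv.Perm (Fin 5) where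
  toFun i := idx (f (T i))
  invFun i := idx (f⁻¹ (T i))
  left_inv i := by
    simp only
    rw [← idx_comp, MulAut.inv_apply_self, idx_T]
  right_inv i := by
    simp only
    rw [← idx_comp, MulAut.apply_inv_self, idx_T]

/-- The action as a homomorphism. -/
def perm : MulAut Mdl →* Equiv.Perm (Fin 5) :=
  MonoidHom.mk' permEquiv fun f g => Equiv.ext fun i => idx_comp f g i

theorem perm_surjective : Function.Surjective perm := by
  intro σ
  let t : Fin 4 → Mdl := fun i => T (σ i.castSucc)
  have r : Rel gz t :=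
    { zz := by decide
      zc := gz_comm
      tt := fun i => (T_props _).1
      swap := fun i j hij => T_swap _ _ fun h => hij.ne (Fin.castSucc_injective _ (σ.injective h)) }
  let f : MulAut Mdl := MulEquiv.ofBijective r.lift
    (Finite.injective_iff_bijective.1 (r.lift_injective gz_ne))
  refine ⟨f, ?_⟩
  have h4 : ∀ i : Fin 4, perm f i.castSucc = σ i.castSucc := fun i => by
    show idx (r.lift (T i.castSucc)) = _
    rw [r.lift_T, idx_T]
  refine Equiv.ext fun i => Fin.lastCases ?_ h4 i
  by_contra hne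
  obtain ⟨j, hj⟩ := σ.surjective (perm f (Fin.last 4))
  rcases Fin.eq_castSucc_or_eq_last j with ⟨k, rfl⟩ | rfl
  · rw [← h4] at hj
    exact (Fin.castSucc_lt_last k).ne ((perm f).injective hj)
  · exact hne hj.symm

theorem perm_ker : perm.ker = (MulAut.conj : Mdl →* MulAut Mdl).range := by
  ext f
  rw [MonoidHom.mem_ker]
  constructor
  · intro hf
    have hidx : ∀ i, idx (f (T i)) = i := fun i => Equiv.ext_iff.1 hf i
    obtain ⟨g, hg⟩ := inner_signs fun i => decide (f (T i.castSucc) = gz * T i.castSucc)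
    refine ⟨g, MulEquiv.toMonoidHom_injective (hom_ext fun i => ?_)⟩
    show MulAut.conj g (T i.castSucc) = f (T i.castSucc)
    rw [MulAut.conj_apply, hg i]
    by_cases h : f (T i.castSucc) = gz * T i.castSucc
    · simp [h]
    · simp only [h, decide_false, Bool.false_eq_true, if_false, one_mul]
      rcases aut_T f i.castSucc with h' | h' <;> rw [hidx] at h'
      · exact h'.symm
      · exact absurd h' h
  · rintro ⟨g, rfl⟩
    refine Equiv.ext fun i => ?_
    show idx (g * T i * g⁻¹) = i
    rcases conj_T g i with h | h <;> simp [h, idx_T, idx_gz_mul]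

theorem card_range_conj : Nat.card (MulAut.conj : Mdl →* MulAut Mdl).range = 16 := by
  have hker : (MulAut.conj : Mdl →* MulAut Mdl).ker = Subgroup.center Mdl := by
    ext x
    rw [MonoidHom.mem_ker, Subgroup.mem_center_iff]
    constructor
    · intro h y
      have := DFunLike.congr_fun h y
      rw [MulAut.conj_apply, MulAut.one_apply, mul_inv_eq_iff_eq_mul] at this
      exact this.symm
    · intro h
      refine MulEquiv.ext fun y => ?_
      rw [MulAut.conj_apply, MulAut.one_apply, ← h y, mul_inv_cancel_right]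
  have hcen : (Subgroup.center Mdl : Set Mdl) = {1, gz} := by
    ext x
    rw [SetLike.mem_coe, Set.mem_insert_iff, Set.mem_singleton_iff]
    refine ⟨fun h => center_cases x (Subgroup.mem_center_iff.1 h), ?_⟩
    rintro (rfl | rfl)
    · exact one_mem _
    · exact gz_mem_center
  have h2 : Nat.card (Subgroup.center Mdl) = 2 := by
    rw [← SetLike.coe_sort_coe, Nat.card_coe_set_eq, hcen, Set.ncard_pair gz_ne.symm]
  have h := Subgroup.card_mul_index (MulAut.conj : Mdl →* MulAut Mdl).ker
  rw [Subgroup.index_ker, hker, h2, Nat.card_eq_fintype_card (α := Mdl),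
    show Fintype.card Mdl = 32 from by decide] at h
  omega

theorem card_mulAut : Nat.card (MulAut Mdl) = 1920 := by
  have h := Subgroup.card_mul_index perm.ker
  rw [Subgroup.index_ker, perm_ker, card_range_conj, MonoidHom.range_eq_top.2 perm_surjective,
    Subgroup.card_top] at h
  rw [← h, Nat.card_perm, Nat.card_fin]
  rfl

end Mdl

end CfsgLib.Minimal.MinusFive
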