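import Cfsg.Agent.Lib.Cores.MinimalNormal
import Cfsg.Agent.Lib.PSolvable.Basic
import Cfsg.Agent.Lib.CoprimeAction.Basic

/-!
A finite `p`-soluble group in which every maximal subgroup has a normal `p`-complement or prime index has a
normal series with factors `p'`, `p`, `p'`, `p`.
-/

set_option autoImplicit false
set_option linter.style.haveILetI false

namespace CfsgLib.Minimal

open scoped Pointwise

universe u

/-- A normal series with factors `p'`, `p`, `p'`, `p`. -/
def SeriesPPPP (p : ℕ) (G : Type u) [Group G] : Prop :=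
  ∃ A B C : Subgroup G, A.Normal ∧ B.Normal ∧ C.Normal ∧ A ≤ B ∧ B ≤ C ∧ ¬ p ∣ Nat.card A ∧
    (∃ k : ℕ, A.relIndex B = p ^ k) ∧ ¬ p ∣ B.relIndex C ∧ ∃ k : ℕ, C.index = p ^ k

/-- Every maximal subgroup has a normal `p`-complement or prime index. -/
def MaxPNilOrPrime (p : ℕ) (G : Type u) [Group G] : Prop :=
  ∀ M : Subgroup G, IsCoatom M →
    (∃ K : Subgroup ↥M, K.Normal ∧ ¬ p ∣ Nat.card K ∧ ∃ k : ℕ, K.index = p ^ k) ∨ (M.index).Prime

variable {p : ℕ} {G : Type u} [Group G]

theorem exists_eq_prime_pow [hp : Fact p.Prime] {a k : ℕ} (h : a ∣ p ^ k) : ∃ j : ℕ, a = p ^ j := by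
  obtain ⟨j, -, rfl⟩ := (Nat.dvd_prime_pow hp.out).mp h
  exact ⟨j, rfl⟩

theorem relIndex_dvd_of_le_normal (A : Subgroup G) [A.Normal] {K B : Subgroup G} (h : K ≤ B) :
    A.relIndex K ∣ A.relIndex B := by
  have := Subgroup.relIndex_dvd_index_of_normal (A.subgroupOf B) (K.subgroupOf B)
  rwa [Subgroup.relIndex_subgroupOf h] at this

theorem relIndex_inf_dvd (A₁ A₂ B₁ B₂ : Subgroup G) [A₁.Normal] [A₂.Normal] :
    (A₁ ⊓ A₂).relIndex (B₁ ⊓ B₂) ∣ A₁.relIndex B₁ * A₂.relIndex B₂ := by
  have h := Subgroup.relIndex_inf_mul_relIndex A₂ A₁ (B₁ ⊓ B₂)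
  have h' : (A₁ ⊓ A₂).relIndex (B₁ ⊓ B₂) = A₂.relIndex (A₁ ⊓ (B₁ ⊓ B₂)) * A₁.relIndex (B₁ ⊓ B₂) := by
    rw [inf_comm A₁ A₂, ← h]
  rw [h', mul_comm]
  exact mul_dvd_mul (relIndex_dvd_of_le_normal A₁ inf_le_left)
    (relIndex_dvd_of_le_normal A₂ (inf_le_right.trans inf_le_right))

theorem seriesPPPP_of_inf [hp : Fact p.Prime] (N₁ N₂ : Subgroup G) [N₁.Normal] [N₂.Normal]
    (hN : N₁ ⊓ N₂ = ⊥) (h₁ : SeriesPPPP p (G ⧸ N₁)) (h₂ : SeriesPPPP p (G ⧸ N₂)) : SeriesPPPP p G := by
  obtain ⟨A₁, B₁, C₁, nA₁, nB₁, nC₁, hAB₁, hBC₁, a₁, ⟨k₁, b₁⟩, c₁, ⟨l₁, d₁⟩⟩ := h₁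
  obtain ⟨A₂, B₂, C₂, nA₂, nB₂, nC₂, hAB₂, hBC₂, a₂, ⟨k₂, b₂⟩, c₂, ⟨l₂, d₂⟩⟩ := h₂
  haveI := nA₁; haveI := nB₁; haveI := nC₁; haveI := nA₂; haveI := nB₂; haveI := nC₂
  let f₁ := QuotientGroup.mk' N₁
  let f₂ := QuotientGroup.mk' N₂
  have s₁ : Function.Surjective f₁ := QuotientGroup.mk'_surjective N₁
  have s₂ : Function.Surjective f₂ := QuotientGroup.mk'_surjective N₂
  refine ⟨A₁.comap f₁ ⊓ A₂.comap f₂, B₁.comap f₁ ⊓ B₂.comap f₂, C₁.comap f₁ ⊓ C₂.comap f₂,
    inferInstance, inferInstance, inferInstance,
    inf_le_inf (Subgroup.comap_mono hAB₁) (Subgroup.comap_mono hAB₂),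
    inf_le_inf (Subgroup.comap_mono hBC₁) (Subgroup.comap_mono hBC₂), ?_, ?_, ?_, ?_⟩
  · intro hd
    have hker : (f₁.prod f₂).ker = ⊥ := by
      rw [MonoidHom.ker_prod, QuotientGroup.ker_mk', QuotientGroup.ker_mk', hN]
    have hinj : Function.Injective (f₁.prod f₂) := (MonoidHom.ker_eq_bot_iff _).mp hker
    have hcard : Nat.card (A₁.comap f₁ ⊓ A₂.comap f₂ : Subgroup G) ∣ Nat.card (A₁.prod A₂) := by
      rw [← Subgroup.card_map_of_injective hinj]
      exact Subgroup.card_dvd_of_le (by rintro _ ⟨x, hx, rfl⟩; exact ⟨hx.1, hx.2⟩)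
    have := hd.trans hcard
    rw [Nat.card_congr (A₁.prodEquiv A₂).toEquiv, Nat.card_prod] at this
    exact (hp.out.dvd_mul.mp this).elim a₁ a₂
  · refine exists_eq_prime_pow (k := k₁ + k₂) ((relIndex_inf_dvd _ _ _ _).trans ?_)
    rw [Subgroup.relIndex_comap, Subgroup.relIndex_comap, Subgroup.map_comap_eq_self_of_surjective s₁,
      Subgroup.map_comap_eq_self_of_surjective s₂, b₁, b₂, pow_add]
  · intro hd
    have := hd.trans (relIndex_inf_dvd _ _ _ _)
    rw [Subgroup.relIndex_comap, Subgroup.relIndex_comap, Subgroup.map_comap_eq_self_of_surjective s₁,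
      Subgroup.map_comap_eq_self_of_surjective s₂] at this
    exact (hp.out.dvd_mul.mp this).elim c₁ c₂
  · refine exists_eq_prime_pow (k := l₁ + l₂) ?_
    have h := relIndex_inf_dvd (C₁.comap f₁) (C₂.comap f₂) ⊤ ⊤
    rw [inf_top_eq, Subgroup.relIndex_top_right, Subgroup.relIndex_top_right, Subgroup.relIndex_top_right,
      Subgroup.index_comap_of_surjective _ s₁, Subgroup.index_comap_of_surjective _ s₂, d₁, d₂] at h
    rwa [pow_add]

theorem maxPNilOrPrime_quotient [hp : Fact p.Prime] (hG : MaxPNilOrPrime p G) (N : Subgroup G) [N.Normal] :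
    MaxPNilOrPrime p (G ⧸ N) := by
  intro M hM
  let f := QuotientGroup.mk' N
  have hs : Function.Surjective f := QuotientGroup.mk'_surjective N
  rcases hG (M.comap f) (Subgroup.isCoatom_comap_of_surjective hs hM) with ⟨K, hK, hKc, k, hk⟩ | h
  · haveI := hK
    let g : M.comap f →* M := f.subgroupComap M
    have hg : Function.Surjective g := fun y => by
      obtain ⟨x, hx⟩ := hs y.1
      exact ⟨⟨x, show f x ∈ M from hx ▸ y.2⟩, Subtype.ext hx⟩
    refine Or.inl ⟨K.map g, hK.map g hg, fun h => hKc (h.trans (Subgroup.card_map_dvd _ _)), ?_⟩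
    exact exists_eq_prime_pow (k := k) (hk ▸ Subgroup.index_map_dvd K hg)
  · exact Or.inr (Subgroup.index_comap_of_surjective M hs ▸ h)

theorem seriesPPPP_aux [hp : Fact p.Prime] : ∀ (n : ℕ) (G : Type u) [Group G] [Finite G],
    Nat.card G ≤ n → Cfsg.IsPSolvable p G → MaxPNilOrPrime p G → SeriesPPPP p G := by
  intro n
  induction n with
  | zero => intro G _ _ hn; exact absurd hn (not_le.2 Nat.card_pos)
  | succ n ih =>
    intro G _ _ hn hsol hmax
    by_cases htriv : (⊤ : Subgroup G) = ⊥
    · refine ⟨⊤, ⊤, ⊤, inferInstance, inferInstance, inferInstance, le_rfl, le_rfl, ?_, ⟨0, by simp⟩,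
        by simp [hp.out.ne_one], ⟨0, by simp⟩⟩
      rw [htriv, Subgroup.card_bot]
      simp [hp.out.ne_one]
    have quot : ∀ (N : Subgroup G) [N.Normal], N ≠ ⊥ → SeriesPPPP p (G ⧸ N) := by
      intro N _ hN
      refine ih (G ⧸ N) ?_ (PSolvable.isPSolvable_quotient hsol N) (maxPNilOrPrime_quotient hmax N)
      have h1 := Subgroup.index_mul_card N
      have h2 : 1 < Nat.card N := (Subgroup.one_lt_card_iff_ne_bot N).2 hN
      have h3 : Nat.card (G ⧸ N) < Nat.card G := by
        rw [← Subgroup.index, ← h1]
        exact lt_mul_of_one_lt_right (Nat.pos_of_ne_zero N.index_ne_zero_of_finite) h2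
      omega
    obtain ⟨V, hVn, -, hV, hmin⟩ := Cores.exists_minimal_normal_le (G := G) (K := ⊤) htriv
    haveI := hVn
    by_cases hother : ∃ W : Subgroup G, W.Normal ∧ W ≠ ⊥ ∧ V ⊓ W = ⊥
    · obtain ⟨W, hWn, hW, hVW⟩ := hother
      exact seriesPPPP_of_inf V W hVW (quot V hV) (quot W hW)
    push Not at hother
    have hle : ∀ W : Subgroup G, W.Normal → W ≠ ⊥ → V ≤ W := fun W hWn hW => by
      rcases hmin (V ⊓ W) inferInstance inf_le_left with h | h
      · exact absurd h (hother W hWn hW)
      · exact inf_eq_left.mp h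
    haveI : Nontrivial G := not_subsingleton_iff_nontrivial.mp fun hsub =>
      hV ((Subgroup.eq_bot_iff_forall _).mpr fun x _ => Subsingleton.elim x 1)
    obtain ⟨A', B', C', nA, nB, nC, hAB, hBC, a, ⟨k, b⟩, c, ⟨l, d⟩⟩ := quot V hV
    haveI := nA; haveI := nB; haveI := nC
    let f := QuotientGroup.mk' V
    have hs : Function.Surjective f := QuotientGroup.mk'_surjective V
    have hBC' : ¬ p ∣ (B'.comap f).relIndex (C'.comap f) := by
      rwa [Subgroup.relIndex_comap, Subgroup.map_comap_eq_self_of_surjective hs]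
    have hC' : ∃ l : ℕ, (C'.comap f).index = p ^ l := ⟨l, by rw [Subgroup.index_comap_of_surjective _ hs, d]⟩
    rcases PSolvable.core_ne_bot hsol with hcore | hcore
    swap
    · -- `V` is a `p'`-group
      have hVp : ¬ p ∣ Nat.card V := fun h => by
        have h2 := h.trans (Subgroup.card_dvd_of_le (hle _ inferInstance hcore))
        exact hp.out.coprime_iff_not_dvd.mp (Cores.card_pPrimeCore_coprime (G := G) p).symm h2
      refine ⟨A'.comap f, B'.comap f, C'.comap f, inferInstance, inferInstance, inferInstance,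
        Subgroup.comap_mono hAB, Subgroup.comap_mono hBC, ?_,
        ⟨k, by rw [Subgroup.relIndex_comap, Subgroup.map_comap_eq_self_of_surjective hs, b]⟩, hBC', hC'⟩
      rw [Cores.card_comap_mk']
      exact fun h => (hp.out.dvd_mul.mp h).elim (fun h => by first | exact a h | exact hVp h)
        (fun h => by first | exact hVp h | exact a h)
    · -- `V` is a `p`-group
      have hVp : IsPGroup p V := (Cores.isPGroup_pCore p G).to_le (hle _ inferInstance hcore)
      by_cases hfr : ∃ M : Subgroup G, IsCoatom M ∧ ¬ V ≤ M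
      · obtain ⟨M, hM, hVM⟩ := hfr
        haveI : Group.IsNilpotent V := hVp.isNilpotent
        haveI hVcomm : IsMulCommutative V := by
          haveI : Nontrivial V := (Subgroup.nontrivial_iff_ne_bot V).mpr hV
          haveI := hVp.center_nontrivial
          have hc : ((Subgroup.center V).map V.subtype).Normal := Cores.normal_map_subtype V _
          rcases hmin _ hc (Subgroup.map_subtype_le _) with h | h
          · rw [Subgroup.map_eq_bot_iff_of_injective _ V.subtype_injective] at h
            exact absurd h ((Subgroup.nontrivial_iff_ne_bot _).mp inferInstance)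
          · refine ⟨⟨fun x y => ?_⟩⟩
            have hy : (y : G) ∈ (Subgroup.center V).map V.subtype := h.symm ▸ y.2
            obtain ⟨z, hz, hzy⟩ := hy
            rw [← (show z = y from Subtype.ext hzy)]
            exact Subgroup.mem_center_iff.mp hz x
        have hc := Cores.isComplement'_of_minimal_normal_of_isCoatom hmin hM hVM
        have hidx : M.index = Nat.card V := hc.index_eq_card
        have hVd : ∃ j, Nat.card V = p ^ j := IsPGroup.iff_card.mp hVp
        have hCV : ∀ x ∈ M, x ∈ Subgroup.centralizer (V : Set G) → x = 1 := by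
          have hn : (M ⊓ Subgroup.centralizer (V : Set G)).Normal := by
            rw [← Subgroup.normalizer_eq_top_iff, eq_top_iff, ← hc.sup_eq_top, sup_le_iff]
            constructor
            · refine le_trans ?_ (Subgroup.centralizer_le_normalizer _)
              rw [Subgroup.le_centralizer_iff]
              exact inf_le_right
            · intro m hm
              rw [Subgroup.mem_normalizer_iff]
              intro x
              have hcn : (Subgroup.centralizer (V : Set G)).Normal := inferInstance
              constructor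
              · exact fun hx => ⟨M.mul_mem (M.mul_mem hm hx.1) (M.inv_mem hm), hcn.conj_mem _ hx.2 m⟩
              · intro hx
                exact ⟨by simpa [mul_assoc] using M.mul_mem (M.mul_mem (M.inv_mem hm) hx.1) hm,
                  by simpa [mul_assoc] using hcn.conj_mem _ hx.2 m⁻¹⟩
          intro x hxM hxC
          have : x ∈ (⊥ : Subgroup G) := by
            by_contra hx
            have hne : M ⊓ Subgroup.centralizer (V : Set G) ≠ ⊥ := fun h => hx (h ▸ ⟨hxM, hxC⟩)
            exact hVM ((hle _ hn hne).trans inf_le_left)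
          simpa using this
        rcases hmax M hM with ⟨K, hK, hKc, j, hj⟩ | hprime
        · haveI := hK
          let K' := K.map M.subtype
          have hKM : K' ≤ M := Subgroup.map_subtype_le K
          have hnC : (V ⊔ K').Normal := by
            rw [← Subgroup.normalizer_eq_top_iff, eq_top_iff, ← hc.sup_eq_top, sup_le_iff]
            refine ⟨le_sup_left.trans Subgroup.le_normalizer, ?_⟩
            intro m hm
            rw [Subgroup.mem_normalizer_iff_map_conj_eq, Subgroup.map_sup,
              Subgroup.mem_normalizer_iff_map_conj_eq.mp (Subgroup.normalizer_eq_top (H := V) ▸ Subgroup.mem_top m)]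
            congr 1
            ext x
            constructor
            · rintro ⟨_, ⟨y, hy, rfl⟩, rfl⟩
              exact ⟨⟨m, hm⟩ * y * ⟨m, hm⟩⁻¹, hK.conj_mem y hy _, rfl⟩
            · rintro ⟨y, hy, rfl⟩
              refine ⟨_, ⟨⟨m, hm⟩⁻¹ * y * (⟨m, hm⟩⁻¹)⁻¹, hK.conj_mem y hy _, rfl⟩, ?_⟩
              simp [mul_assoc]
          haveI := hnC
          have hdisj : V ⊓ K' = ⊥ :=
            le_bot_iff.mp (le_trans (inf_le_inf_left V hKM) (disjoint_iff.mp hc.disjoint).le)
          have hrel : V.relIndex (V ⊔ K') = Nat.card K := by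
            rw [sup_comm, Subgroup.relIndex_sup_right, ← Subgroup.card_map_of_injective (M.subtype_injective)]
            show V.relIndex K' = Nat.card K'
            rw [← Subgroup.inf_relIndex_right, hdisj, Subgroup.relIndex_bot_left]
          refine ⟨⊥, V, V ⊔ K', inferInstance, hVn, hnC, bot_le, le_sup_left,
            by simp [hp.out.ne_one], by rw [Subgroup.relIndex_bot_left]; exact hVd, by rw [hrel]; exact hKc, ?_⟩
          have h1 := Subgroup.relIndex_mul_index (le_sup_left : V ≤ V ⊔ K')
          have h2 : V.index = Nat.card M := hc.symm.index_eq_card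
          have h3 := Subgroup.card_mul_index K
          rw [hrel, h2, ← h3, hj] at h1
          exact ⟨j, Nat.eq_of_mul_eq_mul_left Nat.card_pos h1⟩
        · -- `V` has order `p`
          obtain ⟨j, hj⟩ := hVd
          rw [hidx, hj] at hprime
          have hj1 : j = 1 := Nat.Prime.eq_one_of_pow hprime
          rw [hj1, pow_one] at hj
          haveI : IsCyclic V := isCyclic_of_prime_card hj
          let φ : M →* MulAut V := (MulAut.conjNormal (H := V)).comp M.subtype
          have hinj : Function.Injective φ := by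
            rw [← MonoidHom.ker_eq_bot_iff, Subgroup.eq_bot_iff_forall]
            intro x hx
            refine Subtype.ext (hCV x x.2 (Subgroup.mem_centralizer_iff.mpr fun v hv => ?_))
            have := congrArg (fun e : MulAut V => (e ⟨v, hv⟩ : G)) (MonoidHom.mem_ker.mp hx)
            simp only [φ, MonoidHom.coe_comp, Function.comp_apply, Subgroup.coe_subtype,
              MulAut.conjNormal_apply, MulAut.one_apply] at this
            exact (mul_inv_eq_iff_eq_mul.mp this).symm
          have hMcard : ¬ p ∣ Nat.card M := by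
            intro h
            have h1 := h.trans (Subgroup.card_dvd_of_injective φ hinj)
            rw [IsCyclic.card_mulAut, hj, Nat.totient_prime hp.out] at h1
            have := Nat.le_of_dvd (Nat.sub_pos_of_lt hp.out.one_lt) h1
            have := hp.out.one_lt
            omega
          refine ⟨⊥, V, ⊤, inferInstance, hVn, inferInstance, bot_le, le_top,
            by simp [hp.out.ne_one], ⟨1, by rw [Subgroup.relIndex_bot_left, hj, pow_one]⟩, ?_, ⟨0, by simp⟩⟩
          rw [Subgroup.relIndex_top_right, hc.symm.index_eq_card]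
          exact hMcard
      · push Not at hfr
        obtain ⟨j, hj⟩ := IsPGroup.iff_card.mp hVp
        let A := A'.comap f
        have hVA : V ≤ A := by
          intro x hx
          show f x ∈ A'
          rw [show f x = 1 from (QuotientGroup.eq_one_iff x).mpr hx]
          exact one_mem _
        have hrelA : V.relIndex A = Nat.card A' := by
          have h1 := Cores.card_comap_mk' V A'
          have h2 := Subgroup.card_mul_index (V.subgroupOf A)
          rw [Nat.card_congr (Subgroup.subgroupOfEquivOfLe hVA).toEquiv, show (V.subgroupOf A).index = V.relIndex A from rfl,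
            show Nat.card A = _ from h1] at h2
          first
          | exact Nat.eq_of_mul_eq_mul_left Nat.card_pos h2
          | exact Nat.eq_of_mul_eq_mul_left Nat.card_pos (h2.trans (mul_comm _ _))
        have hcop : (Nat.card (V.subgroupOf A)).Coprime (V.subgroupOf A).index := by
          rw [Nat.card_congr (Subgroup.subgroupOfEquivOfLe hVA).toEquiv, hj,
            show (V.subgroupOf A).index = V.relIndex A from rfl, hrelA]
          exact Nat.Coprime.pow_left _ (hp.out.coprime_iff_not_dvd.mpr a)
        obtain ⟨K, hK⟩ := Subgroup.exists_right_complement'_of_coprime hcop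
        let K' := K.map A.subtype
        have hKc : Nat.card K' = Nat.card A' := by
          rw [Subgroup.card_map_of_injective A.subtype_injective, ← hK.symm.index_eq_card, ← hrelA]
          rfl
        have hA : A ≤ V ⊔ K' := by
          intro x hx
          have := hK.sup_eq_top ▸ Subgroup.mem_top (⟨x, hx⟩ : A)
          have h := Subgroup.mem_map_of_mem A.subtype this
          rw [Subgroup.map_sup, Subgroup.subgroupOf_map_subtype] at h
          exact (sup_le (inf_le_left.trans le_sup_left) le_sup_right : V ⊓ A ⊔ K' ≤ V ⊔ K') h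
        haveI : Group.IsNilpotent V := hVp.isNilpotent
        have hKn : K'.Normal := by
          rw [← Subgroup.normalizer_eq_top_iff]
          by_contra hne
          obtain ⟨M, hM, hNM⟩ := (eq_top_or_exists_le_coatom _).resolve_left hne
          refine hM.1 (eq_top_iff.mpr fun g _ => ?_)
          have hB : MulAut.conj g • K' ≤ V ⊔ K' := by
            refine le_trans ?_ hA
            intro x hx
            rw [CoprimeAction.mem_conj_iff] at hx
            have := (inferInstance : A.Normal).conj_mem _ (Subgroup.map_subtype_le K hx) g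
            simpa [mul_assoc] using this
          obtain ⟨v, hv, hle'⟩ := CoprimeAction.exists_le_conj_of_coprime (N := V) (H := K')
            (Subgroup.normalizer_eq_top (H := V) ▸ le_top) hB
            (by rw [CoprimeAction.card_conj_smul, hKc, hj]
                exact (Nat.Coprime.pow_left _ (hp.out.coprime_iff_not_dvd.mpr a)).symm)
            (Or.inr inferInstance)
          have heq : MulAut.conj g • K' = MulAut.conj v • K' :=
            Subgroup.eq_of_le_of_card_ge hle' (by rw [CoprimeAction.card_conj_smul, CoprimeAction.card_conj_smul])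
          have hN : v⁻¹ * g ∈ Subgroup.normalizer (K' : Set G) := by
            rw [← CoprimeAction.conj_smul_eq_self, map_mul, ← smul_smul, heq, map_inv, inv_smul_smul]
          simpa using M.mul_mem (hfr M hM hv) (hNM hN)
        have hK' : K' = ⊥ := by
          by_contra hne
          have h1 := Subgroup.card_dvd_of_le (hle _ hKn hne)
          rw [hj, hKc] at h1
          have hj0 : j ≠ 0 := fun h => by
            rw [h, pow_zero] at hj; exact hV (Subgroup.eq_bot_of_card_eq _ hj)
          exact a ((dvd_pow_self p hj0).trans h1)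
        have hcard : Nat.card A' = 1 := by rw [← hKc, hK', Subgroup.card_bot]
        refine ⟨⊥, B'.comap f, C'.comap f, inferInstance, inferInstance, inferInstance, bot_le,
          Subgroup.comap_mono hBC, by simp [hp.out.ne_one], ⟨k + j, ?_⟩, hBC', hC'⟩
        rw [Subgroup.relIndex_bot_left, Cores.card_comap_mk', hj]
        have h1 : Nat.card B' = p ^ k := by
          rw [← b, Subgroup.eq_bot_of_card_eq A' hcard, Subgroup.relIndex_bot_left]
        rw [h1, pow_add]
        first | rfl | ring

/-- A finite `p`-soluble group all of whose maximal subgroups are `p`-nilpotent or of prime index has a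
series with factors `p'`, `p`, `p'`, `p`. -/
theorem seriesPPPP [Fact p.Prime] [Finite G] (hsol : Cfsg.IsPSolvable p G) (hmax : MaxPNilOrPrime p G) :
    SeriesPPPP p G :=
  seriesPPPP_aux (Nat.card G) G le_rfl hsol hmax

end CfsgLib.Minimal
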