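import Mathlib
import Cfsg.Agent.Lib.Minimal.SmallTwo
import Cfsg.Agent.Lib.TwoGroups.Aut
import Cfsg.Agent.Lib.TwoGroups.NormalCyclic
import Cfsg.Agent.Lib.TwoGroups.Taussky
import Cfsg.Agent.Lib.PGroups.Frattini

/-!
A solvable group in which the 2-core contains its centralizer and is small has no noncyclic abelian
subgroup of order eight outside its proper subgroups of 2-power index.
-/

set_option autoImplicit false
set_option linter.style.haveILetI false

open scoped commutatorElement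

namespace CfsgLib.Minimal.SmallCore

open CfsgLib.Minimal.SmallTwo

variable {S : Type*} [Group S] [Finite S]

omit [Finite S] in
/-- The automorphisms of a four-group permute its three involutions. -/
noncomputable def permHom (U : Subgroup S) : MulAut U →* Equiv.Perm {u : U // u ≠ 1} :=
  MonoidHom.mk' (fun e => e.toEquiv.subtypeEquiv fun u => by simp) fun e f => by
    ext u; rfl

omit [Finite S] in
theorem permHom_injective (U : Subgroup S) : Function.Injective (permHom U) := by
  intro e f h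
  refine MulEquiv.ext fun u => ?_
  by_cases hu : u = 1
  · rw [hu, map_one, map_one]
  · exact congrArg Subtype.val (Equiv.ext_iff.1 h ⟨u, hu⟩)

/-- A 2-group normalizing a four-group induces at most a transposition on it. -/
theorem relIndex_centralizer_le {W U : Subgroup S} (hW : IsPGroup 2 W) (hU : IsFour U)
    (hn : W ≤ Subgroup.normalizer (U : Set S)) :
    (Subgroup.centralizer (U : Set S)).relIndex W ≤ 2 := by
  classical
  haveI : Fact (Nat.Prime 2) := ⟨Nat.prime_two⟩
  let f : W →* Equiv.Perm {u : U // u ≠ 1} :=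
    (permHom U).comp ((Subgroup.normalizerMonoidHom U).comp (Subgroup.inclusion hn))
  have hker : f.ker = (Subgroup.centralizer (U : Set S)).subgroupOf W := by
    ext w
    rw [MonoidHom.mem_ker, Subgroup.mem_subgroupOf, MonoidHom.comp_apply,
      map_eq_one_iff _ (permHom_injective U), MonoidHom.comp_apply, ← MonoidHom.mem_ker,
      Subgroup.normalizerMonoidHom_ker, Subgroup.mem_subgroupOf]
    rfl
  have hdvd : f.ker.index ∣ 6 := by
    have h := Subgroup.card_subgroup_dvd_card f.range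
    rw [← Subgroup.index_ker, Nat.card_perm] at h
    have h3 : Nat.card {u : U // u ≠ 1} = 3 := by
      haveI : Fintype U := Fintype.ofFinite U
      rw [Nat.card_eq_fintype_card, Fintype.card_subtype_compl, Fintype.card_subtype_eq,
        ← Nat.card_eq_fintype_card, hU.card]
    rwa [h3] at h
  obtain ⟨k, hk⟩ := hW.index f.ker
  rw [hker] at hdvd hk
  show ((Subgroup.centralizer (U : Set S)).subgroupOf W).index ≤ 2
  rw [hk] at hdvd ⊢
  have h6 := Nat.le_of_dvd (by norm_num) hdvd
  have : k ≤ 1 := by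
    by_contra h
    have h4 : 2 ^ 2 ∣ 6 := (Nat.pow_dvd_pow 2 (by omega : 2 ≤ k)).trans hdvd
    norm_num at h4
  calc 2 ^ k ≤ 2 ^ 1 := Nat.pow_le_pow_right two_pos this
    _ = 2 := rfl

omit [Finite S] in
theorem isPGroup_sup {T A : Subgroup S} [T.Normal] (hT : IsPGroup 2 T) (hA : IsPGroup 2 A) :
    IsPGroup 2 (A ⊔ T : Subgroup S) := hA.to_sup_of_normal_right hT

theorem quaternion_facts :
    (∀ x : QuaternionGroup 2, x * x = 1 → x = 1 ∨ x = QuaternionGroup.a 2) ∧
    (∀ x y : QuaternionGroup 2, x * y ≠ y * x → x * x = QuaternionGroup.a 2) ∧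
    (∀ x : QuaternionGroup 2, (∀ y, x * y = y * x) → x = 1 ∨ x = QuaternionGroup.a 2) ∧
    (∀ i j t : QuaternionGroup 2, i * j ≠ j * i → i * t ≠ t * i →
      t = j ∨ t = QuaternionGroup.a 2 * j ∨ t = i * j ∨ t = QuaternionGroup.a 2 * (i * j)) ∧
    (∀ i j t : QuaternionGroup 2, i * j ≠ j * i → t * i = i * t → t * j = j * t →
      t = 1 ∨ t = QuaternionGroup.a 2) ∧
    (∀ i j : QuaternionGroup 2, i * j ≠ j * i → i * j * i⁻¹ = QuaternionGroup.a 2 * j) ∧
    QuaternionGroup.a 2 * QuaternionGroup.a 2 = (1 : QuaternionGroup 2) ∧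
    (∀ x : QuaternionGroup 2, QuaternionGroup.a 2 * x = x * QuaternionGroup.a 2) ∧
    (QuaternionGroup.a 2 : QuaternionGroup 2) ≠ 1 := by
  refine ⟨?_, ?_, ?_, ?_, ?_, ?_, ?_, ?_, ?_⟩ <;> decide

/-- A quaternion 2-core leaves no room for a noncyclic abelian subgroup of order eight. -/
theorem false_of_quaternion (T : Subgroup S) [hTn : T.Normal] (hT : IsPGroup 2 T)
    (hCT : Subgroup.centralizer (T : Set S) ≤ T) (e : T ≃* QuaternionGroup 2)
    {A : Subgroup S} (hAc : IsMulCommutative A) (hAn : ¬ IsCyclic A) (hA8 : Nat.card A = 8) : False := by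
  classical
  haveI : Fact (Nat.Prime 2) := ⟨Nat.prime_two⟩
  obtain ⟨q1, q2, q3, q4, q5, q6, q7, q8, q9⟩ := quaternion_facts
  set z : S := (e.symm (QuaternionGroup.a 2) : S) with hz
  have hzT : z ∈ T := (e.symm (QuaternionGroup.a 2)).2
  let E : ∀ x, x ∈ T → QuaternionGroup 2 := fun x hx => e ⟨x, hx⟩
  have Emul : ∀ x y (hx : x ∈ T) (hy : y ∈ T), E (x * y) (mul_mem hx hy) = E x hx * E y hy :=
    fun x y hx hy => map_mul e ⟨x, hx⟩ ⟨y, hy⟩
  have Einj : ∀ x y (hx : x ∈ T) (hy : y ∈ T), E x hx = E y hy → x = y :=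
    fun x y hx hy h => congrArg Subtype.val (e.injective h)
  have Ez : E z hzT = QuaternionGroup.a 2 := by
    simp only [E, z, Subtype.coe_eta, MulEquiv.apply_symm_apply]
  have Eone : E 1 (one_mem T) = 1 := map_one e
  have Ecomm : ∀ x y (hx : x ∈ T) (hy : y ∈ T), x * y = y * x ↔ E x hx * E y hy = E y hy * E x hx := by
    intro x y hx hy
    rw [← Emul _ _ hx hy, ← Emul _ _ hy hx]
    exact ⟨fun h => by simp only [h], Einj _ _ (mul_mem hx hy) (mul_mem hy hx)⟩
  have hzz : z * z = 1 := Einj _ _ (mul_mem hzT hzT) (one_mem T) (by rw [Emul _ _ hzT hzT, Ez, Eone, q7])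
  have hz1 : z ≠ 1 := fun h => q9 (by rw [← Ez, ← Eone]; simp only [h])
  have hzc : ∀ x ∈ T, z * x = x * z := fun x hx => (Ecomm _ _ hzT hx).2 (by rw [Ez, q8])
  have t1 : ∀ x ∈ T, x * x = 1 → x = 1 ∨ x = z := fun x hx h => by
    have h' : E x hx * E x hx = 1 := by rw [← Emul _ _ hx hx, ← Eone]; simp only [h]
    exact (q1 _ h').imp (fun e1 => Einj _ _ hx (one_mem T) (e1.trans Eone.symm))
      fun e1 => Einj _ _ hx hzT (e1.trans Ez.symm)
  have t2 : ∀ x ∈ T, ∀ y ∈ T, x * y ≠ y * x → x * x = z := fun x hx y hy h =>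
    Einj _ _ (mul_mem hx hx) hzT (by rw [Emul _ _ hx hx, Ez]; exact q2 _ _ (mt (Ecomm x y hx hy).2 h))
  have t3 : ∀ x ∈ T, x ≠ 1 → x ≠ z → ∃ y ∈ T, x * y ≠ y * x := fun x hx h1 h2 => by
    by_contra hno
    push Not at hno
    rcases q3 (E x hx) (fun w => by
      obtain ⟨⟨y, hy⟩, rfl⟩ := e.surjective w
      exact (Ecomm x y hx hy).1 (hno y hy)) with h | h
    · exact h1 (Einj _ _ hx (one_mem T) (h.trans Eone.symm))
    · exact h2 (Einj _ _ hx hzT (h.trans Ez.symm))
  have t4 : ∀ i ∈ T, ∀ j ∈ T, ∀ t ∈ T, i * j ≠ j * i → i * t ≠ t * i →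
      t = j ∨ t = z * j ∨ t = i * j ∨ t = z * (i * j) := fun i hi j hj t ht h h' => by
    rcases q4 _ _ _ (mt (Ecomm i j hi hj).2 h) (mt (Ecomm i t hi ht).2 h') with h1 | h1 | h1 | h1
    · exact Or.inl (Einj _ _ ht hj h1)
    · exact Or.inr (Or.inl (Einj _ _ ht (mul_mem hzT hj) (by rw [Emul _ _ hzT hj, Ez, h1])))
    · exact Or.inr (Or.inr (Or.inl (Einj _ _ ht (mul_mem hi hj) (by rw [Emul _ _ hi hj, h1]))))
    · exact Or.inr (Or.inr (Or.inr (Einj _ _ ht (mul_mem hzT (mul_mem hi hj))
        (by rw [Emul _ _ hzT (mul_mem hi hj), Ez, Emul _ _ hi hj, h1]))))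
  have t6 : ∀ i ∈ T, ∀ j ∈ T, i * j ≠ j * i → i * j * i⁻¹ = z * j := fun i hi j hj h => by
    have hQ := q6 _ _ (mt (Ecomm i j hi hj).2 h)
    rw [mul_inv_eq_iff_eq_mul] at hQ ⊢
    exact Einj _ _ (mul_mem hi hj) (mul_mem (mul_mem hzT hj) hi)
      (by rw [Emul _ _ hi hj, Emul _ _ (mul_mem hzT hj) hi, Emul _ _ hzT hj, Ez]; exact hQ)
  have hCz : ∀ i ∈ T, ∀ j ∈ T, i * j ≠ j * i → ∀ t ∈ T, t * i = i * t → t * j = j * t → t = 1 ∨ t = z :=
    fun i hi j hj h t ht h1 h2 => by
      rcases q5 _ _ _ (mt (Ecomm i j hi hj).2 h) ((Ecomm t i ht hi).1 h1) ((Ecomm t j ht hj).1 h2) with e1 | e1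
      · exact Or.inl (Einj _ _ ht (one_mem T) (e1.trans Eone.symm))
      · exact Or.inr (Einj _ _ ht hzT (e1.trans Ez.symm))
  -- an element commuting with two noncommuting elements of `T` lies in `T`
  have hgen : ∀ i ∈ T, ∀ j ∈ T, i * j ≠ j * i → ∀ a : S, a * i = i * a → a * j = j * a →
      a ∈ Subgroup.centralizer (T : Set S) := by
    intro i hi j hj hij a hai haj
    refine Subgroup.mem_centralizer_iff.2 fun t ht => ?_
    have ci : Commute a i := hai
    have cj : Commute a j := haj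
    have cz : Commute a z := by rw [← t2 i hi j hj hij]; exact ci.mul_right ci
    by_cases h : i * t = t * i
    · by_cases h' : j * t = t * j
      · rcases hCz i hi j hj hij t ht h.symm h'.symm with rfl | rfl
        · simp
        · exact cz.eq.symm
      · rcases t4 j hj i hi t ht (Ne.symm hij) h' with rfl | rfl | rfl | rfl
        exacts [ci.eq.symm, (cz.mul_right ci).eq.symm, (cj.mul_right ci).eq.symm,
          (cz.mul_right (cj.mul_right ci)).eq.symm]
    · rcases t4 i hi j hj t ht hij h with rfl | rfl | rfl | rfl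
      exacts [cj.eq.symm, (cz.mul_right cj).eq.symm, (ci.mul_right cj).eq.symm,
        (cz.mul_right (ci.mul_right cj)).eq.symm]
  let K : Subgroup S := A ⊔ T
  have hA : IsPGroup 2 A := IsPGroup.of_card (n := 3) (by rw [hA8]; norm_num)
  have hK : IsPGroup 2 K := isPGroup_sup hT hA
  have hTK : T ≤ K := le_sup_right
  -- `Z(T)` is normal in `S`
  have hconjz : ∀ s : S, s * z * s⁻¹ = z := by
    intro s
    have hm : s * z * s⁻¹ ∈ T := hTn.conj_mem z hzT s
    refine (t1 _ hm (by rw [show s * z * s⁻¹ * (s * z * s⁻¹) = s * (z * z) * s⁻¹ by group, hzz]; group)).resolve_left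
      fun h => hz1 ?_
    rwa [conj_eq_one_iff] at h
  have hzcS : ∀ s : S, z * s = s * z := fun s => by
    rw [← eq_comm, ← mul_inv_eq_iff_eq_mul]; exact hconjz s
  -- an element of `T` fixed by `K` modulo the centre
  obtain ⟨i, hiT, hi1, hiz, hiK⟩ : ∃ i ∈ T, i ≠ 1 ∧ i ≠ z ∧ ∀ a ∈ K, a * i * a⁻¹ = i ∨ a * i * a⁻¹ = z * i := by
    let zK : K := ⟨z, hTK hzT⟩
    haveI hn : (Subgroup.zpowers zK).Normal := ⟨fun w hw g => by
      have hc : Subgroup.zpowers zK ≤ Subgroup.center K := Subgroup.zpowers_le.2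
        (Subgroup.mem_center_iff.2 fun k => Subtype.ext (hzcS k).symm)
      rwa [Subgroup.mem_center_iff.1 (hc hw) g, mul_inv_cancel_right]⟩
    let q := QuotientGroup.mk' (Subgroup.zpowers zK)
    haveI : ((T.subgroupOf K).map q).Normal :=
      (inferInstance : (T.subgroupOf K).Normal).map q (QuotientGroup.mk'_surjective _)
    have hpow : ∀ k : K, k ∈ Subgroup.zpowers zK → (k : S) = 1 ∨ (k : S) = z := by
      intro k hk
      obtain ⟨n, rfl⟩ := Subgroup.mem_zpowers_iff.1 hk
      rw [SubgroupClass.coe_zpow, zpow_eq_zpow_emod' (n := 2) n (by rw [pow_two]; exact hzz)]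
      rcases Int.emod_two_eq_zero_or_one n with h | h <;> rw [show ((2 : ℕ) : ℤ) = 2 from rfl, h]
      · exact Or.inl (zpow_zero z)
      · exact Or.inr (zpow_one z)
    obtain ⟨x, hx1, hxz, hxT⟩ : ∃ x, x ≠ 1 ∧ x ≠ z ∧ x ∈ T := by
      by_contra hno
      push Not at hno
      have : (T : Set S) ⊆ {1, z} := fun x hx => by
        by_cases h1 : x = 1
        · exact Or.inl h1
        · exact Or.inr (by_contra fun h2 => hno x h1 h2 hx)
      have h := Set.ncard_le_ncard this (Set.toFinite _)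
      rw [← Nat.card_coe_set_eq, SetLike.coe_sort_coe, Nat.card_congr e.toEquiv, Nat.card_eq_fintype_card,
        QuaternionGroup.card] at h
      have := Set.ncard_insert_le (1 : S) {z}
      simp only [Set.ncard_singleton] at this
      omega
    obtain ⟨_, ⟨⟨i, hiK⟩, hiT, rfl⟩, hq1, hqc⟩ := CfsgLib.TwoGroups.exists_mem_center_of_normal (p := 2)
      (hK.to_quotient (Subgroup.zpowers zK)) (N := (T.subgroupOf K).map q) fun h => by
        have h' := (Subgroup.map_eq_bot_iff _).1 h (show (⟨x, hTK hxT⟩ : K) ∈ T.subgroupOf K from hxT)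
        rw [QuotientGroup.ker_mk'] at h'
        rcases hpow _ h' with h'' | h''
        exacts [hx1 h'', hxz h'']
    have hiT' : i ∈ T := hiT
    have hne : ∀ w : K, ((w : S) = 1 ∨ (w : S) = z) → q w = 1 := by
      intro w hw
      refine (QuotientGroup.eq_one_iff w).2 ?_
      rcases hw with h | h
      · rw [show w = 1 from Subtype.ext h]; exact one_mem _
      · rw [show w = zK from Subtype.ext h]; exact Subgroup.mem_zpowers _
    refine ⟨i, hiT', fun h => hq1 (hne ⟨i, hiK⟩ (Or.inl h)), fun h => hq1 (hne ⟨i, hiK⟩ (Or.inr h)), fun a ha => ?_⟩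
    have hc := Subgroup.mem_center_iff.1 hqc (q ⟨a, ha⟩)
    have h' : q (⟨a, ha⟩ * ⟨i, hiK⟩ * ⟨a, ha⟩⁻¹ * ⟨i, hiK⟩⁻¹) = 1 := by
      rw [map_mul, map_mul, map_mul, map_inv, map_inv, hc]; group
    have h'' := hpow _ ((QuotientGroup.eq_one_iff _).1 h')
    simp only [Subgroup.coe_mul, InvMemClass.coe_inv] at h''
    rcases h'' with h'' | h''
    · exact Or.inl (mul_inv_eq_one.1 h'')
    · exact Or.inr (mul_inv_eq_iff_eq_mul.1 h'')
  obtain ⟨j, hjT, hij⟩ := t3 i hiT hi1 hiz
  -- the order of `K`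
  have hTA : T.relIndex A ≤ 2 := by
    let L : Subgroup S := K ⊓ (Subgroup.centralizer ({i} : Set S) ⊓ Subgroup.centralizer ({j} : Set S))
    have hL : ∀ a ∈ L, a = 1 ∨ a = z := by
      rintro a ⟨-, hai, haj⟩
      have hai' := Subgroup.mem_centralizer_singleton_iff.1 hai
      have haj' := Subgroup.mem_centralizer_singleton_iff.1 haj
      exact hCz i hiT j hjT hij a (hCT (hgen i hiT j hjT hij a hai' haj')) hai' haj'
    have hconj : ∀ a ∈ K, (a * i * a⁻¹, a * j * a⁻¹) ∈
        ({i, z * i} ×ˢ {j, z * j, i * j, z * (i * j)} : Set (S × S)) := by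
      intro a ha
      refine ⟨hiK a ha, t4 i hiT j hjT _ (hTn.conj_mem j hjT a) hij fun hc => hij ?_⟩
      have hi' : Commute (a * i * a⁻¹) (a * j * a⁻¹) := by
        rcases hiK a ha with h | h <;> rw [h]
        · exact hc
        · exact Commute.mul_left (hzcS _) hc
      have h2 : a * (i * j) * a⁻¹ = a * (j * i) * a⁻¹ := by
        calc a * (i * j) * a⁻¹ = a * i * a⁻¹ * (a * j * a⁻¹) := by group
          _ = a * j * a⁻¹ * (a * i * a⁻¹) := hi'.eq
          _ = a * (j * i) * a⁻¹ := by group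
      exact mul_left_cancel (mul_right_cancel h2)
    have hcount : Nat.card (K ⧸ L.subgroupOf K) ≤ 8 := by
      let tgt : Set (S × S) := {i, z * i} ×ˢ {j, z * j, i * j, z * (i * j)}
      have h8 : tgt.ncard ≤ 8 := by
        simp only [tgt, Set.ncard_prod]
        have a1 : ({i, z * i} : Set S).ncard ≤ 2 := (Set.ncard_insert_le _ _).trans (by simp)
        have a2 : ({j, z * j, i * j, z * (i * j)} : Set S).ncard ≤ 4 := by
          refine (Set.ncard_insert_le _ _).trans ?_
          refine (Nat.add_le_add_right (Set.ncard_insert_le _ _) 1).trans ?_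
          refine (Nat.add_le_add_right (Nat.add_le_add_right (Set.ncard_insert_le _ _) 1) 1).trans ?_
          simp
        calc _ ≤ 2 * 4 := Nat.mul_le_mul a1 a2
          _ = 8 := by norm_num
      refine le_trans ?_ h8
      rw [← Nat.card_coe_set_eq]
      refine Nat.card_le_card_of_injective (fun q => (⟨_, hconj (q.out : K) (q.out : K).2⟩ : tgt)) ?_
      intro q₁ q₂ hq
      rw [← q₁.out_eq', ← q₂.out_eq', QuotientGroup.eq, Subgroup.mem_subgroupOf]
      have h1 := congrArg (fun w : tgt => (w : S × S).1) hq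
      have h2 := congrArg (fun w : tgt => (w : S × S).2) hq
      simp only at h1 h2
      have key : ∀ u v t : S, u * t * u⁻¹ = v * t * v⁻¹ → u⁻¹ * v * t = t * (u⁻¹ * v) := by
        intro u v t h
        calc u⁻¹ * v * t = u⁻¹ * (v * t * v⁻¹) * v := by group
          _ = t * (u⁻¹ * v) := by rw [← h]; group
      refine ⟨K.mul_mem (K.inv_mem (q₁.out).2) (q₂.out).2, Subgroup.mem_centralizer_singleton_iff.2 ?_,
        Subgroup.mem_centralizer_singleton_iff.2 ?_⟩
      · exact key _ _ i h1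
      · exact key _ _ j h2
    have hLcard : Nat.card L ≤ 2 := by
      rw [← SetLike.coe_sort_coe, Nat.card_coe_set_eq]
      refine (Set.ncard_le_ncard (t := {1, z}) (fun a ha => hL a ha) (Set.toFinite _)).trans ?_
      exact (Set.ncard_insert_le _ _).trans (by simp)
    have hK16 : Nat.card K ≤ 16 := by
      rw [← Subgroup.card_mul_index (L.subgroupOf K),
        Nat.card_congr (Subgroup.subgroupOfEquivOfLe (inf_le_left : L ≤ K)).toEquiv]
      calc _ ≤ 2 * 8 := Nat.mul_le_mul hLcard hcount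
        _ = 16 := by norm_num
    have h1 := Subgroup.card_mul_index (T.subgroupOf K)
    rw [Nat.card_congr (Subgroup.subgroupOfEquivOfLe hTK).toEquiv, Nat.card_congr e.toEquiv,
      Nat.card_eq_fintype_card, QuaternionGroup.card, show (T.subgroupOf K).index = T.relIndex A from
        Subgroup.relIndex_sup_right (H := A) (K := T)] at h1
    omega
  set B := A ⊓ T with hB
  have hB4 : 4 ≤ Nat.card B := by
    have h1 := Subgroup.card_mul_index (T.subgroupOf A)
    rw [← Subgroup.inf_subgroupOf_left T A, Nat.card_congr (Subgroup.subgroupOfEquivOfLe inf_le_left).toEquiv,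
      hA8] at h1
    have : ((A ⊓ T).subgroupOf A).index = T.relIndex A := by rw [Subgroup.inf_subgroupOf_left]; rfl
    rw [this] at h1
    by_contra h
    have := Nat.mul_le_mul (show Nat.card B ≤ 3 by omega) hTA
    rw [h1] at this
    omega
  have hac : ∀ a ∈ A, ∀ b ∈ A, a * b = b * a := fun a ha b hb =>
    congrArg Subtype.val (hAc.is_comm.comm ⟨a, ha⟩ ⟨b, hb⟩)
  obtain ⟨g, hgB, hg2⟩ : ∃ g ∈ B, g * g ≠ 1 := by
    by_contra hno
    push Not at hno
    have h : (B : Set S) ⊆ {1, z} := fun g hg => t1 g hg.2 (hno g hg)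
    have h' := (Set.ncard_le_ncard h (Set.toFinite _)).trans ((Set.ncard_insert_le _ _).trans
      (Nat.add_le_add_right (le_of_eq (Set.ncard_singleton z)) 1))
    rw [← Nat.card_coe_set_eq, SetLike.coe_sort_coe] at h'
    omega
  have hgA : g ∈ A := hgB.1
  have hgT : g ∈ T := hgB.2
  obtain ⟨j', hj', hgj⟩ := t3 g hgT (fun h => hg2 (by rw [h, one_mul])) (fun h => hg2 (by rw [h, hzz]))
  obtain ⟨a, haA, haT⟩ : ∃ a ∈ A, a ∉ T := by
    by_contra hno
    push Not at hno
    refine hgj ((Ecomm g j' hgT hj').2 ?_)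
    -- `A ≤ T` forces the commutative `A` to be `T`
    have hAT : A = T := Subgroup.eq_of_le_of_card_ge hno (by
      rw [hA8, Nat.card_congr e.toEquiv, Nat.card_eq_fintype_card, QuaternionGroup.card])
    exact (Ecomm g j' hgT hj').1 (hac g hgA j' (hAT ▸ hj'))
  -- an element of `A` outside `T` does not send `j'` to `j'` or `z j'`
  have hout : ∀ b ∈ A, b * j' * b⁻¹ = j' ∨ b * j' * b⁻¹ = z * j' → b ∈ T := by
    intro b hb h
    rcases h with h | h
    · exact hCT (hgen g hgT j' hj' hgj b (hac b hb g hgA) (mul_inv_eq_iff_eq_mul.1 h))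
    · have h' : g * b * j' * (g * b)⁻¹ = j' := by
        calc g * b * j' * (g * b)⁻¹ = g * (b * j' * b⁻¹) * g⁻¹ := by group
          _ = g * z * j' * g⁻¹ := by rw [h]; group
          _ = z * (g * j' * g⁻¹) := by rw [← hzc g hgT]; group
          _ = j' := by rw [t6 g hgT j' hj' hgj, ← mul_assoc, hzz, one_mul]
      have h'' := hCT (hgen g hgT j' hj' hgj (g * b) (hac _ (mul_mem hgA hb) g hgA) (mul_inv_eq_iff_eq_mul.1 h'))
      simpa using mul_mem (inv_mem hgT) h''
  have hne : g * (a * j' * a⁻¹) ≠ a * j' * a⁻¹ * g := by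
    intro h
    refine hgj ?_
    have h2 : a * (g * j') * a⁻¹ = a * (j' * g) * a⁻¹ := by
      calc a * (g * j') * a⁻¹ = a * g * a⁻¹ * (a * j' * a⁻¹) := by group
        _ = g * (a * j' * a⁻¹) := by rw [hac a haA g hgA]; group
        _ = a * j' * a⁻¹ * g := h
        _ = a * j' * a⁻¹ * (a * g * a⁻¹) := by rw [hac a haA g hgA]; group
        _ = a * (j' * g) * a⁻¹ := by group
    exact mul_left_cancel (mul_right_cancel h2)
  obtain ⟨ε, hεc, heε, haj⟩ : ∃ ε : S, (∀ s, ε * s = s * ε) ∧ ε * ε = 1 ∧ a * j' * a⁻¹ = ε * (g * j') := by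
    rcases t4 g hgT j' hj' _ (hTn.conj_mem j' hj' a) hgj hne with h | h | h | h
    · exact absurd (hout a haA (Or.inl h)) haT
    · exact absurd (hout a haA (Or.inr h)) haT
    · exact ⟨1, fun s => by simp, one_mul 1, by rw [h, one_mul]⟩
    · exact ⟨z, hzcS, hzz, h⟩
  have hgg : g * g = z := t2 g hgT j' hj' hgj
  have haa : a * a * j' * (a * a)⁻¹ = z * j' := by
    calc a * a * j' * (a * a)⁻¹ = a * (a * j' * a⁻¹) * a⁻¹ := by group
      _ = a * (ε * (g * j')) * a⁻¹ := by rw [haj]
      _ = ε * (a * g * a⁻¹ * (a * j' * a⁻¹)) := by rw [← mul_assoc a ε, ← hεc a]; group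
      _ = ε * (g * (ε * (g * j'))) := by rw [haj, hac a haA g hgA]; group
      _ = (ε * ε) * (g * g * j') := by rw [← mul_assoc g ε, ← hεc g]; group
      _ = z * j' := by rw [heε, hgg, one_mul]
  have haaT : a * a ∈ T := hout _ (mul_mem haA haA) (Or.inr haa)
  have h4 : (a * a) * (a * a) ≠ 1 := by
    intro h
    have key : z * j' = j' := by
      rcases t1 _ haaT h with h' | h' <;> rw [h'] at haa
      · simpa using haa.symm
      · rw [hzc j' hj', mul_inv_cancel_right] at haa
        rw [hzc j' hj']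
        exact haa.symm
    exact hz1 (mul_eq_right.1 key)
  haveI : IsMulCommutative A := hAc
  refine hAn (isCyclic_of_orderOf_eq_card (⟨a, haA⟩ : A) ?_)
  rw [hA8, ← Subgroup.orderOf_coe, show (8 : ℕ) = 2 ^ (2 + 1) by norm_num]
  refine orderOf_eq_prime_pow ?_ ?_
  · show ¬ a ^ 4 = 1
    rw [show (4 : ℕ) = 2 + 2 by norm_num, pow_add, pow_two]
    exact h4
  · have h8 := pow_card_eq_one' (G := A) (x := ⟨a, haA⟩)
    rw [hA8] at h8
    exact congrArg Subtype.val h8

/-- The 2-core contains a noncyclic abelian subgroup of order eight. -/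
theorem not_small_core (T : Subgroup S) [hTn : T.Normal] (hT : IsPGroup 2 T)
    (hCT : Subgroup.centralizer (T : Set S) ≤ T)
    {A : Subgroup S} (hAc : IsMulCommutative A) (hAn : ¬ IsCyclic A) (hA8 : Nat.card A = 8)
    (hmin : ∀ R : Subgroup S, R ≠ ⊤ → (∃ k : ℕ, R.index = 2 ^ k) → SmallTwo.Small R)
    (hTmax : ∀ N : Subgroup S, N.Normal → IsPGroup 2 N → N ≤ T) : ¬ SmallTwo.Small T := by
  classical
  haveI : Fact (Nat.Prime 2) := ⟨Nat.prime_two⟩
  intro hS
  have hA : IsPGroup 2 A := IsPGroup.of_card (n := 3) (by rw [hA8]; norm_num)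
  -- `Aut T` is not a 2-group
  have hnaut : ¬ IsPGroup 2 (MulAut T) := by
    intro hau
    have h2 : IsPGroup 2 S := by
      refine CfsgLib.TwoGroups.isPGroup_two_of_odd fun s k hk hsk => ?_
      obtain ⟨l, hl⟩ := hau (MulAut.conjNormal (H := T) s)
      have h1 : MulAut.conjNormal (H := T) s = 1 :=
        CfsgLib.TwoGroups.eq_one_of_pow_odd hk (by rw [← map_pow, hsk, map_one]) hl
      have hsT : s ∈ T := hCT (Subgroup.mem_centralizer_iff.2 fun t ht => by
        have h := congrArg Subtype.val (DFunLike.congr_fun h1 ⟨t, ht⟩)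
        rw [MulAut.conjNormal_apply, MulAut.one_apply] at h
        exact (mul_inv_eq_iff_eq_mul.1 h).symm)
      obtain ⟨m, hm⟩ := hT ⟨s, hsT⟩
      exact CfsgLib.TwoGroups.eq_one_of_pow_odd hk hsk (congrArg Subtype.val hm)
    have hAtop : A = ⊤ := by
      by_contra h
      exact hmin A h (h2.index A) A le_rfl hAc hAn hA8
    haveI : A.Normal := hAtop ▸ inferInstance
    exact hS A (hTmax A inferInstance hA) hAc hAn hA8
  by_cases hcy : IsCyclic T
  · exact hnaut (CfsgLib.TwoGroups.isPGroup_mulAut_of_isCyclic hT)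
  by_cases hcomm : ∀ x ∈ T, ∀ y ∈ T, x * y = y * x
  · -- a four-group
    have hU := isFour_of_small_abelian hT hS hcomm hcy
    have hrel := relIndex_centralizer_le hA hU (by
      rw [Subgroup.normalizer_eq_top]; exact le_top)
    set C := Subgroup.centralizer (T : Set S)
    have h1 := Subgroup.card_mul_index (C.subgroupOf A)
    have h2 : Nat.card (C.subgroupOf A) ≤ 4 := by
      rw [← hU.card]
      exact Nat.card_le_card_of_injective (fun x => (⟨((x : A) : S), hCT x.2⟩ : T))
        fun x y h => Subtype.ext (Subtype.ext (congrArg (fun w : T => (w : S)) h))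
    rw [hA8, show (C.subgroupOf A).index = C.relIndex A from rfl] at h1
    have h4 : Nat.card (C.subgroupOf A) = 4 := by
      have h5 := Nat.mul_le_mul h2 hrel
      rcases Nat.lt_or_ge (Nat.card (C.subgroupOf A)) 4 with h | h
      · have h6 := Nat.mul_le_mul (show Nat.card (C.subgroupOf A) ≤ 3 by omega) hrel
        omega
      · omega
    have hTA : T ≤ A := by
      have h7 : A ⊓ C = T := Subgroup.eq_of_le_of_card_ge (fun x hx => hCT hx.2) (by
        rw [hU.card, ← h4, ← Subgroup.inf_subgroupOf_left, Nat.card_congr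
          (Subgroup.subgroupOfEquivOfLe inf_le_left).toEquiv])
      exact h7 ▸ inf_le_left
    have hAT : A ≤ T := fun a ha => hCT (Subgroup.mem_centralizer_iff.2 fun t ht =>
      congrArg Subtype.val (hAc.is_comm.comm ⟨t, hTA ht⟩ ⟨a, ha⟩))
    exact hS A hAT hAc hAn hA8
  by_cases hnac : CfsgLib.TwoGroups.NormalAbelianCyclic T
  · rcases CfsgLib.TwoGroups.isCyclic_or_of_normalAbelianCyclic hT hnac with h | ⟨-, ⟨m, hm, ⟨e⟩⟩ | ⟨m, hm, ⟨e⟩⟩ | h⟩
    · exact hcy h
    · exact hnaut (CfsgLib.TwoGroups.isPGroup_mulAut_congr e.symm (CfsgLib.TwoGroups.isPGroup_mulAut_dihedral (by omega)))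
    · rcases eq_or_lt_of_le hm with h1 | h1
      · subst h1
        exact false_of_quaternion T hT hCT e hAc hAn hA8
      · exact hnaut (CfsgLib.TwoGroups.isPGroup_mulAut_congr e.symm (CfsgLib.TwoGroups.isPGroup_mulAut_quaternion h1))
    · exact hnaut (CfsgLib.TwoGroups.isPGroup_mulAut_quasiDihedral h)
  · unfold CfsgLib.TwoGroups.NormalAbelianCyclic at hnac
    push Not at hnac
    obtain ⟨B, hBn, hBc, hBcy⟩ := hnac
    set B' := B.map T.subtype
    have hB'T : B' ≤ T := Subgroup.map_subtype_le B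
    have hcyB : ¬ IsCyclic B' := fun h => hBcy
      (isCyclic_of_surjective (B.equivMapOfInjective T.subtype T.subtype_injective).symm (MulEquiv.surjective _))
    have hB'c : ∀ x ∈ B', ∀ y ∈ B', x * y = y * x := by
      rintro _ ⟨x, hx, rfl⟩ _ ⟨y, hy, rfl⟩
      exact congrArg (fun w : B => ((w : T) : S)) (hBc.is_comm.comm ⟨x, hx⟩ ⟨y, hy⟩)
    have hU := isFour_of_small_abelian (hT.to_le hB'T) (hS.mono hB'T) hB'c hcyB
    have hTN : T ≤ Subgroup.normalizer (B' : Set S) := by
      intro t ht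
      rw [Subgroup.mem_normalizer_iff]
      intro x
      constructor
      · rintro ⟨w, hw, rfl⟩
        exact ⟨⟨t, ht⟩ * w * ⟨t, ht⟩⁻¹, hBn.conj_mem w hw _, rfl⟩
      · rintro ⟨w, hw, hwe⟩
        refine ⟨⟨t, ht⟩⁻¹ * w * ⟨t, ht⟩⁻¹⁻¹, hBn.conj_mem w hw _, ?_⟩
        show t⁻¹ * (w : S) * t⁻¹⁻¹ = x
        rw [show (w : S) = t * x * t⁻¹ from hwe]; group
    set C := Subgroup.centralizer (B' : Set S)
    have hCB : T ⊓ C = B' := eq_of_small_four (hT.to_le inf_le_left) (hS.mono inf_le_left) hU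
      (fun x hx => ⟨hB'T hx, Subgroup.mem_centralizer_iff.2 fun y hy => hB'c y hy x hx⟩)
      fun u hu w hw => Subgroup.mem_centralizer_iff.1 hw.2 u hu
    have hrel : C.relIndex T ≤ 2 := relIndex_centralizer_le hT hU hTN
    have h1 := Subgroup.card_mul_index (C.subgroupOf T)
    rw [← Subgroup.inf_subgroupOf_left C T, Nat.card_congr (Subgroup.subgroupOfEquivOfLe inf_le_left).toEquiv,
      hCB, hU.card, show (B'.subgroupOf T).index = C.relIndex T by
        rw [← hCB, Subgroup.inf_subgroupOf_left]; rfl] at h1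
    obtain ⟨n, hn⟩ := IsPGroup.iff_card.1 hT
    have hT8 : Nat.card T = 8 := by
      rcases Nat.lt_or_ge (C.relIndex T) 2 with h | h
      · exfalso
        refine hcomm fun x hx y hy => ?_
        have h4 : Nat.card T ≤ 4 := by
          have := Nat.mul_le_mul_left 4 (show C.relIndex T ≤ 1 by omega)
          omega
        have hTB : B' = T := Subgroup.eq_of_le_of_card_ge hB'T (by rw [hU.card]; exact h4)
        exact hB'c x (hTB ▸ hx) y (hTB ▸ hy)
      · omega
    have hnc : ¬ IsMulCommutative T := fun h => hcomm fun x hx y hy =>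
      congrArg Subtype.val (h.is_comm.comm ⟨x, hx⟩ ⟨y, hy⟩)
    rcases CfsgLib.TwoGroups.dihedral_or_quaternion_of_card_eight hT8 hnc with h | h
    · exact hnaut (CfsgLib.TwoGroups.isPGroup_mulAut_congr h.some.symm
        (CfsgLib.TwoGroups.isPGroup_mulAut_dihedral (n := 2) le_rfl))
    · exact false_of_quaternion T hT hCT h.some hAc hAn hA8

end CfsgLib.Minimal.SmallCore
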