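/-
Minimal: the extraspecial case of the three-dimensional block configuration.
-/
import Cfsg.Agent.Lib.Minimal.ThreeBlockMonomial

set_option autoImplicit false
set_option linter.style.haveILetI false

open scoped commutatorElement IsMulCommutative

namespace CfsgLib.Minimal.ThreeBlock

/-- Automorphisms commuting with a fixed-point-free automorphism of order five commute, on a
group of order sixteen and exponent two. -/
theorem commute_of_commute_five {V : Type*} [CommGroup V] [Finite V] (hV : Nat.card V = 16)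
    (X : MulAut V) (hX : orderOf X = 5) (hfix : ∀ v, X v = v → v = 1) {h k : MulAut V}
    (hh : Commute h X) (hk : Commute k X) : Commute h k := by
  classical
  haveI : Fact (Nat.Prime 5) := ⟨Nat.prime_five⟩
  haveI : Nontrivial V := Finite.one_lt_card_iff_nontrivial.1 (by omega)
  obtain ⟨v₀, hv₀⟩ := exists_ne (1 : V)
  have hcomm : ∀ {g : MulAut V}, Commute g X → ∀ v, g (X v) = X (g v) := fun hg v =>
    DFunLike.congr_fun hg.eq v
  have hinv : ∀ S : Subgroup V, v₀ ∈ S → (∀ v ∈ S, X v ∈ S) → S = ⊤ := by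
    intro S h0 hS
    let T : S →* S := (X.toMonoidHom.comp S.subtype).codRestrict S fun v => hS v v.2
    have hT : ∀ (i : ℕ) (v : S), (((T : S → S)^[i] v : S) : V) = (X ^ i) (v : V) := by
      intro i
      induction i with
      | zero => intro v; rfl
      | succ i ih =>
        intro v
        rw [Function.iterate_succ_apply', pow_succ', MulAut.mul_apply, ← ih]; rfl
    letI : MulAction (Subgroup.zpowers X) S :=
      { smul := fun a v => ⟨(a : MulAut V) v, by
          obtain ⟨i, hi⟩ := mem_powers_iff_mem_zpowers.2 a.2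
          simp only at hi
          rw [← hi, ← hT]; exact Subtype.prop _⟩
        one_smul := fun v => Subtype.ext rfl
        mul_smul := fun a a' v => Subtype.ext rfl }
    have hp : IsPGroup 5 (Subgroup.zpowers X) :=
      IsPGroup.of_card (n := 1) (by rw [Nat.card_zpowers, hX, pow_one])
    have hmod := hp.card_modEq_card_fixedPoints S
    have h1 : Nat.card (MulAction.fixedPoints (Subgroup.zpowers X) S) = 1 := by
      rw [Nat.card_eq_one_iff_unique]
      refine ⟨⟨fun a c => Subtype.ext ?_⟩, ⟨⟨1, fun a => Subtype.ext (map_one (a : MulAut V))⟩⟩⟩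
      have key : ∀ x ∈ MulAction.fixedPoints (Subgroup.zpowers X) S, x = 1 := fun x hx =>
        Subtype.ext (hfix x (congrArg Subtype.val (hx ⟨X, Subgroup.mem_zpowers X⟩)))
      rw [key a a.2, key c c.2]
    rw [h1] at hmod
    have hdvd := S.card_subgroup_dvd_card
    rw [hV, show (16 : ℕ) = 2 ^ 4 by norm_num] at hdvd
    obtain ⟨j, hj4, hj⟩ := (Nat.dvd_prime_pow Nat.prime_two).1 hdvd
    have hne1 : Nat.card S ≠ 1 := fun hh => hv₀ (Subgroup.mem_bot.1 (Subgroup.eq_bot_of_card_eq _ hh ▸ h0))
    have hSt : Nat.card S = 16 := by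
      rw [hj] at hmod hne1 ⊢
      interval_cases j <;> simp_all [Nat.ModEq]
    exact Subgroup.eq_top_of_card_eq _ (hSt.trans hV.symm)
  let C : Subring (AddMonoid.End (Additive V)) :=
    Subring.closure ({(X.toMonoidHom.toAdditive : AddMonoid.End (Additive V))} : Set (AddMonoid.End (Additive V)))
  haveI : IsMulCommutative C := Subring.isMulCommutative_closure fun x hx y hy => by
    rw [Set.mem_singleton_iff.1 hx, Set.mem_singleton_iff.1 hy]
  let ev : C →+ Additive V :=
    { toFun := fun f => (f : AddMonoid.End (Additive V)) (Additive.ofMul v₀)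
      map_zero' := rfl
      map_add' := fun _ _ => rfl }
  have hev : ∀ v : V, ∃ f : C, ev f = Additive.ofMul v := by
    intro v
    let S : Subgroup V :=
      { carrier := {v | ∃ f : C, ev f = Additive.ofMul v}
        one_mem' := ⟨0, map_zero ev⟩
        mul_mem' := fun ⟨f, hf⟩ ⟨f', hf'⟩ => ⟨f + f', by rw [map_add, hf, hf']; rfl⟩
        inv_mem' := fun ⟨f, hf⟩ => ⟨-f, by rw [map_neg, hf]; rfl⟩ }
    have htop : S = ⊤ := hinv S ⟨1, rfl⟩ fun w ⟨f, hf⟩ =>
      ⟨⟨_, Subring.subset_closure rfl⟩ * f, by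
        change X.toMonoidHom.toAdditive (ev f) = _
        rw [hf]; rfl⟩
    exact (htop ▸ Subgroup.mem_top v : v ∈ S)
  have hcl : ∀ {g : MulAut V}, Commute g X → ∀ (f : C) (w : Additive V),
      g.toMonoidHom.toAdditive ((f : AddMonoid.End (Additive V)) w) =
        (f : AddMonoid.End (Additive V)) (g.toMonoidHom.toAdditive w) := by
    intro g hg f w
    obtain ⟨f, hf⟩ := f
    have hle : C ≤ Subring.centralizer ({(g.toMonoidHom.toAdditive : AddMonoid.End (Additive V))} : Set (AddMonoid.End (Additive V))) := by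
      refine Subring.closure_le.2 (Set.singleton_subset_iff.2 ?_)
      exact (Subring.mem_centralizer_iff (R := AddMonoid.End (Additive V))).2 fun z hz => by
        cases hz
        exact AddMonoidHom.ext fun z => congrArg Additive.ofMul (hcomm hg (Additive.toMul z))
    have h1 := Subring.mem_centralizer_iff.1 (hle hf) _ rfl
    exact DFunLike.congr_fun h1 w
  have key : h (k v₀) = k (h v₀) := by
    obtain ⟨f, hf⟩ := hev (k v₀)
    obtain ⟨f', hf'⟩ := hev (h v₀)
    apply Additive.ofMul.injective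
    change h.toMonoidHom.toAdditive (Additive.ofMul (k v₀)) = k.toMonoidHom.toAdditive (Additive.ofMul (h v₀))
    rw [← hf, ← hf']
    change h.toMonoidHom.toAdditive ((f : AddMonoid.End (Additive V)) (Additive.ofMul v₀)) =
      k.toMonoidHom.toAdditive ((f' : AddMonoid.End (Additive V)) (Additive.ofMul v₀))
    rw [hcl hh, hcl hk]
    change (f : AddMonoid.End (Additive V)) (Additive.ofMul (h v₀)) =
      (f' : AddMonoid.End (Additive V)) (Additive.ofMul (k v₀))
    rw [← hf, ← hf']
    exact congrArg (fun g : C => ev g) (mul_comm f f')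
  have hS : (h * k).toMonoidHom.eqLocus (k * h).toMonoidHom = ⊤ := by
    refine hinv _ key fun v hv => ?_
    have hv' : (h * k) v = (k * h) v := hv
    change (h * k) (X v) = (k * h) (X v)
    rw [hcomm (hh.mul_left hk), hcomm (hk.mul_left hh), hv']
  exact MulEquiv.ext fun v => (hS ▸ Subgroup.mem_top v : v ∈ (h * k).toMonoidHom.eqLocus (k * h).toMonoidHom)

theorem zmod_five_cube {z : ZMod 5} (h : z ^ 3 = 1) : z = 1 := by
  revert h; revert z; decide

variable {H W : Type*} [Group H] [AddCommGroup W] [Module (ZMod 3) W]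
variable {ρ : Representation (ZMod 3) H W} {R : Subgroup H} {b u : H}

set_option maxHeartbeats 4000000 in
/-- The case without a non-central elementary abelian normal subgroup. -/
theorem extraspecial_case [Finite H] [Finite W] [Group.IsSolvable H] (S : Setting ρ R b u)
    (Q : Subgroup H) (hQR : Q ≤ R) (hQ4 : Nat.card Q = 4) (hQ2 : ∀ a ∈ Q, a * a = 1)
    (hQb : ∀ a ∈ Q, Commute a b → a = 1)
    (hno : ∀ A : Subgroup H, A.Normal → (∀ a ∈ A, a * a = 1) → A ≤ R → ∀ a ∈ A, Commute a b) :
    Nat.card R = 32 ∧ Cfsg.IsExtraspecial 2 R ∧ ∃ m ∈ R, ρ m = -1 := by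
  classical
  haveI := S.normal
  haveI : Fact (Nat.Prime 2) := ⟨Nat.prime_two⟩
  haveI : Fact (Nat.Prime 5) := ⟨Nat.prime_five⟩
  haveI : Fact (Nat.Prime 7) := ⟨by norm_num⟩
  haveI : Finite (W →ₗ[ZMod 3] W) := Finite.of_injective (fun f => (f : W → W)) DFunLike.coe_injective
  obtain ⟨e, F⟩ := exists_frame ρ S.cube S.invol S.uv S.vu (S.rho_ne_one S.ne_one) S.rank
  set T := Cfsg.pCore 2 H with hTdef
  have hTp : IsPGroup 2 T := CfsgLib.Cores.isPGroup_pCore 2 H
  have hCT : Subgroup.centralizer (T : Set H) ≤ T := S.centralizer_two_core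
  have hb3 : b * (b * b) = 1 := by rw [← S.cube, pow_succ, pow_two, mul_assoc]
  have htwo : ∀ x : H, (∃ k, x ^ 2 ^ k = 1) → x ∈ R := by
    rintro x ⟨k, hk⟩
    rw [← QuotientGroup.eq_one_iff]
    set y : H ⧸ R := QuotientGroup.mk x
    have h1 : y ^ 2 ^ k = 1 := by rw [← QuotientGroup.mk_pow, hk]; rfl
    obtain ⟨r, hr, t, ⟨i, rfl⟩, hx⟩ := Subgroup.mem_sup_of_normal_left.1 (S.gen ▸ Subgroup.mem_top x)
    have h3 : y ^ 3 = 1 := by
      change (QuotientGroup.mk x : H ⧸ R) ^ 3 = 1
      rw [← hx, QuotientGroup.mk_mul, (QuotientGroup.eq_one_iff r).2 hr, one_mul, ← QuotientGroup.mk_pow]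
      change (QuotientGroup.mk ((b ^ i) ^ 3) : H ⧸ R) = 1
      rw [← zpow_natCast, ← zpow_mul, mul_comm, zpow_mul, zpow_natCast, S.cube, one_zpow]; rfl
    exact orderOf_eq_one_iff.1 (Nat.eq_one_of_dvd_coprimes (((Nat.coprime_primes Nat.prime_two Nat.prime_three).2
      (by norm_num)).pow_left k) (orderOf_dvd_of_pow_eq_one h1) (orderOf_dvd_of_pow_eq_one h3))
  have hTk : ∀ t ∈ T, ∃ k, t ^ 2 ^ k = 1 := fun t ht => by
    obtain ⟨k, hk⟩ := hTp ⟨t, ht⟩
    exact ⟨k, by simpa using congrArg Subtype.val hk⟩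
  have hTR : T ≤ R := fun t ht => htwo t (hTk t ht)
  have hb1 : b ≠ 1 := fun h => S.ne_one (by
    have h2 := S.memR
    rw [← S.comm, h, Subgroup.zpowers_one_eq_bot, Subgroup.commutator_bot_right, Subgroup.mem_bot] at h2
    exact h2)
  obtain ⟨t, htT, htb⟩ : ∃ t ∈ T, ¬ Commute t b := by
    by_contra h
    push Not at h
    obtain ⟨k, hk⟩ := hTk b (hCT (Subgroup.mem_centralizer_iff.2 fun t ht => (h t ht).eq))
    exact hb1 (orderOf_eq_one_iff.1 (Nat.eq_one_of_dvd_coprimes (((Nat.coprime_primes Nat.prime_two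
      Nat.prime_three).2 (by norm_num)).pow_left k) (orderOf_dvd_of_pow_eq_one hk)
      (orderOf_dvd_of_pow_eq_one S.cube)))
  -- abelian normal subgroups of `T` are scalar
  have hab : ∀ A : Subgroup H, A.Normal → A ≤ T → (∀ a ∈ A, ∀ c ∈ A, a * c = c * a) →
      ∀ a ∈ A, ρ a = 1 ∨ ρ a = -1 := by
    intro A hAn hAT hAc
    haveI := hAn
    let A₁ : Subgroup H :=
      { carrier := {a | a ∈ A ∧ a * a = 1}
        one_mem' := ⟨A.one_mem, one_mul 1⟩
        mul_mem' := fun {a c} ha hc => ⟨A.mul_mem ha.1 hc.1, by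
          calc a * c * (a * c) = a * (c * a) * c := by group
            _ = (a * a) * (c * c) := by rw [← hAc a ha.1 c hc.1]; group
            _ = 1 := by rw [ha.2, hc.2, one_mul]⟩
        inv_mem' := fun {a} ha => ⟨A.inv_mem ha.1, by rw [← mul_inv_rev, ha.2, inv_one]⟩ }
    have hA₁ := hno A₁ ⟨fun a ha g => ⟨hAn.conj_mem a ha.1 g, by
      calc g * a * g⁻¹ * (g * a * g⁻¹) = g * (a * a) * g⁻¹ := by group
        _ = 1 := by rw [ha.2, mul_one, mul_inv_cancel]⟩⟩ (fun a ha => ha.2) (fun a ha => hTR (hAT ha.1))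
    have hall : ∀ (k : ℕ), ∀ a ∈ A, a ^ 2 ^ k = 1 → Commute a b := by
      intro k
      induction k with
      | zero => intro a _ h; rw [pow_zero, pow_one] at h; rw [h]; exact Commute.one_left b
      | succ k ih =>
        intro a ha h
        have h2 : Commute (a * a) b := ih _ (A.mul_mem ha ha) (by
          rw [← pow_two, ← pow_mul, ← pow_succ']; exact h)
        have hba : b * a * b⁻¹ ∈ A := hAn.conj_mem a ha b
        set d := a⁻¹ * (b * a * b⁻¹) with hd
        have hd2 : d * d = 1 := by
          calc d * d = a⁻¹ * ((b * a * b⁻¹) * a⁻¹) * (b * a * b⁻¹) := by rw [hd]; group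
            _ = a⁻¹ * (a⁻¹ * (b * a * b⁻¹)) * (b * a * b⁻¹) := by rw [hAc _ hba _ (A.inv_mem ha)]
            _ = (a * a)⁻¹ * (b * (a * a) * b⁻¹) := by group
            _ = 1 := by rw [← h2.eq, mul_inv_cancel_right, inv_mul_cancel]
        have hdb : Commute d b := hA₁ d ⟨A.mul_mem (A.inv_mem ha) hba, hd2⟩
        have e1 : b * a * b⁻¹ = a * d := (mul_inv_cancel_left a _).symm
        have hdc : b * d * b⁻¹ = d := by rw [← hdb.eq, mul_inv_cancel_right]
        have e3 : a = a * d * d * d := by
          calc a = (b * (b * b)) * a * (b * (b * b))⁻¹ := by rw [hb3, one_mul, inv_one, mul_one]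
            _ = b * (b * (b * a * b⁻¹) * b⁻¹) * b⁻¹ := by group
            _ = b * (b * (a * d) * b⁻¹) * b⁻¹ := by rw [e1]
            _ = b * (b * a * b⁻¹ * (b * d * b⁻¹)) * b⁻¹ := by group
            _ = b * (a * d * d) * b⁻¹ := by rw [hdc, e1]
            _ = (b * a * b⁻¹) * (b * d * b⁻¹) * (b * d * b⁻¹) := by group
            _ = a * d * d * d := by rw [hdc, e1]
        have hd1 : d = 1 := by
          rw [mul_assoc, mul_assoc, hd2, mul_one, left_eq_mul] at e3
          exact e3
        rw [hd1, mul_one, mul_inv_eq_iff_eq_mul] at e1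
        exact e1.symm
    intro a ha
    have hab' : ∀ x ∈ A, Commute x b := fun x hx => by
      obtain ⟨k, hk⟩ := hTk x (hAT hx); exact hall k x hx hk
    have hR := S.centralizes A hab'
    exact S.scalar_of_central (S.central_of_commute
      (fun r hr => Subgroup.mem_centralizer_iff.1 (hR hr) a ha) (hab' a ha))
  -- the element acting as `-1`
  haveI hTnt : Nontrivial T := ⟨⟨⟨t, htT⟩, 1, fun h => htb (by
    rw [show t = 1 from congrArg Subtype.val h]; exact Commute.one_left b)⟩⟩
  haveI hZn : ((Subgroup.center T).map T.subtype).Normal := ConjAct.normal_of_characteristic_of_normal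
  have hZsc : ∀ z : T, z ∈ Subgroup.center T → ρ (z : H) = 1 ∨ ρ (z : H) = -1 := fun z hz =>
    hab _ hZn (Subgroup.map_subtype_le _) (by
      rintro _ ⟨a, ha, rfl⟩ _ ⟨c, -, rfl⟩
      exact congrArg Subtype.val (Subgroup.mem_center_iff.1 ha c).symm) z ⟨z, hz, rfl⟩
  obtain ⟨m, hmT, hm⟩ : ∃ m ∈ T, ρ m = -1 := by
    haveI := hTp.center_nontrivial
    obtain ⟨z, hz⟩ := exists_ne (1 : Subgroup.center T)
    rcases hZsc z z.2 with h | h
    · exact absurd (Subtype.ext (Subtype.ext (S.faith (h.trans (map_one ρ).symm)))) hz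
    · exact ⟨_, (z : T).2, h⟩
  have hneg : (-1 : W →ₗ[ZMod 3] W) ≠ 1 := fun h => F.ne_zero (eq_zero_of_neg_eq (DFunLike.congr_fun h e))
  have hm1 : m ≠ 1 := fun h => hneg (by rw [← hm, h, map_one])
  have hmc : ∀ g, Commute m g := fun g => S.faith (by rw [map_mul ρ m g, map_mul ρ g m, hm, neg_one_mul, mul_neg_one])
  have hm2 : m * m = 1 := S.faith (by rw [map_mul ρ m m, hm, neg_one_mul, neg_neg, map_one])
  have hpm : ∀ x : H, (ρ x = 1 ∨ ρ x = -1) → x = 1 ∨ x = m := fun x h => h.imp
    (fun h => S.faith (h.trans (map_one ρ).symm)) (fun h => S.faith (h.trans hm.symm))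
  let Z : Subgroup H :=
    { carrier := {x | x = 1 ∨ x = m}
      one_mem' := Or.inl rfl
      mul_mem' := fun {x y} hx hy => by
        rcases hx with rfl | rfl <;> rcases hy with rfl | rfl <;> simp [hm2]
      inv_mem' := fun {x} hx => by
        rcases hx with rfl | rfl <;> simp [inv_eq_of_mul_eq_one_right hm2] }
  have hZc : ∀ z ∈ Z, ∀ g, Commute z g := by
    rintro z (rfl | rfl) g
    · exact Commute.one_left g
    · exact hmc g
  have hZ2 : ∀ z ∈ Z, z * z = 1 := by rintro z (rfl | rfl) <;> simp [hm2]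
  -- `T` has class two
  have hTT : ⁅T, T⁆ ≤ Z := by
    by_contra hcon
    let L : ℕ → Subgroup H := fun i => (fun X => ⁅X, T⁆)^[i] ⁅T, T⁆
    have hL : ∀ i, L i ≤ ⁅T, T⁆ ∧ L i ≤ (Subgroup.lowerCentralSeries (⊤ : Subgroup T) i).map T.subtype := by
      intro i
      induction i with
      | zero =>
        refine ⟨le_rfl, ?_⟩
        rw [Subgroup.lowerCentralSeries_zero, ← MonoidHom.range_eq_map, Subgroup.range_subtype]
        exact Subgroup.commutator_le_self T
      | succ i ih =>
        simp only [L, Function.iterate_succ_apply']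
        refine ⟨(Subgroup.commutator_mono ih.1 le_rfl).trans
          (Subgroup.commutator_mono (Subgroup.commutator_le_self T) le_rfl), ?_⟩
        rw [Subgroup.lowerCentralSeries_succ, Subgroup.map_commutator, ← MonoidHom.range_eq_map,
          Subgroup.range_subtype]
        exact Subgroup.commutator_mono ih.2 le_rfl
    haveI : Group.IsNilpotent T := hTp.isNilpotent
    obtain ⟨n, hn⟩ := Subgroup.nilpotent_iff_lowerCentralSeries.1 (inferInstance : Group.IsNilpotent T)
    have hLn : ∃ i, L i ≤ Z := ⟨n, fun x hx => by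
      obtain ⟨y, hy, rfl⟩ := (hL n).2 hx
      rw [hn, SetLike.mem_coe, Subgroup.mem_bot] at hy
      rw [hy]
      exact Or.inl rfl⟩
    obtain ⟨i, hi⟩ : ∃ i, Nat.find hLn = i + 1 := ⟨Nat.find hLn - 1, by
      have : Nat.find hLn ≠ 0 := fun h => hcon (show L 0 ≤ Z from h ▸ Nat.find_spec hLn)
      omega⟩
    obtain ⟨a, haL, haZ⟩ := SetLike.not_le_iff_exists.1 (Nat.find_min hLn (show i < _ by omega))
    let A : Subgroup H :=
      { carrier := {x | x ∈ ⁅T, T⁆ ∧ ∀ s ∈ T, ⁅x, s⁆ ∈ Z}
        one_mem' := ⟨Subgroup.one_mem _, fun s _ => by rw [commutatorElement_one_left]; exact Z.one_mem⟩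
        mul_mem' := fun {x y} hx hy => ⟨Subgroup.mul_mem _ hx.1 hy.1, fun s hs => by
          rw [show ⁅x * y, s⁆ = x * ⁅y, s⁆ * x⁻¹ * ⁅x, s⁆ by simp only [commutatorElement_def]; group,
            ← (hZc _ (hy.2 s hs) x).eq, mul_inv_cancel_right]
          exact Z.mul_mem (hy.2 s hs) (hx.2 s hs)⟩
        inv_mem' := fun {x} hx => ⟨Subgroup.inv_mem _ hx.1, fun s hs => by
          rw [show ⁅x⁻¹, s⁆ = x⁻¹ * (⁅x, s⁆⁻¹ * x) by simp only [commutatorElement_def]; group,
            (hZc _ (Z.inv_mem (hx.2 s hs)) x).eq, inv_mul_cancel_left]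
          exact Z.inv_mem (hx.2 s hs)⟩ }
    have hTn : T.Normal := inferInstance
    have hAn : A.Normal := ⟨fun x hx g => ⟨(inferInstance : (⁅T, T⁆ : Subgroup H).Normal).conj_mem x hx.1 g,
      fun s hs => by
        rw [show ⁅g * x * g⁻¹, s⁆ = g * ⁅x, g⁻¹ * s * g⁆ * g⁻¹ by simp only [commutatorElement_def]; group]
        have h1 := hx.2 (g⁻¹ * s * g) (by simpa using hTn.conj_mem s hs g⁻¹)
        rw [← (hZc _ h1 g).eq, mul_inv_cancel_right]
        exact h1⟩⟩
    have hAc : ∀ x ∈ A, ∀ y ∈ A, x * y = y * x := by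
      intro x hx y hy
      have hle : ⁅T, T⁆ ≤ Subgroup.centralizer ({x} : Set H) := by
        rw [Subgroup.commutator_le]
        intro s hs r hr
        rw [Subgroup.mem_centralizer_singleton_iff]
        have h1 := hx.2 s hs
        have h2 := hx.2 r hr
        have e1 : x * s * x⁻¹ = ⁅x, s⁆ * s := by simp [commutatorElement_def]
        have e2 : x * r * x⁻¹ = ⁅x, r⁆ * r := by simp [commutatorElement_def]
        have e3 : x * ⁅s, r⁆ * x⁻¹ = ⁅s, r⁆ := by
          calc x * ⁅s, r⁆ * x⁻¹ = ⁅x * s * x⁻¹, x * r * x⁻¹⁆ := by simp only [commutatorElement_def]; group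
            _ = (⁅x, s⁆ * s) * (⁅x, r⁆ * r) * (s⁻¹ * ⁅x, s⁆⁻¹) * (r⁻¹ * ⁅x, r⁆⁻¹) := by
              rw [e1, e2, commutatorElement_def, mul_inv_rev, mul_inv_rev]
            _ = (⁅x, s⁆ * ⁅x, r⁆) * (s * r * s⁻¹ * r⁻¹) * (⁅x, s⁆⁻¹ * ⁅x, r⁆⁻¹) := by
              calc _ = ⁅x, s⁆ * (s * ⁅x, r⁆) * (r * s⁻¹) * (⁅x, s⁆⁻¹ * r⁻¹) * ⁅x, r⁆⁻¹ := by group
                _ = ⁅x, s⁆ * (⁅x, r⁆ * s) * (r * s⁻¹) * (r⁻¹ * ⁅x, s⁆⁻¹) * ⁅x, r⁆⁻¹ := by
                  rw [(hZc _ h2 s).eq, (hZc _ (Z.inv_mem h1) r⁻¹).eq]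
                _ = _ := by group
            _ = ⁅s, r⁆ := by
              rw [((hZc _ h1 _).mul_left (hZc _ h2 _)).eq, mul_assoc,
                show ⁅x, s⁆ * ⁅x, r⁆ * (⁅x, s⁆⁻¹ * ⁅x, r⁆⁻¹) = 1 by
                  rw [(hZc _ h1 ⁅x, r⁆).eq]; group, mul_one, commutatorElement_def]
        exact (mul_inv_eq_iff_eq_mul.1 e3).symm
      exact (Subgroup.mem_centralizer_singleton_iff.1 (hle hy.1)).symm
    have haA : a ∈ A := ⟨(hL i).1 haL, fun s hs => by
      have h1 : ⁅a, s⁆ ∈ L (i + 1) := by
        simp only [L, Function.iterate_succ_apply']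
        exact Subgroup.commutator_mem_commutator haL hs
      exact (hi ▸ Nat.find_spec hLn : L (i + 1) ≤ Z) h1⟩
    exact haZ (hpm a (hab A hAn (fun x hx => Subgroup.commutator_le_self T hx.1) hAc a haA))
  have hcm : ∀ x ∈ T, ∀ y ∈ T, ⁅x, y⁆ ∈ Z := fun x hx y hy => hTT (Subgroup.commutator_mem_commutator hx hy)
  have hconj : ∀ x ∈ T, ∀ y ∈ T, y * x * y⁻¹ = ⁅y, x⁆ * x := fun x _ y _ => by simp [commutatorElement_def]
  have hZT : ∀ x : T, x ∈ Subgroup.center T → (x : H) ∈ Z := fun x hx => hpm _ (hZsc x hx)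
  have hsq : ∀ x ∈ T, x * x ∈ Z := by
    intro x hx
    refine hZT ⟨x * x, T.mul_mem hx hx⟩ (Subgroup.mem_center_iff.2 fun y => Subtype.ext ?_)
    have h := hcm x hx y y.2
    have e1 : x * (y : H) * x⁻¹ = ⁅x, (y : H)⁆ * y := by simp [commutatorElement_def]
    have e2 : x * x * (y : H) * (x * x)⁻¹ = y := by
      calc x * x * (y : H) * (x * x)⁻¹ = x * (x * y * x⁻¹) * x⁻¹ := by group
        _ = (x * ⁅x, (y : H)⁆) * y * x⁻¹ := by rw [e1]; group
        _ = ⁅x, (y : H)⁆ * (x * y * x⁻¹) := by rw [← (hZc _ h x).eq]; group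
        _ = y := by rw [e1, ← mul_assoc, hZ2 _ h, one_mul]
    exact (mul_inv_eq_iff_eq_mul.1 e2).symm
  -- dimension four
  set c := t⁻¹ * (b * t * b⁻¹) with hc
  have hTn : T.Normal := inferInstance
  have hcT : c ∈ T := T.mul_mem (T.inv_mem htT) (hTn.conj_mem t htT b)
  have hcZ : c ∉ Z := by
    intro hcZ
    have e1 : b * t * b⁻¹ = t * c := (mul_inv_cancel_left t _).symm
    have hdc : b * c * b⁻¹ = c := by rw [← (hZc c hcZ b).eq, mul_inv_cancel_right]
    have e3 : t = t * c * c * c := by
      calc t = (b * (b * b)) * t * (b * (b * b))⁻¹ := by rw [hb3, one_mul, inv_one, mul_one]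
        _ = b * (b * (b * t * b⁻¹) * b⁻¹) * b⁻¹ := by group
        _ = b * (b * (t * c) * b⁻¹) * b⁻¹ := by rw [e1]
        _ = b * (b * t * b⁻¹ * (b * c * b⁻¹)) * b⁻¹ := by group
        _ = b * (t * c * c) * b⁻¹ := by rw [hdc, e1]
        _ = (b * t * b⁻¹) * (b * c * b⁻¹) * (b * c * b⁻¹) := by group
        _ = t * c * c * c := by rw [hdc, e1]
    rw [mul_assoc, mul_assoc, hZ2 c hcZ, mul_one, left_eq_mul] at e3
    rw [e3, mul_one, mul_inv_eq_iff_eq_mul] at e1
    exact htb e1.symm
  obtain ⟨r1, r2, r3, r4⟩ := F.rels S.cube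
  have hind : LinearIndependent (ZMod 3) ![e, ρ b e, ρ b (ρ b e)] :=
    linearIndependent_eigen ![ρ u, ρ (b * u * b⁻¹)]
      ![![1, -1], ![-1, 1], ![-1, -1]] (by decide) _ (fun i => by
        have hinj : ∀ y, ρ b y = 0 → y = 0 := fun y hy => by
          simpa [← rho_mul] using congrArg (ρ b⁻¹) hy
        fin_cases i
        · exact F.ne_zero
        · exact fun h => F.ne_zero (hinj _ h)
        · exact fun h => F.ne_zero (hinj _ (hinj _ h)))
      (fun i k => by
        fin_cases i <;> fin_cases k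
        · exact F.u_e.trans (one_smul _ _).symm
        · exact F.v_e.trans (neg_one_smul _ _).symm
        · exact r1.trans (neg_one_smul _ _).symm
        · exact r2.trans (one_smul _ _).symm
        · exact r3.trans (neg_one_smul _ _).symm
        · exact r4.trans (neg_one_smul _ _).symm)
  have hn3 : 3 ≤ Module.finrank (ZMod 3) W := by
    simpa using hind.fintype_card_le_finrank
  have hn4 : Module.finrank (ZMod 3) W = 4 := by
    rcases hsq c hcT with h2 | h2
    · -- an involution conjugate to its negative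
      obtain ⟨y, hyT, hy⟩ : ∃ y ∈ T, y * c * y⁻¹ = m * c := by
        by_contra hcon
        push Not at hcon
        refine hcZ (hZT ⟨c, hcT⟩ (Subgroup.mem_center_iff.2 fun y => Subtype.ext ?_))
        rcases hcm y y.2 c hcT with h | h
        · exact commutatorElement_eq_one_iff_mul_comm.1 h
        · exact absurd (by rw [hconj c hcT y y.2, h]) (hcon y y.2)
      set v := b * c * b⁻¹ with hv
      set w := b * v * b⁻¹ with hw
      have hbt : b * (b * (b * t * b⁻¹) * b⁻¹) * b⁻¹ = t := by
        calc _ = (b * (b * b)) * t * (b * (b * b))⁻¹ := by group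
          _ = t := by rw [hb3, one_mul, inv_one, mul_one]
      have hcvw : c * v * w = 1 := by
        rw [hw, hv, hc]
        calc _ = t⁻¹ * (b * (b * (b * t * b⁻¹) * b⁻¹) * b⁻¹) := by group
          _ = 1 := by rw [hbt, inv_mul_cancel]
      have hww : w * w = 1 := by
        rw [hw, hv]
        calc _ = b * (b * (c * c) * b⁻¹) * b⁻¹ := by group
          _ = 1 := by rw [h2, mul_one, mul_inv_cancel, mul_one, mul_inv_cancel]
      have hvv : v * v = 1 := by
        rw [hv]
        calc _ = b * (c * c) * b⁻¹ := by group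
          _ = 1 := by rw [h2, mul_one, mul_inv_cancel]
      have hcv : c * v = w := (eq_inv_of_mul_eq_one_left hcvw).trans (inv_eq_of_mul_eq_one_right hww)
      have hvc : v * c = w := by
        rw [← inv_eq_of_mul_eq_one_right hww, ← hcv, mul_inv_rev, inv_eq_of_mul_eq_one_right hvv,
          inv_eq_of_mul_eq_one_right h2]
      obtain ⟨e', F'⟩ := exists_frame ρ S.cube h2 hcv hvc
        (S.rho_ne_one fun h => hcZ (h ▸ Z.one_mem)) S.rank
      obtain ⟨s1, s2, s3, s4⟩ := F'.rels S.cube
      have hdim2 : Module.finrank (ZMod 3) (LinearMap.ker (ρ c + 1)) = 2 := by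
        rw [F'.minus_u S.cube]
        have hind' : LinearIndependent (ZMod 3) ![ρ b e', ρ b (ρ b e')] :=
          linearIndependent_eigen (fun _ : Fin 1 => ρ v) ![fun _ => 1, fun _ => -1] (by decide) _
            (fun i => by
              have hinj : ∀ z, ρ b z = 0 → z = 0 := fun z hz => by
                simpa [← rho_mul] using congrArg (ρ b⁻¹) hz
              fin_cases i
              · exact fun h => F'.ne_zero (hinj _ h)
              · exact fun h => F'.ne_zero (hinj _ (hinj _ h)))
            (fun i k => by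
              fin_cases i
              · exact s2.trans (one_smul _ _).symm
              · exact s4.trans (neg_one_smul _ _).symm)
        have := finrank_span_eq_card hind'
        rw [show Set.range ![ρ b e', ρ b (ρ b e')] = {ρ b e', ρ b (ρ b e')} by simp [Set.pair_comm]] at this
        simpa using this
      have hyinv : Function.Injective (ρ y) := fun x z h => by simpa [← rho_mul] using congrArg (ρ y⁻¹) h
      have hyc : ∀ x, ρ c (ρ y x) = -ρ y (ρ c x) := fun x => by
        have h1 : y * c = m * c * y := mul_inv_eq_iff_eq_mul.1 hy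
        rw [← rho_mul ρ y c, h1, rho_mul ρ (m * c) y, rho_mul ρ m c, hm, LinearMap.neg_apply, Module.End.one_apply, neg_neg]
      have hmap : (LinearMap.ker (ρ c - 1)).map (ρ y) = LinearMap.ker (ρ c + 1) := by
        refine le_antisymm ?_ fun x hx => ?_
        · rintro _ ⟨x, hx, rfl⟩
          rw [SetLike.mem_coe, LinearMap.mem_ker, LinearMap.sub_apply, Module.End.one_apply, sub_eq_zero] at hx
          rw [LinearMap.mem_ker, LinearMap.add_apply, Module.End.one_apply, hyc, hx, neg_add_cancel]
        · rw [LinearMap.mem_ker, LinearMap.add_apply, Module.End.one_apply, add_eq_zero_iff_eq_neg] at hx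
          have e1 : ρ y (ρ y⁻¹ x) = x := by rw [← rho_mul, mul_inv_cancel, map_one]; rfl
          refine ⟨ρ y⁻¹ x, ?_, e1⟩
          rw [SetLike.mem_coe, LinearMap.mem_ker, LinearMap.sub_apply, Module.End.one_apply, sub_eq_zero]
          apply hyinv
          rw [e1]
          have := hyc (ρ y⁻¹ x)
          rw [e1, hx] at this
          exact (neg_injective this).symm
      have hdim1 : Module.finrank (ZMod 3) (LinearMap.ker (ρ c - 1)) = 2 := by
        rw [← hdim2, ← hmap]
        exact LinearEquiv.finrank_eq (Submodule.equivMapOfInjective (ρ y) hyinv _)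
      have hcc : ∀ x, ρ c (ρ c x) = x := fun x => by rw [← rho_mul, h2, map_one]; rfl
      have hsum := Submodule.finrank_sup_add_finrank_inf_eq (LinearMap.ker (ρ c - 1)) (LinearMap.ker (ρ c + 1))
      rw [show LinearMap.ker (ρ c - 1) ⊓ LinearMap.ker (ρ c + 1) = ⊥ from ?_,
        show LinearMap.ker (ρ c - 1) ⊔ LinearMap.ker (ρ c + 1) = ⊤ from ?_, finrank_top, finrank_bot,
        hdim1, hdim2] at hsum
      · omega
      · refine eq_top_iff.2 fun x _ => ?_
        have hx : x = -(x + ρ c x) + -(x - ρ c x) := by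
          conv_lhs => rw [← four_smul_self x]
          have h0 : x + x + x = 0 := add_left_cancel
            ((show x + (x + x + x) = x + x + x + x by abel).trans
              ((four_smul_self x).trans (add_zero x).symm))
          calc x + x + x + x = -(x + x) + (x + x + x + (x + x + x)) := by abel
            _ = _ := by rw [h0]; abel
        rw [hx]
        refine Submodule.add_mem_sup ?_ ?_
        · rw [LinearMap.mem_ker, LinearMap.sub_apply, Module.End.one_apply, map_neg, map_add, hcc]; abel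
        · rw [LinearMap.mem_ker, LinearMap.add_apply, Module.End.one_apply, map_neg, map_sub, hcc]; abel
      · refine eq_bot_iff.2 ?_
        rintro x ⟨h3, h4⟩
        rw [SetLike.mem_coe, LinearMap.mem_ker] at h3 h4
        change ρ c x - x = 0 at h3
        change ρ c x + x = 0 at h4
        rw [Submodule.mem_bot]
        rw [sub_eq_zero.1 h3] at h4
        exact eq_zero_of_neg_eq (neg_eq_of_add_eq_zero_left h4)
    · -- an element squaring to `-1`
      have hcc : ∀ x, ρ c (ρ c x) = -x := fun x => by rw [← rho_mul, h2, hm]; rfl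
      set N : W →ₗ[ZMod 3] W := ρ b - 1 with hN
      have hle : LinearMap.range (ρ c - 1) ≤ LinearMap.range N ⊔ (LinearMap.range N).map (ρ t⁻¹) := by
        rintro _ ⟨x, rfl⟩
        have e1 : (ρ c - 1) x = N (-(ρ b⁻¹ x)) + ρ t⁻¹ (N (ρ t (ρ b⁻¹ x))) := by
          simp only [hN, LinearMap.sub_apply, Module.End.one_apply, map_neg, map_sub, hc, rho_mul]
          rw [← rho_mul ρ b b⁻¹, mul_inv_cancel, map_one, ← rho_mul ρ t⁻¹ t, inv_mul_cancel, map_one]
          simp only [Module.End.one_apply]
          abel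
        rw [e1]
        exact Submodule.add_mem_sup ⟨_, rfl⟩ ⟨_, ⟨_, rfl⟩, rfl⟩
      have hinj : Function.Injective ⇑(ρ c - 1 : W →ₗ[ZMod 3] W) := by
        rw [← LinearMap.ker_eq_bot, eq_bot_iff]
        intro x hx
        rw [LinearMap.mem_ker, LinearMap.sub_apply, Module.End.one_apply, sub_eq_zero] at hx
        rw [Submodule.mem_bot]
        exact eq_zero_of_neg_eq (by rw [← hcc x, hx, hx])
      have hfin := LinearMap.finrank_range_of_inj hinj
      have h1 := Submodule.finrank_mono hle
      have h3 := Submodule.finrank_add_le_finrank_add_finrank (LinearMap.range N) ((LinearMap.range N).map (ρ t⁻¹))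
      have h4 := Submodule.finrank_map_le (ρ t⁻¹) (LinearMap.range N)
      have h5 : Module.finrank (ZMod 3) (LinearMap.range N) ≤ 2 := S.rank
      have hne3 : Module.finrank (ZMod 3) W ≠ 3 := by
        intro h3'
        have e1 : LinearMap.det (ρ c) * LinearMap.det (ρ c) = -1 := by
          rw [← map_mul, ← map_mul ρ c c, h2, hm, show (-1 : W →ₗ[ZMod 3] W) = (-1 : ZMod 3) • 1 by simp,
            LinearMap.det_smul, h3', map_one, mul_one]
          decide
        revert e1
        generalize LinearMap.det (ρ c) = z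
        revert z; decide
      omega
  -- the quotient by the centre
  have hcen : ∀ x : T, x ∈ Subgroup.center T ↔ (x : H) ∈ Z := fun x =>
    ⟨hZT x, fun h => Subgroup.mem_center_iff.2 fun y => Subtype.ext (hZc _ h y).eq.symm⟩
  have hZcard : Nat.card (Subgroup.center T) = 2 := by
    rw [Nat.card_eq_two_iff' (1 : Subgroup.center T)]
    refine ⟨⟨⟨m, hmT⟩, (hcen _).2 (Or.inr rfl)⟩, fun h => hm1 (congrArg (fun a : Subgroup.center T => ((a : T) : H)) h), ?_⟩
    rintro ⟨x, hx⟩ hx1
    rcases hZT x hx with h | h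
    · exact absurd (Subtype.ext (Subtype.ext h)) hx1
    · exact Subtype.ext (Subtype.ext h)
  have htr : ∀ x ∈ T, x ∉ Z → LinearMap.trace (ZMod 3) W (ρ x) = 0 := by
    intro x hx hxZ
    obtain ⟨y, hyT, hy⟩ : ∃ y ∈ T, y * x * y⁻¹ = m * x := by
      by_contra hcon
      push Not at hcon
      refine hxZ (hZT ⟨x, hx⟩ (Subgroup.mem_center_iff.2 fun y => Subtype.ext ?_))
      rcases hcm y y.2 x hx with h | h
      · exact commutatorElement_eq_one_iff_mul_comm.1 h
      · exact absurd (by rw [hconj x hx y y.2, h]) (hcon y y.2)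
    have h1 : LinearMap.trace (ZMod 3) W (ρ (y * x * y⁻¹)) = LinearMap.trace (ZMod 3) W (ρ x) := by
      rw [map_mul, LinearMap.trace_mul_comm, ← map_mul, ← mul_assoc, inv_mul_cancel, one_mul]
    rw [hy, map_mul, hm, neg_one_mul, map_neg] at h1
    revert h1
    generalize LinearMap.trace (ZMod 3) W (ρ x) = z
    revert z; decide
  haveI : Fintype (T ⧸ Subgroup.center T) := Fintype.ofFinite _
  have hV16 : Nat.card (T ⧸ Subgroup.center T) ≤ 16 := by
    have hli : LinearIndependent (ZMod 3) (fun q : T ⧸ Subgroup.center T => ρ ((q.out : T) : H)) := by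
      rw [Fintype.linearIndependent_iff]
      intro g hg q₀
      have h1 := congrArg (fun f => LinearMap.trace (ZMod 3) W (ρ ((q₀.out : T) : H)⁻¹ * f)) hg
      simp only [mul_zero, map_zero, Finset.mul_sum, map_sum, mul_smul_comm, map_smul, ← map_mul] at h1
      rw [Finset.sum_eq_single q₀ (fun q _ hq => by
          rw [htr _ (T.mul_mem (T.inv_mem (q₀.out).2) (q.out).2) fun hZ => hq ?_, smul_zero]
          have := (hcen ((q₀.out)⁻¹ * q.out)).2 hZ
          rw [← QuotientGroup.eq, QuotientGroup.out_eq', QuotientGroup.out_eq'] at this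
          exact this.symm) (by simp)] at h1
      rw [inv_mul_cancel, map_one, LinearMap.trace_one, hn4] at h1
      rw [show ((4 : ℕ) : ZMod 3) = 1 by decide, smul_eq_mul, mul_one] at h1
      exact h1
    have := hli.fintype_card_le_finrank
    rw [Module.finrank_linearMap, hn4, ← Nat.card_eq_fintype_card] at this
    exact this
  -- the action on the quotient
  have hcmap : ∀ σ : MulAut T, (Subgroup.center T).map σ.toMonoidHom = Subgroup.center T := fun σ =>
    Subgroup.characteristic_iff_map_eq.1 inferInstance σ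
  let toV : MulAut T →* MulAut (T ⧸ Subgroup.center T) :=
    { toFun := fun σ => QuotientGroup.congr (Subgroup.center T) (Subgroup.center T) σ (hcmap σ)
      map_one' := MulEquiv.ext fun x => by obtain ⟨y, rfl⟩ := QuotientGroup.mk_surjective x; rfl
      map_mul' := fun σ τ => MulEquiv.ext fun x => by obtain ⟨y, rfl⟩ := QuotientGroup.mk_surjective x; rfl }
  let ψ : H →* MulAut (T ⧸ Subgroup.center T) := toV.comp MulAut.conjNormal
  have hψ : ∀ (g : H) (x : T), ψ g (QuotientGroup.mk x) =
      QuotientGroup.mk (MulAut.conjNormal g x : T) := fun g x => rfl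
  have hψT : ∀ x ∈ T, ψ x = 1 := fun x hx => MulEquiv.ext fun y => by
    obtain ⟨y, rfl⟩ := QuotientGroup.mk_surjective y
    rw [hψ, MulAut.one_apply, QuotientGroup.eq]
    refine (hcen _).2 ?_
    have h := hcm x hx y y.2
    have : (((MulAut.conjNormal x y : T))⁻¹ * y : T).1 = ⁅x, (y : H)⁆⁻¹ := by
      push_cast [MulAut.conjNormal_apply]
      have e5 : (y : H)⁻¹ * ⁅x, (y : H)⁆⁻¹ * y = ⁅x, (y : H)⁆⁻¹ := by
        rw [← (hZc _ (Z.inv_mem h) _).eq, inv_mul_cancel_right]
      rw [← e5]
      simp only [commutatorElement_def]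
      group
    rw [this]
    exact Z.inv_mem h
  have hker : ∀ r ∈ R, ψ r = 1 → r ∈ T := by
    have hK : IsPGroup 2 (R ⊓ ψ.ker : Subgroup H) := by
      rintro ⟨r, hrR, hr⟩
      have hrT : r * r ∈ T := hCT (Subgroup.mem_centralizer_iff.2 fun y hy => by
        have h1 : ψ r (QuotientGroup.mk (⟨y, hy⟩ : T)) = QuotientGroup.mk (⟨y, hy⟩ : T) := by
          rw [MonoidHom.mem_ker.1 hr]; rfl
        rw [hψ, QuotientGroup.eq] at h1
        obtain ⟨z, hz, e1⟩ : ∃ z ∈ Z, r * y * r⁻¹ = z * y := by
          refine ⟨r * y * r⁻¹ * y⁻¹, ?_, by group⟩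
          have h2 := hZT _ h1
          have h3 := Z.inv_mem h2
          have h4 : ((((MulAut.conjNormal r (⟨y, hy⟩ : T) : T))⁻¹ * ⟨y, hy⟩ : T) : H)⁻¹ = y⁻¹ * (r * y * r⁻¹) := by
            simp [MulAut.conjNormal_apply, mul_assoc]
          rw [h4] at h3
          have h5 : y * (y⁻¹ * (r * y * r⁻¹)) * y⁻¹ = y⁻¹ * (r * y * r⁻¹) := by
            rw [← (hZc _ h3 y).eq, mul_inv_cancel_right]
          rw [mul_inv_cancel_left] at h5
          rw [h5]; exact h3
        have e2 : r * r * y * (r * r)⁻¹ = y := by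
          calc r * r * y * (r * r)⁻¹ = r * (r * y * r⁻¹) * r⁻¹ := by group
            _ = (r * z) * y * r⁻¹ := by rw [e1]; group
            _ = z * (r * y * r⁻¹) := by rw [← (hZc z hz r).eq]; group
            _ = y := by rw [e1, ← mul_assoc, hZ2 z hz, one_mul]
        exact (mul_inv_eq_iff_eq_mul.1 e2).symm)
      obtain ⟨k, hk⟩ := hTk _ hrT
      exact ⟨k + 1, Subtype.ext (by simp [pow_succ', pow_mul, pow_two, hk])⟩
    intro r hr h
    exact CfsgLib.Cores.le_pCore hK ⟨hr, MonoidHom.mem_ker.2 h⟩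
  -- `R = T`
  have hRT : R ≤ T := by
    by_contra hcon
    let D : ℕ → Subgroup H := fun i => (fun X => ⁅X, X⁆)^[i] R
    have hDn : ∀ i, (D i).Normal := by
      intro i
      induction i with
      | zero => exact S.normal
      | succ i ih => simp only [D, Function.iterate_succ_apply']; infer_instance
    have hDle : ∀ i, D i ≤ R ∧ D i ≤ derivedSeries H i := by
      intro i
      induction i with
      | zero => exact ⟨le_rfl, le_top⟩
      | succ i ih =>
        simp only [D, Function.iterate_succ_apply', derivedSeries_succ]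
        exact ⟨(Subgroup.commutator_le_self _).trans ih.1, Subgroup.commutator_mono ih.2 ih.2⟩
    obtain ⟨n, hn⟩ := (inferInstance : Group.IsSolvable H).solvable
    have hex : ∃ i, D i ≤ T := ⟨n, (hDle n).2.trans (by rw [hn]; exact bot_le)⟩
    obtain ⟨i, hi⟩ : ∃ i, Nat.find hex = i + 1 := ⟨Nat.find hex - 1, by
      have : Nat.find hex ≠ 0 := fun h => hcon (show D 0 ≤ T from h ▸ Nat.find_spec hex)
      omega⟩
    obtain ⟨g, hgD, hgT⟩ := SetLike.not_le_iff_exists.1 (Nat.find_min hex (show i < _ by omega))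
    haveI := hDn i
    have hDc : ∀ x ∈ D i, ∀ y ∈ D i, ψ x * ψ y = ψ y * ψ x := by
      intro x hx y hy
      have h1 : ⁅x, y⁆ ∈ D (i + 1) := by
        simp only [D, Function.iterate_succ_apply']
        exact Subgroup.commutator_mem_commutator hx hy
      have h2 := hψT _ ((hi ▸ Nat.find_spec hex : D (i + 1) ≤ T) h1)
      rw [map_commutatorElement, commutatorElement_eq_one_iff_mul_comm] at h2
      exact h2
    have hg1 : ψ g ≠ 1 := fun h => hgT (hker g ((hDle i).1 hgD) h)
    obtain ⟨s, hs, hsd⟩ := Nat.exists_prime_and_dvd (fun h => hg1 (orderOf_eq_one_iff.1 h))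
    haveI : Fact s.Prime := ⟨hs⟩
    set x := g ^ (orderOf (ψ g) / s) with hx
    have hxD : x ∈ D i := (D i).pow_mem hgD _
    have hxo : orderOf (ψ x) = s := by
      rw [hx, map_pow, orderOf_pow_orderOf_div (orderOf_pos (ψ g)).ne' hsd]
    let E : Subgroup H :=
      { carrier := {y | y ∈ D i ∧ ψ y ^ s = 1}
        one_mem' := ⟨(D i).one_mem, by rw [map_one, one_pow]⟩
        mul_mem' := fun {y z} hy hz => ⟨(D i).mul_mem hy.1 hz.1, by
          rw [map_mul, (show Commute (ψ y) (ψ z) from hDc y hy.1 z hz.1).mul_pow, hy.2, hz.2, one_mul]⟩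
        inv_mem' := fun {y} hy => ⟨(D i).inv_mem hy.1, by rw [map_inv, inv_pow, hy.2, inv_one]⟩ }
    have hEn : E.Normal := ⟨fun y hy h => ⟨(hDn i).conj_mem y hy.1 h, by
      rw [map_mul, map_mul, map_inv, conj_pow, hy.2, mul_one, mul_inv_cancel]⟩⟩
    have hxE : x ∈ E := ⟨hxD, hxo ▸ pow_orderOf_eq_one (ψ x)⟩
    have hx1 : ψ x ≠ 1 := fun h => hs.ne_one (hxo.symm.trans (orderOf_eq_one_iff.2 h))
    by_cases h2 : s = 2
    · subst h2
      have hE2 : IsPGroup 2 E := by
        rintro ⟨y, hy⟩
        have h4 : y ^ 2 ∈ T := hker _ (R.pow_mem ((hDle i).1 hy.1) 2) (by rw [map_pow]; exact hy.2)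
        obtain ⟨k, hk⟩ := hTk _ h4
        exact ⟨k + 1, Subtype.ext (by
          rw [SubgroupClass.coe_pow, pow_succ', pow_mul]
          exact hk)⟩
      haveI := hEn
      exact hx1 (hψT x (CfsgLib.Cores.le_pCore hE2 hxE))
    have h3 : s ≠ 3 := fun h => by
      subst h
      exact absurd (Nat.eq_one_of_dvd_coprimes S.coprime ((hxo ▸ orderOf_map_dvd ψ x : 3 ∣ orderOf x).trans
        (R.orderOf_dvd_natCard ((hDle i).1 hxD))) dvd_rfl) (by norm_num)
    -- fixed points on `V`
    letI : MulAction (Subgroup.zpowers (ψ x)) (T ⧸ Subgroup.center T) :=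
      { smul := fun a v => (a : MulAut (T ⧸ Subgroup.center T)) v
        one_smul := fun v => rfl
        mul_smul := fun a a' v => rfl }
    have hp : IsPGroup s (Subgroup.zpowers (ψ x)) :=
      IsPGroup.of_card (n := 1) (by rw [Nat.card_zpowers, hxo, pow_one])
    have hmod := hp.card_modEq_card_fixedPoints (T ⧸ Subgroup.center T)
    let Fx : Subgroup (T ⧸ Subgroup.center T) := (ψ x).toMonoidHom.eqLocus (MonoidHom.id _)
    have hfp : MulAction.fixedPoints (Subgroup.zpowers (ψ x)) (T ⧸ Subgroup.center T) = (Fx : Set _) := by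
      ext v
      refine ⟨fun hv => hv ⟨ψ x, Subgroup.mem_zpowers _⟩, fun hv a => ?_⟩
      obtain ⟨j, hj⟩ := mem_powers_iff_mem_zpowers.2 a.2
      simp only at hj
      change (a : MulAut (T ⧸ Subgroup.center T)) v = v
      rw [← hj]
      clear hj
      induction j with
      | zero => rfl
      | succ j ih => rw [pow_succ, MulAut.mul_apply, show ψ x v = v from hv, ih]
    rw [hfp] at hmod
    have hVp : IsPGroup 2 (T ⧸ Subgroup.center T) := hTp.to_quotient _
    obtain ⟨j, hj⟩ := IsPGroup.iff_card.1 hVp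
    obtain ⟨l, hl⟩ := IsPGroup.iff_card.1 (hVp.to_subgroup Fx)
    change (Nat.card (T ⧸ Subgroup.center T)) ≡ Nat.card Fx [MOD s] at hmod
    rw [hj, hl] at hmod
    have hj4 : j ≤ 4 := by
      refine (Nat.pow_le_pow_iff_right (le_refl 2)).1 ?_
      rw [← hj]; exact hV16.trans (by norm_num)
    have hlj : l < j := by
      by_contra h
      push Not at h
      have htop : Fx = ⊤ := Subgroup.eq_top_of_card_eq _
        (le_antisymm (Subgroup.card_le_card_group _) (by rw [hj, hl]; exact Nat.pow_le_pow_right (by norm_num) h))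
      exact hx1 (MulEquiv.ext fun v => (htop ▸ Subgroup.mem_top v : v ∈ Fx))
    have hs7 : s ≠ 7 := fun h => by
      subst h
      have hd7 : 7 ∣ orderOf x := hxo ▸ orderOf_map_dvd ψ x
      set y := x ^ (orderOf x / 7) with hy
      have hyo : orderOf y = 7 := by
        rw [hy, orderOf_pow_orderOf_div (orderOf_pos x).ne' hd7]
      have : ρ y = 1 := eq_one_of_fixed_ge (ρ y) (s := 7) (k := 1) (m := 4)
        (by rw [← map_pow, pow_one, ← hyo, pow_orderOf_eq_one, map_one]) (by norm_num)
        (fun d h1 h4 => by interval_cases d <;> norm_num) (by omega)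
      have : y = 1 := S.faith (this.trans (map_one ρ).symm)
      rw [this, orderOf_one] at hyo
      omega
    have hs5 : s = 5 ∧ j = 4 ∧ l = 0 := by
      have hd := (Nat.modEq_iff_dvd' (Nat.pow_le_pow_right (show 2 > 0 by norm_num) hlj.le)).1 hmod.symm
      obtain ⟨d, rfl⟩ := Nat.exists_eq_add_of_le hlj.le
      rw [pow_add, ← Nat.mul_sub_one] at hd
      rcases hs.dvd_mul.1 hd with hd | hd
      · exact absurd ((Nat.prime_dvd_prime_iff_eq hs Nat.prime_two).1 (hs.dvd_of_dvd_pow hd)) h2
      · obtain rfl | rfl | rfl | rfl : d = 1 ∨ d = 2 ∨ d = 3 ∨ d = 4 := by omega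
        · exact absurd (Nat.dvd_one.1 hd) hs.ne_one
        · exact absurd ((Nat.prime_dvd_prime_iff_eq hs Nat.prime_three).1 hd) h3
        · exact absurd ((Nat.prime_dvd_prime_iff_eq hs (by norm_num : Nat.Prime 7)).1 hd) hs7
        · rcases hs.dvd_mul.1 (show s ∣ 3 * 5 from hd) with hd | hd
          · exact absurd ((Nat.prime_dvd_prime_iff_eq hs Nat.prime_three).1 hd) h3
          · exact ⟨(Nat.prime_dvd_prime_iff_eq hs Nat.prime_five).1 hd, by omega, by omega⟩
    obtain ⟨rfl, rfl, rfl⟩ := hs5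
    have hVcard : Nat.card (T ⧸ Subgroup.center T) = 16 := by rw [hj]; norm_num
    letI : CommGroup (T ⧸ Subgroup.center T) :=
      { (inferInstance : Group (T ⧸ Subgroup.center T)) with
        mul_comm := fun p q => by
          obtain ⟨p, rfl⟩ := QuotientGroup.mk_surjective p
          obtain ⟨q, rfl⟩ := QuotientGroup.mk_surjective q
          rw [← QuotientGroup.mk_mul, ← QuotientGroup.mk_mul, QuotientGroup.eq]
          refine (hcen _).2 ?_
          have h := hcm (q : H)⁻¹ (T.inv_mem q.2) (p : H)⁻¹ (T.inv_mem p.2)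
          convert h using 1
          simp [commutatorElement_def, mul_assoc] }
    have hfix : ∀ v, ψ x v = v → v = 1 := fun v hv => by
      have : Fx = ⊥ := Subgroup.eq_bot_of_card_eq _ (by rw [hl, pow_zero])
      exact Subgroup.mem_bot.1 (this ▸ (hv : v ∈ Fx))
    -- the image of `E` is cyclic of order five
    set X := ψ x with hX
    haveI : Nontrivial (T ⧸ Subgroup.center T) := Finite.one_lt_card_iff_nontrivial.1 (by omega)
    obtain ⟨v₀, hv₀⟩ := exists_ne (1 : T ⧸ Subgroup.center T)
    have hEimg : E.map ψ = Subgroup.zpowers X := by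
      refine (Subgroup.eq_of_le_of_card_ge (Subgroup.zpowers_le.2 (show X ∈ E.map ψ from ⟨x, hxE, rfl⟩)) ?_).symm
      have hEp : IsPGroup 5 (E.map ψ) := by
        rintro ⟨_, y, hy, rfl⟩
        exact ⟨1, Subtype.ext (by simpa using hy.2)⟩
      obtain ⟨k, hk⟩ := IsPGroup.iff_card.1 hEp
      have hfree : ∀ y ∈ E, ψ y v₀ = v₀ → ψ y = 1 := by
        intro y hy hyv
        by_contra hne
        have hyo : orderOf (ψ y) = 5 := orderOf_eq_prime hy.2 hne
        let Fy : Subgroup (T ⧸ Subgroup.center T) := (ψ y).toMonoidHom.eqLocus (MonoidHom.id _)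
        letI : MulAction (Subgroup.zpowers (ψ y)) (T ⧸ Subgroup.center T) :=
          { smul := fun a v => (a : MulAut (T ⧸ Subgroup.center T)) v
            one_smul := fun v => rfl
            mul_smul := fun a a' v => rfl }
        have hp5 : IsPGroup 5 (Subgroup.zpowers (ψ y)) :=
          IsPGroup.of_card (n := 1) (by rw [Nat.card_zpowers, hyo, pow_one])
        have hmod' := hp5.card_modEq_card_fixedPoints (T ⧸ Subgroup.center T)
        rw [show MulAction.fixedPoints (Subgroup.zpowers (ψ y)) (T ⧸ Subgroup.center T) = (Fy : Set _) from by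
          ext v
          refine ⟨fun hv => hv ⟨ψ y, Subgroup.mem_zpowers _⟩, fun hv a => ?_⟩
          obtain ⟨j', hj'⟩ := mem_powers_iff_mem_zpowers.2 a.2
          simp only at hj'
          change (a : MulAut (T ⧸ Subgroup.center T)) v = v
          rw [← hj']
          clear hj'
          induction j' with
          | zero => rfl
          | succ j' ih => rw [pow_succ, MulAut.mul_apply, show ψ y v = v from hv, ih]] at hmod'
        obtain ⟨l, hl'⟩ := IsPGroup.iff_card.1 (hVp.to_subgroup Fy)
        change (Nat.card (T ⧸ Subgroup.center T)) ≡ Nat.card Fy [MOD 5] at hmod'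
        rw [hVcard, hl'] at hmod'
        have hl4 : l ≤ 4 := by
          have := Subgroup.card_le_card_group Fy
          rw [hl', hVcard] at this
          exact (Nat.pow_le_pow_iff_right (le_refl 2)).1 (this.trans (by norm_num))
        interval_cases l
        · have : Fy = ⊥ := Subgroup.eq_bot_of_card_eq _ (by rw [hl', pow_zero])
          exact hv₀ (Subgroup.mem_bot.1 (this ▸ (hyv : v₀ ∈ Fy)))
        all_goals first
          | (exfalso; revert hmod'; decide)
          | (have : Fy = ⊤ := Subgroup.eq_top_of_card_eq _ (by rw [hl', hVcard]; norm_num)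
             exact hne (MulEquiv.ext fun v => (this ▸ Subgroup.mem_top v : v ∈ Fy)))
      rw [Nat.card_zpowers, hxo]
      have hle15 : Nat.card (E.map ψ) ≤ 15 := by
        let ev : E.map ψ → {v : T ⧸ Subgroup.center T // v ≠ 1} :=
          fun a => ⟨(a : MulAut (T ⧸ Subgroup.center T)) v₀, fun h => hv₀ ((map_eq_one_iff _ (MulEquiv.injective _)).1 h)⟩
        have hev : Function.Injective ev := by
          rintro ⟨_, y, hy, rfl⟩ ⟨_, z, hz, rfl⟩ h
          refine Subtype.ext (eq_of_inv_mul_eq_one ?_)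
          rw [← map_inv, ← map_mul]
          refine hfree _ (E.mul_mem (E.inv_mem hy) hz) ?_
          rw [map_mul, map_inv, MulAut.mul_apply]
          have h' : ψ y v₀ = ψ z v₀ := congrArg Subtype.val h
          rw [← h', MulAut.inv_apply_self]
        refine (Nat.card_le_card_of_injective ev hev).trans ?_
        haveI := Fintype.ofFinite (T ⧸ Subgroup.center T)
        rw [Nat.card_eq_fintype_card, Fintype.card_subtype_compl, Fintype.card_subtype_eq,
          ← Nat.card_eq_fintype_card, hVcard]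
      rw [hk] at hle15 ⊢
      have : k ≤ 1 := by
        by_contra h
        push Not at h
        have := Nat.pow_le_pow_right (show 5 > 0 by norm_num) h
        omega
      interval_cases k <;> norm_num
    haveI := hEn
    have hnorm : ∀ h : H, ∃ k : ℤ, ψ h * X * (ψ h)⁻¹ = X ^ k := fun h => by
      have hm' : ψ h * X * (ψ h)⁻¹ ∈ E.map ψ :=
        ⟨h * x * h⁻¹, hEn.conj_mem x hxE h, by rw [map_mul, map_mul, map_inv]⟩
      rw [hEimg] at hm'
      obtain ⟨k, hk⟩ := Subgroup.mem_zpowers_iff.1 hm'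
      exact ⟨k, hk.symm⟩
    have hbX : Commute (ψ b) X := by
      obtain ⟨k, hk⟩ := hnorm b
      have h3' : ∀ n : ℕ, ψ b ^ n * X * (ψ b ^ n)⁻¹ = X ^ (k ^ n) := by
        intro n
        induction n with
        | zero => simp
        | succ n ih =>
          calc ψ b ^ (n + 1) * X * (ψ b ^ (n + 1))⁻¹
              = ψ b * (ψ b ^ n * X * (ψ b ^ n)⁻¹) * (ψ b)⁻¹ := by rw [pow_succ']; group
            _ = (ψ b * X * (ψ b)⁻¹) ^ (k ^ n) := by rw [ih, conj_zpow]
            _ = X ^ (k ^ (n + 1)) := by rw [hk, ← zpow_mul, pow_succ']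
      have h33 := h3' 3
      rw [← map_pow, S.cube, map_one, one_mul, inv_one, mul_one] at h33
      have hdiv : ((k : ZMod 5)) ^ 3 = 1 := by
        nth_rw 1 [← zpow_one X] at h33
        rw [zpow_eq_zpow_iff_modEq, hxo] at h33
        have := (ZMod.intCast_eq_intCast_iff _ _ 5).2 h33
        simpa using this.symm
      have hk1 : (k : ZMod 5) = 1 := zmod_five_cube hdiv
      have : X ^ k = X := by
        conv_rhs => rw [← zpow_one X]
        rw [zpow_eq_zpow_iff_modEq, hxo]
        exact (ZMod.intCast_eq_intCast_iff _ _ 5).1 (by simpa using hk1)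
      rw [this] at hk
      exact mul_inv_eq_iff_eq_mul.1 hk
    have hRX : ∀ r ∈ R, Commute (ψ r) X := by
      let C : Subgroup H := (Subgroup.centralizer ({X} : Set (MulAut (T ⧸ Subgroup.center T)))).comap ψ
      have hbC : ∀ h : H, ∀ c ∈ C, h * c * h⁻¹ ∈ C := by
        intro h c hc
        obtain ⟨k, hk⟩ := hnorm h⁻¹
        have hcX : Commute (ψ c) X := Subgroup.mem_centralizer_singleton_iff.1 hc
        refine Subgroup.mem_centralizer_singleton_iff.2 ?_
        have h1 : (ψ h)⁻¹ * X * ψ h = X ^ k := by rw [map_inv, inv_inv] at hk; exact hk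
        rw [map_mul, map_mul, map_inv]
        have h2 : X = ψ h * X ^ k * (ψ h)⁻¹ := by rw [← h1]; group
        calc ψ h * ψ c * (ψ h)⁻¹ * X = ψ h * (ψ c * ((ψ h)⁻¹ * X * ψ h)) * (ψ h)⁻¹ := by group
          _ = ψ h * (X ^ k * ψ c) * (ψ h)⁻¹ := by rw [h1, (hcX.zpow_right k).eq]
          _ = (ψ h * X ^ k * (ψ h)⁻¹) * (ψ h * ψ c * (ψ h)⁻¹) := by group
          _ = X * (ψ h * ψ c * (ψ h)⁻¹) := by rw [← h2]
      haveI : C.Normal := ⟨fun c hc h => hbC h c hc⟩
      have hbmem : Subgroup.zpowers b ≤ C :=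
        Subgroup.zpowers_le.2 (Subgroup.mem_centralizer_singleton_iff.2 hbX.eq)
      have hRC : R ≤ C := by
        rw [← S.comm]
        exact (Subgroup.commutator_mono le_rfl hbmem).trans (Subgroup.commutator_le_right _ _)
      exact fun r hr => Subgroup.mem_centralizer_singleton_iff.1 (hRC hr)
    have hRb : R ≤ ψ.ker := by
      rw [← S.comm, Subgroup.commutator_le]
      intro r hr y hy
      obtain ⟨k, rfl⟩ := Subgroup.mem_zpowers_iff.1 hy
      rw [MonoidHom.mem_ker, map_commutatorElement, commutatorElement_eq_one_iff_mul_comm, map_zpow]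
      exact ((commute_of_commute_five hVcard X hxo hfix (hRX r hr) hbX).zpow_right k).eq
    exact hcon fun r hr => hker r hr (MonoidHom.mem_ker.1 (hRb hr))
  have hTeq : T = R := le_antisymm hTR hRT
  -- the order
  obtain ⟨j, hj⟩ := IsPGroup.iff_card.1 (hTp.to_quotient (Subgroup.center T))
  have hTcard : Nat.card T = 2 ^ (j + 1) := by
    rw [← (Subgroup.center T).card_mul_index, hZcard, Subgroup.index_eq_card, hj, pow_succ']
  have hj4 : j ≤ 4 := by
    refine (Nat.pow_le_pow_iff_right (le_refl 2)).1 ?_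
    rw [← hj]; exact hV16.trans (by norm_num)
  have hQT : Q ≤ T := hTeq ▸ hQR
  have hfree : ∀ x : T, ψ b (QuotientGroup.mk x) = QuotientGroup.mk x → (x : H) ∈ Z := by
    intro x hx
    rw [hψ, QuotientGroup.eq] at hx
    have h1 := hZT _ hx
    have h2 : ((((MulAut.conjNormal b x : T))⁻¹ * x : T) : H) = (b * x * b⁻¹)⁻¹ * x := by
      simp [MulAut.conjNormal_apply]
    rw [h2] at h1
    have h3 := Z.inv_mem h1
    rw [mul_inv_rev, inv_inv] at h3
    -- so `x` commutes with `b`
    have hcomm : Commute (x : H) b := by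
      by_contra hne
      have hdc : b * ((x : H)⁻¹ * (b * x * b⁻¹)) * b⁻¹ = (x : H)⁻¹ * (b * x * b⁻¹) := by
        rw [← (hZc _ h3 b).eq, mul_inv_cancel_right]
      set d := (x : H)⁻¹ * (b * x * b⁻¹)
      have e1 : b * (x : H) * b⁻¹ = x * d := (mul_inv_cancel_left _ _).symm
      have e3 : (x : H) = x * d * d * d := by
        calc (x : H) = (b * (b * b)) * x * (b * (b * b))⁻¹ := by rw [hb3, one_mul, inv_one, mul_one]
          _ = b * (b * (b * x * b⁻¹) * b⁻¹) * b⁻¹ := by group
          _ = b * (b * (x * d) * b⁻¹) * b⁻¹ := by rw [e1]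
          _ = b * (b * x * b⁻¹ * (b * d * b⁻¹)) * b⁻¹ := by group
          _ = b * (x * d * d) * b⁻¹ := by rw [hdc, e1]
          _ = (b * x * b⁻¹) * (b * d * b⁻¹) * (b * d * b⁻¹) := by group
          _ = x * d * d * d := by rw [hdc, e1]
      rw [mul_assoc, mul_assoc, hZ2 d h3, mul_one, left_eq_mul] at e3
      rw [e3, mul_one, mul_inv_eq_iff_eq_mul] at e1
      exact hne e1.symm
    -- products over the orbit of `b`
    let V := T ⧸ Subgroup.center T
    letI : CommGroup V :=
      { (inferInstance : Group (T ⧸ Subgroup.center T)) with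
        mul_comm := fun p q => by
          obtain ⟨p, rfl⟩ := QuotientGroup.mk_surjective p
          obtain ⟨q, rfl⟩ := QuotientGroup.mk_surjective q
          rw [← QuotientGroup.mk_mul, ← QuotientGroup.mk_mul, QuotientGroup.eq]
          refine (hcen _).2 ?_
          have h := hcm (q : H)⁻¹ (T.inv_mem q.2) (p : H)⁻¹ (T.inv_mem p.2)
          convert h using 1
          simp [commutatorElement_def, mul_assoc] }
    let q : T →* V := QuotientGroup.mk' _
    let θ : T →* V :=
      { toFun := fun y => q y * (ψ b (q y) * ψ b (ψ b (q y)))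
        map_one' := by simp
        map_mul' := fun y z => by
          simp only [map_mul]
          exact (mul_mul_mul_comm _ _ _ _).symm.trans (by rw [mul_mul_mul_comm (ψ b (q y))]) |>.symm }
    have hψ3 : ∀ v, ψ b (ψ b (ψ b v)) = v := fun v => by
      rw [← MulAut.mul_apply, ← MulAut.mul_apply, ← map_mul, ← map_mul, mul_assoc, hb3, map_one]; rfl
    have hθ : ∀ y : T, θ y = 1 := by
      intro y
      have hle : R ≤ θ.ker.map T.subtype := by
        rw [← S.comm, Subgroup.commutator_le]
        intro r hr z hz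
        obtain ⟨k, hk⟩ := mem_powers_iff_mem_zpowers.2 hz
        simp only at hk
        subst hk
        have hrT : r ∈ T := hRT hr
        let r' : T := ⟨r, hrT⟩
        let c' : T := MulAut.conjNormal (b ^ k) r'
        refine ⟨r' * c'⁻¹, ?_, ?_⟩
        · rw [SetLike.mem_coe, MonoidHom.mem_ker, map_mul, map_inv, mul_inv_eq_one]
          have hinvk : ∀ (i : ℕ) (y : T), θ (MulAut.conjNormal (b ^ i) y) = θ y := by
            intro i
            induction i with
            | zero => intro y; simp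
            | succ i ih =>
              intro y
              rw [pow_succ, map_mul, MulAut.mul_apply, ih]
              change q _ * (ψ b (q _) * ψ b (ψ b (q _))) = q y * (ψ b (q y) * ψ b (ψ b (q y)))
              rw [show q (MulAut.conjNormal b y) = ψ b (q y) from (hψ b y).symm, hψ3]
              rw [mul_comm (q y), mul_assoc]
          exact (hinvk k r').symm
        · simp only [c', r', Subgroup.coe_subtype, Subgroup.coe_mul, Subgroup.coe_inv, MulAut.conjNormal_apply,
            commutatorElement_def]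
          group
      obtain ⟨y', hy', he⟩ := hle (hTR y.2)
      exact (Subtype.ext he : y' = y) ▸ hy'
    have hqx : ψ b (q x) = q x := by
      change ψ b (QuotientGroup.mk x) = QuotientGroup.mk x
      rw [hψ]
      refine congrArg _ (Subtype.ext ?_)
      rw [MulAut.conjNormal_apply, ← hcomm.eq, mul_inv_cancel_right]
    have h4 := hθ x
    change q x * (ψ b (q x) * ψ b (ψ b (q x))) = 1 at h4
    rw [hqx, hqx] at h4
    change (QuotientGroup.mk x : V) * (QuotientGroup.mk x * QuotientGroup.mk x) = 1 at h4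
    have h5 : (QuotientGroup.mk x : V) * QuotientGroup.mk x = 1 := by
      rw [← QuotientGroup.mk_mul, QuotientGroup.eq_one_iff, hcen]
      exact hsq x x.2
    rw [h5, mul_one, QuotientGroup.eq_one_iff] at h4
    exact hZT x h4
  have hmod3 : 2 ^ j ≡ 1 [MOD 3] := by
    haveI : Fact (Nat.Prime 3) := ⟨Nat.prime_three⟩
    letI : MulAction (Subgroup.zpowers (ψ b)) (T ⧸ Subgroup.center T) :=
      { smul := fun a v => (a : MulAut (T ⧸ Subgroup.center T)) v
        one_smul := fun v => rfl
        mul_smul := fun a a' v => rfl }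
    obtain ⟨i, -, hi⟩ := (Nat.dvd_prime_pow Nat.prime_three).1
      (show orderOf (ψ b) ∣ 3 ^ 1 by rw [pow_one]; exact orderOf_dvd_of_pow_eq_one (by rw [← map_pow, S.cube, map_one]))
    have hp : IsPGroup 3 (Subgroup.zpowers (ψ b)) := IsPGroup.of_card (n := i) (by rw [Nat.card_zpowers, hi])
    have hmod := hp.card_modEq_card_fixedPoints (T ⧸ Subgroup.center T)
    have h1 : Nat.card (MulAction.fixedPoints (Subgroup.zpowers (ψ b)) (T ⧸ Subgroup.center T)) = 1 := by
      rw [Nat.card_eq_one_iff_unique]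
      refine ⟨⟨fun p q => Subtype.ext ?_⟩,
        ⟨⟨1, fun a => map_one (a : MulAut (T ⧸ Subgroup.center T))⟩⟩⟩
      have key : ∀ v ∈ MulAction.fixedPoints (Subgroup.zpowers (ψ b)) (T ⧸ Subgroup.center T), v = 1 := by
        intro v hv
        obtain ⟨x, rfl⟩ := QuotientGroup.mk_surjective v
        exact (QuotientGroup.eq_one_iff x).2 ((hcen x).2 (hfree x (hv ⟨ψ b, Subgroup.mem_zpowers _⟩)))
      rw [key p p.2, key q q.2]
    rwa [h1, hj] at hmod
  have hZne : Subgroup.center T ≠ ⊤ := fun h => by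
    have h1 : (⟨u, hTeq ▸ S.memR⟩ : T) ∈ Subgroup.center T := h ▸ Subgroup.mem_top _
    rcases hZT _ h1 with h2 | h2
    · exact S.ne_one h2
    · have h3 : Commute u b := by rw [show u = m from h2]; exact hmc b
      have h4 : b * u * b⁻¹ = u := by rw [← h3.eq, mul_inv_cancel_right]
      have h5 := S.uv
      rw [h4, h4, S.invol] at h5
      exact S.ne_one h5.symm
  have hj' : j = 4 := by
    have hQle : Nat.card Q * 2 ≤ Nat.card T := by
      let f : Q × Subgroup.center T → T := fun a => ⟨a.1, hQT a.1.2⟩ * (a.2 : T)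
      have hf : Function.Injective f := by
        rintro ⟨a, z⟩ ⟨a', z'⟩ h
        have h1 : (a : H) * ((z : T) : H) = (a' : H) * ((z' : T) : H) := congrArg Subtype.val h
        have h2 : (a' : H)⁻¹ * a ∈ Z := by
          have : (a' : H)⁻¹ * a = ((z' : T) : H) * ((z : T) : H)⁻¹ := by
            rw [eq_mul_inv_iff_mul_eq, mul_assoc, h1, inv_mul_cancel_left]
          rw [this]
          exact Z.mul_mem (hZT _ z'.2) (Z.inv_mem (hZT _ z.2))
        have h3 : (a' : H)⁻¹ * a = 1 := hQb _ (Q.mul_mem (Q.inv_mem a'.2) a.2) (hZc _ h2 b)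
        rw [inv_mul_eq_one] at h3
        rw [← h3, mul_right_inj] at h1
        exact Prod.ext (Subtype.ext h3.symm) (Subtype.ext (Subtype.ext h1))
      have := Nat.card_le_card_of_injective f hf
      rwa [Nat.card_prod, hZcard] at this
    rw [hQ4, hTcard] at hQle
    have hge : 2 ≤ j := by
      by_contra h
      push Not at h
      interval_cases j <;> simp at hQle
    have hne2 : j ≠ 2 := by
      intro h2
      -- then `T` would be abelian
      refine hZne (eq_top_iff.2 fun y _ => ?_)
      have hcard : Nat.card T = 8 := by rw [hTcard, h2]; norm_num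
      let f : Q × Subgroup.center T → T := fun a => ⟨a.1, hQT a.1.2⟩ * (a.2 : T)
      have hf : Function.Bijective f := by
        refine Function.Injective.bijective_of_nat_card_le ?_ (by rw [Nat.card_prod, hQ4, hZcard, hcard])
        rintro ⟨a, z⟩ ⟨a', z'⟩ h
        have h1 : (a : H) * ((z : T) : H) = (a' : H) * ((z' : T) : H) := congrArg Subtype.val h
        have h2 : (a' : H)⁻¹ * a ∈ Z := by
          have : (a' : H)⁻¹ * a = ((z' : T) : H) * ((z : T) : H)⁻¹ := by
            rw [eq_mul_inv_iff_mul_eq, mul_assoc, h1, inv_mul_cancel_left]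
          rw [this]
          exact Z.mul_mem (hZT _ z'.2) (Z.inv_mem (hZT _ z.2))
        have h3 : (a' : H)⁻¹ * a = 1 := hQb _ (Q.mul_mem (Q.inv_mem a'.2) a.2) (hZc _ h2 b)
        rw [inv_mul_eq_one] at h3
        rw [← h3, mul_right_inj] at h1
        exact Prod.ext (Subtype.ext h3.symm) (Subtype.ext (Subtype.ext h1))
      refine Subgroup.mem_center_iff.2 fun w => Subtype.ext ?_
      obtain ⟨⟨a, z⟩, rfl⟩ := hf.2 y
      obtain ⟨⟨a', z'⟩, rfl⟩ := hf.2 w
      change ((a' : H) * ((z' : T) : H)) * ((a : H) * ((z : T) : H)) =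
        ((a : H) * ((z : T) : H)) * ((a' : H) * ((z' : T) : H))
      have haa : Commute (a' : H) (a : H) := by
        have h1 := hQ2 _ (Q.mul_mem a'.2 a.2)
        calc (a' : H) * a = ((a' : H) * a)⁻¹ := (inv_eq_of_mul_eq_one_right h1).symm
          _ = a * a' := by rw [mul_inv_rev, inv_eq_of_mul_eq_one_right (hQ2 _ a.2),
              inv_eq_of_mul_eq_one_right (hQ2 _ a'.2)]
      exact ((haa.mul_right (hZc _ (hZT _ z.2) _).symm).mul_left
        (hZc _ (hZT _ z'.2) _)).eq
    interval_cases j <;> simp_all [Nat.ModEq]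
  subst hj'
  have hcard : Nat.card T = 32 := by rw [hTcard]; norm_num
  rw [← hTeq]
  refine ⟨hcard, isExtraspecial_of_squares (j := 5) hTcard (fun x => ?_) hZcard hZne, m, hmT, hm⟩
  exact (hcen _).2 (hsq x x.2)

end CfsgLib.Minimal.ThreeBlock
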